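import Cfsg.Agent.Lib.GG.SLc
import Cfsg.Agent.S2602

/-! Outer automorphisms. -/

set_option autoImplicit false

namespace H88.GG
open Module Subgroup Cfsg
open scoped MatrixGroups

universe u v

namespace OutH

variable {X : Type*} [Group X]

/-- an automorphism induces an automorphism of the central quotient -/
def qa (α : MulAut X) : MulAut (X ⧸ center X) :=
  QuotientGroup.congr (center X) (center X) α (characteristic_iff_map_eq.1 inferInstance α)

theorem qa_mk (α : MulAut X) (x : X) : qa α (x : X ⧸ center X) = (α x : X ⧸ center X) := rfl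

/-- `Aut X → Aut (X/Z(X))` -/
def qh : MulAut X →* MulAut (X ⧸ center X) where
  toFun := qa
  map_one' := by
    ext x
    obtain ⟨x, rfl⟩ := QuotientGroup.mk_surjective x
    rfl
  map_mul' a b := by
    ext x
    obtain ⟨x, rfl⟩ := QuotientGroup.mk_surjective x
    rfl

theorem qh_mk (α : MulAut X) (x : X) : qh α (x : X ⧸ center X) = (α x : X ⧸ center X) := rfl

/-- an automorphism of a perfect group that is trivial modulo the centre is trivial -/
theorem eq_of_central (hX : commutator X = ⊤) (α : MulAut X)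
    (h : ∀ x, x⁻¹ * α x ∈ center X) (x : X) : α x = x := by
  let f : X →* center X :=
    { toFun := fun x => ⟨x⁻¹ * α x, h x⟩
      map_one' := by simp
      map_mul' := fun a b => Subtype.ext (by
        have h1 := mem_center_iff.1 (h a) b⁻¹
        change (a * b)⁻¹ * α (a * b) = a⁻¹ * α a * (b⁻¹ * α b)
        rw [map_mul]
        calc (a * b)⁻¹ * (α a * α b) = b⁻¹ * (a⁻¹ * α a) * α b := by group
          _ = _ := by rw [h1]; group) }
  have h1 : commutator X ≤ f.ker := by
    rw [commutator_def, commutator_le]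
    intro a _ b _
    rw [MonoidHom.mem_ker, map_commutatorElement, commutatorElement_eq_one_iff_mul_comm]
    exact Subtype.ext (mem_center_iff.1 (f b).2 _)
  have h2 : f x = 1 := h1 (hX ▸ mem_top x)
  have h3 : x⁻¹ * α x = 1 := congrArg Subtype.val h2
  exact (inv_mul_eq_one.1 h3).symm

theorem qh_inn (hX : commutator X = ⊤) (α : MulAut X) :
    qh α ∈ Inn (X ⧸ center X) ↔ α ∈ Inn X := by
  constructor
  · rintro ⟨y, hy⟩
    obtain ⟨y, rfl⟩ := QuotientGroup.mk_surjective y
    refine ⟨y, ?_⟩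
    have key := eq_of_central hX ((MulAut.conj y)⁻¹ * α) (fun x => by
      rw [← QuotientGroup.eq]
      have h1 : (MulAut.conj (y : X ⧸ center X)) (x : X ⧸ center X) = (α x : X ⧸ center X) := by
        rw [hy]; rfl
      change (x : X ⧸ center X) = ((y⁻¹ * α x * y : X) : X ⧸ center X)
      rw [QuotientGroup.mk_mul, QuotientGroup.mk_mul, ← h1, MulAut.conj_apply, QuotientGroup.mk_inv]
      group)
    ext x
    have h2 : y⁻¹ * α x * y = x := key x
    rw [MulAut.conj_apply]
    conv_lhs => rw [← h2]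
    group
  · rintro ⟨y, rfl⟩
    refine ⟨(y : X ⧸ center X), ?_⟩
    ext x
    obtain ⟨x, rfl⟩ := QuotientGroup.mk_surjective x
    rfl

end OutH

variable {G : Type*} [Group G] [Finite G] {F : Type*} [Field F] [Fintype F]

/-- Conjugation gives `G →* MulAut S →* MulAut PSL(2, F) →* Out`.  In the kernel: `s⁻¹ g` acts trivially on `S/Z(S)`, so
`x ↦ ⁅x, s⁻¹ g⁆` is a homomorphism from the perfect group `S` to `Z(S)`. -/
theorem out_hom (S : Subgroup G) [S.Normal] (h4 : 4 ≤ Fintype.card F) (e : S ≃* SL(2, F)) :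
    ∃ ψ : G →* Out PSL(2, F), ψ.ker = S ⊔ centralizer (S : Set G) := by
  let c : G →* MulAut SL(2, F) := (MulAut.congr e).toMonoidHom.comp MulAut.conjNormal
  have hc : ∀ g x, c g x = e (MulAut.conjNormal g (e.symm x)) := fun g x => rfl
  refine ⟨(QuotientGroup.mk' (Inn PSL(2, F))).comp (OutH.qh.comp c), ?_⟩
  ext g
  rw [MonoidHom.mem_ker, MonoidHom.comp_apply, QuotientGroup.mk'_apply, QuotientGroup.eq_one_iff]
  refine (OutH.qh_inn (sl_perfect' h4) (c g)).trans ?_
  constructor
  · rintro ⟨y, hy⟩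
    have hz : ((e.symm y : S) : G)⁻¹ * g ∈ centralizer (S : Set G) := by
      rw [mem_centralizer_iff]
      intro s hs
      have h1 : y * e ⟨s, hs⟩ * y⁻¹ = e (MulAut.conjNormal g ⟨s, hs⟩) := by
        have := congrArg (fun a : MulAut SL(2, F) => a (e ⟨s, hs⟩)) hy
        simpa only [hc, MulAut.conj_apply, MulEquiv.symm_apply_apply] using this
      have h2 : e.symm y * ⟨s, hs⟩ * (e.symm y)⁻¹ = MulAut.conjNormal g ⟨s, hs⟩ := by
        apply e.injective
        rw [← h1, map_mul, map_mul, map_inv, MulEquiv.apply_symm_apply]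
      have h3 : ((e.symm y : S) : G) * s * ((e.symm y : S) : G)⁻¹ = g * s * g⁻¹ :=
        congrArg Subtype.val h2
      calc s * (((e.symm y : S) : G)⁻¹ * g)
          = ((e.symm y : S) : G)⁻¹ * (((e.symm y : S) : G) * s * ((e.symm y : S) : G)⁻¹) * g := by
            group
        _ = _ := by rw [h3]; group
    have : g = (e.symm y : S) * (((e.symm y : S) : G)⁻¹ * g) := by group
    rw [this]
    exact mul_mem (mem_sup_left (e.symm y).2) (mem_sup_right hz)
  · intro hg
    have hle : S ⊔ centralizer (S : Set G) ≤ (Inn SL(2, F)).comap c := by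
      refine sup_le (fun s hs => ⟨e ⟨s, hs⟩, ?_⟩) (fun z hz => ⟨1, ?_⟩)
      · ext1 x
        obtain ⟨x, rfl⟩ := e.surjective x
        rw [hc, MulEquiv.symm_apply_apply, MulAut.conj_apply, ← map_inv, ← map_mul, ← map_mul]
        rfl
      · ext1 x
        obtain ⟨x, rfl⟩ := e.surjective x
        rw [hc, MulEquiv.symm_apply_apply, map_one, MulAut.one_apply]
        congr 1
        refine Subtype.ext ?_
        change (x : G) = z * x * z⁻¹
        rw [← mem_centralizer_iff.1 hz x x.2, mul_inv_cancel_right]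
    exact hle hg

/-- `D = ker (φ ∘ ψ)`, `φ` from S2602. -/
theorem out2 (S : Subgroup G) [S.Normal] {r f : ℕ} [Fact r.Prime] (hF : Fintype.card F = r ^ f)
    (h4 : 4 ≤ Fintype.card F) (e : S ≃* SL(2, F)) :
    ∃ D : Subgroup G, D.Normal ∧ S ⊔ centralizer (S : Set G) ≤ D ∧
      (S ⊔ centralizer (S : Set G)).relIndex D ∣ Nat.gcd 2 (r ^ f - 1) ∧ D.index ∣ f ∧
        ∃ g, D ⊔ zpowers g = ⊤ := by
  have hf : 1 ≤ f := by
    rcases f with _ | f
    · rw [hF] at h4; simp at h4
    · omega
  obtain ⟨ψ, hψ⟩ := out_hom S h4 e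
  obtain ⟨φ, -, -, hk⟩ := Cfsg.Agent.S2602.result hf hF (hF ▸ h4)
  have : NeZero f := ⟨by omega⟩
  refine ⟨(φ.comp ψ).ker, inferInstance, ?_, ?_, ?_, ?_⟩
  · rw [← hψ]
    intro g hg
    rw [MonoidHom.mem_ker] at hg ⊢
    rw [MonoidHom.comp_apply, hg, map_one]
  · rw [← hψ, ← hk, relIndex_ker]
    refine card_dvd_of_le ?_
    rintro _ ⟨g, hg, rfl⟩
    exact hg
  · rw [index_ker]
    have := (φ.comp ψ).range.card_subgroup_dvd_card
    rwa [Nat.card_congr Multiplicative.toAdd, Nat.card_zmod] at this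
  · obtain ⟨⟨_, g, rfl⟩, hg⟩ := IsCyclic.exists_generator (α := (φ.comp ψ).range)
    refine ⟨g, top_le_iff.1 fun x _ => ?_⟩
    obtain ⟨k, hk⟩ := hg ⟨_, x, rfl⟩
    have h1 : (φ.comp ψ) g ^ k = (φ.comp ψ) x := congrArg Subtype.val hk
    have : x = x * (g ^ k)⁻¹ * g ^ k := by group
    rw [this]
    refine mul_mem (mem_sup_left ?_) (mem_sup_right ⟨k, rfl⟩)
    rw [MonoidHom.mem_ker, map_mul, map_inv, map_zpow, h1, mul_inv_cancel]

theorem out_prime (S : Subgroup G) [S.Normal] (hF : (Fintype.card F).Prime)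
    (h4 : 4 ≤ Fintype.card F) (e : S ≃* SL(2, F)) : (S ⊔ centralizer (S : Set G)).index ∣ 2 := by
  have : Fact (Fintype.card F).Prime := ⟨hF⟩
  obtain ⟨D, -, -, h1, h2, -⟩ := out2 S (r := Fintype.card F) (f := 1) (pow_one _).symm h4 e
  rw [Nat.dvd_one, index_eq_one] at h2
  rw [h2, relIndex_top_right] at h1
  exact h1.trans (Nat.gcd_dvd_left _ _)

omit [Finite G] in
theorem inf_cent (S : Subgroup G) :
    S ⊓ centralizer (S : Set G) = (center S).map S.subtype := by
  ext x
  constructor
  · rintro ⟨h1, h2⟩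
    exact ⟨⟨x, h1⟩, mem_center_iff.2 fun s => Subtype.ext (mem_centralizer_iff.1 h2 s s.2), rfl⟩
  · rintro ⟨x, hx, rfl⟩
    exact ⟨x.2, mem_centralizer_iff.2 fun s hs => congrArg Subtype.val (mem_center_iff.1 hx ⟨s, hs⟩)⟩

/-- `|S C| |Z(S)| = |S| |C|`. -/
theorem card_sup_cent (S : Subgroup G) [S.Normal] :
    Nat.card ↥(S ⊔ centralizer (S : Set G)) * Nat.card (center S) =
      Nat.card S * Nat.card (centralizer (S : Set G)) := by
  have h1 : Nat.card (center S) = Nat.card ↥(S ⊓ centralizer (S : Set G)) := by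
    rw [inf_cent, card_map_of_injective S.subtype_injective]
  have h2 := (S.subgroupOf (S ⊔ centralizer (S : Set G))).card_mul_index
  have h3 := (S.subgroupOf (centralizer (S : Set G))).card_mul_index
  rw [Nat.card_congr (subgroupOfEquivOfLe le_sup_left).toEquiv] at h2
  have h4 : Nat.card (S.subgroupOf (centralizer (S : Set G))) =
      Nat.card ↥(S ⊓ centralizer (S : Set G)) := by
    rw [← inf_subgroupOf_right, Nat.card_congr (subgroupOfEquivOfLe inf_le_right).toEquiv]
  have h5 : (S.subgroupOf (S ⊔ centralizer (S : Set G))).index =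
      (S.subgroupOf (centralizer (S : Set G))).index := relIndex_sup_left _ _
  rw [h1, ← h2, ← h3, h4, h5]
  ring

end H88.GG
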