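import Cfsg.Agent.Lib.GG.Spread2
import Cfsg.Agent.Lib.GG.Out
import Cfsg.Agent.Lib.Core.PCore

/-! The defining characteristic. -/

set_option autoImplicit false

namespace H88.GG
open Module Subgroup Cfsg
open scoped MatrixGroups

universe u v

namespace DefC

/-- A normal subgroup of `p`-power index contains its centraliser when `O_p = 1`. -/
theorem cent_le {p : ℕ} [Fact p.Prime] {G : Type*} [Group G] [Finite G] (hO : pCore p G = ⊥)
    (S : Subgroup G) [S.Normal] {j : ℕ} (hj : S.index = p ^ j) :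
    centralizer (S : Set G) ≤ S := by
  classical
  set C : Subgroup G := centralizer (S : Set G) with hC
  haveI hCn : C.Normal := by rw [hC]; infer_instance
  obtain ⟨P⟩ : Nonempty (Sylow p C) := inferInstance
  have hZ : (S.subgroupOf C).index ∣ p ^ j := by
    rw [← hj]; exact relIndex_dvd_index_of_normal S C
  have hsup : S.subgroupOf C ⊔ (P : Subgroup C) = ⊤ := by
    rw [← index_eq_one]
    have h1 : (S.subgroupOf C ⊔ (P : Subgroup C)).index ∣ p ^ j :=
      (index_dvd_of_le le_sup_left).trans hZ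
    have h2 : (S.subgroupOf C ⊔ (P : Subgroup C)).index ∣ (P : Subgroup C).index :=
      index_dvd_of_le le_sup_right
    obtain ⟨k, -, hk⟩ := (Nat.dvd_prime_pow (Fact.out : p.Prime)).1 h1
    rcases k with _ | k
    · simpa using hk
    · exfalso
      apply P.not_dvd_index
      refine Dvd.dvd.trans ?_ h2
      rw [hk]; exact dvd_pow_self p (Nat.succ_ne_zero k)
  have hPn : (P : Subgroup C).Normal := by
    rw [← normalizer_eq_top_iff, eq_top_iff, ← hsup]
    refine sup_le ?_ le_normalizer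
    intro z hz
    have hzc : ∀ x : C, z * x * z⁻¹ = x := by
      intro x
      have : (z : G) * x = x * z := x.2 _ hz
      apply Subtype.ext
      simp only [Subgroup.coe_mul, Subgroup.coe_inv]
      rw [this, mul_inv_cancel_right]
    rw [mem_normalizer_iff]
    intro x
    rw [hzc x]
  haveI : (P : Subgroup C).Characteristic := P.characteristic_of_normal hPn
  haveI hN : ((P : Subgroup C).map C.subtype).Normal := inferInstance
  have hle : (P : Subgroup C).map C.subtype ≤ pCore p G :=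
    H1.le_pCore (P.isPGroup'.map _)
  rw [hO, le_bot_iff, map_eq_bot_iff_of_injective _ C.subtype_injective] at hle
  rw [hle, sup_bot_eq, subgroupOf_eq_top] at hsup
  exact hsup

end DefC

variable {p : ℕ} [Fact p.Prime] {G : Type*} [Group G] [Finite G] {V : Type*} [AddCommGroup V]
  [Module (ZMod p) V] [Finite V] {ρ : G →* End (ZMod p) V}
variable [Nontrivial V]

theorem def_arith {p a i n : ℕ} (hp : p.Prime) (ha : 1 ≤ a) (hi : 1 ≤ i)
    (h : (p ^ a + 1) * (p ^ i - 1) = p ^ n - 1) : n = 2 * a := by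
  have p1 : 1 < p := hp.one_lt
  have hi1 : 2 ≤ p ^ i := Nat.one_lt_pow (by omega) p1
  have hn1 : 1 ≤ p ^ n := Nat.one_le_pow _ _ hp.pos
  have key : p ^ i * (p ^ a + 1) = p ^ n + p ^ a := by
    obtain ⟨x, hx⟩ : ∃ x, p ^ i = x + 1 := ⟨p ^ i - 1, by omega⟩
    obtain ⟨y, hy⟩ : ∃ y, p ^ n = y + 1 := ⟨p ^ n - 1, by omega⟩
    rw [hx, hy] at h
    rw [hx, hy]
    simp only [Nat.add_sub_cancel] at h
    nlinarith
  have han : a < n := by
    have : p ^ a < p ^ n := by nlinarith
    exact (Nat.pow_lt_pow_iff_right p1).1 this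
  obtain ⟨m, rfl⟩ : ∃ m, n = a + (m + 1) := ⟨n - a - 1, by omega⟩
  have key' : p ^ i * (p ^ a + 1) = p ^ a * (p ^ (m + 1) + 1) := by
    rw [key, pow_add]; ring
  have nd : ∀ k, 1 ≤ k → ¬ p ∣ p ^ k + 1 := by
    intro k hk hd
    have := (Nat.dvd_add_right (dvd_pow_self p (by omega : k ≠ 0))).1 hd
    exact hp.one_lt.ne' (Nat.dvd_one.1 this)
  rcases lt_trichotomy i a with hlt | heq | hgt
  · exfalso
    obtain ⟨c, rfl⟩ : ∃ c, a = i + (c + 1) := ⟨a - i - 1, by omega⟩
    have : p ^ (i + (c + 1)) + 1 = p ^ (c + 1) * (p ^ (m + 1) + 1) := by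
      apply Nat.eq_of_mul_eq_mul_left (pow_pos hp.pos i)
      rw [key', pow_add p i]; ring
    apply nd (i + (c + 1)) (by omega)
    rw [this]
    exact Dvd.dvd.mul_right (dvd_pow_self p (Nat.succ_ne_zero c)) _
  · subst heq
    have h1 := Nat.eq_of_mul_eq_mul_left (pow_pos hp.pos i) key'
    have h2 : p ^ i = p ^ (m + 1) := by omega
    have := Nat.pow_right_injective p1 h2
    omega
  · exfalso
    obtain ⟨c, rfl⟩ : ∃ c, i = a + (c + 1) := ⟨i - a - 1, by omega⟩
    have : p ^ (c + 1) * (p ^ a + 1) = p ^ (m + 1) + 1 := by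
      apply Nat.eq_of_mul_eq_mul_left (pow_pos hp.pos a)
      rw [← key', pow_add p a]; ring
    apply nd (m + 1) (by omega)
    rw [← this]
    exact Dvd.dvd.mul_right (dvd_pow_self p (Nat.succ_ne_zero c)) _

/-- `spread` for `S` (`St.normal`, `St.equiv`, `card_sylow_def`) gives `|V| = q²`; `index_eq`: `|G| = (q² - 1) p^k`, so
`S.index` is a power of `p`.  `C = C(S)`: `C/Z(S)` embeds in `G/S`, so `C = Z(S) P` for `P` Sylow in `C`, `P` is normal in
`C`, so in `G`, `P = 1`, `C ≤ S`.  `out2`: `S.relIndex D` divides `gcd 2 (q - 1)` and a power of `p`, so `D = S`. -/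
theorem def_case (h : St ρ) (ht : Tr ρ) (S : Subgroup G) [S.Normal] {F : Type} [Field F] [Fintype F]
    (h4 : 4 ≤ Fintype.card F) (hp : p ∣ Fintype.card F) (e : S ≃* SL(2, F)) : Fin6 p G := by
  classical
  have pp : p.Prime := Fact.out
  obtain ⟨a, ha1, hq⟩ : ∃ a : ℕ, 1 ≤ a ∧ Fintype.card F = p ^ a := by
    obtain ⟨r, hr⟩ := CharP.exists F
    obtain ⟨f, hrp, hf⟩ := FiniteField.card F r
    rw [hf] at hp
    have : p = r := (Nat.prime_dvd_prime_iff_eq pp hrp).1 (pp.dvd_of_dvd_pow hp)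
    subst this
    exact ⟨f, f.pos, hf⟩
  -- the order of `V`
  have hS : St ((ρ.comp S.subtype).comp e.symm.toMonoidHom) := (h.normal S).equiv e.symm
  obtain ⟨P0⟩ : Nonempty (Sylow p SL(2, F)) := inferInstance
  have hsp := hS.spread P0
  rw [card_sylow_def hp, hq] at hsp
  obtain ⟨i, hi⟩ := card_pow (fix ((ρ.comp S.subtype).comp e.symm.toMonoidHom) P0)
  obtain ⟨n, hn⟩ := card_pow (⊤ : Submodule (ZMod p) V)
  have hn' : Nat.card V = p ^ n := by
    rw [← hn]; exact (Nat.card_congr Submodule.topEquiv.toEquiv).symm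
  have hi1 : 1 ≤ i := by
    rcases Nat.eq_zero_or_pos i with h0 | h0
    · exfalso
      rw [h0, pow_zero] at hi
      apply hS.fix_ne_bot P0
      haveI := (Nat.card_eq_one_iff_unique.1 hi).1
      exact Submodule.eq_bot_of_subsingleton
    · exact h0
  rw [hi, hn'] at hsp
  have hn2 := def_arith pp ha1 hi1 hsp
  -- the index of `S`
  obtain ⟨P⟩ : Nonempty (Sylow p G) := inferInstance
  have hidx := h.index_eq ht P
  obtain ⟨k, hk⟩ := IsPGroup.iff_card.1 P.isPGroup'
  have c1 := (P : Subgroup G).card_mul_index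
  have c2 := S.card_mul_index
  have c3 : Nat.card S = p ^ a * (p ^ n - 1) := by
    rw [Nat.card_congr e.toEquiv, card_sl, hq, hn2, ← pow_mul, mul_comm a 2]
  have hpos : 0 < p ^ n - 1 := by
    have : 1 < p ^ n := Nat.one_lt_pow (by omega) pp.one_lt
    omega
  have hdiv : S.index ∣ p ^ k := by
    rw [hk, hidx, hn', ← c2, c3] at c1
    refine ⟨p ^ a, ?_⟩
    apply Nat.eq_of_mul_eq_mul_right hpos
    rw [c1]; ring
  obtain ⟨j, -, hj⟩ := (Nat.dvd_prime_pow pp).1 hdiv
  have hC := DefC.cent_le h.pCore_eq_bot S hj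
  obtain ⟨D, hDn, hD1, hD2, -, g, hg⟩ := out2 S hq h4 e
  rw [sup_eq_left.2 hC] at hD1 hD2
  have hD : D = S := by
    refine le_antisymm ?_ hD1
    rw [← relIndex_eq_one]
    have d1 : S.relIndex D ∣ p ^ j := hj ▸ relIndex_dvd_index_of_normal S D
    have d2 : S.relIndex D ∣ p ^ a - 1 := hD2.trans (Nat.gcd_dvd_right _ _)
    obtain ⟨l, -, hl⟩ := (Nat.dvd_prime_pow pp).1 d1
    rcases l with _ | l
    · simpa using hl
    · exfalso
      have d3 : p ∣ p ^ a - 1 := by
        refine Dvd.dvd.trans ?_ d2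
        rw [hl]; exact dvd_pow_self p (Nat.succ_ne_zero l)
      have d4 : p ∣ p ^ a := dvd_pow_self p (by omega)
      have h1 : 1 ≤ p ^ a := Nat.one_le_pow _ _ pp.pos
      have := (Nat.dvd_sub_iff_right h1 d4).1 d3
      exact pp.one_lt.ne' (Nat.dvd_one.1 this)
  refine Or.inl ⟨F, inferInstance, inferInstance, ⟨a, hq⟩, by omega, S, inferInstance, ⟨e⟩, ⟨j, hj⟩,
    ⟨g, hD ▸ hg⟩, ?_⟩
  rw [← inf_cent S, inf_eq_right.2 hC]

end H88.GG
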