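import Mathlib
import Cfsg.Agent.Base

/-! Linear groups whose vector stabilisers are Sylow subgroups: definitions. -/

set_option autoImplicit false

namespace H88.GG
open Module Subgroup Cfsg
open scoped MatrixGroups

universe u v

section
variable {p : ℕ} {G : Type*} [Group G] {V : Type*} [AddCommGroup V] [Module (ZMod p) V]

/-- faithful, and the non-identity `p'`-elements fix no non-zero vector -/
structure FP (ρ : G →* End (ZMod p) V) : Prop where
  inj : Function.Injective ρ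
  fpf : ∀ g : G, g ≠ 1 → (orderOf g).Coprime p → ∀ v : V, ρ g v = v → v = 0

/-- the stabiliser of a vector -/
def stab (ρ : G →* End (ZMod p) V) (v : V) : Subgroup G where
  carrier := {g | ρ g v = v}
  one_mem' := by simp
  mul_mem' := fun {a b} ha hb => by
    simp only [Set.mem_ofPred_eq] at *
    rw [map_mul, End.mul_apply, hb, ha]
  inv_mem' := fun {a} ha => by
    simp only [Set.mem_ofPred_eq] at *
    conv_lhs => rw [← ha]
    rw [← End.mul_apply, ← map_mul, inv_mul_cancel, map_one, End.one_apply]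

theorem mem_stab {ρ : G →* End (ZMod p) V} {v : V} {g : G} : g ∈ stab ρ v ↔ ρ g v = v := Iff.rfl

/-- the vectors fixed by a subgroup -/
def fix (ρ : G →* End (ZMod p) V) (X : Subgroup G) : Submodule (ZMod p) V where
  carrier := {v | ∀ g ∈ X, ρ g v = v}
  zero_mem' := by simp
  add_mem' := fun ha hb g hg => by rw [map_add, ha g hg, hb g hg]
  smul_mem' := fun c _ ha g hg => by rw [map_smul, ha g hg]

theorem mem_fix {ρ : G →* End (ZMod p) V} {X : Subgroup G} {v : V} :
    v ∈ fix ρ X ↔ ∀ g ∈ X, ρ g v = v := Iff.rfl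

/-- the vectors fixed by an element -/
def U (ρ : G →* End (ZMod p) V) (t : G) : Submodule (ZMod p) V where
  carrier := {v | ρ t v = v}
  zero_mem' := by simp
  add_mem' := fun {a b} ha hb => by
    simp only [Set.mem_ofPred_eq] at *
    rw [map_add, ha, hb]
  smul_mem' := fun c _ ha => by
    simp only [Set.mem_ofPred_eq] at *
    rw [map_smul, ha]

theorem mem_U {ρ : G →* End (ZMod p) V} {t : G} {v : V} : v ∈ U ρ t ↔ ρ t v = v := Iff.rfl

/-- the pointwise stabiliser of `U ρ t` -/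
def KK (ρ : G →* End (ZMod p) V) (t : G) : Subgroup G where
  carrier := {g | ∀ v, ρ t v = v → ρ g v = v}
  one_mem' := by simp
  mul_mem' := fun ha hb v hv => (stab ρ v).mul_mem (ha v hv) (hb v hv)
  inv_mem' := fun ha v hv => (stab ρ v).inv_mem (ha v hv)

theorem mem_KK {ρ : G →* End (ZMod p) V} {t g : G} :
    g ∈ KK ρ t ↔ ∀ v, ρ t v = v → ρ g v = v := Iff.rfl

/-- faithful, and the stabiliser of every non-zero vector is a Sylow `p`-subgroup -/
structure St (ρ : G →* End (ZMod p) V) : Prop where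
  inj : Function.Injective ρ
  syl : ∀ v : V, v ≠ 0 → ∃ P : Sylow p G, (P : Subgroup G) = stab ρ v

/-- transitive on the non-zero vectors -/
def Tr (ρ : G →* End (ZMod p) V) : Prop := ∀ v w : V, v ≠ 0 → w ≠ 0 → ∃ g, ρ g v = w

theorem FP.comp {ρ : G →* End (ZMod p) V} (h : FP ρ) {H : Type*} [Group H] (f : H →* G)
    (hf : Function.Injective f) : FP (ρ.comp f) :=
  ⟨h.inj.comp hf, fun g hg ho v hv =>
    h.fpf (f g) (fun e => hg (hf (e.trans (map_one f).symm))) (by rwa [orderOf_injective f hf]) v hv⟩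

theorem ap_mul (ρ : G →* End (ZMod p) V) (a b : G) (v : V) : ρ (a * b) v = ρ a (ρ b v) := by
  rw [map_mul, End.mul_apply]

theorem ap_inv (ρ : G →* End (ZMod p) V) (a : G) (v : V) : ρ a⁻¹ (ρ a v) = v := by
  rw [← ap_mul, inv_mul_cancel, map_one, End.one_apply]

theorem ap_inv' (ρ : G →* End (ZMod p) V) (a : G) (v : V) : ρ a (ρ a⁻¹ v) = v := by
  rw [← ap_mul, mul_inv_cancel, map_one, End.one_apply]

theorem ap_eq_zero (ρ : G →* End (ZMod p) V) (a : G) {v : V} : ρ a v = 0 ↔ v = 0 :=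
  ⟨fun h => by rw [← ap_inv ρ a v, h, map_zero], fun h => by rw [h, map_zero]⟩

end

/-- a 2-element -/
def E2 {G : Type*} [Group G] (g : G) : Prop := ∃ k : ℕ, g ^ 2 ^ k = 1

/-- an involution -/
structure Iv {G : Type*} [Group G] (t : G) : Prop where
  ne : t ≠ 1
  sq : t * t = 1

section
variable {G : Type*} [Group G] {V : Type*} [AddCommGroup V] [Module (ZMod 2) V]

/-- `FP` in characteristic two with all involutions acting freely -/
structure FF (ρ : G →* End (ZMod 2) V) : Prop extends FP ρ where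
  nt : ∃ v : V, v ≠ 0
  free : ∀ t : G, Iv t → ∀ v, ρ t v = v → ∃ w, ρ t w + w = v

/-- `KK ρ t` commutes with none of its other conjugates -/
def WC (ρ : G →* End (ZMod 2) V) (t : G) : Prop :=
  ∀ g : G, (∀ a ∈ KK ρ t, ∀ b ∈ KK ρ (g * t * g⁻¹), a * b = b * a) → g * t * g⁻¹ ∈ KK ρ t

/-- Case I: `y` of order three normalises `KK ρ t` and acts non-trivially on it -/
structure C1 (ρ : G →* End (ZMod 2) V) (y t : G) : Prop where
  iv : Iv t
  y3 : orderOf y = 3
  yt : (y * t) ^ 3 = 1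
end

/-- Case II -/
def C2 (G : Type*) [Group G] : Prop :=
  ∀ y y' : G, orderOf y = 3 → orderOf y' = 3 → E2 (y⁻¹ * y') → y = y'

/-- `G` is `SL₂(2^a)`, `a ≥ 2` -/
def IsL2 (G : Type*) [Group G] : Prop :=
  ∃ (F : Type) (_ : Field F) (_ : Fintype F) (_ : CharP F 2), 4 ≤ Fintype.card F ∧
    Nonempty (G ≃* SL(2, F))

/-- the induction hypothesis -/
def IH (n : ℕ) : Prop :=
  ∀ (L : Type u) [Group L] [Finite L] (V : Type v) [AddCommGroup V] [Module (ZMod 2) V] [Finite V]
    [Nontrivial V] (ρ : L →* End (ZMod 2) V), Nat.card L < n → IsSimpleGroup L →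
    ¬ IsMulCommutative L → 3 ∣ Nat.card L → FP ρ → IsL2 L

section
variable {F : Type*} [Field F]

/-- upper unitriangular matrix -/
def uu (t : F) : SL(2, F) := ⟨!![1, t; 0, 1], by simp [Matrix.det_fin_two]⟩

variable (F) in
/-- the standard element of order three -/
def yy : SL(2, F) := ⟨!![0, -1; 1, -1], by simp [Matrix.det_fin_two]⟩

variable (F) in
/-- the Weyl element -/
def ww : SL(2, F) := ⟨!![0, -1; 1, 0], by simp [Matrix.det_fin_two]⟩

/-- diagonal matrix -/
def hh (μ : Fˣ) : SL(2, F) := ⟨!![(μ : F), 0; 0, ((μ⁻¹ : Fˣ) : F)], by simp [Matrix.det_fin_two]⟩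

theorem uu_val (t : F) : (uu t).1 = !![1, t; 0, 1] := rfl
theorem yy_val : (yy F).1 = !![0, -1; 1, -1] := rfl
theorem ww_val : (ww F).1 = !![0, -1; 1, 0] := rfl
theorem hh_val (μ : Fˣ) : (hh μ).1 = !![(μ : F), 0; 0, ((μ⁻¹ : Fˣ) : F)] := rfl
end

/-- the conclusion of the theorem, for the linear group `H` -/
def Fin6 (p : ℕ) (H : Type*) [Group H] : Prop :=
  (∃ (F : Type) (_ : Field F) (_ : Fintype F), (∃ a : ℕ, Fintype.card F = p ^ a) ∧ 2 < Fintype.card F ∧
      ∃ S : Subgroup H, S.Normal ∧ Nonempty (S ≃* Matrix.SpecialLinearGroup (Fin 2) F) ∧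
        (∃ k : ℕ, S.index = p ^ k) ∧ (∃ h : H, S ⊔ Subgroup.zpowers h = ⊤) ∧
        Subgroup.centralizer (S : Set H) = (Subgroup.center S).map S.subtype) ∨
    (p = 3 ∧ ∃ S : Subgroup H, S.Normal ∧ S.index = 2 ∧
      Nonempty (S ≃* Matrix.SpecialLinearGroup (Fin 2) (ZMod 5)) ∧
      Subgroup.centralizer (S : Set H) = (Subgroup.center S).map S.subtype ∧
      ∀ K : Subgroup H, ¬ Subgroup.IsComplement' S K) ∨
    (p = 3 ∧ Nonempty (H ≃* Matrix.SpecialLinearGroup (Fin 2) (ZMod 13))) ∨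
    (p = 11 ∧ Nonempty (H ≃* Matrix.SpecialLinearGroup (Fin 2) (ZMod 5))) ∨
    (p = 29 ∧ Nonempty (H ≃* Matrix.SpecialLinearGroup (Fin 2) (ZMod 5) × Multiplicative (ZMod 7))) ∨
    (p = 59 ∧ Nonempty (H ≃* Matrix.SpecialLinearGroup (Fin 2) (ZMod 5) × Multiplicative (ZMod 29)))

/-- the hypotheses of Holt's theorem -/
def Holt (G : Type*) [Group G] : Prop :=
  ∃ (M : Subgroup G) (r : G), M ≠ ⊤ ∧ r ∈ M ∧ IsTwoCentralInvolution r ∧
    centralizer ({r} : Set G) ≤ M ∧
    ∀ g : G, g * r * g⁻¹ ∈ M → ∃ h ∈ M, h * r * h⁻¹ = g * r * g⁻¹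

/-- the subgroup generated by the elements of order three of `Y` -/
def O3 {G : Type*} [Group G] (Y : Subgroup G) : Subgroup G :=
  closure {x | x ∈ Y ∧ orderOf x = 3}

theorem eqns : True := by
  have := @stab.eq_1.{0, 0}
  have := @fix.eq_1.{0, 0}
  have := @U.eq_1.{0, 0}
  have := @KK.eq_1.{0, 0}
  have := @Tr.eq_1.{0, 0}
  have := @E2.eq_1.{0}
  have := @WC.eq_1.{0, 0}
  have := @C2.eq_1.{0}
  have := @IsL2.eq_1.{0}
  have := @IH.eq_1.{0, 0}
  have := @uu.eq_1.{0}
  have := @yy.eq_1.{0}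
  have := @ww.eq_1.{0}
  have := @hh.eq_1.{0}
  have := @Fin6.eq_1.{0}
  have := @Holt.eq_1.{0}
  have := @O3.eq_1.{0}
  trivial

end H88.GG
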