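import Cfsg.Agent.Lib.GG.Gen

/-! The `p'`-subgroups are Frobenius complements. -/

set_option autoImplicit false

namespace H88.GG
open Module Subgroup Cfsg
open scoped MatrixGroups

universe u v

variable {p : ℕ} [Fact p.Prime] {G : Type*} [Group G] [Finite G] {V : Type*} [AddCommGroup V]
  [Module (ZMod p) V] [Finite V] {ρ : G →* End (ZMod p) V}
variable [Nontrivial V]

namespace Odd1

omit [Finite V] in
theorem no_r {r : ℕ} (hr : r.Prime) (hrp : r ≠ p) : r • (1 : End (ZMod p) V) ≠ 0 := fun h => by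
  rw [← Nat.cast_smul_eq_nsmul (ZMod p), smul_eq_zero, ZMod.natCast_eq_zero_iff] at h
  exact h.elim (fun h => hrp ((Nat.prime_dvd_prime_iff_eq Fact.out hr).1 h).symm) one_ne_zero

omit [Nontrivial V] in
theorem sp (h : FP ρ) {r : ℕ} (hr : r.Prime) (hrp : r ≠ p) {g : G} (g1 : g ≠ 1) (hg : g ^ r = 1) :
    ∑ i ∈ Finset.range r, ρ (g ^ i) = 0 :=
  h.sum_pow g1 (((Nat.coprime_primes hr Fact.out).2 hrp).coprime_dvd_left
    (orderOf_dvd_of_pow_eq_one hg)) hg

end Odd1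

open Odd1 Finset

/-- If `a ∉ ⟨b⟩`: `0 = ∑_{i<r} ∑_{j<r} ρ ((a b^i)^j) = ∑_j ρ (a^j) ∑_i ρ ((b^j)^i) = r` (`sum_pow`), and `r` is
invertible mod `p`.  So `a ∈ ⟨b⟩`, and the two groups of order `r` are equal. -/
theorem FP.mem_zpowers (h : FP ρ) {r : ℕ} (hr : r.Prime) (hrp : r ≠ p) {a b : G}
    (ha : orderOf a = r) (hb : orderOf b = r) (hc : a * b = b * a) : b ∈ zpowers a := by
  by_contra hcon
  have hab : Commute a b := hc
  have hap : a ^ r = 1 := ha ▸ pow_orderOf_eq_one a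
  have hbp : b ^ r = 1 := hb ▸ pow_orderOf_eq_one b
  have h1 : ∑ k ∈ range r, ∑ i ∈ range r, ρ ((a ^ k * b) ^ i) = 0 :=
    sum_eq_zero fun k _ => sp h hr hrp (fun e => hcon (by
      rw [eq_inv_of_mul_eq_one_right e]; exact inv_mem (pow_mem (Subgroup.mem_zpowers a) k))) (by
      rw [(hab.pow_left k).mul_pow, hbp, pow_right_comm, hap, one_pow, one_mul])
  rw [sum_comm, sum_eq_single_of_mem 0 (mem_range.2 hr.pos) fun i hi hi0 => by
    rw [← zero_mul (ρ (b ^ i)), ← sp h hr hrp (pow_ne_one_of_lt_orderOf hi0 (ha ▸ mem_range.1 hi))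
      (by rw [pow_right_comm, hap, one_pow]), sum_mul]
    exact sum_congr rfl fun k _ => by rw [← map_mul, (hab.pow_left k).mul_pow, pow_right_comm]] at h1
  simp only [pow_zero, map_one, sum_const, card_range] at h1
  exact no_r hr hrp h1

/-- `y a y⁻¹ = a^k`; if `k ≢ 1 (r)` then `k^j ≢ 1` for `0 < j < l` and
`0 = ∑_{i<r} ∑_{j<l} ρ (a^i y^j a^(-i)) = r + ∑_{0<j<l} (∑_i ρ ((a * y^j a⁻¹ y^(-j))^i)) ρ (y^j) = r`. -/
theorem FP.comm_of_norm (h : FP ρ) {r l : ℕ} (hr : r.Prime) (hl : l.Prime) (hrp : r ≠ p)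
    (hlp : l ≠ p) {a y : G} (ha : orderOf a = r) (hy : orderOf y = l)
    (hn : y * a * y⁻¹ ∈ zpowers a) : y * a = a * y := by
  by_contra hcon
  have hap : a ^ r = 1 := ha ▸ pow_orderOf_eq_one a
  have hn' : ∀ j : ℕ, ∃ k : ℤ, a ^ k = y ^ j * a⁻¹ * (y ^ j)⁻¹ := fun j => by
    induction j with
    | zero => exact ⟨-1, by simp⟩
    | succ j ih =>
      obtain ⟨k, hk⟩ := ih
      have := zpow_mem hn k
      rwa [conj_zpow, hk, show y * (y ^ j * a⁻¹ * (y ^ j)⁻¹) * y⁻¹ =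
        y ^ (j + 1) * a⁻¹ * (y ^ (j + 1))⁻¹ by group] at this
  have h1 : ∑ i ∈ range r, ∑ j ∈ range l, ρ ((a ^ i * y * (a ^ i)⁻¹) ^ j) = 0 :=
    sum_eq_zero fun i _ => sp h hl hlp (fun e => hl.one_lt.ne' (by
      rw [← hy, orderOf_eq_one_iff]; simpa using e)) (by
      rw [conj_pow, ← hy, pow_orderOf_eq_one, mul_one, mul_inv_cancel])
  rw [sum_comm, sum_eq_single_of_mem 0 (mem_range.2 hl.pos) fun j hj j0 => by
    obtain ⟨k, hk⟩ := hn' j
    have c : Commute a (a ^ k) := (Commute.refl a).zpow_right k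
    rw [← zero_mul (ρ (y ^ j)), ← sp h hr hrp (g := a * a ^ k) (fun e => hcon ?_)
      (by rw [c.mul_pow, hap, ← zpow_natCast, zpow_comm, zpow_natCast, hap, one_zpow, one_mul]),
      sum_mul]
    · exact sum_congr rfl fun i _ => by
        rw [← map_mul, c.mul_pow, hk, conj_pow, conj_pow, inv_pow]; congr 1; group
    · obtain ⟨m, hm⟩ := exists_pow_eq_self_of_coprime (x := y) (n := j) (by
        rw [hy]; exact (Nat.coprime_of_lt_prime j0 (mem_range.1 hj) hl).symm)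
      rw [← hm]
      refine (Commute.pow_left (show y ^ j * a = a * y ^ j from ?_) m).eq
      rw [hk] at e
      calc _ = a * (y ^ j * a⁻¹ * (y ^ j)⁻¹) * (y ^ j * a) := by rw [e, one_mul]
        _ = _ := by group] at h1
  simp only [pow_zero, map_one, sum_const, card_range] at h1
  exact no_r hr hrp h1

end H88.GG
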