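import Cfsg.Agent.Lib.GG.Spread

/-! Vector stabilisers are Sylow subgroups. -/

set_option autoImplicit false

namespace H88.GG
open Module Subgroup Cfsg
open scoped MatrixGroups

universe u v

variable {p : ℕ} [Fact p.Prime] {G : Type*} [Group G] [Finite G] {V : Type*} [AddCommGroup V]
  [Module (ZMod p) V] [Finite V] {ρ : G →* End (ZMod p) V}

omit [Finite G] in
theorem card_pow (W : Submodule (ZMod p) V) : ∃ i, Nat.card W = p ^ i := by
  exact ⟨_, by rw [Module.natCard_eq_pow_finrank (K := ZMod p), Nat.card_zmod]⟩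

namespace Spread2

theorem card_ne {X : Type*} [Finite X] (a : X) : Nat.card {x // x ≠ a} = Nat.card X - 1 := by
  classical
  rw [← Nat.card_congr (Equiv.optionSubtypeNe a), Finite.card_option, Nat.add_sub_cancel]

theorem fix_le (ρ : G →* End (ZMod p) V) (P Q : Sylow p G) : Nat.card (fix ρ P) ≤ Nat.card (fix ρ Q) := by
  obtain ⟨g, rfl⟩ := MulAction.exists_smul_eq G P Q
  refine Nat.card_le_card_of_injective (fun v => ⟨ρ g v, fun x hx => ?_⟩) fun a b e => ?_
  · have h1 : g⁻¹ * x * g ∈ (P : Subgroup G) := by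
      rw [Sylow.coe_subgroup_smul, mem_pointwise_smul_iff_inv_smul_mem] at hx
      simpa using hx
    have h2 := v.2 _ h1
    rw [ap_mul, ap_mul] at h2
    rw [← ap_inv' ρ g (ρ x (ρ g v)), h2]
  · have e' : ρ g a = ρ g b := congrArg Subtype.val e
    exact Subtype.ext (by rw [← ap_inv ρ g a, e', ap_inv])

omit [Finite G] [Finite V] in
theorem eq_stab (h : St ρ) {v : V} (hv : v ≠ 0) {Q : Sylow p G} (hQ : v ∈ fix ρ Q) :
    (Q : Subgroup G) = stab ρ v := by
  obtain ⟨R, hR⟩ := h.syl v hv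
  exact (Q.is_maximal' (hR ▸ R.isPGroup') hQ).symm

end Spread2

open Spread2

/-- `v ↦ stab v` maps `V \\ {0}` to the Sylow subgroups, the fibre over `Q` is `fix Q \\ {0}`. -/
theorem St.spread (h : St ρ) (P : Sylow p G) :
    Nat.card (Sylow p G) * (Nat.card (fix ρ P) - 1) = Nat.card V - 1 := by
  classical
  choose σ hσ using h.syl
  haveI := Fintype.ofFinite (Sylow p G)
  rw [← card_ne (0 : V), ← Nat.card_congr (Equiv.sigmaFiberEquiv fun v : {v : V // v ≠ 0} => σ v.1 v.2),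
    Nat.card_sigma, Finset.sum_congr rfl (g := fun _ => Nat.card (fix ρ P) - 1), Finset.sum_const,
    Finset.card_univ, smul_eq_mul, Nat.card_eq_fintype_card]
  intro Q _
  rw [le_antisymm (fix_le ρ P Q) (fix_le ρ Q P), ← card_ne (0 : fix ρ Q)]
  refine Nat.card_congr ⟨fun v => ⟨⟨v.1.1, fun g hg => ?_⟩, fun e => v.1.2 (congrArg Subtype.val e)⟩,
    fun w => ⟨⟨w.1.1, fun e => w.2 (Subtype.ext e)⟩, ?_⟩, fun _ => rfl, fun _ => rfl⟩
  · rw [← v.2, hσ] at hg
    exact hg
  · exact Sylow.ext ((hσ _ _).trans (eq_stab h (fun e => w.2 (Subtype.ext e)) w.1.2).symm)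

/-- `n ≥ 2` (else `P` is normal, so trivial); `fix P ⊓ fix Q = ⊥` gives `w² ≤ |V| = 1 + n (w - 1)`, so `w ≤ n - 1`. -/
theorem St.card_le [Nontrivial V] (h : St ρ) (hp : p ∣ Nat.card G) :
    Nat.card V ≤ (Nat.card (Sylow p G) - 1) ^ 2 := by
  obtain ⟨P⟩ : Nonempty (Sylow p G) := inferInstance
  obtain ⟨Q, hQ⟩ : ∃ Q : Sylow p G, Q ≠ P := by
    by_contra hn
    push Not at hn
    refine P.ne_bot_of_dvd_card hp (eq_bot_iff.2 fun g hg => mem_bot.2 (h.inj ?_))
    rw [map_one]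
    ext v
    by_cases hv : v = 0
    · simp [hv]
    · obtain ⟨R, hR⟩ := h.syl v hv
      rw [← hn R, hR] at hg
      exact hg
  have h1 : Nat.card (fix ρ P × fix ρ Q) ≤ Nat.card V := by
    refine Nat.card_le_card_of_injective (fun x => x.1.1 + x.2.1) fun a b e => ?_
    have e1 : a.1.1 - b.1.1 = b.2.1 - a.2.1 := by
      rw [sub_eq_sub_iff_add_eq_add, add_comm b.2.1]
      exact e
    have e2 : a.1.1 - b.1.1 = 0 := by
      by_contra hv
      refine hQ (Sylow.ext ((eq_stab h hv ?_).trans (eq_stab h hv (sub_mem a.1.2 b.1.2)).symm))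
      rw [e1]
      exact sub_mem b.2.2 a.2.2
    rw [e2] at e1
    exact Prod.ext (Subtype.ext (sub_eq_zero.1 e2)) (Subtype.ext (sub_eq_zero.1 e1.symm).symm)
  rw [Nat.card_prod, le_antisymm (fix_le ρ Q P) (fix_le ρ P Q)] at h1
  have h2 := h.spread P
  have h3 : 1 < Nat.card (fix ρ P) := by
    haveI := Submodule.nontrivial_iff_ne_bot.2 (h.fix_ne_bot P)
    exact Finite.one_lt_card
  have h4 : 0 < Nat.card V := Nat.card_pos
  generalize Nat.card (Sylow p G) = n at *
  generalize Nat.card V = m at *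
  obtain ⟨w, hw⟩ : ∃ w, Nat.card (fix ρ P) = w + 1 := ⟨_, (Nat.sub_add_cancel h3.le).symm⟩
  rw [hw] at h1 h2 h3
  rw [Nat.add_sub_cancel] at h2
  have h5 : m = n * w + 1 := by omega
  have h6 : w + 2 ≤ n := Nat.le_of_mul_le_mul_right (c := w) (by nlinarith) (by omega)
  obtain ⟨k, rfl⟩ : ∃ k, n = k + 1 := ⟨n - 1, by omega⟩
  rw [Nat.add_sub_cancel]
  nlinarith

/-- an element of order `p` centralising the normal subgroup `S`: `index_dvd` for `S` and `W = U c`. -/
theorem St.cent_dvd (h : St ρ) (S : Subgroup G) [S.Normal] (P : Sylow p S) {c : G}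
    (hc : orderOf c = p) (hS : c ∈ centralizer (S : Set G)) :
    ∃ i, 1 < p ^ i ∧ p ^ i < Nat.card V ∧ p ^ i ∣ Nat.card V ∧ (P : Subgroup S).index ∣ p ^ i - 1 := by
  have hp := (Fact.out : p.Prime)
  have hc1 : c ≠ 1 := fun e => hp.ne_one (by rw [← hc, e, orderOf_one])
  have hT : U ρ c ≠ ⊤ := fun e => hc1 (h.inj (by
    rw [map_one]
    ext v
    exact (e ▸ Submodule.mem_top : v ∈ U ρ c)))
  have hB : U ρ c ≠ ⊥ := by
    have hz : IsPGroup p (zpowers c) := IsPGroup.of_card (n := 1) (by rw [Nat.card_zpowers, hc, pow_one])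
    obtain ⟨w, -, hw0, hw⟩ := exists_fix ρ hz (W := ⊤) (fun e => hT (top_le_iff.1 (e.le.trans bot_le)))
      fun _ _ _ _ => Submodule.mem_top
    exact (Submodule.ne_bot_iff _).2 ⟨w, hw _ (mem_zpowers c), hw0⟩
  obtain ⟨i, hi⟩ := card_pow (U ρ c)
  refine ⟨i, ?_, ?_, ?_, ?_⟩ <;> rw [← hi]
  · haveI := Submodule.nontrivial_iff_ne_bot.2 hB
    exact Finite.one_lt_card
  · obtain ⟨v, -, hv⟩ := SetLike.exists_of_lt (lt_top_iff_ne_top.2 hT)
    exact Finite.card_subtype_lt hv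
  · exact AddSubgroup.card_addSubgroup_dvd_card (U ρ c).toAddSubgroup
  · refine (h.normal S).index_dvd P _ fun g v hv => ?_
    have e := mem_centralizer_iff.1 hS g g.2
    change ρ c (ρ g v) = ρ g v
    rw [← ap_mul, ← e, ap_mul, mem_U.1 hv]

end H88.GG
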