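import Cfsg.Agent.Lib.GG.Five1
import Cfsg.Agent.Lib.GG.Spread2
import Cfsg.Agent.Lib.GG.Out
import Cfsg.Agent.Lib.GG.Odd1

/-! `S = SL₂(5)`, `p ≥ 7`. -/

set_option autoImplicit false

namespace H88.GG
open Module Subgroup Cfsg
open scoped MatrixGroups

universe u v

variable {p : ℕ} [Fact p.Prime] {G : Type*} [Group G] [Finite G] {V : Type*} [AddCommGroup V]
  [Module (ZMod p) V] [Finite V] {ρ : G →* End (ZMod p) V}
variable [Nontrivial V]

/-- `five1` (`exists_q8`, `FP.neg`): `|V| = α²`, `α = |W| = p^i`, `W` invariant under `C = C(S)` (normal).  `index_dvd` for `C`: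
`|C|_{p'} ∣ α - 1`.  If `p ∣ |C|`, `card_le` for `C` gives `α + 1 ≤ n_p(C) ≤ |C|_{p'}`.  So `p ∤ |C|`, `p ∤ |G|`
(`out_prime`, `card_sup_cent`), `|G| = α² - 1` (`index_eq`), `|C| = 2 m`, `|G| = 120 m c`; `five_arith`.  `m = 3` is excluded by
`mem_zpowers` (an element of order 3 of `C` would lie in `S ⊓ C = Z(S)`).  `prod_equiv`, `sl_zmod`. -/
theorem five (h7 : 7 ≤ p) (h : St ρ) (ht : Tr ρ) (S : Subgroup G) [S.Normal] {F : Type} [Field F]
    [Fintype F] (h5 : Fintype.card F = 5) (e : S ≃* SL(2, F)) : Fin6 p G := by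
  have hp : p.Prime := Fact.out
  have hp2 : p ≠ 2 := by omega
  have hfp := h.fp
  obtain ⟨e5⟩ := sl_zmod (F := F) (r := 5) (by norm_num) h5
  set τ : SL(2, F) →* G := S.subtype.comp e.symm.toMonoidHom with hτ
  have hτS : ∀ x, τ x ∈ S := fun x => (e.symm x).2
  have hτi : Function.Injective τ := S.subtype_injective.comp e.symm.injective
  have hz0 : Iv (-1 : SL(2, F)) := iv_neg_one (by rw [h5]; decide)
  have hz : Iv (τ (-1)) := ⟨fun h1 => hz0.ne (hτi (by rw [h1, map_one])), by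
    rw [← map_mul, hz0.sq, map_one]⟩
  have hneg : ρ (τ (-1)) = -1 := hfp.neg hp2 hz
  obtain ⟨i, j, hi, hj, hij⟩ := exists_q8 (F := F)
  obtain ⟨W, hW, hWc⟩ := five1 (V := V) hp2 (I := ρ (τ i)) (J := ρ (τ j))
    (by rw [← map_mul, ← map_mul, hi, hneg]) (by rw [← map_mul, ← map_mul, hj, hneg])
    (by rw [← map_mul, ← map_mul, hij, ← neg_one_mul (j * i), map_mul, map_mul, hneg, map_mul,
      map_mul, neg_one_mul])
  set C := centralizer (S : Set G) with hC
  haveI : C.Normal := by rw [hC]; infer_instance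
  have hSt := h.normal C
  obtain ⟨Q⟩ : Nonempty (Sylow p C) := inferInstance
  have hQ : (Q : Subgroup C).index ∣ Nat.card W - 1 := hSt.index_dvd Q W fun c v hv =>
    hWc (ρ c) (by rw [← map_mul, ← map_mul, c.2 _ (hτS i)])
      (by rw [← map_mul, ← map_mul, c.2 _ (hτS j)]) v hv
  obtain ⟨k, hk⟩ := card_pow W
  have hV : 1 < Nat.card V := Finite.one_lt_card
  have hα : 1 < p ^ k := by
    rw [← hk]
    by_contra hle
    have : Nat.card W ^ 2 ≤ 1 ^ 2 := Nat.pow_le_pow_left (by omega) 2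
    omega
  rw [hk] at hQ hW
  have hpC : ¬ p ∣ Nat.card C := fun hd => by
    have a1 := hSt.card_le hd
    rw [← hW] at a1
    have a2 : p ^ k ≤ Nat.card (Sylow p C) - 1 := (Nat.pow_le_pow_iff_left (by norm_num)).1 a1
    have a3 : Nat.card (Sylow p C) ≤ p ^ k - 1 :=
      Nat.le_of_dvd (by omega) (Q.card_dvd_index.trans hQ)
    omega
  have hS : Nat.card S = 120 := by rw [Nat.card_congr e.toEquiv, card_sl, h5]; norm_num
  have hZ : Nat.card (center S) = 2 := by
    rw [Nat.card_congr (Subgroup.centerCongr e).toEquiv, card_center_sl, h5]; norm_num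
  have hZ' : Nat.card ↥(S ⊓ C) = 2 := by
    rw [hC, inf_cent, Subgroup.card_map_of_injective S.subtype_injective, hZ]
  obtain ⟨m, hm⟩ : 2 ∣ Nat.card C := hZ' ▸ card_dvd_of_le inf_le_right
  have hc : (S ⊔ C).index ∣ 2 := out_prime S (by rw [h5]; norm_num) (by omega) e
  have hsup := card_sup_cent S
  rw [hZ, hS, ← hC, hm] at hsup
  have hG : Nat.card G = 120 * m * (S ⊔ C).index := by
    rw [← (S ⊔ C).card_mul_index]
    congr 1
    omega
  have triv : ∀ {H : Type _} [Group H] [Finite H] (P : Sylow p H), ¬ p ∣ Nat.card H →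
      (P : Subgroup H).index = Nat.card H := by
    intro H _ _ P hn
    obtain ⟨n, hn'⟩ := IsPGroup.iff_card.1 P.isPGroup'
    have h1 := (P : Subgroup H).card_mul_index
    rcases n with _ | n
    · rw [hn'] at h1; simpa using h1
    · exact absurd ((dvd_pow_self p (Nat.succ_ne_zero n)).trans (hn' ▸ card_subgroup_dvd_card _)) hn
  have hpG : ¬ p ∣ Nat.card G := by
    rw [hG]
    intro hd
    rcases (Nat.Prime.dvd_mul hp).1 hd with hd | hd
    · rcases (Nat.Prime.dvd_mul hp).1 hd with hd | hd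
      · have h30 : p ∣ 30 ^ 3 := hd.trans (by norm_num)
        have h30' := hp.dvd_of_dvd_pow h30
        have : p ≤ 30 := Nat.le_of_dvd (by norm_num) h30'
        interval_cases p <;> first | omega | norm_num at hp
      · exact hpC (hm ▸ Dvd.dvd.mul_left hd 2)
    · have := Nat.le_of_dvd (by norm_num) (hd.trans hc)
      omega
  obtain ⟨P⟩ : Nonempty (Sylow p G) := inferInstance
  have hidx := h.index_eq ht P
  rw [triv P hpG, hG, ← hW] at hidx
  rw [triv Q hpC, hm] at hQ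
  obtain ⟨hc1, hcases⟩ := five_arith hp h7 hc hα hQ hidx.symm
  have htop : S ⊔ C = ⊤ := index_eq_one.1 hc1
  rcases hcases with ⟨h1, rfl⟩ | ⟨h1, rfl⟩ | ⟨h1, rfl⟩ | ⟨h1, rfl⟩
  · have hST : S = ⊤ := eq_top_of_card_eq _ (by rw [hS, hG, hc1])
    refine Or.inr (Or.inr (Or.inr (Or.inl ⟨h1, ⟨?_⟩⟩)))
    exact (topEquiv.symm.trans (MulEquiv.subgroupCongr hST.symm)).trans (e.trans e5)
  · exfalso
    haveI : Fact (Nat.Prime 3) := ⟨Nat.prime_three⟩
    obtain ⟨a, ha⟩ := exists_prime_orderOf_dvd_card' (G := S) 3 (by rw [hS]; norm_num)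
    obtain ⟨b, hb⟩ := exists_prime_orderOf_dvd_card' (G := C) 3 (by rw [hm]; norm_num)
    have hb' : orderOf (b : G) = 3 := by rw [Subgroup.orderOf_coe, hb]
    have hmem : (b : G) ∈ zpowers (a : G) := hfp.mem_zpowers Nat.prime_three (by omega)
      (by rw [Subgroup.orderOf_coe, ha]) hb' (b.2 _ a.2)
    have hbS : (b : G) ∈ S ⊓ C := ⟨(zpowers_le.2 a.2) hmem, b.2⟩
    have := Subgroup.orderOf_dvd_natCard _ hbS
    rw [hb', hZ'] at this
    omega
  · obtain ⟨f⟩ := prod_equiv S (m := 7) (by norm_num) (by norm_num) htop hZ hm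
    exact Or.inr (Or.inr (Or.inr (Or.inr (Or.inl
      ⟨h1, ⟨f.trans ((e.trans e5).prodCongr (MulEquiv.refl _))⟩⟩))))
  · obtain ⟨f⟩ := prod_equiv S (m := 29) (by norm_num) (by norm_num) htop hZ hm
    exact Or.inr (Or.inr (Or.inr (Or.inr (Or.inr
      ⟨h1, ⟨f.trans ((e.trans e5).prodCongr (MulEquiv.refl _))⟩⟩))))

end H88.GG
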