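import Cfsg.Agent.Lib.GG.Gen

/-! A quaternion group splits the module. -/

set_option autoImplicit false

namespace H88.GG
open Module Subgroup Cfsg
open scoped MatrixGroups

universe u v

variable {p : ℕ} [Fact p.Prime] {G : Type*} [Group G] [Finite G] {V : Type*} [AddCommGroup V]
  [Module (ZMod p) V] [Finite V] {ρ : G →* End (ZMod p) V}

omit [Finite G] in
/-- `a² + b² = -1` in `ZMod p`; `x = a I + b J`, `x² = 1`, `(I J) x = -x (I J)`; `W = ker (x - 1)`,
`V = W ⊕ ker (x + 1)`, and `I J` maps `W` onto `ker (x + 1)`. -/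
theorem five1 (hp : p ≠ 2) {I J : End (ZMod p) V} (hI : I * I = -1) (hJ : J * J = -1)
    (hIJ : I * J = -(J * I)) : ∃ W : Submodule (ZMod p) V, Nat.card W ^ 2 = Nat.card V ∧
      ∀ c : End (ZMod p) V, c * I = I * c → c * J = J * c → ∀ v ∈ W, c v ∈ W := by
  obtain ⟨a, b, hab⟩ := ZMod.sq_add_sq p (-1)
  set x : End (ZMod p) V := a • I + b • J with hx
  have hJI : J * I = -(I * J) := by rw [hIJ, neg_neg]
  have hxx : x * x = 1 := by
    have : x * x = (a * a) • (I * I) + (a * b) • (I * J) + (b * a) • (J * I) + (b * b) • (J * J) := by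
      simp only [hx, add_mul, mul_add, smul_mul_assoc, mul_smul_comm, smul_smul, smul_add]
      module
    rw [this, hI, hJ, hJI]
    have h1 : (1 : End (ZMod p) V) = -((a ^ 2 + b ^ 2) • 1) := by rw [hab]; simp
    refine Eq.trans ?_ h1.symm
    module
  have hKx : I * J * x = -(x * (I * J)) := by
    have e1 : I * J * I = J := by
      rw [mul_assoc, hJI, mul_neg, ← mul_assoc, hI]; simp
    have e2 : I * J * J = -I := by rw [mul_assoc, hJ]; simp
    have e3 : I * (I * J) = -J := by rw [← mul_assoc, hI]; simp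
    have e4 : J * (I * J) = I := by
      rw [← mul_assoc, hJI, neg_mul, e2, neg_neg]
    simp only [hx, add_mul, mul_add, smul_mul_assoc, mul_smul_comm, e1, e2, e3, e4]
    module
  have hKK : I * J * (I * J) = -1 := by
    rw [← mul_assoc, mul_assoc I J I, hJI, mul_neg, ← mul_assoc, hI]
    simp [hJ]
  have hKinj : Function.Injective (I * J : End (ZMod p) V) := by
    intro v w h
    have := congrArg (I * J : End (ZMod p) V) h
    rw [← End.mul_apply, ← End.mul_apply, hKK] at this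
    simpa using this
  have h2 : (2 : ZMod p) ≠ 0 := by
    intro h
    have h' : ((2 : ℕ) : ZMod p) = 0 := by exact_mod_cast h
    rw [ZMod.natCast_eq_zero_iff] at h'
    exact hp ((Nat.prime_dvd_prime_iff_eq Fact.out Nat.prime_two).1 h')
  have hxv : ∀ v, x (x v) = v := fun v => by rw [← End.mul_apply, hxx, End.one_apply]
  have hKv : ∀ v, x ((I * J) v) = -((I * J) (x v)) := fun v => by
    rw [← End.mul_apply (I * J) x, hKx]; simp
  set W : Submodule (ZMod p) V := LinearMap.ker (x - 1) with hW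
  set W' : Submodule (ZMod p) V := LinearMap.ker (x + 1) with hW'
  have mW : ∀ v, v ∈ W ↔ x v = v := fun v => by simp [hW, sub_eq_zero]
  have mW' : ∀ v, v ∈ W' ↔ x v = -v := fun v => by simp [hW', add_eq_zero_iff_eq_neg]
  have hc : IsCompl W W' := by
    refine ⟨Submodule.disjoint_def.2 fun v h1 h2' => ?_, codisjoint_iff.2 (eq_top_iff.2 fun v _ => ?_)⟩
    · rw [mW] at h1
      rw [mW', h1] at h2'
      have : (2 : ZMod p) • v = 0 := by rw [two_smul]; exact add_eq_zero_iff_eq_neg.2 h2'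
      exact (smul_eq_zero.1 this).resolve_left h2
    · refine Submodule.mem_sup.2 ⟨(2 : ZMod p)⁻¹ • (v + x v), ?_, (2 : ZMod p)⁻¹ • (v - x v), ?_, ?_⟩
      · refine W.smul_mem _ ((mW _).2 ?_)
        rw [map_add, hxv, add_comm]
      · refine W'.smul_mem _ ((mW' _).2 ?_)
        rw [map_sub, hxv, neg_sub]
      · rw [← smul_add, show v + x v + (v - x v) = (2 : ZMod p) • v by rw [two_smul]; abel,
          smul_smul, inv_mul_cancel₀ h2, one_smul]
  have hcard : Nat.card W * Nat.card W' = Nat.card V := by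
    rw [← Nat.card_prod]
    exact Nat.card_congr (Submodule.prodEquivOfIsCompl W W' hc).toEquiv
  have l1 : Nat.card W ≤ Nat.card W' :=
    Nat.card_le_card_of_injective
      (fun v : W => (⟨(I * J) v, (mW' _).2 (by rw [hKv, (mW _).1 v.2])⟩ : W'))
      (fun v w h => Subtype.ext (hKinj (congrArg Subtype.val h)))
  have l2 : Nat.card W' ≤ Nat.card W :=
    Nat.card_le_card_of_injective
      (fun v : W' => (⟨(I * J) v, (mW _).2 (by rw [hKv, (mW' _).1 v.2, map_neg, neg_neg])⟩ : W))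
      (fun v w h => Subtype.ext (hKinj (congrArg Subtype.val h)))
  refine ⟨W, by rw [← hcard, le_antisymm l2 l1, sq], fun c hcI hcJ v hv => (mW _).2 ?_⟩
  have hcx : x * c = c * x := by
    simp only [hx, add_mul, mul_add, smul_mul_assoc, mul_smul_comm, hcI, hcJ]
  rw [← End.mul_apply, hcx, End.mul_apply, (mW _).1 hv]

theorem five_arith {p i c m : ℕ} (hp : p.Prime) (h7 : 7 ≤ p) (hc : c ∣ 2) (h1 : 1 < p ^ i)
    (hm : 2 * m ∣ p ^ i - 1) (h : (p ^ i) ^ 2 - 1 = 120 * m * c) :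
    c = 1 ∧ ((p = 11 ∧ m = 1) ∨ (p = 19 ∧ m = 3) ∨ (p = 29 ∧ m = 7) ∨ (p = 59 ∧ m = 29)) := by
  have hi : i ≠ 0 := by rintro rfl; simp at h1
  have hpa : p ∣ p ^ i := dvd_pow_self p hi
  have hple : p ≤ p ^ i := Nat.le_of_dvd (by omega) hpa
  have hpr : ∀ r : ℕ, r.Prime → r ∣ p ^ i → r = p := fun r hr hd =>
    (Nat.prime_dvd_prime_iff_eq hr hp).1 (hr.dvd_of_dvd_pow hd)
  generalize p ^ i = α at *
  obtain ⟨t, ht⟩ := hm
  obtain ⟨β, rfl⟩ : ∃ β, α = β + 1 := ⟨α - 1, by omega⟩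
  simp only [add_tsub_cancel_right] at ht
  have h' : β * (β + 2) = 120 * m * c := by
    rw [← h]
    have : (β + 1) ^ 2 = β * (β + 2) + 1 := by ring
    omega
  have hm0 : 0 < m := by
    rcases Nat.eq_zero_or_pos m with rfl | h0
    · omega
    · exact h0
  have h3 : t * (β + 2) = 60 * c := by
    apply Nat.eq_of_mul_eq_mul_left (show 0 < 2 * m by omega)
    calc 2 * m * (t * (β + 2)) = (2 * m * t) * (β + 2) := by ring
      _ = β * (β + 2) := by rw [← ht]
      _ = 2 * m * (60 * c) := by rw [h']; ring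
  have hc2 : c ≤ 2 := Nat.le_of_dvd (by norm_num) hc
  have hc0 : c ≠ 0 := by rintro rfl; simp at hc
  have ht15 : t ≤ 15 := by
    by_contra hlt
    have : 16 * 8 ≤ t * (β + 2) := Nat.mul_le_mul (by omega) (by omega)
    omega
  have key : (c = 1 ∧ ((β = 10 ∧ m = 1) ∨ (β = 18 ∧ m = 3) ∨ (β = 28 ∧ m = 7) ∨ (β = 58 ∧ m = 29))) ∨
      β = 118 := by
    interval_cases c <;> interval_cases t <;> omega
  rcases key with ⟨h1, h2⟩ | rfl
  · refine ⟨h1, ?_⟩
    rcases h2 with ⟨rfl, rfl⟩ | ⟨rfl, rfl⟩ | ⟨rfl, rfl⟩ | ⟨rfl, rfl⟩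
    · exact Or.inl ⟨(hpr 11 (by norm_num) (by norm_num)).symm, rfl⟩
    · exact Or.inr (Or.inl ⟨(hpr 19 (by norm_num) (by norm_num)).symm, rfl⟩)
    · exact Or.inr (Or.inr (Or.inl ⟨(hpr 29 (by norm_num) (by norm_num)).symm, rfl⟩))
    · exact Or.inr (Or.inr (Or.inr ⟨(hpr 59 (by norm_num) (by norm_num)).symm, rfl⟩))
  · have a1 := hpr 7 (by norm_num) (by norm_num)
    have a2 := hpr 17 (by norm_num) (by norm_num)
    omega

omit [Fact p.Prime] in
/-- `G = S C`, `|Z(S)| = 2`, `|C| = 2 m`, `m` an odd prime: `M = ⟨c⟩ ≤ C` of order `m` meets `S` trivially. -/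
theorem prod_equiv (S : Subgroup G) [S.Normal] {m : ℕ} (hm : m.Prime) (h2 : m ≠ 2)
    (hs : S ⊔ centralizer (S : Set G) = ⊤) (hz : Nat.card (center S) = 2)
    (hc : Nat.card (centralizer (S : Set G)) = 2 * m) :
    Nonempty (G ≃* S × Multiplicative (ZMod m)) := by
  haveI : Fact m.Prime := ⟨hm⟩
  set C := centralizer (S : Set G) with hC
  obtain ⟨c0, hc0⟩ := exists_prime_orderOf_dvd_card' (G := C) m (by rw [hc]; exact Dvd.intro_left 2 rfl)
  obtain ⟨c, hcc⟩ : ∃ c : G, c = (c0 : G) := ⟨_, rfl⟩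
  have hco : orderOf c = m := by rw [hcc, Subgroup.orderOf_coe, hc0]
  have hM : zpowers c ≤ C := by rw [zpowers_le, hcc]; exact c0.2
  have e : Multiplicative (ZMod m) ≃* zpowers c :=
    mulEquivOfPrimeCardEq (p := m) (by simp) (by rw [Nat.card_zpowers, hco])
  set f : Multiplicative (ZMod m) →* G := (zpowers c).subtype.comp e.toMonoidHom with hf
  have hfC : ∀ k, f k ∈ zpowers c := fun k => (e k).2
  have hcomm : ∀ (s : S) (k : Multiplicative (ZMod m)), Commute (S.subtype s) (f k) := fun s k =>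
    hM (hfC k) s s.2
  set Z := (center S).map S.subtype with hZ
  have hZc : Nat.card Z = 2 := by rw [hZ, Subgroup.card_map_of_injective S.subtype_injective, hz]
  have hZS : Z ≤ S := by rw [hZ]; exact map_subtype_le _
  have hZC : Z ≤ C := by
    rintro _ ⟨z, hz, rfl⟩ s hs
    exact congrArg Subtype.val (mem_center_iff.1 hz ⟨s, hs⟩)
  have hSC : ∀ x ∈ S, x ∈ C → x ∈ Z := fun x hx hxC =>
    ⟨⟨x, hx⟩, mem_center_iff.2 fun s => Subtype.ext (hxC s s.2), rfl⟩
  have hcop : Nat.Coprime 2 m := (Nat.coprime_primes Nat.prime_two hm).2 h2.symm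
  set φ : S × Multiplicative (ZMod m) →* G := MonoidHom.noncommCoprod S.subtype f hcomm with hφ
  have hφa : ∀ x : S × Multiplicative (ZMod m), φ x = x.1 * f x.2 := fun x => rfl
  have hinj : Function.Injective φ := by
    rw [injective_iff_map_eq_one]
    rintro ⟨s, k⟩ h
    rw [hφa] at h
    have h1 : f k = (s : G)⁻¹ := eq_inv_of_mul_eq_one_right h
    have h3 : f k ∈ Z := hSC _ (h1 ▸ S.inv_mem s.2) (hM (hfC k))
    have h4 : orderOf (f k) ∣ 2 := hZc ▸ Subgroup.orderOf_dvd_natCard _ h3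
    have h5 : orderOf (f k) ∣ m := by
      have := Subgroup.orderOf_dvd_natCard _ (hfC k)
      rwa [Nat.card_zpowers, hco] at this
    have h6 : f k = 1 := orderOf_eq_one_iff.1 (Nat.eq_one_of_dvd_coprimes hcop h4 h5)
    have h7 : k = 1 := e.injective (Subtype.ext (by rw [map_one]; exact h6))
    rw [h6, mul_one] at h
    exact Prod.ext (Subtype.ext h) h7
  have hS : S ≤ φ.range := fun s hs => ⟨(⟨s, hs⟩, 1), by rw [hφa]; simp⟩
  have hMr : zpowers c ≤ φ.range := fun y hy => ⟨(1, e.symm ⟨y, hy⟩), by rw [hφa]; simp [hf]⟩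
  have hCr : C ≤ φ.range := by
    have a1 : 2 ∣ Nat.card ↥(φ.range ⊓ C) := hZc ▸ card_dvd_of_le (le_inf (hZS.trans hS) hZC)
    have a2 : m ∣ Nat.card ↥(φ.range ⊓ C) := by
      have := card_dvd_of_le (le_inf hMr hM)
      rwa [Nat.card_zpowers, hco] at this
    have a3 := hcop.mul_dvd_of_dvd_of_dvd a1 a2
    have a4 : φ.range ⊓ C = C :=
      eq_of_le_of_card_ge inf_le_right (hc ▸ Nat.le_of_dvd Nat.card_pos a3)
    exact a4 ▸ inf_le_left
  have hsurj : Function.Surjective φ := by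
    rw [← MonoidHom.range_eq_top, eq_top_iff, ← hs]
    exact sup_le hS hCr
  exact ⟨(MulEquiv.ofBijective φ ⟨hinj, hsurj⟩).symm⟩

end H88.GG
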