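import Cfsg.Agent.Lib.GG.K2
import Cfsg.Agent.S0199
import Cfsg.Agent.Lib.Core.PCore

/-! Involutions act freely when `O₂ = 1`. -/

set_option autoImplicit false

namespace H88.GG.Free
open Module Subgroup Cfsg

variable {G : Type*} [Group G] [Finite G]

theorem exists_inv (hO : pCore 2 G = ⊥) {t : G} (ht : Iv t) :
    ∃ x : G, x ≠ 1 ∧ (orderOf x).Coprime 2 ∧ t * x = x⁻¹ * t := by
  by_contra hh
  push Not at hh
  have hi : t⁻¹ = t := inv_eq_of_mul_eq_one_right ht.sq
  have hp : IsPGroup 2 (zpowers t) :=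
    IsPGroup.of_card (n := 1) (by rw [Nat.card_zpowers, ht.orderOf, pow_one])
  obtain ⟨N, hN, h2, hle⟩ := Cfsg.Agent.S0199.result (zpowers t) hp fun g => by
    set e := t * (g * t * g⁻¹) with he
    have h1 : t * e * t⁻¹ = e⁻¹ := by
      rw [he, mul_inv_rev, ← mul_assoc, ht.sq, one_mul, conj_inv, hi]
    obtain ⟨k, m, hm, hk⟩ := Nat.exists_eq_two_pow_mul_odd (orderOf_pos e).ne'
    have h2 : e ^ 2 ^ k = 1 := by
      by_contra h3
      refine hh _ h3 ?_ ?_
      · rw [orderOf_pow_of_dvd (by positivity) (hk ▸ dvd_mul_right _ _), hk,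
          Nat.mul_div_cancel_left _ (by positivity)]
        exact hm.coprime_two_right
      · rw [← inv_pow, ← h1, conj_pow, inv_mul_cancel_right]
    have h3 : IsPGroup 2 (zpowers e) := by
      rw [IsPGroup.iff_card, Nat.card_zpowers]
      exact (Nat.dvd_prime_pow Nat.prime_two).1 (orderOf_dvd_of_pow_eq_one h2) |>.imp fun _ h => h.2
    refine (h3.to_sup_of_normal_left' hp (zpowers_le.2 ?_)).to_le (sup_le le_sup_right ?_)
    · rw [mem_normalizer_iff_map_conj_eq, MonoidHom.map_zpowers]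
      exact (congrArg zpowers h1).trans zpowers_inv
    · rw [MonoidHom.map_zpowers, zpowers_le]
      have : (MulAut.conj g).toMonoidHom t = t⁻¹ * e := by simp [he]
      rw [this]
      exact mul_mem (mem_sup_right (inv_mem (mem_zpowers t))) (mem_sup_left (mem_zpowers e))
  exact ht.ne (mem_bot.1 (hO ▸ H1.le_pCore h2 (hle (mem_zpowers t))))

end H88.GG.Free

namespace H88.GG
open Module Subgroup Cfsg
open scoped MatrixGroups

universe u v

variable {G : Type*} [Group G] [Finite G] {V : Type*} [AddCommGroup V]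
  [Module (ZMod 2) V] [Finite V] {ρ : G →* End (ZMod 2) V}

/-- By Baer-Suzuki (S0199 for `zpowers t`) some `⟨t, t^g⟩` is no 2-group, so `x = (t t^g)^(2^k) ≠ 1` has
odd order and is inverted by `t`.  `τ = ρ x + ρ x⁻¹` is injective (`τ v = 0 ⇒ x² v = v`), commutes with `t`,
so permutes the finite set `U t`; and for `u ∈ U t`: `ρ t (ρ x u) + ρ x u = τ u`. -/
theorem FP.ff [Nontrivial V] (h : FP ρ) (hO : pCore 2 G = ⊥) : FF ρ := by
  refine ⟨h, exists_ne 0, fun t ht v hv => ?_⟩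
  obtain ⟨x, h1, h2, h3⟩ := Free.exists_inv hO ht
  have h4 : t * x⁻¹ = x * t := by
    rw [mul_inv_eq_iff_eq_mul, mul_assoc, h3, mul_inv_cancel_left]
  have k1 : ∀ u, ρ t u = u → ρ t (ρ x u) = ρ x⁻¹ u := fun u hu => by rw [← ap_mul, h3, ap_mul, hu]
  let f : U ρ t → U ρ t := fun u => ⟨ρ x⁻¹ u + ρ x u, by
    rw [mem_U, map_add, k1 u u.2, ← ap_mul, h4, ap_mul, mem_U.1 u.2, add_comm]⟩
  have hf : Function.Injective f := fun a b e => by
    have e1 : ρ x⁻¹ a + ρ x a = ρ x⁻¹ b + ρ x b := congrArg Subtype.val e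
    refine Subtype.ext (sub_eq_zero.1 (h.fpf (x * x) (fun e2 => h1 ?_) ?_ _ ?_))
    · have := orderOf_dvd_of_pow_eq_one ((sq x).trans e2)
      exact orderOf_eq_one_iff.1 (Nat.Coprime.eq_one_of_dvd h2 this)
    · exact Nat.Coprime.coprime_dvd_left (sq x ▸ orderOf_pow_dvd 2) h2
    · have e2 : ρ x ((a : V) - b) = ρ x⁻¹ ((a : V) - b) := by
        refine add_left_cancel (a := ρ x⁻¹ ((a : V) - b)) ?_
        rw [two_v, map_sub, map_sub, ← add_sub_add_comm, e1, sub_self]
      rw [ap_mul, e2, ap_inv']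
  obtain ⟨u, hu⟩ := Finite.surjective_of_injective hf ⟨v, hv⟩
  exact ⟨ρ x u, by rw [k1 u u.2]; exact congrArg Subtype.val hu⟩

theorem FP.ff_simple [Nontrivial V] [IsSimpleGroup G] (hna : ¬ IsMulCommutative G) (h : FP ρ) :
    FF ρ := by
  refine h.ff ((IsSimpleGroup.eq_bot_or_eq_top_of_normal (pCore 2 G) inferInstance).resolve_right fun e => hna ?_)
  have h2 : IsPGroup 2 G := (H1.isPGroup_pCore (p := 2) (G := G)).of_surjective
    (pCore 2 G).subtype fun g => ⟨⟨g, e ▸ mem_top g⟩, rfl⟩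
  have := h2.isNilpotent
  exact ⟨⟨IsSimpleGroup.comm_iff_isSolvable.2 inferInstance⟩⟩

end H88.GG
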