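import Cfsg.Agent.Lib.GG.Defs
import Cfsg.Agent.Lib.Core.PCore

/-! General facts on fixed point free action. -/

set_option autoImplicit false

namespace H88.GG
open Module Subgroup Cfsg
open scoped MatrixGroups

universe u v

variable {p : ℕ} [Fact p.Prime] {G : Type*} [Group G] [Finite G] {V : Type*} [AddCommGroup V]
  [Module (ZMod p) V] [Finite V] {ρ : G →* End (ZMod p) V}

theorem Gen.core {R : Type*} [Group R] (hR : IsPGroup p R) (τ : R →* End (ZMod p) V)
    {W : Submodule (ZMod p) V} (hW : W ≠ ⊥) (h1 : ∀ r, ∀ v ∈ W, τ r v ∈ W) :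
    ∃ w ∈ W, w ≠ 0 ∧ ∀ r, τ r w = w := by
  letI : MulAction R W := MulAction.compHom W (Representation.subrepresentation τ W h1 : R →* End (ZMod p) W)
  obtain ⟨v, hv, v0⟩ := W.ne_bot_iff.1 hW
  have hd : p ∣ Nat.card W := (addOrderOf_eq_prime (x := (⟨v, hv⟩ : W)) (ZModModule.char_nsmul_eq_zero p _)
    fun e => v0 (congrArg Subtype.val e)).symm.dvd.trans (addOrderOf_dvd_natCard _)
  obtain ⟨b, hb, h0⟩ := hR.exists_fixed_point_of_prime_dvd_card_of_fixed_point W hd (a := 0)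
    fun r => Subtype.ext (map_zero (τ r))
  exact ⟨b, b.2, fun e => h0 (Subtype.ext e.symm), fun r => congrArg Subtype.val (hb r)⟩

/-- `R` acts on the finite `p`-group `W1/U0 ≠ 0` and fixes `0`, so it fixes another point
(`IsPGroup.card_modEq_card_fixedPoints`, or `IsPGroup.exists_fixed_point_of_prime_dvd_card_of_fixed_point`). -/
theorem exists_fix_mod (ρ : G →* End (ZMod p) V) {R : Subgroup G} (hR : IsPGroup p R)
    {U0 W1 : Submodule (ZMod p) V} (h : U0 < W1) (h0 : ∀ r ∈ R, ∀ v ∈ U0, ρ r v ∈ U0)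
    (h1 : ∀ r ∈ R, ∀ v ∈ W1, ρ r v ∈ W1) : ∃ w ∈ W1, w ∉ U0 ∧ ∀ r ∈ R, ρ r w - w ∈ U0 := by
  haveI : Finite (V ⧸ U0) := Finite.of_surjective _ U0.mkQ_surjective
  obtain ⟨w, ⟨w, hw, rfl⟩, h2, h3⟩ := Gen.core hR
    (Representation.quotient (ρ.comp R.subtype) U0 fun r => h0 r r.2) (W := W1.map U0.mkQ)
    (fun e => h.not_ge (by simpa using Submodule.map_le_iff_le_comap.1 e.le)) (by
      rintro r _ ⟨v, hv, rfl⟩
      exact ⟨_, h1 r r.2 v hv, rfl⟩)
  exact ⟨w, hw, fun e => h2 ((Submodule.Quotient.mk_eq_zero _).2 e), fun r hr =>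
    (Submodule.Quotient.eq _).1 (h3 ⟨r, hr⟩)⟩

theorem exists_fix (ρ : G →* End (ZMod p) V) {R : Subgroup G} (hR : IsPGroup p R)
    {W : Submodule (ZMod p) V} (hW : W ≠ ⊥) (h1 : ∀ r ∈ R, ∀ v ∈ W, ρ r v ∈ W) :
    ∃ w ∈ W, w ≠ 0 ∧ ∀ r ∈ R, ρ r w = w := by
  obtain ⟨w, a, b, c⟩ := Gen.core hR (ρ.comp R.subtype) hW fun r => h1 r r.2
  exact ⟨w, a, b, fun r hr => c ⟨r, hr⟩⟩

/-- order `p^k m`; `g^(p^k)` is a `p'`-element fixing `v`. -/
theorem FP.stab_pgroup (h : FP ρ) {v : V} (hv : v ≠ 0) : IsPGroup p (stab ρ v) := by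
  intro g
  obtain ⟨k, m, hm, e⟩ := Nat.exists_eq_pow_mul_and_not_dvd (orderOf_pos (g : G)).ne' p
    (Fact.out : p.Prime).ne_one
  refine ⟨k, Subtype.ext (by_contra fun hn => hv (h.fpf _ hn ?_ v (g ^ p ^ k).2))⟩
  refine (((Fact.out : p.Prime).coprime_iff_not_dvd.2 hm).symm).coprime_dvd_left
    (orderOf_dvd_of_pow_eq_one ?_)
  rw [coe_pow, ← pow_mul, ← e, pow_orderOf_eq_one]

theorem FP.le_pCore (h : FP ρ) {N : Subgroup G} [N.Normal] {v : V} (hv : v ≠ 0)
    (hN : ∀ g ∈ N, ρ g v = v) : N ≤ pCore p G := by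
  exact H1.le_pCore ((h.stab_pgroup hv).to_le hN)

/-- the sum is fixed by `g`. -/
theorem FP.sum_pow (h : FP ρ) {g : G} (hg : g ≠ 1) (ho : (orderOf g).Coprime p) {n : ℕ}
    (hn : g ^ n = 1) : ∑ i ∈ Finset.range n, ρ (g ^ i) = 0 := by
  ext v
  refine h.fpf g hg ho _ (sub_eq_zero.1 ?_)
  have := mul_geom_sum (ρ g) n
  rw [← map_pow, hn, map_one, sub_self] at this
  simpa [← map_pow] using congrArg (· v) this

theorem FP.quad (h : FP ρ) (hp : p ≠ 3) {y : G} (hy : orderOf y = 3) :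
    ρ y * ρ y + ρ y + 1 = 0 := by
  have := h.sum_pow (g := y) (fun e => by simp [e] at hy)
    (hy ▸ (Nat.coprime_primes Nat.prime_three Fact.out).2 hp.symm) (hy ▸ pow_orderOf_eq_one y : y ^ 3 = 1)
  simp only [Finset.sum_range_succ, Finset.sum_range_zero, pow_zero, pow_one, map_one, zero_add, sq,
    map_mul] at this
  rw [← this]
  abel

theorem FP.neg (h : FP ρ) (hp : p ≠ 2) {z : G} (hz : Iv z) : ρ z = -1 := by
  have := h.sum_pow hz.ne (orderOf_eq_prime (p := 2) (by rw [sq, hz.sq]) hz.ne ▸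
    (Nat.coprime_primes Nat.prime_two Fact.out).2 hp.symm) (n := 2) (by rw [sq, hz.sq])
  simp only [Finset.sum_range_succ, Finset.sum_range_zero, pow_zero, pow_one, map_one, zero_add] at this
  exact eq_neg_of_add_eq_zero_right this

theorem fix_inv (ρ : G →* End (ZMod p) V) {X : Subgroup G} {g : G}
    (hg : g ∈ normalizer (X : Set G)) {v : V} (hv : v ∈ fix ρ X) : ρ g v ∈ fix ρ X := by
  intro x hx
  have := hv _ ((mem_normalizer_iff.1 (inv_mem hg) x).1 hx)
  rw [inv_inv, ap_mul, ap_mul] at this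
  rw [← ap_inv' ρ g (ρ x _), this]

/-- `G/O_p(G)` acts on the fixed points of `O_p(G)` (non-zero by `exists_fix`); the kernel of `G` on them
is a normal `p`-subgroup (`le_pCore`); a `p'`-element of the quotient is the image of a `p'`-element
(`g^(p^k)` generates the same cyclic group in the quotient). -/
theorem FP.exists_quot [Nontrivial V] (h : FP ρ) : Nontrivial (fix ρ (pCore p G)) ∧
    ∃ σ : (G ⧸ pCore p G) →* End (ZMod p) (fix ρ (pCore p G)), FP σ := by
  obtain ⟨w, -, w0, hw⟩ := exists_fix ρ (H1.isPGroup_pCore (p := p) (G := G)) (W := ⊤) top_ne_bot (by simp)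
  let τ : G →* End (ZMod p) (fix ρ (pCore p G)) := Representation.subrepresentation ρ _ fun g v hv =>
    fix_inv ρ (le_normalizer_of_normal (mem_top g)) hv
  have hτ : ∀ g v, (τ g v : V) = ρ g v := fun _ _ => rfl
  refine ⟨⟨⟨w, hw⟩, 0, fun e => w0 (congrArg Subtype.val e)⟩,
    QuotientGroup.lift _ τ fun g hg => LinearMap.ext fun v => Subtype.ext (v.2 g hg), ?_, fun g g1 ho v hv => ?_⟩
  · refine (injective_iff_map_eq_one _).2 fun g hg => ?_
    obtain ⟨g, rfl⟩ := QuotientGroup.mk_surjective g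
    exact (QuotientGroup.eq_one_iff g).2 (h.le_pCore (N := τ.ker) w0 (fun g hg => by
      simpa [hτ] using congrArg (fun f => (f ⟨w, hw⟩ : V)) (MonoidHom.mem_ker.1 hg)) hg)
  · obtain ⟨g, rfl⟩ := QuotientGroup.mk_surjective g
    by_contra v0
    obtain ⟨k, hk⟩ := h.stab_pgroup (v := v) (fun e => v0 (Subtype.ext e)) ⟨g, congrArg Subtype.val hv⟩
    refine g1 (orderOf_eq_one_iff.1 ((ho.pow_right k).eq_one_of_dvd (orderOf_dvd_of_pow_eq_one ?_)))
    rw [← QuotientGroup.mk_pow, show g ^ p ^ k = 1 from congrArg Subtype.val hk, QuotientGroup.mk_one]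

omit [Finite G] in
/-- `a < b`, `ker N^b ≤ ker N^a`, `N` nilpotent: the kernels are stationary from `a` on. -/
theorem nil_ker {N : End (ZMod p) V} (hN : IsNilpotent N) {a b : ℕ} (hab : a < b)
    (h : ∀ v, (N ^ b) v = 0 → (N ^ a) v = 0) : N ^ a = 0 := by
  obtain ⟨m, hm⟩ := hN
  obtain ⟨c, rfl⟩ := Nat.exists_eq_add_of_lt hab
  have key : ∀ n v, (N ^ (a + n)) v = 0 → (N ^ a) v = 0 := fun n => by
    induction n with
    | zero => exact fun _ e => e
    | succ n ih =>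
      refine fun v e => h v ?_
      rw [add_comm a c, add_assoc, pow_add, pow_succ, End.mul_apply, End.mul_apply, ih (N v) e, map_zero]
  exact LinearMap.ext fun v => key m v (by simp [pow_add, hm])

omit [Finite G] in
/-- `a < b`, `im N^a ≤ im N^b`, `N` nilpotent. -/
theorem nil_range {N : End (ZMod p) V} (hN : IsNilpotent N) {a b : ℕ} (hab : a < b)
    (h : ∀ v, ∃ w, (N ^ a) v = (N ^ b) w) : N ^ a = 0 := by
  obtain ⟨m, hm⟩ := hN
  obtain ⟨c, rfl⟩ := Nat.exists_eq_add_of_lt hab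
  have key : ∀ n v, ∃ w, (N ^ a) v = (N ^ (n + a)) w := fun n v => by
    induction n with
    | zero => exact ⟨v, by rw [zero_add]⟩
    | succ n ih =>
      obtain ⟨w, e⟩ := ih
      obtain ⟨u, e'⟩ := h w
      refine ⟨(N ^ c) u, ?_⟩
      rw [e, pow_add, End.mul_apply, e', ← End.mul_apply, ← End.mul_apply, ← pow_add, ← pow_add]
      congr 2
      omega
  refine LinearMap.ext fun v => ?_
  obtain ⟨w, e⟩ := key m v
  simp [e, pow_add, hm]

end H88.GG
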