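import Cfsg.Agent.Lib.GG.Gen

/-! Characteristic two: the groups `KK ρ t`. -/

set_option autoImplicit false
set_option linter.unusedSectionVars false

namespace H88.GG
open Module Subgroup Cfsg
open scoped MatrixGroups

universe u v

variable {G : Type*} [Group G] [Finite G] {V : Type*} [AddCommGroup V]
  [Module (ZMod 2) V] [Finite V] {ρ : G →* End (ZMod 2) V}

omit [Finite V] in
theorem two_v (v : V) : v + v = 0 := by
  rw [← two_smul (ZMod 2) v, show (2 : ZMod 2) = 0 from rfl, zero_smul]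

omit [Finite V] in
theorem K2.add_eq_zero' {a b : V} : a + b = 0 ↔ a = b := by
  rw [add_eq_zero_iff_eq_neg, neg_eq_of_add_eq_zero_left (two_v b)]

omit [Finite V] in
theorem two_e (a : End (ZMod 2) V) : a + a = 0 := by
  ext v; exact two_v _

omit [Finite G] [Finite V] in
theorem FF.comp (h : FF ρ) {H : Type*} [Group H] (f : H →* G) (hf : Function.Injective f) :
    FF (ρ.comp f) := by
  refine ⟨h.toFP.comp f hf, h.nt, fun t ht v hv => h.free (f t) ⟨fun e => ht.ne (hf ?_), ?_⟩ v hv⟩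
  · rw [e, map_one]
  · rw [← map_mul, ht.sq, map_one]

omit [Finite G] [Finite V] in
theorem FF.nontrivial (h : FF ρ) : Nontrivial V := by
  obtain ⟨v, hv⟩ := h.nt
  exact ⟨v, 0, hv⟩

omit [Finite G] in
theorem Iv.conj {t : G} (ht : Iv t) (g : G) : Iv (g * t * g⁻¹) := by
  refine ⟨fun e => ht.ne ?_, ?_⟩
  · rwa [mul_inv_eq_one, mul_eq_left] at e
  · rw [show g * t * g⁻¹ * (g * t * g⁻¹) = g * (t * t) * g⁻¹ by group, ht.sq]; group

omit [Finite G] in
theorem Iv.orderOf {t : G} (ht : Iv t) : orderOf t = 2 := by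
  exact orderOf_eq_prime (by rw [pow_two, ht.sq]) ht.ne

omit [Finite G] [Finite V] in
theorem self_mem_KK (ρ : G →* End (ZMod 2) V) (t : G) : t ∈ KK ρ t := by
  exact fun _ hv => hv

omit [Finite G] [Finite V] in
theorem mem_U_conj {g t : G} {v : V} : v ∈ U ρ (g * t * g⁻¹) ↔ ρ g⁻¹ v ∈ U ρ t := by
  rw [mem_U, mem_U, ap_mul, ap_mul]
  constructor
  · intro e
    have := congrArg (ρ g⁻¹) e
    rwa [ap_inv] at this
  · intro e
    rw [e, ap_inv']

omit [Finite G] [Finite V] in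
theorem mem_KK_conj {g t a : G} : a ∈ KK ρ (g * t * g⁻¹) ↔ g⁻¹ * a * g ∈ KK ρ t := by
  constructor
  · intro ha v hv
    have : ρ a (ρ g v) = ρ g v := ha _ (mem_U_conj.2 (by rw [ap_inv]; exact hv))
    rw [ap_mul, ap_mul, this, ap_inv]
  · intro ha v hv
    have := ha _ (mem_U_conj.1 hv)
    rw [ap_mul, ap_mul, ap_inv'] at this
    have := congrArg (ρ g) this
    rwa [ap_inv', ap_inv'] at this

omit [Finite G] [Finite V] in
theorem FF.mem_U_iff (h : FF ρ) {t : G} (ht : Iv t) {v : V} :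
    v ∈ U ρ t ↔ ∃ w, ρ t w + w = v := by
  refine ⟨h.free t ht v, ?_⟩
  rintro ⟨w, rfl⟩
  rw [mem_U, map_add, ← ap_mul, ht.sq, map_one, End.one_apply, add_comm]

theorem FF.card_U (h : FF ρ) {t : G} (ht : Iv t) : Nat.card (U ρ t) ^ 2 = Nat.card V := by
  have h1 : LinearMap.ker (ρ t + 1) = U ρ t := by
    ext v
    rw [LinearMap.mem_ker, mem_U, LinearMap.add_apply, End.one_apply]
    constructor
    · intro e
      rw [eq_neg_of_add_eq_zero_left e, neg_eq_of_add_eq_zero_left (two_v v)]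
    · intro e
      rw [e, two_v]
  have h2 : LinearMap.range (ρ t + 1) = U ρ t := by
    ext v
    rw [h.mem_U_iff ht]; rfl
  have h3 := Submodule.card_eq_card_quotient_mul_card (LinearMap.ker (ρ t + 1))
  rw [Nat.card_congr (LinearMap.quotKerEquivRange (ρ t + 1)).toEquiv, h1, h2] at h3
  rw [h3, pow_two]

theorem K2.U_eq_of_le (h : FF ρ) {t g : G} (ht : Iv t) (hg : Iv g) (e : U ρ t ≤ U ρ g) :
    U ρ t = U ρ g := by
  have h1 : Nat.card (U ρ t) = Nat.card (U ρ g) :=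
    Nat.pow_left_injective two_ne_zero ((h.card_U ht).trans (h.card_U hg).symm)
  exact SetLike.coe_injective (Set.eq_of_subset_of_ncard_le e (by
    rw [← Nat.card_coe_set_eq, ← Nat.card_coe_set_eq]; exact h1.ge))

theorem FF.U_ne_bot (h : FF ρ) {t : G} (ht : Iv t) : U ρ t ≠ ⊥ := by
  intro e
  have h1 := h.card_U ht
  have := h.nontrivial
  rw [e] at h1
  have h2 : 1 < Nat.card V := Finite.one_lt_card
  simp at h1
  omega

theorem FF.U_ne_top (h : FF ρ) {t : G} (ht : Iv t) : U ρ t ≠ ⊤ := by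
  intro e
  refine ht.ne (h.inj ?_)
  ext v
  rw [map_one, End.one_apply]
  exact mem_U.1 (e ▸ Submodule.mem_top)

/-- `g` fixes a non-zero vector, so has order `2^k`; `i = g^(2^(k-1))`; `U t ≤ U g ≤ U i` and `card_U`
give equality; `N = ρ g + 1`, `ρ i + 1 = N^(2^(k-1))`, so `nil_ker` gives `k = 1`. -/
theorem FF.iv_of_mem (h : FF ρ) {t g : G} (ht : Iv t) (hg : g ∈ KK ρ t) (h1 : g ≠ 1) : Iv g := by
  obtain ⟨v, hv, hv0⟩ := Submodule.exists_mem_ne_zero_of_ne_bot (h.U_ne_bot ht)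
  obtain ⟨k, hk⟩ := (h.toFP.stab_pgroup hv0 ⟨g, hg v hv⟩)
  replace hk : g ^ 2 ^ k = 1 := congrArg Subtype.val hk
  have hex : ∃ k, g ^ 2 ^ k = 1 := ⟨k, hk⟩
  classical
  obtain ⟨j, hj⟩ : ∃ j, Nat.find hex = j + 1 := Nat.exists_eq_succ_of_ne_zero fun e => by
    have := Nat.find_spec hex
    rw [e] at this
    exact h1 (by simpa using this)
  have a1 : g ^ 2 ^ (j + 1) = 1 := hj ▸ Nat.find_spec hex
  have a2 : g ^ 2 ^ j ≠ 1 := Nat.find_min hex (by omega)
  have hi : Iv (g ^ 2 ^ j) := ⟨a2, by rw [← pow_add, ← two_mul, ← pow_succ', a1]⟩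
  have hU : U ρ t = U ρ (g ^ 2 ^ j) := K2.U_eq_of_le h ht hi fun w hw =>
    (KK ρ t).pow_mem hg _ w hw
  rcases j with _ | j
  · simpa using hi
  exfalso
  have hN : ∀ i, (ρ g + 1) ^ 2 ^ i = ρ (g ^ 2 ^ i) + 1 := by
    intro i
    induction i with
    | zero => simp
    | succ i ih =>
      rw [pow_succ 2, pow_mul, ih, pow_mul, map_pow ρ _ 2, pow_two, pow_two]
      have := two_e (ρ (g ^ 2 ^ i))
      calc _ = ρ (g ^ 2 ^ i) * ρ (g ^ 2 ^ i) + 1 + (ρ (g ^ 2 ^ i) + ρ (g ^ 2 ^ i)) := by noncomm_ring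
        _ = _ := by rw [this, add_zero]
  have := nil_ker (N := ρ g + 1) ⟨2 ^ (j + 1 + 1), by rw [hN, a1, map_one, two_e]⟩ (a := 1)
    (b := 2 ^ (j + 1)) (Nat.one_lt_two_pow (by omega)) fun w hw => by
      rw [hN, LinearMap.add_apply, End.one_apply, K2.add_eq_zero'] at hw
      rw [pow_one, LinearMap.add_apply, End.one_apply, K2.add_eq_zero']
      exact hg w (mem_U.1 (hU ▸ mem_U.2 hw))
  refine h1 (h.inj ?_)
  ext w
  have := LinearMap.congr_fun this w
  rw [pow_one, LinearMap.add_apply, End.one_apply, LinearMap.zero_apply, K2.add_eq_zero'] at this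
  rw [this, map_one, End.one_apply]

theorem FF.U_eq (h : FF ρ) {t g : G} (ht : Iv t) (hg : g ∈ KK ρ t) (h1 : g ≠ 1) :
    U ρ g = U ρ t := by
  exact (K2.U_eq_of_le h ht (h.iv_of_mem ht hg h1) fun w hw => hg w hw).symm

theorem FF.KK_eq (h : FF ρ) {t g : G} (ht : Iv t) (hg : g ∈ KK ρ t) (h1 : g ≠ 1) :
    KK ρ g = KK ρ t := by
  ext a
  rw [mem_KK, mem_KK]
  simp only [← mem_U, h.U_eq ht hg h1]

theorem FF.sq (h : FF ρ) {t g : G} (ht : Iv t) (hg : g ∈ KK ρ t) : g * g = 1 := by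
  by_cases h1 : g = 1
  · rw [h1, one_mul]
  · exact (h.iv_of_mem ht hg h1).sq

theorem FF.comm (h : FF ρ) {t a b : G} (ht : Iv t) (ha : a ∈ KK ρ t) (hb : b ∈ KK ρ t) :
    a * b = b * a := by
  have h1 := h.sq ht (mul_mem ha hb)
  have h2 := h.sq ht ha
  have h3 := h.sq ht hb
  calc a * b = a * (a * b * (a * b)) * b := by rw [h1, mul_one]
    _ = a * a * (b * a) * (b * b) := by group
    _ = b * a := by rw [h2, h3, one_mul, mul_one]

theorem FF.pgroup (h : FF ρ) {t : G} (ht : Iv t) : IsPGroup 2 (KK ρ t) := by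
  exact fun x => ⟨1, Subtype.ext (by simpa [pow_two] using h.sq ht x.2)⟩

theorem FF.eq_one_of_fix (h : FF ρ) {t g : G} (ht : Iv t) (hg : g ∈ KK ρ t) {v : V}
    (hv : v ∉ U ρ t) (e : ρ g v = v) : g = 1 := by
  by_contra h1
  exact hv (h.U_eq ht hg h1 ▸ mem_U.2 e)

theorem FF.add_mem_U (h : FF ρ) {t g : G} (ht : Iv t) (hg : g ∈ KK ρ t) (v : V) :
    ρ g v + v ∈ U ρ t := by
  by_cases h1 : g = 1
  · rw [h1, map_one, End.one_apply, two_v]; exact zero_mem _
  · rw [← h.U_eq ht hg h1]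
    exact (h.mem_U_iff (h.iv_of_mem ht hg h1)).2 ⟨v, rfl⟩

theorem FF.ti (h : FF ρ) {t t' k : G} (ht : Iv t) (ht' : Iv t') (hk : k ∈ KK ρ t)
    (hk' : k ∈ KK ρ t') (h1 : k ≠ 1) : KK ρ t = KK ρ t' := by
  rw [← h.KK_eq ht hk h1, h.KK_eq ht' hk' h1]

theorem FF.mem_norm_iff (h : FF ρ) {t g : G} (ht : Iv t) :
    g ∈ normalizer (KK ρ t : Set G) ↔ g * t * g⁻¹ ∈ KK ρ t := by
  refine ⟨fun hg => (mem_normalizer_iff.1 hg t).1 (self_mem_KK ρ t), fun hg => ?_⟩
  have e := h.KK_eq ht hg (ht.conj g).ne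
  refine mem_normalizer_iff.2 fun a => ?_
  conv_rhs => rw [← e, mem_KK_conj]
  rw [show g⁻¹ * (g * a * g⁻¹) * g = a by group]

theorem FF.mem_norm_iff' (h : FF ρ) {t g : G} (ht : Iv t) :
    g ∈ normalizer (KK ρ t : Set G) ↔ ∀ v ∈ U ρ t, ρ g v ∈ U ρ t := by
  constructor
  · intro hg v hv
    have := (h.mem_norm_iff ht).1 hg
    rw [← h.U_eq ht this (ht.conj g).ne, mem_U_conj, ap_inv]
    exact hv
  · intro hg
    refine (inv_mem_iff (x := g)).1 ((h.mem_norm_iff ht).2 fun v hv => ?_)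
    exact mem_U.1 (mem_U_conj.2 (by rw [inv_inv]; exact hg v hv))

theorem FF.mem_norm_of_conj (h : FF ρ) {t k g : G} (ht : Iv t) (hk : k ∈ KK ρ t) (h1 : k ≠ 1)
    (hg : g * k * g⁻¹ ∈ KK ρ t) : g ∈ normalizer (KK ρ t : Set G) := by
  have e := h.KK_eq ht hk h1
  rw [← e] at hg ⊢
  exact (h.mem_norm_iff (h.iv_of_mem ht hk h1)).2 hg

theorem FF.norm_ne_top [IsSimpleGroup G] (hna : ¬ IsMulCommutative G) (h : FF ρ) {t : G}
    (ht : Iv t) : normalizer (KK ρ t : Set G) ≠ ⊤ := by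
  intro e
  have hn : (KK ρ t).Normal := normalizer_eq_top_iff.1 e
  rcases hn.eq_bot_or_eq_top with e | e
  · exact ht.ne (mem_bot.1 (e ▸ self_mem_KK ρ t))
  · exact hna ⟨⟨fun a b => h.comm ht (e ▸ mem_top a) (e ▸ mem_top b)⟩⟩

omit [Finite G] in
theorem E2_of_mem {Q : Subgroup G} (hQ : IsPGroup 2 Q) {x : G} (hx : x ∈ Q) : E2 x := by
  obtain ⟨k, hk⟩ := hQ ⟨x, hx⟩
  exact ⟨k, congrArg Subtype.val hk⟩

omit [Finite G] in
theorem E2.inv {x : G} (h : E2 x) : E2 x⁻¹ := by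
  obtain ⟨k, hk⟩ := h
  exact ⟨k, by rw [inv_pow, hk, inv_one]⟩

omit [Finite G] in
theorem E2.conj {x : G} (h : E2 x) (g : G) : E2 (g * x * g⁻¹) := by
  obtain ⟨k, hk⟩ := h
  exact ⟨k, by rw [conj_pow, hk]; group⟩

omit [Finite G] in
theorem E2.mul {Q : Subgroup G} (hQ : IsPGroup 2 Q) {k x : G} (hk : k ∈ Q)
    (hx : x ∈ normalizer (Q : Set G)) (h : E2 x) : E2 (k * x) := by
  obtain ⟨j, hj⟩ := h
  have key : ∀ n : ℕ, (k * x) ^ n * (x ^ n)⁻¹ ∈ Q := by
    intro n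
    induction n with
    | zero => simp
    | succ n ih =>
      rw [show (k * x) ^ (n + 1) * (x ^ (n + 1))⁻¹ =
        k * (x * ((k * x) ^ n * (x ^ n)⁻¹) * x⁻¹) by rw [pow_succ', pow_succ']; group]
      exact mul_mem hk ((mem_normalizer_iff.1 hx _).1 ih)
  have := key (2 ^ j)
  rw [hj, inv_one, mul_one] at this
  obtain ⟨i, hi⟩ := E2_of_mem hQ this
  exact ⟨j + i, by rw [pow_add, pow_mul, hi]⟩

omit [Finite G] [Finite V] in
theorem C1.inv {y t : G} (hc : C1 ρ y t) : C1 ρ y⁻¹ t := by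
  refine ⟨hc.iv, by rw [orderOf_inv, hc.y3], ?_⟩
  have h1 : t⁻¹ = t := inv_eq_of_mul_eq_one_right hc.iv.sq
  have h2 : y⁻¹ * t = t * (y * t)⁻¹ * t⁻¹ := by rw [mul_inv_rev, h1, ← mul_assoc, hc.iv.sq, one_mul]
  rw [h2, conj_pow, inv_pow, hc.yt]; group

omit [Finite G] [Finite V] in
theorem C1.conj {y t : G} (hc : C1 ρ y t) (g : G) : C1 ρ (g * y * g⁻¹) (g * t * g⁻¹) := by
  refine ⟨hc.iv.conj g, ?_, ?_⟩
  · rw [← hc.y3]; exact (MulAut.conj g).orderOf_eq y
  · rw [show g * y * g⁻¹ * (g * t * g⁻¹) = g * (y * t) * g⁻¹ by group, conj_pow, hc.yt]; group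

omit [Finite G] [Finite V] in
theorem C1.not_comm {y t : G} (hc : C1 ρ y t) : y * t ≠ t * y := by
  intro e
  have h1 := hc.yt
  rw [Commute.mul_pow e, ← hc.y3, pow_orderOf_eq_one, hc.y3, one_mul, pow_succ, pow_two, hc.iv.sq,
    one_mul] at h1
  exact hc.iv.ne h1

omit [Finite G] [Finite V] in
theorem C1.yt3 {y t : G} (hc : C1 ρ y t) : orderOf (y * t) = 3 := by
  refine orderOf_eq_prime hc.yt fun e => hc.not_comm ?_
  rw [e, mul_eq_one_comm.1 e]

/-- `A² + A + 1 = 0 = (AT)² + AT + 1` and `T² = 1` give `(T + 1) A = A² (T + 1)`. -/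
theorem C1.swap (h : FF ρ) {y t : G} (hc : C1 ρ y t) :
    (ρ t + 1) * ρ y = ρ y * ρ y * (ρ t + 1) := by
  have h1 := h.toFP.quad (by norm_num) hc.y3
  have h2 := h.toFP.quad (by norm_num) hc.yt3
  rw [map_mul] at h2
  have h3 : ρ t * ρ t = 1 := by rw [← map_mul, hc.iv.sq, map_one]
  have h4 : ρ y * ρ y * ρ y = 1 := by
    rw [← map_mul, ← map_mul, ← pow_three', ← hc.y3, pow_orderOf_eq_one, map_one]
  generalize ρ y = A at *
  generalize ρ t = T at *
  have h5 : A * A * (A * T * (A * T) + A * T + 1) * T = T * A + 1 + A * A * T := by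
    calc _ = (A * A * A) * T * A * (T * T) + (A * A * A) * (T * T) + A * A * T := by noncomm_ring
      _ = _ := by rw [h3, h4]; noncomm_ring
  rw [h2, mul_zero, zero_mul] at h5
  have h6 := two_e (A * A * T + A * A + 1)
  calc (T + 1) * A = (T * A + 1 + A * A * T) + (A * A + A + 1) - (A * A * T + A * A + 1 +
        (A * A * T + A * A + 1)) + A * A * (T + 1) := by noncomm_ring
    _ = _ := by rw [← h5, h1, h6]; simp

theorem C1.norm (h : FF ρ) {y t : G} (hc : C1 ρ y t) : y ∈ normalizer (KK ρ t : Set G) := by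
  refine (h.mem_norm_iff' hc.iv).2 fun v hv => ?_
  have := LinearMap.congr_fun (hc.swap h) v
  simp only [End.mul_apply, LinearMap.add_apply, End.one_apply] at this
  rw [mem_U.1 hv, two_v, map_zero, map_zero, K2.add_eq_zero'] at this
  exact this

end H88.GG
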