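import Cfsg.Agent.Lib.GG.Nat

/-! Root groups act like `uu 1`; lifting. -/

set_option autoImplicit false

namespace H88.GG
open Module Subgroup Cfsg
open scoped MatrixGroups

universe u v

variable {G : Type*} [Group G] [Finite G] {V : Type*} [AddCommGroup V]
  [Module (ZMod 2) V] [Finite V] {ρ : G →* End (ZMod 2) V}
variable {F : Type*} [Field F] [Fintype F] [CharP F 2]

/-- `⟨y⟩` and `⟨s₀ y s₀⁻¹⟩` are Sylow 3-subgroups of `ker π ⊔ ⟨y⟩`, so conjugate by an element of `ker π`. -/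
theorem exists_lift_s (π : G →* SL(2, F)) (hs : Function.Surjective π) (hk : IsPGroup 2 π.ker)
    {y : G} (hy : orderOf y = 3) (hπ : π y = yy F) : ∃ s, π s = uu 1 ∧ s * y * s⁻¹ = y⁻¹ := by
  classical
  obtain ⟨s, e⟩ := hs (uu 1)
  have y3 : y ^ 3 = 1 := hy ▸ pow_orderOf_eq_one y
  have e1 : π (s * y * s⁻¹) = (π y)⁻¹ := by rw [map_mul, map_mul, map_inv, e, hπ, uu_one_yy]
  let σ : Equiv.Perm π.ker :=
    { toFun := fun k => ⟨y * k * (s * y * s⁻¹), by
        rw [MonoidHom.mem_ker, map_mul, map_mul, k.2, e1, mul_one, mul_inv_cancel]⟩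
      invFun := fun k => ⟨y⁻¹ * k * (s * y * s⁻¹)⁻¹, by
        rw [MonoidHom.mem_ker, map_mul, map_mul, k.2, map_inv, map_inv, e1, mul_one, mul_inv_cancel]⟩
      left_inv := fun k => Subtype.ext (by simp only; group)
      right_inv := fun k => Subtype.ext (by simp only; group) }
  have := Fintype.ofFinite π.ker
  haveI : Fact (Nat.Prime 3) := ⟨Nat.prime_three⟩
  obtain ⟨n, hn⟩ := IsPGroup.iff_card.1 hk
  obtain ⟨c, hc⟩ := Equiv.Perm.exists_fixed_point_of_prime (p := 3) (n := 1) (σ := σ) (by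
    rw [← Nat.card_eq_fintype_card, hn]
    exact fun h => absurd (Nat.prime_three.dvd_of_dvd_pow h) (by decide)) (Equiv.ext fun k => Subtype.ext (by
      change y * (y * (y * k * (s * y * s⁻¹)) * (s * y * s⁻¹)) * (s * y * s⁻¹) = k
      calc _ = y ^ 3 * k * (s * y ^ 3 * s⁻¹) := by simp only [pow_succ, pow_zero, one_mul, mul_assoc, inv_mul_cancel_left]
        _ = _ := by rw [y3]; group))
  have hc' : y * c * (s * y * s⁻¹) = c := congrArg Subtype.val hc
  refine ⟨c * s, by rw [map_mul, c.2, e, one_mul], ?_⟩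
  calc c * s * y * (c * s)⁻¹ = y⁻¹ * (y * c * (s * y * s⁻¹)) * (c : G)⁻¹ := by group
    _ = _ := by rw [hc']; group

theorem exists_lift3 {H : Type*} [Group H] (π : G →* H) (hs : Function.Surjective π)
    (hk : IsPGroup 2 π.ker) {x : H} (hx : orderOf x = 3) : ∃ z, orderOf z = 3 ∧ π z = x := by
  obtain ⟨g, rfl⟩ := hs x
  have x3 : π g ^ 3 = 1 := hx ▸ pow_orderOf_eq_one _
  obtain ⟨k, e⟩ := hk ⟨g ^ 3, by rw [MonoidHom.mem_ker, map_pow, x3]⟩
  have e' : (g ^ 3) ^ 2 ^ k = 1 := congrArg Subtype.val e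
  have e2 : π (g ^ (2 ^ k * 2 ^ k)) = π g := by
    rw [map_pow, ← mul_pow, ← pow_mod_orderOf, hx, Nat.pow_mod]; simp
  haveI : Fact (Nat.Prime 3) := ⟨Nat.prime_three⟩
  refine ⟨_, orderOf_eq_prime ?_ fun h => ?_, e2⟩
  · rw [← pow_mul, mul_comm _ 3, ← mul_assoc, pow_mul, pow_mul, e', one_pow]
  · rw [← e2, h, map_one, orderOf_one] at hx
    exact absurd hx (by decide)

end H88.GG
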