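import Cfsg.Agent.Lib.GG.Defs
import Cfsg.Agent.Lib.SL2Elt.Order

/-! Matrix computations in `SL₂`. -/

set_option autoImplicit false

namespace H88.GG
open Module Subgroup Cfsg
open scoped MatrixGroups

universe u v

variable {F : Type*} [Field F]

theorem uu_add (a b : F) : uu (a + b) = uu a * uu b := by
  refine Subtype.ext ?_
  rw [Matrix.SpecialLinearGroup.coe_mul, uu_val, uu_val, uu_val]
  ext i j; fin_cases i <;> fin_cases j <;> simp [Matrix.mul_apply, Fin.sum_univ_two, add_comm]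

theorem uu_zero : uu (0 : F) = 1 := by
  ext i j; fin_cases i <;> fin_cases j <;> simp [uu]

theorem uu_neg (a : F) : uu (-a) = (uu a)⁻¹ :=
  eq_inv_of_mul_eq_one_left (by rw [← uu_add, neg_add_cancel, uu_zero])

variable (F) in
/-- the upper unitriangular group -/
def UU : Subgroup SL(2, F) where
  carrier := {x | ∃ t, uu t = x}
  one_mem' := ⟨0, uu_zero⟩
  mul_mem' := by rintro _ _ ⟨a, rfl⟩ ⟨b, rfl⟩; exact ⟨a + b, uu_add a b⟩
  inv_mem' := by rintro _ ⟨a, rfl⟩; exact ⟨-a, uu_neg a⟩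

theorem mem_UU {x : SL(2, F)} : x ∈ UU F ↔ ∃ t, uu t = x := Iff.rfl

theorem eqns_UU : True := by
  have := @UU.eq_1.{0}
  trivial

open H64.SL2

theorem SLa.ent : (∀ t : F, uu t 0 0 = 1) ∧ (∀ t : F, uu t 0 1 = t) ∧ (∀ t : F, uu t 1 0 = 0) ∧
    (∀ t : F, uu t 1 1 = 1) ∧ yy F 0 0 = 0 ∧ yy F 0 1 = -1 ∧ yy F 1 0 = 1 ∧ yy F 1 1 = -1 ∧
    ww F 0 0 = 0 ∧ ww F 0 1 = -1 ∧ ww F 1 0 = 1 ∧ ww F 1 1 = 0 ∧ (∀ μ : Fˣ, hh μ 0 0 = μ) ∧
    (∀ μ : Fˣ, hh μ 0 1 = 0) ∧ (∀ μ : Fˣ, hh μ 1 0 = 0) ∧ ∀ μ : Fˣ, hh μ 1 1 = (μ⁻¹ : Fˣ) := by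
  refine ⟨?_, ?_, ?_, ?_, rfl, rfl, rfl, rfl, rfl, rfl, rfl, rfl, ?_, ?_, ?_, ?_⟩ <;> exact fun _ => rfl

/-- an element of order three has trace `-1` -/
theorem SLa.tr_three {x : SL(2, F)} (hx : orderOf x = 3) : x 0 0 + x 1 1 = -1 := by
  have d := det_eq x
  have e : x * x = x⁻¹ := eq_inv_of_mul_eq_one_left (by rw [← pow_three', ← hx, pow_orderOf_eq_one])
  have n : x ≠ 1 := fun h => by simp [h] at hx
  simp only [ext_iff', mul_apply', inv_00, inv_01, inv_10, inv_11] at e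
  by_contra t
  refine n ?_
  have b : x 0 1 = 0 := by grind
  have c : x 1 0 = 0 := by grind
  have a : x 0 0 = 1 := by grind
  have a' : x 1 1 = 1 := by grind
  simp [ext_iff', a, a', b, c]

theorem uu_inj : Function.Injective (uu : F → SL(2, F)) := by
  exact fun a b h => congrArg (fun x : SL(2, F) => x 0 1) h

theorem uu_comm (a b : F) : uu a * uu b = uu b * uu a := by
  rw [← uu_add, ← uu_add, add_comm]

theorem orderOf_yy : orderOf (yy F) = 3 := by
  haveI : Fact (Nat.Prime 3) := ⟨Nat.prime_three⟩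
  refine orderOf_eq_prime ?_ ?_
  · rw [pow_three]
    simp [ext_iff', mul_apply', inv_00, inv_01, inv_10, inv_11, SLa.ent]
  · simp [ext_iff', mul_apply', inv_00, inv_01, inv_10, inv_11, SLa.ent]

theorem yy_uu_ne {t : F} (ht : t ≠ 0) : yy F * uu t ≠ uu t * yy F := by
  simp [ext_iff', mul_apply', SLa.ent, ht]

theorem hh_mul (a b : Fˣ) : hh (a * b) = hh a * hh b := by
  simp [ext_iff', mul_apply', SLa.ent, mul_comm]

theorem hh_one : hh (1 : Fˣ) = 1 := by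
  simp [ext_iff', mul_apply', inv_00, inv_01, inv_10, inv_11, SLa.ent]

theorem hh_uu (μ : Fˣ) (t : F) : hh μ * uu t * (hh μ)⁻¹ = uu ((μ : F) ^ 2 * t) := by
  simp [ext_iff', mul_apply', inv_00, inv_01, inv_10, inv_11, SLa.ent]
  ring

theorem ww_hh (μ : Fˣ) : ww F * hh μ = hh μ⁻¹ * ww F := by
  simp [ext_iff', mul_apply', inv_00, inv_01, inv_10, inv_11, SLa.ent]

/-- upper and lower unitriangular matrices generate `SL₂`. -/
theorem UU_sup_ww : UU F ⊔ zpowers (ww F) = ⊤ := by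
  have w : ww F ∈ UU F ⊔ zpowers (ww F) := mem_sup_right (mem_zpowers _)
  refine eq_top_iff.2 fun x _ => Matrix.SL2.transvection_induction (· ∈ UU F ⊔ zpowers (ww F))
    (fun i j h c => ?_) (fun _ _ => mul_mem) x
  fin_cases i <;> fin_cases j
  · exact absurd rfl h
  · refine mem_sup_left ⟨c, ?_⟩
    simp [ext_iff', SLa.ent, Matrix.SpecialLinearGroup.transvection_coe]
  · convert mul_mem (mul_mem w (mem_sup_left ⟨-c, rfl⟩)) (inv_mem w) using 1
    simp [ext_iff', mul_apply', inv_00, inv_01, inv_10, inv_11, SLa.ent,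
      Matrix.SpecialLinearGroup.transvection_coe]
  · exact absurd rfl h

theorem UU_sup_yy : UU F ⊔ zpowers (yy F) = ⊤ := by
  rw [eq_top_iff, ← UU_sup_ww]
  refine sup_le le_sup_left (zpowers_le.2 ?_)
  convert mul_mem (mem_sup_right (mem_zpowers (yy F))) (mem_sup_left (S := UU F) ⟨1, rfl⟩) using 1
  simp [ext_iff', mul_apply', inv_00, inv_01, inv_10, inv_11, SLa.ent]

section
variable [CharP F 2]

theorem uu_sq (t : F) : uu t * uu t = 1 := by
  rw [← uu_add, CharTwo.add_self_eq_zero, uu_zero]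

theorem iv_uu {t : F} (ht : t ≠ 0) : Iv (uu t) := by
  exact ⟨fun e => ht (uu_inj (e.trans uu_zero.symm)), uu_sq t⟩

theorem pgroup_UU : IsPGroup 2 (UU F) := by
  rintro ⟨_, t, rfl⟩
  exact ⟨1, Subtype.ext (by simpa [pow_two] using uu_sq t)⟩

theorem uu_one_yy : uu (1 : F) * yy F * (uu 1)⁻¹ = (yy F)⁻¹ := by
  simp [ext_iff', mul_apply', inv_00, inv_01, inv_10, inv_11, SLa.ent]
  grind

theorem ww_sq : ww F * ww F = 1 := by
  simp [ext_iff', mul_apply', SLa.ent, CharTwo.neg_eq]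

theorem uu_low (ν : Fˣ) :
    uu (ν : F) * (ww F * uu ((ν⁻¹ : Fˣ) : F) * ww F) * uu (ν : F) = hh ν * ww F := by
  simp [ext_iff', mul_apply', SLa.ent]

theorem uu_conj_yy {t : F}
    (h : uu t * yy F * (uu t)⁻¹ = yy F ∨ uu t * yy F * (uu t)⁻¹ = (yy F)⁻¹) : t = 0 ∨ t = 1 := by
  rcases h with h | h
  · exact .inl (by simpa [mul_apply', inv_00, inv_10, SLa.ent] using congrArg (fun x : SL(2, F) => x 0 0) h)
  · exact .inr (by simpa [mul_apply', inv_00, inv_10, SLa.ent, CharTwo.neg_eq] using congrArg (fun x : SL(2, F) => x 0 0) h)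

theorem mem_UU_of_comm {x : SL(2, F)} (h : x * uu 1 = uu 1 * x) : x ∈ UU F := by
  have d := det_eq x
  simp [ext_iff', mul_apply', SLa.ent] at h
  refine ⟨x 0 1, ?_⟩
  have e : (x 0 0 - 1) ^ 2 = 0 := by grind
  have e' := sub_eq_zero.1 (pow_eq_zero_iff two_ne_zero |>.1 e)
  simp only [ext_iff', SLa.ent]
  grind

/-- trace `1`; inverted by `uu 1` forces the lower left entry to be `1`. -/
theorem inv_by_uu {x : SL(2, F)} (hx : orderOf x = 3) (h : uu 1 * x * (uu 1)⁻¹ = x⁻¹) :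
    ∃ a, x = uu a * yy F * (uu a)⁻¹ := by
  have d := det_eq x
  have t := SLa.tr_three hx
  have e := congrArg (fun x : SL(2, F) => x 0 0) h
  simp [mul_apply', inv_00, inv_10, SLa.ent] at e
  refine ⟨x 0 0, ?_⟩
  simp only [ext_iff', mul_apply', inv_00, inv_01, inv_10, inv_11, SLa.ent]
  grind

/-- `g² = τ g + 1`, so `g^(2^k) = τ^(2^k - 1) g + b`; for `2^k = q`: `g^q = g + b`, and `det = 1` gives `b = 0` or
`b = τ`, that is `g^(q-1) = 1` or `g^(q+1) = 1`. -/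
theorem odd_of_trace [Fintype F] (x : SL(2, F)) (h : x.1 0 0 + x.1 1 1 ≠ 0) :
    ∃ m, Odd m ∧ x ^ m = 1 := by
  have t : tr x ^ 2 ≠ 4 := fun e => h (pow_eq_zero_iff two_ne_zero |>.1 (e.trans (by grind)))
  have ev : Even (Nat.card F) := by
    rw [Nat.card_eq_fintype_card]
    exact even_iff_two_dvd.2 (char_dvd_card 2)
  by_cases s : Split x
  · exact ⟨_, Nat.Even.sub_odd Nat.card_pos ev odd_one, pow_eq_one_of_split t s⟩
  · exact ⟨_, ev.add_one, pow_eq_one_of_not_split s⟩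

end

end H88.GG
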