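import Cfsg.Agent.Lib.GG.Ring2
import Cfsg.Agent.Lib.GG.SLa

/-! Root groups act like `uu 1`; lifting. -/

set_option autoImplicit false
set_option maxHeartbeats 400000

namespace H88.GG
open Module Subgroup Cfsg
open scoped MatrixGroups

universe u v

variable {G : Type*} [Group G] [Finite G] {V : Type*} [AddCommGroup V]
  [Module (ZMod 2) V] [Finite V] {ρ : G →* End (ZMod 2) V}
variable {F : Type*} [Field F] [Fintype F] [CharP F 2]

namespace Nat

/-- the action on the section `W1/U0` -/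
noncomputable def sec {G : Type*} [Group G] {V : Type*} [AddCommGroup V] [Module (ZMod 2) V]
    (ρ : G →* End (ZMod 2) V) (U0 W1 : Submodule (ZMod 2) V)
    (h0 : ∀ g, ∀ v ∈ U0, ρ g v ∈ U0) (h1 : ∀ g, ∀ v ∈ W1, ρ g v ∈ W1) :
    G →* End (ZMod 2) (W1 ⧸ U0.comap W1.subtype) where
  toFun g := (U0.comap W1.subtype).mapQ (U0.comap W1.subtype) ((ρ g).restrict (h1 g))
    (fun v hv => h0 g v hv)
  map_one' := by
    refine Submodule.linearMap_qext _ (LinearMap.ext fun v => ?_)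
    change Submodule.Quotient.mk (⟨ρ 1 v, h1 1 v v.2⟩ : W1) = Submodule.Quotient.mk v
    congr 1
    exact Subtype.ext (by simp)
  map_mul' a b := by
    refine Submodule.linearMap_qext _ (LinearMap.ext fun v => ?_)
    change Submodule.Quotient.mk (⟨ρ (a * b) v, h1 _ v v.2⟩ : W1) =
      Submodule.Quotient.mk (⟨ρ a (ρ b v), h1 a _ (h1 b v v.2)⟩ : W1)
    congr 1
    exact Subtype.ext (ap_mul ρ a b v)

theorem sec_mk {G : Type*} [Group G] {V : Type*} [AddCommGroup V] [Module (ZMod 2) V]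
    (ρ : G →* End (ZMod 2) V) (U0 W1 : Submodule (ZMod 2) V)
    (h0 : ∀ g, ∀ v ∈ U0, ρ g v ∈ U0) (h1 : ∀ g, ∀ v ∈ W1, ρ g v ∈ W1) (g : G) (w : W1) :
    sec ρ U0 W1 h0 h1 g (Submodule.Quotient.mk w) =
      Submodule.Quotient.mk (⟨ρ g w, h1 g w w.2⟩ : W1) := rfl

theorem sec_fix {G : Type*} [Group G] {V : Type*} [AddCommGroup V] [Module (ZMod 2) V]
    (ρ : G →* End (ZMod 2) V) (U0 W1 : Submodule (ZMod 2) V)
    (h0 : ∀ g, ∀ v ∈ U0, ρ g v ∈ U0) (h1 : ∀ g, ∀ v ∈ W1, ρ g v ∈ W1) (g : G) (w : W1) :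
    sec ρ U0 W1 h0 h1 g (Submodule.Quotient.mk w) = Submodule.Quotient.mk w ↔
      ρ g w - w ∈ U0 := by
  rw [sec_mk, Submodule.Quotient.eq]
  rfl

theorem eqns : True := by
  have := @sec.eq_1.{0, 0}
  trivial

theorem tr {F : Type*} [Field F] (t : F) :
    (yy F * uu t).1 0 0 + (yy F * uu t).1 1 1 = t - 1 := by
  rw [Matrix.SpecialLinearGroup.coe_mul, uu_val, yy_val]
  simp [Matrix.mul_apply, Fin.sum_univ_two]
  ring

end Nat

omit [Finite G] [Finite V] in
/-- Pass to the quotient `W1/U0` (`LinearMap.restrict`, `Submodule.mapQ`; or `Representation.subrepresentation`,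
`Representation.quotient`), on which two elements with the same image under `π` act equally, and use `ringQ` for
`Y, A, C = y, s, c`; for `t ≠ 0, 1` the traces of `yy * uu t` and `yy * uu t * uu 1` are `t + 1` and `t`
(`odd_of_trace`); `t = 0, 1` are trivial. -/
theorem nat (ρ : G →* End (ZMod 2) V) (π : G →* SL(2, F)) {U0 W1 : Submodule (ZMod 2) V}
    (hle : U0 ≤ W1) (h0 : ∀ g, ∀ v ∈ U0, ρ g v ∈ U0) (h1 : ∀ g, ∀ v ∈ W1, ρ g v ∈ W1)
    (hk : ∀ q, π q = 1 → ∀ w ∈ W1, ρ q w - w ∈ U0) {y s c : G} (hy : π y = yy F)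
    (hq : ρ y * ρ y + ρ y + 1 = 0) (hs : π s = uu 1) {t : F} (hc : π c = uu t) {w : V}
    (hw : w ∈ W1) (e : ρ s w - w ∈ U0) : ρ c w - w ∈ U0 := by
  classical
  set σ := Nat.sec ρ U0 W1 h0 h1 with hσ
  have k1 : ∀ q, π q = 1 → σ q = 1 := by
    intro q hq1
    refine Submodule.linearMap_qext _ (LinearMap.ext fun v => ?_)
    exact (Nat.sec_fix ρ U0 W1 h0 h1 q v).2 (hk q hq1 v v.2)
  have k2 : ∀ a b, π a = π b → σ a = σ b := by
    intro a b hab
    have := k1 (a⁻¹ * b) (by rw [map_mul, map_inv, hab, inv_mul_cancel])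
    calc σ a = σ a * σ (a⁻¹ * b) := by rw [this, mul_one]
      _ = σ b := by rw [← map_mul, mul_inv_cancel_left]
  have e' := (Nat.sec_fix ρ U0 W1 h0 h1 s ⟨w, hw⟩).2 e
  refine (Nat.sec_fix ρ U0 W1 h0 h1 c ⟨w, hw⟩).1 ?_
  by_cases t0 : t = 0
  · rw [← hσ, k1 c (by rw [hc, t0, uu_zero])]; rfl
  by_cases t1 : t = 1
  · rw [← hσ, k2 c s (by rw [hc, hs, t1])]; exact e'
  obtain ⟨m, hm, em⟩ := odd_of_trace (yy F * uu t) (by rw [Nat.tr]; exact sub_ne_zero.2 t1)
  obtain ⟨m', hm', em'⟩ := odd_of_trace (yy F * uu (t + 1))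
    (by rw [Nat.tr, add_sub_cancel_right]; exact t0)
  have y3 : yy F * yy F = (yy F)⁻¹ := by
    have := pow_orderOf_eq_one (yy F)
    rw [orderOf_yy, pow_succ, pow_two] at this
    exact eq_inv_of_mul_eq_one_left this
  refine ringQ (Y := σ y) (A := σ s) (C := σ c) ?_ ?_ ?_ ?_ ?_ hm hm' ?_ ?_ e'
  · refine Submodule.linearMap_qext _ (LinearMap.ext fun v => ?_)
    have hv := LinearMap.congr_fun hq (v : V)
    simp only [LinearMap.add_apply, End.mul_apply, End.one_apply, LinearMap.zero_apply] at hv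
    simp only [LinearMap.comp_apply, Submodule.mkQ_apply, LinearMap.add_apply, End.mul_apply,
      End.one_apply, LinearMap.zero_apply, hσ, Nat.sec_mk]
    rw [← Submodule.Quotient.mk_add, ← Submodule.Quotient.mk_add, ← Submodule.Quotient.mk_zero]
    congr 1
    exact Subtype.ext hv
  · rw [← map_mul]; exact k1 _ (by rw [map_mul, hs, uu_sq])
  · rw [← map_mul]; exact k1 _ (by rw [map_mul, hc, uu_sq])
  · rw [← map_mul, ← map_mul, ← map_mul]
    refine k2 _ _ ?_
    rw [map_mul, map_mul, map_mul, hs, hy, y3, ← uu_one_yy, inv_mul_cancel_right]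
  · rw [← map_mul, ← map_mul]
    exact k2 _ _ (by rw [map_mul, map_mul, hs, hc, uu_comm])
  · rw [← map_mul, ← map_pow]
    exact k1 _ (by rw [map_pow, map_mul, hy, hc, em])
  · rw [← map_mul, ← map_mul, ← map_pow]
    exact k1 _ (by rw [map_pow, map_mul, map_mul, hy, hc, hs, mul_assoc, ← uu_add, em'])

end H88.GG
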