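import Cfsg.Agent.Lib.GG.Odd1b
import Cfsg.Agent.Lib.Unitary.Order

/-! Unitary and alternating groups do not occur. -/

set_option autoImplicit false

namespace H88.GG
open Module Subgroup Cfsg
open scoped MatrixGroups

universe u v

variable {G : Type*} [Group G] [Finite G] {V : Type*} [AddCommGroup V]
  [Module (ZMod 2) V] [Finite V] {ρ : G →* End (ZMod 2) V}
variable [Nontrivial V]

namespace NotU

open H11.U Matrix

variable {F : Type} [Field F] [Fintype F] {q : ℕ} [IsSq F q]

theorem exists_x (h : 3 ≤ q) : ∃ x : F, x * cj q x = 1 ∧ x ^ 3 ≠ 1 := by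
  classical
  by_contra n
  push Not at n
  have c := card_norm_eq (q := q) (one_ne_zero (α := F)) (map_one _)
  have l : Nat.card {x : F // x * cj q x = 1} ≤ Nat.card (Polynomial.nthRootsFinset 3 (1 : F)) :=
    Nat.card_le_card_of_injective
      (fun x => ⟨x.1, (Polynomial.mem_nthRootsFinset (by norm_num) 1).2 (n x.1 x.2)⟩)
      fun a b e => Subtype.ext (congrArg Subtype.val e :)
  have l2 : (Polynomial.nthRootsFinset 3 (1 : F)).card ≤ 3 := by
    rw [Polynomial.nthRootsFinset_def]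
    exact (Multiset.toFinset_card_le _).trans (Polynomial.card_nthRoots 3 1)
  rw [c, Nat.card_eq_finsetCard] at l
  omega

theorem exists_dg (c : Fin 3 → F) (h : ∀ i, c i * cj q (c i) = 1) (hd : c 0 * c 1 * c 2 = 1) :
    ∃ g : SU 3 F q, g.1.1 = diagonal c :=
  ⟨toSU (diagonal c) (isIso_iff.2 (by
    rw [diagonal_transpose, diagonal_map (map_zero _), diagonal_mul_diagonal, ← diagonal_one]
    exact congrArg diagonal (funext h))) (by rw [det_diagonal, Fin.prod_univ_three, hd]), rfl⟩

omit [Fintype F] [IsSq F q] in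
theorem val_pow {g : SU 3 F q} {c : Fin 3 → F} (h : g.1.1 = diagonal c) (k : ℕ) :
    (g ^ k).1.1 = diagonal (c ^ k) := by
  rw [← diagonal_pow, ← h]; rfl

theorem of_eq {g g' : SU 3 F q} (h : (g : PSU 3 F q) = g') : ∃ c : F, g'.1.1 = c • g.1.1 := by
  obtain ⟨c, hc⟩ := (mem_center_SU_iff (by norm_num)).1 (QuotientGroup.eq.1 h)
  refine ⟨c, ?_⟩
  have : g'.1.1 = g.1.1 * (g⁻¹ * g').1.1 :=
    congrArg (fun x : SU 3 F q => x.1.1) (mul_inv_cancel_left g g').symm
  rw [this, hc, Matrix.mul_smul, Matrix.mul_one]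

end NotU

open NotU H11.U Matrix in
/-- `λ` of order `q + 1`; the images of `diag(λ, λ⁻¹, 1)`, `diag(1, λ, λ⁻¹)` (in an orthonormal basis) commute and have
order `q + 1`; `mem_zpowers'` gives `λ³ = 1`.  (Any other `Z_r × Z_r`, `r` odd, also does.) -/
theorem not_psu (h : FP ρ) {F : Type} [Field F] [Fintype F] {a : ℕ} (ha : 2 ≤ a)
    (hF : Fintype.card F = (2 ^ a) ^ 2) (e : G ≃* PSU 3 F (2 ^ a)) : False := by
  have : Fact (Nat.Prime 2) := ⟨Nat.prime_two⟩
  have : IsSq F (2 ^ a) := ⟨hF⟩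
  have h4 : 2 ^ 2 ≤ 2 ^ a := Nat.pow_le_pow_right (by norm_num) ha
  have ho : Odd (2 ^ a + 1) := (Nat.even_pow.2 ⟨even_two, by omega⟩).add_one
  generalize 2 ^ a = q at *
  obtain ⟨x, hx, x3⟩ := exists_x (F := F) (q := q) (by omega)
  have hx' : cj q x * cj q (cj q x) = 1 := by rw [cj_cj, mul_comm, hx]
  obtain ⟨A, hA⟩ := exists_dg (q := q) ![x, cj q x, 1]
    (fun i => by fin_cases i <;> simp [hx, hx']) (by simp [hx])
  obtain ⟨B, hB⟩ := exists_dg (q := q) ![1, x, cj q x]
    (fun i => by fin_cases i <;> simp [hx, hx']) (by simp [hx])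
  have p1 : ∀ {g : SU 3 F q} {c : Fin 3 → F} {k : ℕ}, g.1.1 = diagonal c → (∀ i, c i ^ k = 1) →
      (g : PSU 3 F q) ^ k = 1 := fun {g c k} hg hc => by
    rw [← QuotientGroup.mk_pow, show g ^ k = 1 from Subtype.ext (Subtype.ext (by
      rw [val_pow hg, show c ^ k = 1 from funext hc]; exact diagonal_one))]
    rfl
  have m := (h.comp e.symm.toMonoidHom e.symm.injective).mem_zpowers' (a := (A : PSU 3 F q))
    (b := (B : PSU 3 F q))
    (Nat.coprime_two_right.2 (ho.of_dvd_nat (orderOf_dvd_of_pow_eq_one (p1 hA fun i => by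
      fin_cases i
      · exact (mul_cj x).symm.trans hx
      · exact (mul_cj _).symm.trans hx'
      · simp))))
    (by
      obtain ⟨c, hc⟩ := of_eq (g := 1) (g' := A ^ orderOf (A : PSU 3 F q))
        (by rw [QuotientGroup.mk_pow, pow_orderOf_eq_one]; rfl)
      rw [val_pow hA] at hc
      have c0 := congrFun (congrFun hc 0) 0
      have c1 := congrFun (congrFun hc 1) 1
      have c2 := congrFun (congrFun hc 2) 2
      simp at c0 c1 c2
      refine orderOf_dvd_of_pow_eq_one (p1 hB fun i => ?_)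
      fin_cases i <;> simp [c0, c1, ← c2])
    (by
      rw [← QuotientGroup.mk_mul, ← QuotientGroup.mk_mul]
      refine congrArg _ (Subtype.ext (Subtype.ext ?_))
      change A.1.1 * B.1.1 = B.1.1 * A.1.1
      rw [hA, hB, diagonal_mul_diagonal, diagonal_mul_diagonal]
      exact congrArg diagonal (funext fun i => mul_comm _ _))
  obtain ⟨k, hk⟩ := (mem_powers_iff_mem_zpowers.2 m)
  obtain ⟨c, hc⟩ := of_eq (g := B) (g' := A ^ k) (by rw [QuotientGroup.mk_pow]; exact hk.symm)
  rw [val_pow hA, hB] at hc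
  have c0 := congrFun (congrFun hc 0) 0
  have c1 := congrFun (congrFun hc 1) 1
  have c2 := congrFun (congrFun hc 2) 2
  simp at c0 c1 c2
  have c3 : x ^ k * cj q x ^ k = 1 := by rw [← mul_pow, hx, one_pow]
  have c4 : c = x := by linear_combination (-x) * c2 - c * hx
  rw [c0, c1, c4] at c3
  exact x3 (by linear_combination c3)

open Equiv Equiv.Perm in
/-- two disjoint 3-cycles. -/
theorem not_alt (h : FP ρ) {n : ℕ} (hn : 6 ≤ n) (e : G ≃* alternatingGroup (Fin n)) : False := by
  have : Fact (Nat.Prime 2) := ⟨Nat.prime_two⟩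
  let f : Fin 6 → Fin n := Fin.castLE hn
  have i : Function.Injective f := Fin.castLE_injective hn
  have t1 := isThreeCycle_swap_mul_swap_same (a := f 0) (b := f 1) (c := f 2) (i.ne (by decide))
    (i.ne (by decide)) (i.ne (by decide))
  have t2 := isThreeCycle_swap_mul_swap_same (a := f 3) (b := f 4) (c := f 5) (i.ne (by decide))
    (i.ne (by decide)) (i.ne (by decide))
  have c : ∀ a b c d : Fin 6, [a, b, c, d].Nodup → Commute (swap (f a) (f b)) (swap (f c) (f d)) :=
    fun a b c d n => (disjoint_swap_swap (n.map i)).commute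
  have m := (h.comp e.symm.toMonoidHom e.symm.injective).mem_zpowers Nat.prime_three (by norm_num)
    (a := ⟨_, t1.mem_alternatingGroup⟩) (b := ⟨_, t2.mem_alternatingGroup⟩)
    ((orderOf_mk _ _).trans t1.orderOf) ((orderOf_mk _ _).trans t2.orderOf)
    (Subtype.ext (((c 0 1 3 4 (by decide)).mul_right (c 0 1 3 5 (by decide))).mul_left
      ((c 0 2 3 4 (by decide)).mul_right (c 0 2 3 5 (by decide)))).eq)
  obtain ⟨k, hk⟩ := m
  have h1 : (swap (f 0) (f 1) * swap (f 0) (f 2)) (f 3) = f 3 := by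
    rw [Perm.mul_apply, swap_apply_of_ne_of_ne (i.ne (by decide)) (i.ne (by decide)),
      swap_apply_of_ne_of_ne (i.ne (by decide)) (i.ne (by decide))]
  have h2 := zpow_apply_eq_self_of_apply_eq_self h1 k
  have h3 : (swap (f 0) (f 1) * swap (f 0) (f 2)) ^ k = swap (f 3) (f 4) * swap (f 3) (f 5) :=
    congrArg Subtype.val hk
  rw [h3, Perm.mul_apply, swap_apply_left,
    swap_apply_of_ne_of_ne (i.ne (by decide)) (i.ne (by decide))] at h2
  exact absurd (i h2) (by decide)

end H88.GG
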