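import Cfsg.Agent.Lib.GG.Odd1
import Cfsg.Agent.Lib.BG4.Rank1

/-! The `p'`-subgroups are Frobenius complements. -/

set_option autoImplicit false

namespace H88.GG
open Module Subgroup Cfsg
open scoped MatrixGroups

universe u v

variable {p : ℕ} [Fact p.Prime] {G : Type*} [Group G] [Finite G] {V : Type*} [AddCommGroup V]
  [Module (ZMod p) V] [Finite V] {ρ : G →* End (ZMod p) V}
variable [Nontrivial V]

namespace Odd1b

theorem cyc {M : Type*} [CommGroup M] [Finite M]
    (h : ∀ r : ℕ, r.Prime → Nat.card (powMonoidHom r : M →* M).ker ≤ r) : IsCyclic M := by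
  classical
  have := Fintype.ofFinite M
  have key : ∀ n : ℕ, n ≠ 0 → Nat.card (powMonoidHom n : M →* M).ker ≤ n := fun n => by
    induction n using induction_on_primes with
    | zero => exact fun e => (e rfl).elim
    | one =>
      have : (powMonoidHom 1 : M →* M).ker = ⊥ := by ext x; simp
      rw [this]; simp
    | prime_mul r n hr ih =>
      intro e
      let f : M →* M := powMonoidHom r
      let K : Subgroup M := (powMonoidHom (r * n) : M →* M).ker
      have h3 : K.map f ≤ (powMonoidHom n : M →* M).ker := by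
        rintro _ ⟨x, hx, rfl⟩
        simpa [K, f, pow_mul] using hx
      have h4 : Nat.card K = Nat.card (f.ker.subgroupOf K) * Nat.card (K.map f) := by
        rw [← relIndex_ker, relIndex, card_mul_index]
      have h5 : Nat.card (f.ker.subgroupOf K) ≤ Nat.card f.ker := by
        rw [← card_map_of_injective K.subtype_injective, subgroupOf_map_subtype]
        exact card_le_of_le inf_le_left
      change Nat.card K ≤ _
      rw [h4]
      exact Nat.mul_le_mul (h5.trans (h r hr)) ((card_le_of_le h3).trans (ih (right_ne_zero_of_mul e)))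
  refine isCyclic_of_card_pow_eq_one_le fun k hk => le_trans (le_of_eq ?_) (key k hk.ne')
  rw [Nat.card_eq_fintype_card, Fintype.card_subtype]
  congr 1
  ext x
  simp

end Odd1b

/-- a central element of order `r` generates the only subgroup of order `r`; `r` odd. -/
theorem FP.isCyclic_pgroup (h : FP ρ) {r : ℕ} [Fact r.Prime] (hr2 : r ≠ 2) (hrp : r ≠ p)
    (R : Subgroup G) (hR : IsPGroup r R) : IsCyclic R := by
  by_cases hne : R = ⊥
  · subst hne; infer_instance
  have := (nontrivial_iff_ne_bot R).2 hne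
  have hZ := hR.center_nontrivial
  obtain ⟨n, hn, hc⟩ := (hR.to_subgroup (center R)).nontrivial_iff_card.1 hZ
  obtain ⟨c, hc⟩ := exists_prime_orderOf_dvd_card' (G := center R) r
    (by rw [hc]; exact dvd_pow_self r hn.ne')
  have ho : orderOf ((c : R) : G) = r := by rw [orderOf_coe, orderOf_coe, hc]
  refine H48.isCyclic_of_forall_pow_eq_one_mem hr2 hR (C := zpowers ((c : R) : G)) inferInstance
    fun x hx e => ?_
  by_cases x1 : x = 1
  · rw [x1]; exact one_mem _
  exact h.mem_zpowers Fact.out hrp ho (orderOf_eq_prime e x1)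
    (congrArg Subtype.val (mem_center_iff.1 c.2 ⟨x, hx⟩)).symm

/-- an abelian group with at most one subgroup of each prime order is cyclic. -/
theorem FP.isCyclic_comm (h : FP ρ) (A : Subgroup G) [IsMulCommutative A]
    (hA : (Nat.card A).Coprime p) : IsCyclic A := by
  have hc : ∀ a b : A, a * b = b * a := IsMulCommutative.is_comm.comm
  let _ : CommGroup A := { (inferInstance : Group A) with mul_comm := hc }
  refine Odd1b.cyc fun r hr => ?_
  have := Fact.mk hr
  by_cases e : (powMonoidHom r : A →* A).ker = ⊥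
  · rw [e, card_bot]; exact hr.one_le
  obtain ⟨⟨c, hc1⟩, c1⟩ := ne_bot_iff_exists_ne_one.1 e
  have ho : orderOf c = r := orderOf_eq_prime hc1 fun e => c1 (Subtype.ext e)
  have hrp : r ≠ p := fun e => hr.one_lt.ne'
    (Nat.eq_one_of_dvd_coprimes hA (ho ▸ orderOf_dvd_natCard c) (e ▸ dvd_rfl))
  refine (card_le_of_le fun x hx => ?_).trans ((Nat.card_zpowers c).trans ho).le
  by_cases x1 : x = 1
  · rw [x1]; exact one_mem _
  obtain ⟨k, hk⟩ := h.mem_zpowers hr hrp (a := c) (b := x) (by rw [orderOf_coe, ho])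
    (by rw [orderOf_coe]; exact orderOf_eq_prime hx x1) (congrArg Subtype.val (hc c x))
  exact ⟨k, Subtype.ext hk⟩

theorem FP.mem_zpowers' (h : FP ρ) {a b : G} (ho : (orderOf a).Coprime p)
    (hb : orderOf b ∣ orderOf a) (hc : a * b = b * a) : b ∈ zpowers a := by
  have : IsMulCommutative (closure ({a, b} : Set G)) := isMulCommutative_closure (by
    rintro _ (rfl | rfl) _ (rfl | rfl)
    exacts [rfl, hc, hc.symm, rfl])
  have cm : ∀ x y : closure ({a, b} : Set G), x * y = y * x := IsMulCommutative.is_comm.comm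
  have ex : ∀ x ∈ closure ({a, b} : Set G), x ^ orderOf a = 1 := fun x hx => by
    induction hx using closure_induction with
    | mem x hx =>
      rcases hx with rfl | rfl
      exacts [pow_orderOf_eq_one _, orderOf_dvd_iff_pow_eq_one.1 hb]
    | one => simp
    | mul x y hx hy e e' =>
      rw [Commute.mul_pow (congrArg Subtype.val (cm ⟨x, hx⟩ ⟨y, hy⟩)), e, e', one_mul]
    | inv x _ e => rw [inv_pow, e, inv_one]
  obtain ⟨g, hg⟩ := (h.isCyclic_comm (closure ({a, b} : Set G))
    ((Nat.Prime.coprime_iff_not_dvd Fact.out).2 fun hd => by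
      obtain ⟨x, hx⟩ := exists_prime_orderOf_dvd_card' p hd
      refine (Fact.out : p.Prime).one_lt.ne' (Nat.eq_one_of_dvd_coprimes ho ?_ dvd_rfl)
      rw [← hx, ← orderOf_coe]
      exact orderOf_dvd_of_pow_eq_one (ex _ x.2)).symm).exists_ofOrder_eq_natCard
  rw [eq_of_le_of_card_ge (zpowers_le.2 (subset_closure (.inl rfl)) : zpowers a ≤ closure {a, b}) (by
    rw [← hg, Nat.card_zpowers, ← orderOf_coe]
    exact Nat.le_of_dvd (orderOf_pos a) (orderOf_dvd_of_pow_eq_one (ex _ g.2)))]
  exact subset_closure (.inr rfl)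

/-- Sylow 3-subgroups are cyclic and conjugate. -/
theorem FP.conj3 (h : FP ρ) (hp : p ≠ 3) {y y' : G} (hy : orderOf y = 3) (hy' : orderOf y' = 3) :
    ∃ g, g * y * g⁻¹ = y' ∨ g * y * g⁻¹ = y'⁻¹ := by
  have := Fact.mk Nat.prime_three
  obtain ⟨P, hP⟩ := (IsPGroup.of_card (n := 1) (by rw [Nat.card_zpowers, hy, pow_one]) :
    IsPGroup 3 (zpowers y)).exists_le_sylow
  obtain ⟨P', hP'⟩ := (IsPGroup.of_card (n := 1) (by rw [Nat.card_zpowers, hy', pow_one]) :
    IsPGroup 3 (zpowers y')).exists_le_sylow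
  obtain ⟨g, rfl⟩ := MulAction.exists_smul_eq G P P'
  have m : g * y * g⁻¹ ∈ (g • P : Sylow 3 G) := smul_mem_pointwise_smul _ (MulAut.conj g) _
    (hP (Subgroup.mem_zpowers y))
  have o : orderOf (g * y * g⁻¹) = 3 := by
    rw [← hy]; exact (MulAut.conj g).orderOf_eq y
  have := h.isCyclic_pgroup (by decide) hp.symm _ (g • P : Sylow 3 G).isPGroup'
  have c := congrArg Subtype.val (IsCyclic.commGroup.mul_comm
    (⟨y', hP' (Subgroup.mem_zpowers y')⟩ : ((g • P : Sylow 3 G) : Subgroup G)) ⟨_, m⟩)
  classical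
  obtain ⟨k, hk, e⟩ := Finset.mem_image.1 (mem_zpowers_iff_mem_range_orderOf.1
    (h.mem_zpowers Nat.prime_three hp.symm hy' o c))
  rw [hy', Finset.mem_range] at hk
  refine ⟨g, ?_⟩
  interval_cases k
  · rw [← e] at o; simp at o
  · exact .inl (by rw [← e, pow_one])
  · exact .inr (by rw [← e, eq_inv_iff_mul_eq_one, ← pow_succ, ← pow_orderOf_eq_one y', hy'])

end H88.GG
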