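import Cfsg.Agent.Lib.GG.Odd1b
import Cfsg.Agent.Lib.Core.PCore

/-! Normal subgroups. -/

set_option autoImplicit false

namespace H88.GG
open Module Subgroup Cfsg
open scoped MatrixGroups

universe u v

variable {p : ℕ} [Fact p.Prime] {G : Type*} [Group G] [Finite G] {V : Type*} [AddCommGroup V]
  [Module (ZMod p) V] [Finite V] {ρ : G →* End (ZMod p) V}
variable [Nontrivial V]

/-- A Sylow `r`-subgroup `R` is cyclic and contains `z`; `N(R)/C(R)` is an `r'`-group fixing the subgroup of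
order `r`, so trivial; Burnside (`MonoidHom.ker_transferSylow_isComplement'`). -/
theorem FP.central (h : FP ρ) {r : ℕ} (hr : r.Prime) (hr2 : r ≠ 2) (hrp : r ≠ p) {z : G}
    (hz : orderOf z = r) (hc : z ∈ center G) :
    ∃ N : Subgroup G, N.Normal ∧ N ≠ ⊤ ∧ ∃ k, N.index = r ^ k := by
  haveI : Fact r.Prime := ⟨hr⟩
  obtain ⟨R⟩ : Nonempty (Sylow r G) := inferInstance
  haveI hcyc : IsCyclic (R : Subgroup G) := h.isCyclic_pgroup hr2 hrp R R.isPGroup'
  letI : CommGroup (R : Subgroup G) := IsCyclic.commGroup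
  let φ : G →* (R : Subgroup G) := MonoidHom.transfer (MonoidHom.id (R : Subgroup G))
  have key : ∀ (k : ℕ) (g₀ : G), g₀⁻¹ * z ^ k * g₀ ∈ (R : Subgroup G) → g₀⁻¹ * z ^ k * g₀ = z ^ k := by
    intro k g₀ _
    have := mem_center_iff.1 ((center G).pow_mem hc k) g₀
    rw [mul_assoc, ← this, inv_mul_cancel_left]
  have hφ := MonoidHom.transfer_eq_pow (MonoidHom.id (R : Subgroup G)) z key
  refine ⟨φ.ker, inferInstance, fun e => ?_, ?_⟩
  · have hz1 : z ∈ φ.ker := e ▸ mem_top z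
    rw [MonoidHom.mem_ker] at hz1
    have h2 : z ^ (R : Subgroup G).index = 1 := congrArg Subtype.val (hφ.symm.trans hz1)
    have h3 := orderOf_dvd_of_pow_eq_one h2
    rw [hz] at h3
    exact R.not_dvd_index h3
  · rw [Subgroup.index_ker]
    exact (R.isPGroup'.to_subgroup φ.range).exists_card_eq

namespace Odd2

omit [Finite G] in
theorem conj_comm {a : G} (h : ∀ g : G, g * a * g⁻¹ ∈ zpowers a) (d e : G) :
    d * e * d⁻¹ * e⁻¹ * a = a * (d * e * d⁻¹ * e⁻¹) := by
  have key : ∀ x y : G, (x * y) * a * (x * y)⁻¹ = (y * x) * a * (y * x)⁻¹ := by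
    intro x y
    obtain ⟨i, hi⟩ := mem_zpowers_iff.1 (h x)
    obtain ⟨j, hj⟩ := mem_zpowers_iff.1 (h y)
    have e1 : (x * y) * a * (x * y)⁻¹ = x * (y * a * y⁻¹) * x⁻¹ := by group
    have e2 : (y * x) * a * (y * x)⁻¹ = y * (x * a * x⁻¹) * y⁻¹ := by group
    rw [e1, e2, ← hi, ← hj, ← conj_zpow, ← conj_zpow, ← hi, ← hj, ← zpow_mul, ← zpow_mul, mul_comm]
  -- `⁅d, e⁆ = (d e) (e d)⁻¹`
  obtain ⟨i, hi⟩ := mem_zpowers_iff.1 (h (e * d)⁻¹)
  have h1 := key d e
  have h2 : (e * d) * a ^ i * (e * d)⁻¹ = a := by rw [hi]; group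
  have h3 : (d * e) * a ^ i * (d * e)⁻¹ = a := by
    rw [← conj_zpow, h1, conj_zpow, h2]
  rw [hi] at h3
  calc d * e * d⁻¹ * e⁻¹ * a
      = (d * e * ((e * d)⁻¹ * a * (e * d)⁻¹⁻¹) * (d * e)⁻¹) * (d * e * d⁻¹ * e⁻¹) := by group
    _ = a * (d * e * d⁻¹ * e⁻¹) := by rw [h3]

theorem perfect_no_quot {D : Type*} [Group D] [Finite D] (hD : commutator D = ⊤) {r : ℕ}
    (hr : r.Prime) {N : Subgroup D} [N.Normal] {k : ℕ} (hk : N.index = r ^ k) : N = ⊤ := by
  haveI : Fact r.Prime := ⟨hr⟩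
  by_contra hN
  haveI : Nontrivial (D ⧸ N) := QuotientGroup.nontrivial_iff.2 hN
  have hp : IsPGroup r (D ⧸ N) := IsPGroup.of_card hk
  haveI := hp.isNilpotent
  have hlt := Group.IsSolvable.commutator_lt_top_of_nontrivial (D ⧸ N)
  apply hlt.ne
  have := Subgroup.map_commutator (⊤ : Subgroup D) ⊤ (QuotientGroup.mk' N)
  rw [Subgroup.map_top_of_surjective _ (QuotientGroup.mk'_surjective N)] at this
  rw [commutator_def, ← this, ← commutator_def, hD,
    Subgroup.map_top_of_surjective _ (QuotientGroup.mk'_surjective N)]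

end Odd2

/-- Take `a ∈ N` of prime order `r`; `r ≠ p` (the `p`-elements of `N` form a normal `p`-subgroup).  The conjugates
of `a` lie in `⟨a⟩` (`mem_zpowers`), `Aut ⟨a⟩` is abelian, so `D = ⁅D, D⁆` centralises `a`; `central` for `D`
(`FP.comp D.subtype`) gives a non-trivial `r`-group quotient of the perfect group `D`. -/
theorem FP.no_ab (h : FP ρ) (hO : pCore p G = ⊥) {D N : Subgroup G} [D.Normal] [N.Normal]
    (hD : ⁅D, D⁆ = D) (hN : N ≤ D) [IsMulCommutative N] (ho : Odd (Nat.card N)) : N = ⊥ := by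
  have hNn : N.Normal := inferInstance
  have hcm : ∀ a ∈ N, ∀ b ∈ N, a * b = b * a := fun a ha b hb =>
    congrArg Subtype.val (mul_comm' (⟨a, ha⟩ : N) ⟨b, hb⟩)
  by_contra hne
  have hc1 : Nat.card N ≠ 1 := fun e => hne (Subgroup.card_eq_one.1 e)
  obtain ⟨r, hr, hrd⟩ := Nat.exists_prime_and_dvd hc1
  haveI : Fact r.Prime := ⟨hr⟩
  obtain ⟨a0, ha0⟩ := exists_prime_orderOf_dvd_card' r hrd
  obtain ⟨a, haN⟩ := a0
  have ha : orderOf a = r := by rw [← ha0]; exact Subgroup.orderOf_coe (⟨a, haN⟩ : N)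
  have hr2 : r ≠ 2 := by
    rintro rfl
    exact (Nat.not_even_iff_odd.2 ho) (even_iff_two_dvd.2 hrd)
  have ha1 : a ≠ 1 := by
    intro e
    rw [e, orderOf_one] at ha
    exact hr.one_lt.ne ha
  have hrp : r ≠ p := by
    intro e
    let M : Subgroup G :=
      { carrier := {x | x ∈ N ∧ x ^ p = 1}
        one_mem' := ⟨N.one_mem, one_pow p⟩
        mul_mem' := fun {x y} hx hy => ⟨N.mul_mem hx.1 hy.1, by
          rw [Commute.mul_pow (hcm x hx.1 y hy.1), hx.2, hy.2, one_mul]⟩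
        inv_mem' := fun {x} hx => ⟨N.inv_mem hx.1, by rw [inv_pow, hx.2, inv_one]⟩ }
    haveI : M.Normal := ⟨fun x hx g => ⟨hNn.conj_mem x hx.1 g, by rw [conj_pow, hx.2]; simp⟩⟩
    have hM : IsPGroup p M := fun x => ⟨1, Subtype.ext (by
      rw [pow_one]
      exact x.2.2)⟩
    have hle := H1.le_pCore hM
    rw [hO] at hle
    have haM : a ∈ M := ⟨haN, by rw [← e, ← ha]; exact pow_orderOf_eq_one a⟩
    exact ha1 (Subgroup.mem_bot.1 (hle haM))
  have hconj : ∀ g : G, g * a * g⁻¹ ∈ zpowers a := fun g =>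
    h.mem_zpowers hr hrp ha (by
      have := (MulAut.conj g).orderOf_eq a
      rw [MulAut.conj_apply] at this
      rw [this, ha]) (hcm a haN _ (hNn.conj_mem a haN g))
  have hcent : D ≤ centralizer ({a} : Set G) := by
    rw [← hD, Subgroup.commutator_le]
    intro d _ e _
    rw [Subgroup.mem_centralizer_singleton_iff]
    exact Odd2.conj_comm hconj d e
  have hz : orderOf (⟨a, hN haN⟩ : D) = r := by
    rw [← Subgroup.orderOf_coe]
    exact ha
  have hzc : (⟨a, hN haN⟩ : D) ∈ center D := by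
    rw [mem_center_iff]
    intro g
    exact Subtype.ext (Subgroup.mem_centralizer_singleton_iff.1 (hcent g.2))
  obtain ⟨K, hK, hKt, k, hk⟩ :=
    (h.comp D.subtype Subtype.coe_injective).central hr hr2 hrp hz hzc
  have hperf : commutator D = ⊤ := by
    apply Subgroup.map_injective D.subtype_injective
    rw [commutator_def, Subgroup.map_commutator, ← MonoidHom.range_eq_map, Subgroup.range_subtype,
      hD]
  exact hKt (Odd2.perfect_no_quot hperf hr hk)

omit [Nontrivial V] in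
theorem exists_perfect (hns : ¬ Group.IsSolvable G) :
    ∃ D : Subgroup G, D.Normal ∧ D ≠ ⊥ ∧ ⁅D, D⁆ = D := by
  obtain ⟨D, ⟨n, rfl⟩, hmin⟩ := (wellFounded_lt (α := Subgroup G)).has_min
    (Set.range (derivedSeries G)) ⟨_, 0, rfl⟩
  refine ⟨derivedSeries G n, derivedSeries_normal G n, fun e => hns ⟨⟨n, e⟩⟩, ?_⟩
  haveI := derivedSeries_normal G n
  by_contra hne
  exact hmin _ ⟨n + 1, rfl⟩ (lt_of_le_of_ne (Subgroup.commutator_le_left _ _) hne)

end H88.GG
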