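import Cfsg.Agent.Lib.GG.Odd1b
import Cfsg.Agent.Lib.Core.CoprimeSylow
import Cfsg.Agent.Lib.Core.Permutable
import Cfsg.Agent.Lib.Core.PCore

/-! Elements of order three centralise normal `3'`-subgroups. -/

set_option autoImplicit false

namespace H88.GG
open Module Subgroup Cfsg
open scoped MatrixGroups commutatorElement

universe u v

variable {G : Type*} [Group G] [Finite G] {V : Type*} [AddCommGroup V]
  [Module (ZMod 2) V] [Finite V] {ρ : G →* End (ZMod 2) V}
variable [Nontrivial V]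

namespace Odd3

/-- an element of order three normalising an odd `r`-subgroup (`r ≠ 3`) centralises it. -/
theorem cent_odd (h : FP ρ) {r : ℕ} [hr : Fact r.Prime] (hr2 : r ≠ 2) (hr3 : r ≠ 3)
    (R : Subgroup G) (hR : IsPGroup r R) {y : G} (hy : orderOf y = 3)
    (hn : y ∈ normalizer (R : Set G)) {a : G} (ha : a ∈ R) : y * a = a * y := by
  haveI : IsCyclic R := h.isCyclic_pgroup hr2 hr2 R hR
  have hcomm : ∀ s ∈ R, ∀ t ∈ R, s * t = t * s := by
    intro s hs t ht
    have := (IsCyclic.isMulCommutative (α := R)).is_comm.comm ⟨s, hs⟩ ⟨t, ht⟩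
    exact congrArg Subtype.val this
  have hcj : ∀ s ∈ R, y * s * y⁻¹ ∈ R := fun s hs => H68.conj_mem_of_mem_normalizer hn hs
  have hy3 : y ^ 3 = 1 := by rw [← hy]; exact pow_orderOf_eq_one y
  set φ : G ≃* G := MulAut.conj y with hφ
  have hφa : ∀ s, φ s = y * s * y⁻¹ := fun s => rfl
  have hφR : ∀ s ∈ R, φ s ∈ R := hcj
  have hφ3 : ∀ s, φ (φ (φ s)) = s := by
    intro s
    simp only [hφa]
    have e : y * (y * (y * s * y⁻¹) * y⁻¹) * y⁻¹ = y ^ 3 * s * (y ^ 3)⁻¹ := by
      simp only [pow_succ, pow_zero, one_mul, mul_inv_rev, mul_assoc]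
    rw [e, hy3]; simp
  set b : G := a⁻¹ * φ a with hb
  have hbR : b ∈ R := R.mul_mem (R.inv_mem ha) (hφR a ha)
  have hnorm : b * φ b * φ (φ b) = 1 := by
    rw [hb]
    simp only [map_mul, map_inv, hφ3]
    group
  by_contra hne
  have hb1 : b ≠ 1 := by
    intro h1
    apply hne
    have : φ a = a := by
      have := congrArg (a * ·) h1
      simpa [hb] using this
    rw [hφa] at this
    calc y * a = (y * a * y⁻¹) * y := by group
      _ = a * y := by rw [this]
  obtain ⟨k, hk⟩ := (IsPGroup.iff_orderOf.1 hR) ⟨b, hbR⟩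
  rw [Subgroup.orderOf_mk] at hk
  have hk0 : k ≠ 0 := by
    rintro rfl
    exact hb1 (orderOf_eq_one_iff.1 (by simpa using hk))
  obtain ⟨j, rfl⟩ := Nat.exists_eq_succ_of_ne_zero hk0
  set c : G := b ^ r ^ j with hc
  have hcR : c ∈ R := R.pow_mem hbR _
  have hco : orderOf c = r := by
    rw [hc, orderOf_pow_of_dvd (pow_ne_zero _ hr.out.ne_zero) (by rw [hk]; exact pow_dvd_pow _ (Nat.le_succ j)),
      hk, Nat.succ_eq_add_one, pow_succ, Nat.mul_div_cancel_left _ (pow_pos hr.out.pos j)]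
  have hcn : c * φ c * φ (φ c) = 1 := by
    have c1 : Commute b (φ b) := hcomm _ hbR _ (hφR _ hbR)
    have c2 : Commute (b * φ b) (φ (φ b)) :=
      hcomm _ (R.mul_mem hbR (hφR _ hbR)) _ (hφR _ (hφR _ hbR))
    rw [hc, map_pow, map_pow, ← c1.mul_pow, ← c2.mul_pow, hnorm, one_pow]
  have hmem : y * c * y⁻¹ ∈ zpowers c :=
    h.mem_zpowers hr.out hr2 hco (by rw [← hφa, MulEquiv.orderOf_eq, hco])
      (hcomm _ hcR _ (hcj _ hcR))
  have hyc : y * c = c * y :=
    h.comm_of_norm hr.out Nat.prime_three hr2 (by decide) hco hy hmem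
  have hφc : φ c = c := by rw [hφa, hyc]; group
  rw [hφc, hφc] at hcn
  have h3 : c ^ 3 = 1 := by rw [← hcn]; simp only [pow_succ, pow_zero, one_mul]
  have := orderOf_dvd_of_pow_eq_one h3
  rw [hco] at this
  exact hr3 ((Nat.prime_dvd_prime_iff_eq hr.out Nat.prime_three).1 this)

end Odd3

/-- For each prime `r`, `y` normalises a Sylow `r`-subgroup `R` of `N` (their number is prime to 3).  For odd
`r`, `R` is cyclic, `y` centralises its subgroup of order `r` (`comm_of_norm`), so `R` (coprime action).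
Hence `N = C_N(y) P` with `P` a `y`-invariant Sylow 2-subgroup of `N`; for `n = c x`, `n⁻¹ y⁻¹ n y = x⁻¹ y⁻¹ x y ∈ P`.
The subgroup generated by these commutators is normal in `N` and inside `P`, so in `O₂(N) ≤ O₂(G) = 1`. -/
theorem FP.cent_normal (h : FP ρ) (hO : pCore 2 G = ⊥) (N : Subgroup G) [N.Normal]
    (h3 : ¬ 3 ∣ Nat.card N) {y : G} (hy : orderOf y = 3) {n : G} (hn : n ∈ N) : y * n = n * y := by
  have hAK : zpowers y ≤ normalizer (N : Set G) := le_normalizer_of_normal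
  have hcop : (Nat.card (zpowers y)).Coprime (Nat.card N) := by
    rw [Nat.card_zpowers, hy]
    exact (Nat.Prime.coprime_iff_not_dvd Nat.prime_three).2 h3
  have hinv := fun (r : ℕ) [Fact r.Prime] =>
    H2.exists_invariant_sylowIn hAK hcop (Or.inl (H2.isSolvable_zpowers y)) r
  obtain ⟨P, hP, hPn⟩ := hinv 2
  set C : Subgroup G := N ⊓ centralizer {y} with hC
  have hCN : C ≤ N := inf_le_left
  have hcp : (P.relIndex N).Coprime (C.relIndex N) := by
    refine Nat.coprime_of_dvd fun r hr h1 h2 => ?_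
    haveI : Fact r.Prime := ⟨hr⟩
    have hr2 : r ≠ 2 := by
      rintro rfl
      exact hP.not_dvd_relIndex h1
    have hr3 : r ≠ 3 := by
      rintro rfl
      exact h3 (h1.trans (P.subgroupOf N).index_dvd_card)
    obtain ⟨R, hR, hRn⟩ := hinv r
    have hRC : R ≤ C := by
      intro a ha
      refine mem_inf.2 ⟨hR.le ha, mem_centralizer_singleton_iff.2 ?_⟩
      exact (Odd3.cent_odd h hr2 hr3 R hR.isPGroup hy (hRn (Subgroup.mem_zpowers y)) ha).symm
    exact hR.not_dvd_relIndex (h2.trans (relIndex_dvd_of_le_left N hRC))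
  have hQ : ⁅N, zpowers y⁆ ≤ P := by
    rw [commutator_le]
    intro m hm z hz
    obtain ⟨x, hx, c, hc, rfl⟩ := H1.exists_mul_eq_of_coprime_relIndex hP.le hCN hcp hm
    have hcy : Commute c y := mem_centralizer_singleton_iff.1 hc.2
    have hcz : c * z = z * c := by
      obtain ⟨i, rfl⟩ := mem_zpowers_iff.1 hz
      exact hcy.zpow_right i
    have e : ⁅x * c, z⁆ = x * (z * x⁻¹ * z⁻¹) := by
      rw [commutatorElement_def]
      calc x * c * z * (x * c)⁻¹ * z⁻¹ = x * (c * z) * c⁻¹ * x⁻¹ * z⁻¹ := by group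
        _ = x * (z * x⁻¹ * z⁻¹) := by rw [hcz]; group
    rw [e]
    exact P.mul_mem hx (H68.conj_mem_of_mem_normalizer (hPn hz) (P.inv_mem hx))
  have hle : ⁅N, zpowers y⁆ ≤ pCoreOf 2 N :=
    H1.le_pCoreOf (hQ.trans hP.le) (normalizer_commutator_ge_left _ _) (hP.isPGroup.to_le hQ)
  rw [H1.pCoreOf_eq_inf, hO, bot_inf_eq, le_bot_iff] at hle
  have : ⁅n, y⁆ ∈ ⁅N, zpowers y⁆ := commutator_mem_commutator hn (Subgroup.mem_zpowers y)
  rw [hle, mem_bot, commutatorElement_eq_one_iff_mul_comm] at this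
  exact this.symm

end H88.GG
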