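import Cfsg.Agent.Lib.GG.P3a
import Cfsg.Agent.Lib.GG.Out

/-! Cross characteristic, `p = 3`. -/

set_option autoImplicit false

namespace H88.GG
open Module Subgroup Cfsg
open scoped MatrixGroups

universe u v

variable {G : Type*} [Group G] [Finite G] {V : Type*} [AddCommGroup V]
  [Module (ZMod 3) V] [Finite V] [Nontrivial V] {ρ : G →* End (ZMod 3) V}

/-- `C = C(S)` has order prime to 3 (`cent_dvd`: `40 ∤ 2, 8, 26`; `728 ∤ 3^i - 1`, `i < 6`).  `index_eq`: `|G| = 80·3^k` or
`728·3^k`; `out_prime`, `card_sup_cent`.  `q = 13`: `G = S`.  `q = 5`: `|G| = 240`, `|C| = 2` or `4`.  All involutions are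
equal (`FP.neg`).  If `|C| = 4`, take `c ∈ C \\ S`, `c² = z`, `i ∈ S` with `i² = z` (`exists_q8`): `(c i)² = 1`, so `c ∈ S`.
A complement would be generated by the involution, which lies in `S`. -/
theorem p3 (h : St ρ) (ht : Tr ρ) (S : Subgroup G) [S.Normal] {F : Type} [Field F] [Fintype F]
    (ho : Odd (Fintype.card F)) (h3 : 3 < Fintype.card F) (hp : ¬ 3 ∣ Fintype.card F)
    (e : S ≃* SL(2, F)) : Fin6 3 G := by
  have := Fact.mk Nat.prime_three
  have cS : Nat.card S = Fintype.card F * (Fintype.card F ^ 2 - 1) := (Nat.card_congr e.toEquiv).trans card_sl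
  have cZ : Nat.card (center S) = Nat.gcd 2 (Fintype.card F - 1) :=
    (Nat.card_congr (centerCongr e).toEquiv).trans card_center_sl
  obtain ⟨P⟩ : Nonempty (Sylow 3 S) := inferInstance
  obtain ⟨Q⟩ : Nonempty (Sylow 3 G) := inferInstance
  obtain ⟨j, hj⟩ := P.2.exists_card_eq
  obtain ⟨k, hk⟩ := Q.2.exists_card_eq
  have eS := (P : Subgroup S).card_mul_index
  have eG := (Q : Subgroup G).card_mul_index
  rw [hj] at eS
  rw [hk, h.index_eq ht Q] at eG
  have C3 : ∀ m, Nat.Coprime m 3 → m ∣ Nat.card S →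
      (∀ w, 1 < w → w < Nat.card V → w ∣ Nat.card V → ¬ m ∣ w - 1) → ¬ 3 ∣ Nat.card (centralizer (S : Set G)) :=
    fun m hm hd hw h3 => by
      obtain ⟨c, hc⟩ := exists_prime_orderOf_dvd_card' 3 h3
      obtain ⟨i, i1, i2, i3, i4⟩ := h.cent_dvd S P ((orderOf_coe c).trans hc) c.2
      exact hw _ i1 i2 i3 (((hm.pow_right j).dvd_of_dvd_mul_left (eS ▸ hd)).trans i4)
  have e1 := card_sup_cent S
  have e2 := (S ⊔ centralizer (S : Set G)).card_mul_index
  have e3 := S.card_mul_index
  have cp : ∀ {c d : ℕ}, c ∣ 2 → ¬ 3 ∣ d → (c * d).Coprime (3 ^ k) := fun hc hd =>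
    Nat.Coprime.pow_right _ (Nat.Coprime.mul_left ((by norm_num : Nat.Coprime 2 3).coprime_dvd_left hc)
      ((Nat.Prime.coprime_iff_not_dvd Nat.prime_three).2 hd).symm)
  rcases p3a ho h3 hp ((h.normal S).equiv e.symm) with ⟨hq, hV⟩ | ⟨hq, hV⟩
  · have o := out_prime S (by rw [hq]; norm_num) h3 e
    rw [hq] at cS cZ
    norm_num at cS cZ
    have c3 := C3 40 (by norm_num) (by rw [cS]; norm_num) fun w w1 w2 w3 w4 => by
      rw [hV] at w2 w3
      obtain rfl : w = 41 := by omega
      norm_num at w3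
    rw [hV] at eG
    rw [cS, cZ] at e1
    have e4 : 3 ^ k * 4 = (S ⊔ centralizer (S : Set G)).index * Nat.card (centralizer (S : Set G)) * 3 := by
      nlinarith
    have d := Nat.le_of_dvd (by norm_num) ((cp o c3).dvd_of_dvd_mul_left (e4 ▸ dvd_mul_right _ 3))
    have i2 : S.index = 2 := by
      have : 0 < 3 ^ k := by positivity
      rw [cS] at e3
      omega
    have iz := iv_neg_one ho
    obtain ⟨z, hz⟩ : ∃ z : S, z = e.symm (-1) := ⟨_, rfl⟩
    have iz' : Iv (z : G) := ⟨fun k => iz.ne (by rw [← e.apply_symm_apply (-1), ← hz, show z = 1 from Subtype.ext k, map_one]),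
      by rw [← coe_mul, hz, ← map_mul, iz.sq, map_one, coe_one]⟩
    have inv : ∀ x : G, x * x = 1 → x ∈ S := fun x hx => by
      by_cases x1 : x = 1
      · exact x1 ▸ one_mem S
      · rw [h.inj ((h.fp.neg (by norm_num) ⟨x1, hx⟩).trans (h.fp.neg (by norm_num) iz').symm)]; exact z.2
    obtain ⟨f⟩ := sl_zmod (F := F) Nat.prime_five hq
    refine .inr (.inl ⟨rfl, S, inferInstance, i2, ⟨e.trans f⟩, ?_, fun K hK => ?_⟩)
    · rw [← inf_cent, right_eq_inf]
      intro c hc
      obtain ⟨u, hu, eu⟩ : c * c ∈ (center S).map S.subtype :=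
        inf_cent S ▸ mem_inf.2 ⟨mul_self_mem_of_index_two i2 c, mul_mem hc hc⟩
      rcases mem_center_sl.1 (centerCongr e ⟨u, hu⟩).2 with k | k
      · exact inv c (by rw [← eu, show u = 1 from e.injective (k.trans (map_one e).symm), map_one])
      · obtain ⟨i, -, hi, -⟩ := exists_q8 (F := F)
        have uz : u = z := e.injective (k.trans (by rw [hz, e.apply_symm_apply]))
        have ci : Commute c (e.symm i : G) := (hc _ (e.symm i).2).symm
        refine (mul_mem_cancel_right (e.symm i).2).1 (inv _ ?_)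
        rw [ci.symm.mul_mul_mul_comm, ← eu, ← coe_mul, ← map_mul, hi, ← hz, uz]
        exact iz'.sq
    · have : K ≤ S := fun x hx => inv x (by
        have := pow_card_eq_one' (x := (⟨x, hx⟩ : K))
        rw [← hK.symm.index_eq_card, i2, sq] at this
        exact congrArg Subtype.val this)
      have t := hK.sup_eq_top
      rw [sup_eq_left.2 this] at t
      rw [t, index_top] at i2
      omega
  · have o := out_prime S (by rw [hq]; norm_num) h3 e
    rw [hq] at cS cZ
    norm_num at cS cZ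
    have c3 := C3 728 (by norm_num) (by rw [cS]; norm_num) fun w w1 w2 _ w4 => by
      rw [hV] at w2
      omega
    rw [hV] at eG
    rw [cS, cZ] at e1
    have e4 : 3 ^ k * 2 = (S ⊔ centralizer (S : Set G)).index * Nat.card (centralizer (S : Set G)) * 3 := by
      nlinarith
    have d := Nat.le_of_dvd (by norm_num) ((cp o c3).dvd_of_dvd_mul_left (e4 ▸ dvd_mul_right _ 3))
    have i1 : S.index = 1 := by
      have : 0 < 3 ^ k := by positivity
      rw [cS] at e3
      omega
    obtain ⟨f⟩ := sl_zmod (F := F) (r := 13) (by norm_num) hq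
    exact .inr (.inr (.inl ⟨rfl, ⟨(topEquiv.symm.trans (MulEquiv.subgroupCongr (index_eq_one.1 i1).symm)).trans
      (e.trans f)⟩⟩))

end H88.GG
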