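import Cfsg.Agent.Lib.GG.SLc
import Cfsg.Agent.Lib.SL2Elt.Sylow

/-! Orders and Sylow subgroups of `SL₂(q)`. -/

set_option autoImplicit false

namespace H88.GG
open Module Subgroup Cfsg
open scoped MatrixGroups

universe u v

variable {F : Type*} [Field F] [Fintype F]

open H64.SL2

/-- the centraliser of an element of order 3 is commutative (`a + b y`). -/
theorem syl3_ti (h3 : ¬ 3 ∣ Fintype.card F) {y : SL(2, F)} (hy : orderOf y = 3)
    {P Q : Sylow 3 SL(2, F)} (hP : y ∈ P) (hQ : y ∈ Q) : P = Q := by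
  have t := tr_sq_ne_four_of_orderOf_prime Nat.prime_three (by norm_num) h3 hy
  have n := not_mem_center_of_tr t
  have k : ∀ {P : Sylow 3 SL(2, F)}, y ∈ P → (P : Subgroup SL(2, F)) ≤ centralizer {y} := fun {P} hP => by
    obtain ⟨g, -, tg, -, le⟩ := exists_sylow_le_torus (by norm_num) h3 P (hy ▸ orderOf_dvd_natCard y)
    rwa [centralizer_eq_of_mem (not_mem_center_of_tr tg) (le hP) n]
  have s := P.2.to_sup_of_normal_left' Q.2 fun x hx => centralizer_le_normalizer _
    fun z hz => commute_of_mem_centralizer n (k hP hz) (k hQ hx)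
  exact Sylow.ext ((P.3 s le_sup_left).symm.trans (Q.3 s le_sup_right))

/-- The elements of order 3 are the matrices `!![a, b; c, -1 - a]` with `b c = -(a² + a + 1)`: `q (q - 1) + ρ₀ q` of them,
`ρ₀ ∈ {2, 0}` the number of roots of `X² + X + 1` (`3 ∣ q - 1` or not).  Each Sylow 3-subgroup contains exactly two of them
(it is commutative, and commuting `y, y'` of order 3 have `y' = y` or `y⁻¹`), and `syl3_ti`. -/
theorem syl3_card (h3 : ¬ 3 ∣ Fintype.card F) : ∃ ε : ℤ, (ε = 1 ∨ ε = -1) ∧
    (3 : ℤ) ∣ Fintype.card F - ε ∧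
      2 * (Nat.card (Sylow 3 SL(2, F)) : ℤ) = Fintype.card F * (Fintype.card F + ε) := by
  obtain ⟨P⟩ := (inferInstance : Nonempty (Sylow 3 SL(2, F)))
  have d : 3 ∣ Nat.card SL(2, F) := orderOf_yy (F := F) ▸ orderOf_dvd_natCard _
  obtain ⟨g, hg, t, o, le⟩ := exists_sylow_le_torus (by norm_num) h3 P d
  have e := (normalizer (P : Set SL(2, F))).index_mul_card
  rw [← P.card_eq_index_normalizer, H10.card_SL_two] at e
  have e2 := (congrArg (fun H : Subgroup SL(2, F) => Nat.card H) (normalizer_eq_of_le t le hg)).trans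
    (card_normalizer_centralizer t)
  have e3 : 3 ∣ Nat.card (centralizer ({g} : Set SL(2, F))) :=
    o ▸ Subgroup.orderOf_dvd_natCard _ (mem_centralizer_singleton_iff.2 rfl)
  rw [show Nat.card (normalizer (P : Set SL(2, F))) = _ from e2] at e
  obtain ⟨q, hq⟩ : ∃ q, Nat.card F = q + 2 := ⟨_, (Nat.sub_add_cancel H10.two_le_card_field).symm⟩
  rw [← Nat.card_eq_fintype_card, hq]
  by_cases s : Split g
  · rw [card_centralizer_of_split t s, hq] at e e3
    refine ⟨1, .inl rfl, by omega, mul_right_cancel₀ (b := (q + 1 : ℤ)) (by omega) ?_⟩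
    rw [show q + 2 - 1 = q + 1 from rfl] at e
    zify at e
    push_cast
    linear_combination e
  · rw [card_centralizer_of_not_split s, hq] at e e3
    refine ⟨-1, .inr rfl, by omega, mul_right_cancel₀ (b := (q + 3 : ℤ)) (by omega) ?_⟩
    rw [show q + 2 - 1 = q + 1 from rfl] at e
    zify at e
    push_cast
    linear_combination e

end H88.GG
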