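import Cfsg.Agent.Lib.GG.P3r
import Cfsg.Agent.Lib.GG.Spread2
import Cfsg.Agent.Lib.GG.SLd

/-! Cross characteristic, `p = 3`: the numbers. -/

set_option autoImplicit false

namespace H88.GG
open Module Subgroup Cfsg
open scoped MatrixGroups

universe u v

variable {G : Type*} [Group G] [Finite G] {V : Type*} [AddCommGroup V]
  [Module (ZMod 3) V] [Finite V] [Nontrivial V] {ρ : G →* End (ZMod 3) V}

namespace P3a

theorem ker_mul_le {K : Type*} [Field K] {W : Type*} [AddCommGroup W] [Module K W]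
    [FiniteDimensional K W] (f g : End K W) :
    finrank K (LinearMap.ker (f * g)) ≤ finrank K (LinearMap.ker f) + finrank K (LinearMap.ker g) := by
  have h1 := LinearMap.finrank_range_add_finrank_ker (g.domRestrict (LinearMap.ker (f * g)))
  have h2 : finrank K (LinearMap.range (g.domRestrict (LinearMap.ker (f * g)))) ≤
      finrank K (LinearMap.ker f) := by
    apply Submodule.finrank_mono
    rintro _ ⟨v, rfl⟩
    exact v.2
  have h3 : finrank K (LinearMap.ker (g.domRestrict (LinearMap.ker (f * g)))) ≤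
      finrank K (LinearMap.ker g) := by
    rw [← Submodule.finrank_map_subtype_eq]
    apply Submodule.finrank_mono
    rintro _ ⟨v, hv, rfl⟩
    exact hv
  omega

end P3a

omit [Finite G] in
/-- `syl3_card`, `spread`, `|N(P)| = 2 (q - ε) = m 3^j` with `m = P.relIndex N(P)`, `norm_dvd`; for `y ∈ P` of order 3,
`U y = fix P` (`syl3_ti`) and `(σ y - 1)³ = 0` gives `|V| ≤ |U y|³`. -/
theorem p3a {F : Type*} [Field F] [Fintype F] (ho : Odd (Fintype.card F)) (h3 : 3 < Fintype.card F)
    (hp : ¬ 3 ∣ Fintype.card F) {σ : SL(2, F) →* End (ZMod 3) V} (h : St σ) :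
    (Fintype.card F = 5 ∧ Nat.card V = 81) ∨ (Fintype.card F = 13 ∧ Nat.card V = 729) := by
  haveI : Fact (Nat.Prime 3) := ⟨Nat.prime_three⟩
  obtain ⟨ε, hε, h3ε, hs⟩ := syl3_card hp
  obtain ⟨P⟩ : Nonempty (Sylow 3 SL(2, F)) := inferInstance
  set q := Fintype.card F with hq
  set N := normalizer ((P : Subgroup SL(2, F)) : Set SL(2, F)) with hN
  set m := (P : Subgroup SL(2, F)).relIndex N with hm
  obtain ⟨j, hj⟩ := IsPGroup.iff_card.1 P.isPGroup'
  have hle : (P : Subgroup SL(2, F)) ≤ N := le_normalizer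
  have h1 : m * N.index = (P : Subgroup SL(2, F)).index := relIndex_mul_index hle
  have h2 : Nat.card (Sylow 3 SL(2, F)) = N.index := P.card_eq_index_normalizer
  have h4 := (P : Subgroup SL(2, F)).card_mul_index
  rw [card_sl, ← h1, ← h2, hj, ← hq] at h4
  have hq1 : 1 ≤ q ^ 2 := Nat.one_le_pow _ _ (by omega)
  have h4' : (3 : ℤ) ^ j * (m * Nat.card (Sylow 3 SL(2, F))) = q * (q ^ 2 - 1) := by
    have := congrArg (fun x : ℕ => (x : ℤ)) h4
    simp only [Nat.cast_mul, Nat.cast_sub hq1] at this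
    push_cast at this
    exact this
  have hε2 : ε * ε = 1 := by rcases hε with rfl | rfl <;> norm_num
  have hq3 : (3 : ℤ) < q := by exact_mod_cast h3
  have hne : (q : ℤ) * (q + ε) ≠ 0 := by
    apply mul_ne_zero (by omega)
    rcases hε with rfl | rfl <;> omega
  have hm' : 2 * ((q : ℤ) - ε) = m * 3 ^ j := by
    apply mul_right_cancel₀ hne
    linear_combination (-2) * h4' + (m * 3 ^ j) * hs - 2 * q * hε2
  have hm3 : ¬ 3 ∣ m := fun hd => P.not_dvd_index (h1 ▸ Dvd.dvd.mul_right hd _)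
  have hj1 : 1 ≤ j := by
    by_contra h0
    have h0 : j = 0 := by omega
    rw [h0, pow_zero, mul_one] at hm'
    apply hm3
    have : (3 : ℤ) ∣ m := hm' ▸ Dvd.dvd.mul_left h3ε 2
    exact_mod_cast this
  set i := finrank (ZMod 3) (fix σ P) with hi
  set n := finrank (ZMod 3) V with hn
  have hci : Nat.card (fix σ P) = 3 ^ i := by
    rw [Module.natCard_eq_pow_finrank (K := ZMod 3), Nat.card_zmod]
  have hcn : Nat.card V = 3 ^ n := by
    rw [Module.natCard_eq_pow_finrank (K := ZMod 3), Nat.card_zmod]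
  have hi1 : 1 ≤ i := by
    by_contra h0
    exact h.fix_ne_bot P (Submodule.finrank_eq_zero.1 (by omega))
  have hsp := h.spread P
  have hnd := h.norm_dvd P
  rw [hci] at hsp hnd
  rw [hcn] at hsp
  obtain ⟨y0, hy0⟩ := exists_prime_orderOf_dvd_card' (G := P) 3
    (by rw [hj]; exact dvd_pow_self 3 (by omega))
  have hy : orderOf (y0 : SL(2, F)) = 3 := by rw [Subgroup.orderOf_coe, hy0]
  set X : End (ZMod 3) V := σ y0 - 1 with hX
  have hker : LinearMap.ker X ≤ fix σ P := by
    intro v hv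
    have hv' : σ y0 v = v := by simpa [hX, sub_eq_zero] using hv
    by_cases h0 : v = 0
    · rw [h0]; exact Submodule.zero_mem _
    · obtain ⟨Q, hQ⟩ := h.syl v h0
      have hyQ : (y0 : SL(2, F)) ∈ Q := by
        show (y0 : SL(2, F)) ∈ (Q : Subgroup SL(2, F))
        rw [hQ]; exact hv'
      have hPQ : P = Q := syl3_ti hp hy y0.2 hyQ
      intro g hg
      rw [hPQ, hQ] at hg
      exact hg
  have hX3 : X * (X * X) = 0 := by
    have e1 : σ y0 * (σ y0 * σ y0) = 1 := by
      have hy3 : (y0 : SL(2, F)) ^ 3 = 1 := by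
        have := pow_orderOf_eq_one (y0 : SL(2, F))
        rwa [hy] at this
      rw [← map_mul, ← map_mul, ← pow_three, hy3, map_one]
    have e3 : ∀ a : End (ZMod 3) V, a + a + a = 0 := fun a => by
      have : a + a + a = (3 : ZMod 3) • a := by module
      rw [this, show (3 : ZMod 3) = 0 from rfl, zero_smul]
    have e2 : X * (X * X) = σ y0 * (σ y0 * σ y0) - 1 +
        ((σ y0 - σ y0 * σ y0) + (σ y0 - σ y0 * σ y0) + (σ y0 - σ y0 * σ y0)) := by
      rw [hX]; noncomm_ring
    rw [e2, e1, e3]; simp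
  have hn3 : n ≤ 3 * i := by
    have a1 := P3a.ker_mul_le X (X * X)
    have a2 := P3a.ker_mul_le X X
    have a3 := Submodule.finrank_mono hker
    rw [hX3, LinearMap.ker_zero, finrank_top] at a1
    omega
  rcases p3_arith ho h3 hε hs hm' hm3 hj1 hi1 hsp hn3 hnd with ⟨a, b⟩ | ⟨a, b⟩
  · exact Or.inl ⟨a, by rw [hcn, b]; norm_num⟩
  · exact Or.inr ⟨a, by rw [hcn, b]; norm_num⟩

end H88.GG
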