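import Cfsg.Agent.Lib.GG.Defs

/-! Cross characteristic, `p = 3`: the numbers. -/

set_option autoImplicit false

namespace H88.GG
open Module Subgroup Cfsg
open scoped MatrixGroups

universe u v

variable {G : Type*} [Group G] [Finite G] {V : Type*} [AddCommGroup V]
  [Module (ZMod 3) V] [Finite V] [Nontrivial V] {ρ : G →* End (ZMod 3) V}

namespace P3r

theorem pow_eq {i k : ℕ} {A B : ℤ} (hA : ¬ (3 : ℤ) ∣ A) (hB : ¬ (3 : ℤ) ∣ B)
    (h : 3 ^ i * A = 3 ^ k * B) : i = k ∧ A = B := by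
  have key : ∀ {i k : ℕ} {A B : ℤ}, ¬ (3 : ℤ) ∣ A → 3 ^ i * A = 3 ^ k * B → k ≤ i := by
    intro i k A B hA h
    by_contra hlt
    obtain ⟨d, rfl⟩ : ∃ d, k = i + (d + 1) := ⟨k - i - 1, by omega⟩
    apply hA
    have h3 : (3 : ℤ) ^ i ≠ 0 := by positivity
    have : A = 3 * (3 ^ d * B) := by
      apply mul_left_cancel₀ h3
      rw [h]; ring
    exact ⟨_, this⟩
  have e : i = k := le_antisymm (key hB h.symm) (key hA h)
  subst e
  have h3 : (3 : ℤ) ^ i ≠ 0 := by positivity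
  exact ⟨rfl, mul_left_cancel₀ h3 h⟩

theorem dvd_exp {i n : ℕ} (hi : 1 ≤ i) (h : 3 ^ i - 1 ∣ 3 ^ n - 1) : i ∣ n := by
  have h1 := Nat.pow_sub_one_gcd_pow_sub_one 3 i n
  rw [Nat.gcd_eq_left h] at h1
  have h2 : 0 < 3 ^ i := by positivity
  have h3 : 0 < 3 ^ (Nat.gcd i n) := by positivity
  have h4 : 3 ^ i = 3 ^ (Nat.gcd i n) := by omega
  have h5 := Nat.pow_right_injective (by norm_num : 2 ≤ 3) h4
  rw [h5]
  exact Nat.gcd_dvd_right _ _

end P3r

/-- `w = 3^i`; `i ∣ n`, `s > 1`, so `s = w + 1` or `s = w² + w + 1`.  `m = 2 m'`, `q - ε = m' 3^j`, `m'` even, `w ≡ 1 (2m')`.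
`s = w + 1`: `2 (w - 1) = q² + ε q - 4 ≡ -2 (m')`, so `m' = 2`; `2 w = (q - ε)(q + 2ε)`, so `2·3^j + 3ε` is a power of 3, `j = 1`,
`q = 7` (`4 ∤ 26`) or `q = 5`.  `s = w² + w + 1`: `2 w (w + 1) = (q - ε)(q + 2ε)`, so `m' ∣ 4`; `j ≥ 2` forces `i = j + 1` and
fails; `j = 1`: `q ∈ {5, 7, 11, 13}`. -/
theorem p3_arith {q s i n m j : ℕ} {ε : ℤ} (ho : Odd q) (h3 : 3 < q) (hε : ε = 1 ∨ ε = -1)
    (hs : 2 * (s : ℤ) = q * (q + ε)) (hm : 2 * ((q : ℤ) - ε) = m * 3 ^ j) (hm3 : ¬ 3 ∣ m)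
    (hj : 1 ≤ j) (hi : 1 ≤ i) (h1 : s * (3 ^ i - 1) = 3 ^ n - 1) (h2 : n ≤ 3 * i)
    (h4 : m ∣ 3 ^ i - 1) : (q = 5 ∧ n = 4) ∨ (q = 13 ∧ n = 6) := by
  have hw1 : 1 ≤ 3 ^ i := Nat.one_le_pow _ _ (by norm_num)
  have hn1 : 1 ≤ 3 ^ n := Nat.one_le_pow _ _ (by norm_num)
  obtain ⟨k, rfl⟩ := P3r.dvd_exp hi ⟨s, by rw [← h1, mul_comm]⟩
  have hk : k ≤ 3 := by
    by_contra hk
    have : i * 4 ≤ i * k := Nat.mul_le_mul_left _ (by omega)
    omega
  have h1' : (s : ℤ) * (3 ^ i - 1) = (3 ^ i) ^ k - 1 := by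
    have := congrArg (fun x : ℕ => (x : ℤ)) h1
    simp only [Nat.cast_mul, Nat.cast_sub hw1, Nat.cast_sub hn1] at this
    push_cast at this
    rw [this, pow_mul]
  obtain ⟨t, ht⟩ := h4
  have ht' : (3 : ℤ) ^ i - 1 = m * t := by
    have := congrArg (fun x : ℕ => (x : ℤ)) ht
    simp only [Nat.cast_mul, Nat.cast_sub hw1] at this
    push_cast at this
    exact this
  obtain ⟨i', rfl⟩ : ∃ i', i = i' + 1 := ⟨i - 1, by omega⟩
  obtain ⟨j', rfl⟩ : ∃ j', j = j' + 1 := ⟨j - 1, by omega⟩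
  have hq : (3 : ℤ) < q := by exact_mod_cast h3
  have hε2 : ε * ε = 1 := by rcases hε with rfl | rfl <;> norm_num
  obtain ⟨q0, hq0⟩ := ho
  have hq0' : (q : ℤ) = 2 * q0 + 1 := by exact_mod_cast hq0
  -- `4 ∣ m`
  have hm4 : (4 : ℤ) ∣ m := by
    have h4 : (4 : ℤ) ∣ m * 3 ^ (j' + 1) := by
      rw [← hm]
      rcases hε with rfl | rfl
      · exact ⟨q0, by rw [hq0']; ring⟩
      · exact ⟨q0 + 1, by rw [hq0']; ring⟩
    exact IsCoprime.dvd_of_dvd_mul_right
      (IsCoprime.pow_right (by norm_num [Int.isCoprime_iff_gcd_eq_one])) h4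
  obtain ⟨μ, hμ⟩ := hm4
  have hμ3 : ¬ (3 : ℤ) ∣ μ := fun h => hm3 (by
    have : (3 : ℤ) ∣ m := by rw [hμ]; exact Dvd.dvd.mul_left h 4
    exact_mod_cast this)
  have hμ0 : 0 ≤ μ := by
    have : (0 : ℤ) ≤ m := by positivity
    omega
  set u : ℤ := 3 ^ j' with hu
  set w : ℤ := 3 ^ (i' + 1) with hw
  have hu0 : 0 < u := by positivity
  have hw3 : 3 ≤ w := by
    have : (1 : ℤ) ≤ 3 ^ i' := one_le_pow₀ (by norm_num)
    rw [hw, pow_succ]; omega
  have ha : (q : ℤ) = 6 * μ * u + ε := by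
    rw [hμ, pow_succ] at hm
    linarith
  have hs' : (s : ℤ) = 18 * μ ^ 2 * u ^ 2 + 9 * ε * μ * u + 1 := by
    rw [ha] at hs
    have h2s : 2 * (s : ℤ) = 2 * (18 * μ ^ 2 * u ^ 2 + 9 * ε * μ * u + 1) := by
      linear_combination hs + 2 * hε2
    linarith
  have hw0 : w - 1 ≠ 0 := by omega
  have hu3 : j' = 0 ∨ (3 : ℤ) ∣ u := by
    rcases j' with _ | j''
    · exact Or.inl rfl
    · exact Or.inr ⟨3 ^ j'', by rw [hu]; ring⟩
  have hB : j' = 0 ∨ ¬ (3 : ℤ) ∣ μ * (2 * μ * u + ε) := by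
    rcases hu3 with h | ⟨u', hu'⟩
    · exact Or.inl h
    · refine Or.inr fun h => ?_
      rcases (Int.prime_three.dvd_or_dvd h) with h | h
      · exact hμ3 h
      · rw [hu'] at h
        have h' : (3 : ℤ) ∣ ε := by
          have := Int.dvd_sub h (⟨2 * μ * u', by ring⟩ : (3 : ℤ) ∣ 2 * μ * (3 * u'))
          simpa using this
        rcases hε with rfl | rfl <;> omega
  have hspos : 2 ≤ (s : ℤ) := by
    rcases hε with rfl | rfl <;> nlinarith
  interval_cases k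
  · exfalso
    rw [pow_zero, sub_self] at h1'
    rcases mul_eq_zero.1 h1' with h | h <;> omega
  · exfalso
    have : (s : ℤ) = 1 := by
      apply mul_right_cancel₀ hw0
      rw [h1']; ring
    omega
  · have hsw : (s : ℤ) = w + 1 := by
      apply mul_right_cancel₀ hw0
      rw [h1']; ring
    have he : 3 ^ (i' + 1) * (1 : ℤ) = 3 ^ (j' + 2) * (μ * (2 * μ * u + ε)) := by
      rw [← hw, pow_add, ← hu]
      linear_combination hs' - hsw
    have hμ1 : μ = 1 := by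
      have h1 : μ ∣ w := ⟨9 * u * (2 * μ * u + ε), by linear_combination hs' - hsw⟩
      have h2 : μ ∣ w - 1 := ⟨4 * t, by rw [ht', hμ]; ring⟩
      have h3 : μ ∣ 1 := by simpa using Int.dvd_sub h1 h2
      exact Int.eq_one_of_dvd_one hμ0 h3
    subst hμ1
    rcases hu3 with h0 | h0
    · subst h0
      have hu1 : u = 1 := by simp [hu]
      rw [hu1] at ha hs'
      rcases hε with rfl | rfl
      · exfalso
        have : w = 27 := by omega
        rw [hμ] at ht'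
        omega
      · left
        have hw9 : w = 9 := by omega
        have : (3 : ℤ) ^ (i' + 1) * 1 = 3 ^ 2 * 1 := by rw [← hw, hw9]; norm_num
        have := (P3r.pow_eq (by norm_num) (by norm_num) this).1
        exact ⟨by omega, by omega⟩
    · exfalso
      rcases hB with h1 | hB
      · subst h1
        have hu1 : u = 1 := by simp [hu]
        omega
      · have h5 := (P3r.pow_eq (by norm_num) hB he).2
        rcases hε with rfl | rfl <;> omega
  · have hsw : (s : ℤ) = w ^ 2 + w + 1 := by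
      apply mul_right_cancel₀ hw0
      rw [h1']; ring
    have he : 3 ^ (i' + 1) * (w + 1) = 3 ^ (j' + 2) * (μ * (2 * μ * u + ε)) := by
      rw [← hw, pow_add, ← hu]
      linear_combination hs' - hsw
    have hμ2 : μ ∣ 2 := by
      have h1 : μ ∣ w * (w + 1) := ⟨9 * u * (2 * μ * u + ε), by linear_combination hs' - hsw⟩
      have h2 : μ ∣ (w - 1) * (w + 2) := Dvd.dvd.mul_right (⟨4 * t, by rw [ht', hμ]; ring⟩ : μ ∣ w - 1) _
      have h3 : w * (w + 1) - (w - 1) * (w + 2) = 2 := by ring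
      rw [← h3]
      exact Int.dvd_sub h1 h2
    have hμ' : μ = 1 ∨ μ = 2 := by
      have := Int.le_of_dvd (by norm_num) hμ2
      have h0 : μ ≠ 0 := by rintro rfl; exact hμ3 (dvd_zero _)
      omega
    have hA : ¬ (3 : ℤ) ∣ w + 1 := by
      have : (3 : ℤ) ∣ w := ⟨3 ^ i', by rw [hw]; ring⟩
      omega
    rcases hu3 with h0 | h0
    · subst h0
      have hu1 : u = 1 := by simp [hu]
      rw [hu1] at ha hs'
      have hwle : w ≤ 9 := by
        by_contra hlt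
        rcases hμ' with rfl | rfl <;> rcases hε with rfl | rfl <;> nlinarith
      have hw9 : w = 9 ∧ q = 13 := by
        rcases hμ' with rfl | rfl <;> rcases hε with rfl | rfl <;> interval_cases w <;> omega
      right
      have : (3 : ℤ) ^ (i' + 1) * 1 = 3 ^ 2 * 1 := by rw [← hw, hw9.1]; norm_num
      have := (P3r.pow_eq (by norm_num) (by norm_num) this).1
      exact ⟨hw9.2, by omega⟩
    · exfalso
      rcases hB with h1 | hB
      · subst h1
        have hu1 : u = 1 := by simp [hu]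
        omega
      · obtain ⟨h5, h6⟩ := P3r.pow_eq hA hB he
        have h7 : w = 9 * u := by rw [hw, h5, hu]; ring
        rcases hμ' with rfl | rfl <;> rcases hε with rfl | rfl <;> omega

end H88.GG
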