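import Cfsg.Agent.Lib.GG.K2

/-! Pairs of elements of order three differing by a 2-element. -/

set_option autoImplicit false

namespace H88.GG
open Module Subgroup Cfsg
open scoped MatrixGroups

universe u v

variable {G : Type*} [Group G] [Finite G] {V : Type*} [AddCommGroup V]
  [Module (ZMod 2) V] [Finite V] {ρ : G →* End (ZMod 2) V}

namespace Ring1

section
variable {R : Type*} [Ring R] (h2 : ∀ a : R, a + a = 0) {A d : R} (hA : A * A + A + 1 = 0)
  (hB : (A + d) * (A + d) + (A + d) + 1 = 0)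
include h2 hA hB

theorem r1 : d * A = A * d + d * d + d := by
  linear_combination (norm := noncomm_ring) hB - hA - h2 (A * d + d * d + d)

theorem cA : Commute (d * d) A := by
  change _ = _
  linear_combination (norm := noncomm_ring) d * r1 h2 hA hB + r1 h2 hA hB * d + h2 (d * d * d + d * d)

theorem cX : Commute (d * d) (1 + (A + 1) * d) :=
  (Commute.one_right _).add_right ((((cA h2 hA hB).add_right (Commute.one_right _))).mul_right
    ((Commute.refl d).mul_left (Commute.refl d)))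

theorem sq1 : (1 + (A + 1) * d) * (1 + (A + 1) * d) = 1 + d * d * (1 + (A + 1) * d) := by
  linear_combination (norm := noncomm_ring) (A + 1) * r1 h2 hA hB * d - (cA h2 hA hB).eq * d + hA * (d * d) +
    h2 ((A + 1) * d + A * d * d)

theorem sq2 (j : ℕ) : (1 + (A + 1) * d) ^ (2 * 2 ^ j) = 1 + (d * d) ^ 2 ^ j * (1 + (A + 1) * d) ^ 2 ^ j := by
  induction j with
  | zero => simpa [sq] using sq1 h2 hA hB
  | succ j ih =>
    have c := ((cX h2 hA hB).pow_pow (2 ^ j) (2 ^ j)).symm.mul_mul_mul_comm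
    rw [pow_succ' 2, two_mul (2 * 2 ^ j), pow_add]
    conv_lhs => rw [ih]
    rw [two_mul, pow_add, pow_add, ← c]
    linear_combination (norm := noncomm_ring) h2 ((d * d) ^ 2 ^ j * (1 + (A + 1) * d) ^ 2 ^ j)

theorem ss (j : ℕ) : (d * d) ^ 2 ^ j * ((1 + (A + 1) * d) ^ 2 ^ j + (A + 1) * (1 + (A + 1) * d) ^ 2 ^ j * A) =
    (d * d) ^ (2 * 2 ^ j - 1) * (A * (d * d + d)) := by
  induction j with
  | zero =>
    rw [show 2 * 2 ^ 0 - 1 = 1 from rfl]
    simp only [pow_zero, pow_one]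
    congr 1
    linear_combination (norm := noncomm_ring) hA + hA * (d * A) + A * r1 h2 hA hB + hA * d
  | succ j ih =>
    have c := ((cA h2 hA hB).add_right (Commute.one_right _)).pow_left (2 ^ j)
    have p : 0 < 2 ^ j := by positivity
    rw [show 2 * 2 ^ (j + 1) - 1 = 2 ^ (j + 1) + (2 * 2 ^ j - 1) by rw [pow_succ]; omega, pow_add (d * d),
      mul_assoc _ ((d * d) ^ _), ← ih, pow_succ' 2, sq2 h2 hA hB]
    congr 1
    generalize (1 + (A + 1) * d) ^ 2 ^ j = Y
    linear_combination (norm := noncomm_ring) hA - c.eq * (Y * A)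

end

end Ring1

open Ring1 in
/-- `A = ρ y`, `B = ρ y'`, `d = A + B`: `A d + d A = d² + d`, `η = d²` commutes with `A`; `X = ρ x = 1 + A² d`,
`(X + 1)² = η X`.  Suppose `x` has order `2^k`, `k ≥ 2`, `m = 2^(k-2)`, `t = x^(2m)`, `ρ t + 1 = η^m X^m`, `η^(2m) = 0`.
`U t = ker η^m = im η^m` is `A`-invariant, so `t' = y⁻¹ t y ∈ KK t`, and (induction on `m = 2^j`:
`X^m + A⁻¹ X^m A = η^(m-1) A (d² + d)` modulo multiples of `η^m`, killed by `η^m`) `ρ (t t') + 1 = A d^(4m-1)`.
If `t t' ≠ 1`, `U_eq` and `nil_ker` give `d^(2m) = 0`; if `t t' = 1`, `im d^(2m-1) ≤ ker d^(2m) = im d^(2m)` and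
`nil_range` give `d^(2m-1) = 0`.  Either way `t = 1`. -/
theorem lx (h : FF ρ) {y y' : G} (hy : orderOf y = 3) (hy' : orderOf y' = 3) (h2 : E2 (y⁻¹ * y')) :
    y⁻¹ * y' * (y⁻¹ * y') = 1 ∧ (ρ y + ρ y') * (ρ y + ρ y') = 0 := by
  have q := h.quad (by norm_num) hy
  have q' := h.quad (by norm_num) hy'
  obtain ⟨d, hd⟩ : ∃ d, ρ y' = ρ y + d := ⟨ρ y + ρ y', by rw [← add_assoc, two_e, zero_add]⟩
  have hi : ρ y⁻¹ = ρ y + 1 := by
    have : ρ y⁻¹ * ρ y = 1 := by rw [← map_mul, inv_mul_cancel, map_one]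
    linear_combination (norm := noncomm_ring) ρ y⁻¹ * q - this * ρ y - this - two_e (ρ y + 1)
  have hX : ρ (y⁻¹ * y') = 1 + (ρ y + 1) * d := by
    rw [map_mul, hi, hd]
    linear_combination (norm := noncomm_ring) q - two_e (1 : End (ZMod 2) V)
  rw [hd] at q' ⊢
  rw [← add_assoc, two_e, zero_add]
  generalize y⁻¹ * y' = x at hX h2
  have key : ∀ j, x ^ (2 * (2 * 2 ^ j)) = 1 → x ^ (2 * 2 ^ j) = 1 := fun j e => by
    by_contra n
    have p : 0 < 2 ^ j := by positivity
    have it : Iv (x ^ (2 * 2 ^ j)) := ⟨n, by rw [← pow_add, ← two_mul, e]⟩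
    have hT := sq2 two_e q q' j
    have hS := ss two_e q q' j
    have hN := sq2 two_e q q' (j + 1)
    have cm := ((cX two_e q q').pow_pow (2 ^ j) (2 ^ j)).eq
    have cy := ((cA two_e q q').pow_left (2 ^ j))
    rw [← hX, ← map_pow, ← map_pow] at hT hN
    rw [← hX, ← map_pow] at hS cm
    rw [pow_succ' 2, e, map_one, left_eq_add] at hN
    have hN' : (d * d) ^ (2 * 2 ^ j) = 0 := by
      rw [← mul_one (_ ^ _), ← map_one ρ, ← mul_inv_cancel (x ^ (2 * 2 ^ j)), map_mul, ← mul_assoc, hN, zero_mul]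
    have dd : ∀ n, (d * d) ^ n = d ^ (2 * n) := fun n => by rw [pow_mul, sq]
    have nil : IsNilpotent d := ⟨_, (dd _).symm.trans hN'⟩
    have hU : ∀ v, ρ (x ^ (2 * 2 ^ j)) v = v ↔ ((d * d) ^ 2 ^ j) v = 0 := fun v => by
      rw [hT, cm, LinearMap.add_apply, End.one_apply, add_eq_left, End.mul_apply, ap_eq_zero]
    have fin : d ^ (2 * 2 ^ j) ≠ 0 := fun z => n (h.inj (by rw [hT, dd, z, zero_mul, add_zero, map_one]))
    have mK : y⁻¹ * x ^ (2 * 2 ^ j) * y ∈ KK ρ (x ^ (2 * 2 ^ j)) := fun v hv => by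
      rw [ap_mul, ap_mul, (hU _).2, ap_inv]
      rw [← End.mul_apply, cy.eq, End.mul_apply, (hU v).1 hv, map_zero]
    have hP : ρ (x ^ (2 * 2 ^ j) * (y⁻¹ * x ^ (2 * 2 ^ j) * y)) = 1 + ρ y * d ^ (4 * 2 ^ j - 1) := by
      have c1 := (cy.add_right (Commute.one_right _)).eq
      have e1 : (d * d) ^ 2 ^ j * (d * d) ^ 2 ^ j = 0 := by rw [← pow_add, ← two_mul, hN']
      have e2 : (d * d) ^ (2 * 2 ^ j - 1) * (ρ y * (d * d + d)) = ρ y * d ^ (4 * 2 ^ j - 1) := by
        rw [← mul_assoc, ((cA two_e q q').pow_left _).eq, mul_assoc, mul_add, ← pow_succ,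
          Nat.sub_add_cancel (by omega), hN', zero_add, dd, ← pow_succ]
        congr 2
        omega
      rw [map_mul, map_mul, map_mul, hi, hT, ← e2, ← hS]
      generalize ρ (x ^ 2 ^ j) = Y at cm
      generalize (d * d) ^ 2 ^ j = η at cm c1 e1
      linear_combination (norm := noncomm_ring) q - two_e (1 : End (ZMod 2) V) - c1 * (Y * ρ y) + η * Y * q - two_e (η * Y) -
        η * Y * c1 * (Y * ρ y) - η * cm * ((ρ y + 1) * Y * ρ y) + e1 * (Y * (ρ y + 1) * Y * ρ y)
    by_cases o : x ^ (2 * 2 ^ j) * (y⁻¹ * x ^ (2 * 2 ^ j) * y) = 1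
    · rw [o, map_one, left_eq_add] at hP
      have z : d ^ (4 * 2 ^ j - 1) = 0 := by
        rw [← one_mul (d ^ _), ← map_one ρ, ← inv_mul_cancel y, map_mul, mul_assoc, hP, mul_zero]
      have := nil_range nil (a := 2 * 2 ^ j - 1) (b := 2 * 2 ^ j) (by omega) fun v => by
        obtain ⟨w, hw⟩ := h.free _ it ((d ^ (2 * 2 ^ j - 1)) v) ((hU _).2 (by
          rw [dd, ← End.mul_apply, ← pow_add, show 2 * 2 ^ j + (2 * 2 ^ j - 1) = 4 * 2 ^ j - 1 by omega, z]; rfl))
        refine ⟨ρ (x ^ 2 ^ j) w, ?_⟩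
        rw [← hw, hT, LinearMap.add_apply, End.one_apply, add_right_comm, two_v, zero_add, dd, End.mul_apply]
      exact fin (by rw [← Nat.sub_add_cancel (show 1 ≤ 2 * 2 ^ j by omega), pow_succ, this, zero_mul])
    · refine fin (nil_ker nil (b := 4 * 2 ^ j - 1) (by omega) fun v hv => ?_)
      have := (h.U_eq it (mul_mem (self_mem_KK ρ _) mK) o).le (x := v) (by
        rw [mem_U, hP, LinearMap.add_apply, End.mul_apply, hv, map_zero, add_zero, End.one_apply])
      rw [← dd]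
      exact (hU v).1 this
  have x2 : x * x = 1 := by
    obtain ⟨k, hk⟩ := h2
    induction k with
    | zero => rw [show x = 1 by simpa using hk, one_mul]
    | succ k ih =>
      cases k with
      | zero => simpa [sq] using hk
      | succ k => exact ih (by rw [pow_succ']; exact key k (by rwa [pow_succ', pow_succ'] at hk))
  refine ⟨x2, ?_⟩
  have := sq1 two_e q q'
  rw [← hX, ← map_mul, x2, map_one, left_eq_add] at this
  rw [← mul_one (d * d), ← map_one ρ, ← x2, map_mul, ← mul_assoc, this, zero_mul]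

end H88.GG
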