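import Cfsg.Agent.Lib.GG.Ring1

/-! Pairs of elements of order three differing by a 2-element. -/

set_option autoImplicit false

namespace H88.GG
open Module Subgroup Cfsg
open scoped MatrixGroups

universe u v

theorem Ring1b.core {R : Type*} [Ring R] (two : ∀ a : R, a + a = 0) {A d e : R} (hA : A * A + A + 1 = 0)
    (dA : d * A = A * A * d) (eA : e * A = A * A * e) (d2 : d * d = 0) (e2 : e * e = 0)
    (de : (d + e) * (d + e) = 0) (de' : (d + A * e) * (d + A * e) = 0) : A * A * e * (A * A * d) = 0 := by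
  have c1 : d * e + e * d = 0 := by linear_combination (norm := noncomm_ring) de - d2 - e2
  have c2 : d * A * e + A * e * d = 0 := by
    linear_combination (norm := noncomm_ring) de' - d2 - A * eA * e - A * A * A * e2
  have de0 : d * e = 0 := by
    linear_combination (norm := noncomm_ring) hA * (d * e) - (c2 - dA * e - A * c1) - two (A * (d * e))
  linear_combination (norm := noncomm_ring) A * A * eA * (A * d) + A * A * A * A * eA * d +
    A * A * A * A * A * A * (c1 - de0)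

theorem Ring1b.main {R : Type*} [Ring R] (two : ∀ a : R, a + a = 0) {A X Y : R} (hA : A * A + A + 1 = 0)
    (hX : A * X * (A * X) + A * X + 1 = 0) (hY : A * Y * (A * Y) + A * Y + 1 = 0)
    (d2 : (A + A * X) * (A + A * X) = 0) (e2 : (A + A * Y) * (A + A * Y) = 0)
    (de : (A * X + A * Y) * (A * X + A * Y) = 0) (de' : (A * X + Y * A) * (A * X + Y * A) = 0) :
    (Y + 1) * (X + 1) = 0 := by
  have A3 : A * A * A = 1 := by linear_combination (norm := noncomm_ring) (A - 1) * hA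
  have k : ∀ X : R, A * X * (A * X) + A * X + 1 = 0 → (A + A * X) * (A + A * X) = 0 →
      ∃ d, A * X = A + d ∧ X + 1 = A * A * d ∧ d * d = 0 ∧ d * A = A * A * d := fun X hX d2 => by
    obtain ⟨d, hd⟩ : ∃ d, A * X = A + d := ⟨A * X - A, by abel⟩
    have e : X + 1 = A * A * d := by
      linear_combination (norm := noncomm_ring) A * A * hd - A3 * X + A3 + two 1
    rw [hd] at hX d2
    rw [← add_assoc, two, zero_add] at d2
    exact ⟨d, hd, e, d2, by linear_combination (norm := noncomm_ring) hX - hA - d2 - hA * d⟩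
  obtain ⟨d, hd, x1, d2, dA⟩ := k X hX d2
  obtain ⟨e, he, y1, e2, eA⟩ := k Y hY e2
  have ya : Y * A = A + A * e := by
    linear_combination (norm := noncomm_ring) y1 * A + A * A * eA + A3 * (A * e) - two A
  rw [hd, he, add_add_add_comm, two, zero_add] at de
  rw [hd, ya, add_add_add_comm, two, zero_add] at de'
  rw [x1, y1]
  exact Ring1b.core two hA dA eA d2 e2 de de'

variable {G : Type*} [Group G] [Finite G] {V : Type*} [AddCommGroup V]
  [Module (ZMod 2) V] [Finite V] {ρ : G →* End (ZMod 2) V}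

/-- `dᵢ = A + ρ (y xᵢ)`; by `lx` `d₁² = d₂² = (d₁ + d₂)² = 0`, so `d₁ d₂ = d₂ d₁`, and `dᵢ A = A² dᵢ`.  For
`y⁻¹ (y x₂) y` one gets `d₃ = A d₂`, and `d₁ d₃ = d₃ d₁` gives `d₁ d₂ = 0`.  `ρ xᵢ + 1 = A² dᵢ`, so
`(ρ x₂ + 1)(ρ x₁ + 1) = 0` and `U x₁ = im (ρ x₁ + 1)`. -/
theorem s2 (h : FF ρ) {y x₁ x₂ : G} (hy : orderOf y = 3) (h1 : orderOf (y * x₁) = 3)
    (h2 : orderOf (y * x₂) = 3) (e1 : E2 x₁) (e2 : E2 x₂) (e3 : E2 (x₁⁻¹ * x₂))
    (e4 : E2 (x₁⁻¹ * (y⁻¹ * x₂ * y))) (hne : x₁ ≠ 1) : x₂ ∈ KK ρ x₁ := by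
  have : Fact (Nat.Prime 2) := ⟨Nat.prime_two⟩
  have q : ∀ {x : G}, orderOf x = 3 → ρ x * ρ x + ρ x + 1 = 0 := h.toFP.quad (by decide)
  have h3 : orderOf (x₂ * y) = 3 := by
    rw [← h2, show x₂ * y = y⁻¹ * (y * x₂) * y⁻¹⁻¹ by group]
    exact (MulAut.conj y⁻¹).orderOf_eq _
  obtain ⟨s1, a1⟩ := lx h hy h1 (by rwa [inv_mul_cancel_left])
  have a2 := (lx h hy h2 (by rwa [inv_mul_cancel_left])).2
  have a3 := (lx h h1 h2 (by rwa [mul_inv_rev, mul_assoc, inv_mul_cancel_left])).2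
  have a4 := (lx h h1 h3 (by simpa only [mul_inv_rev, mul_assoc] using e4)).2
  have q1 := q h1
  have q2 := q h2
  simp only [map_mul] at a1 a2 a3 a4 q1 q2
  rw [inv_mul_cancel_left] at s1
  intro v hv
  obtain ⟨w, rfl⟩ := h.free x₁ ⟨hne, s1⟩ v hv
  have := LinearMap.congr_fun (Ring1b.main two_e (q hy) q1 q2 a1 a2 a3 a4) w
  exact (eq_neg_of_add_eq_zero_left this).trans (neg_eq_of_add_eq_zero_left (two_v _))

/-- `s2` with `x₁ = t` and `E2.mul`. -/
theorem s2' (h : FF ρ) {y t x : G} (hc : C1 ρ y t) {Q : Subgroup G} (hQ : IsPGroup 2 Q) (ht : t ∈ Q)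
    (hy : y ∈ normalizer (Q : Set G)) (hx : x ∈ normalizer (Q : Set G)) (e : E2 x)
    (h3 : orderOf (y * x) = 3) : x ∈ KK ρ t :=
  s2 h hc.y3 hc.yt3 h3 (E2_of_mem hQ ht) e (E2.mul hQ (inv_mem ht) hx e)
    (E2.mul hQ (inv_mem ht) (mul_mem (mul_mem (inv_mem hy) hx) hy) (by simpa using e.conj y⁻¹)) hc.iv.ne

end H88.GG
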