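import Cfsg.Agent.Lib.GG.K2

/-! Two ring computations. -/

set_option autoImplicit false

namespace H88.GG
open Module Subgroup Cfsg
open scoped MatrixGroups

universe u v

variable {G : Type*} [Group G] [Finite G] {V : Type*} [AddCommGroup V]
  [Module (ZMod 2) V] [Finite V] {ρ : G →* End (ZMod 2) V}

omit [Finite V] in
theorem ringQ_frob {a b : End (ZMod 2) V} (h : Commute a b) (n : ℕ) :
    (a + b) ^ (2 ^ n) = a ^ (2 ^ n) + b ^ (2 ^ n) := by
  induction n with
  | zero => simp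
  | succ n ih =>
    have hc : Commute (a ^ (2 ^ n)) (b ^ (2 ^ n)) := h.pow_pow _ _
    rw [pow_succ, pow_mul, pow_mul, pow_mul, ih, sq, sq, sq, add_mul, mul_add, mul_add, hc.eq]
    have := two_e (b ^ (2 ^ n) * a ^ (2 ^ n))
    calc a ^ 2 ^ n * a ^ 2 ^ n + b ^ 2 ^ n * a ^ 2 ^ n + (b ^ 2 ^ n * a ^ 2 ^ n + b ^ 2 ^ n * b ^ 2 ^ n)
        = a ^ 2 ^ n * a ^ 2 ^ n + (b ^ 2 ^ n * a ^ 2 ^ n + b ^ 2 ^ n * a ^ 2 ^ n)
            + b ^ 2 ^ n * b ^ 2 ^ n := by abel
      _ = _ := by rw [this, add_zero]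

omit [Finite V] in
theorem ringQ_fix {g h : End (ZMod 2) V} (hgh : g * h = 1) (hhg : h * g = 1) {m k N : ℕ}
    (hm : g ^ m = 1) (hk : 2 ^ N = m * k + 1) : (g + h) ^ (2 ^ N) = g + h := by
  have hc : Commute g h := by
    show g * h = h * g
    rw [hgh, hhg]
  have hh : h ^ m = 1 := by
    have : (g * h) ^ m = g ^ m * h ^ m := hc.mul_pow m
    rw [hgh, one_pow, hm, one_mul] at this
    exact this.symm
  rw [ringQ_frob hc, hk, pow_succ, pow_succ, pow_mul, pow_mul, hm, hh, one_pow, one_mul, one_mul]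

theorem ringQ_exp {m : ℕ} (hm : Odd m) : ∃ N k : ℕ, 2 ^ (N + 1) = m * k + 1 := by
  have hco : Nat.Coprime 2 m := Nat.coprime_two_left.mpr hm
  have hpos : 0 < m := hm.pos
  have ht := Nat.ModEq.pow_totient hco
  have htp : 0 < Nat.totient m := Nat.totient_pos.mpr hpos
  have h1 : 1 ≤ 2 ^ Nat.totient m := Nat.one_le_two_pow
  obtain ⟨k, hk⟩ := (Nat.modEq_iff_dvd' h1).mp ht.symm
  refine ⟨Nat.totient m - 1, k, ?_⟩
  rw [Nat.sub_add_cancel htp]
  omega

omit [Finite V] in
/-- `δ = YC + CY²` (`= g + g⁻¹`, `g = YC`) and `δ' = (YC + CY) A` (`g = YCA`) commute with `Y, A, C`, so with each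
other; `δ^(2^N) = δ`, `δ'^(2^N) = δ'` for `2^N ≡ 1 mod m m'`, `N ≥ 1`; on `ker (A + 1)`, `C = δ + δ'`.  Hence
`u = C^(2^N) u = (δ + δ')^(2^N) u = C u`. -/
theorem ringQ {Y A C : End (ZMod 2) V} (hY : Y * Y + Y + 1 = 0) (hA : A * A = 1) (hC : C * C = 1)
    (hAY : A * Y = Y * Y * A) (hAC : A * C = C * A) {m m' : ℕ} (hm : Odd m) (hm' : Odd m')
    (h1 : (Y * C) ^ m = 1) (h2 : (Y * C * A) ^ m' = 1) {u : V} (hu : A u = u) : C u = u := by
  have h2e : ∀ a : End (ZMod 2) V, a + a = 0 := two_e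
  have hYY : Y * Y = Y + 1 := by
    have := h2e (Y + 1)
    calc Y * Y = (Y * Y + Y + 1) + (Y + 1) - ((Y + 1) + (Y + 1)) + 0 := by abel
      _ = Y + 1 := by rw [hY, this]; abel
  have hY3 : Y * (Y * Y) = 1 := by
    rw [hYY, mul_add, hYY, mul_one]
    calc Y + 1 + Y = (Y + Y) + 1 := by abel
      _ = 1 := by rw [h2e, zero_add]
  have hY3' : Y * Y * Y = 1 := by rw [mul_assoc, hY3]
  have hAY' : A * Y = Y * A + A := by rw [hAY, hYY, add_mul, one_mul]
  obtain ⟨N, k, hk⟩ := ringQ_exp (hm.mul hm')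
  set δ : End (ZMod 2) V := Y * C + C * (Y * Y) with hδ
  set δ' : End (ZMod 2) V := Y * C * A + C * Y * A with hδ'
  have e1 : δ ^ (2 ^ (N + 1)) = δ := by
    refine ringQ_fix (m := m) (k := m' * k) ?_ ?_ h1 (by rw [hk, mul_assoc])
    · calc Y * C * (C * (Y * Y)) = Y * (C * C) * (Y * Y) := by noncomm_ring
        _ = 1 := by rw [hC, mul_one, hY3]
    · calc C * (Y * Y) * (Y * C) = C * (Y * Y * Y) * C := by noncomm_ring
        _ = 1 := by rw [hY3', mul_one, hC]
  have e2 : δ' ^ (2 ^ (N + 1)) = δ' := by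
    refine ringQ_fix (m := m') (k := m * k) ?_ ?_ h2 (by rw [hk]; ring)
    · calc Y * C * A * (C * Y * A) = Y * C * (A * C) * Y * A := by noncomm_ring
        _ = Y * (C * C) * (A * Y) * A := by rw [hAC]; noncomm_ring
        _ = (Y * (Y * Y)) * (A * A) := by rw [hC, hAY]; noncomm_ring
        _ = 1 := by rw [hY3, hA, mul_one]
    · calc C * Y * A * (Y * C * A) = C * Y * (A * Y) * C * A := by noncomm_ring
        _ = C * (Y * (Y * Y)) * (A * C) * A := by rw [hAY]; noncomm_ring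
        _ = (C * C) * (A * A) := by rw [hY3, hAC]; noncomm_ring
        _ = 1 := by rw [hC, hA, mul_one]
  have hδ2 : δ = Y * C + C * Y + C := by
    rw [hδ, hYY, mul_add, mul_one, add_assoc]
  have hδ'2 : δ' = (δ + C) * A := by
    rw [hδ2, add_assoc, h2e, add_zero, add_mul]
  have cC : Commute δ C := by
    show δ * C = C * δ
    rw [hδ2]
    calc (Y * C + C * Y + C) * C = Y * (C * C) + C * Y * C + C * C := by noncomm_ring
      _ = C * Y * C + (C * C) * Y + C * C := by rw [hC]; noncomm_ring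
      _ = C * (Y * C + C * Y + C) := by noncomm_ring
  have cA : Commute δ A := by
    show δ * A = A * δ
    rw [hδ2]
    symm
    calc A * (Y * C + C * Y + C) = (A * Y) * C + (A * C) * Y + A * C := by noncomm_ring
      _ = (Y * A + A) * C + (C * A) * Y + C * A := by rw [hAY', hAC]
      _ = Y * (A * C) + A * C + C * (A * Y) + C * A := by noncomm_ring
      _ = (Y * C + C * Y + C) * A + (C * A + C * A) := by rw [hAY', hAC]; noncomm_ring
      _ = (Y * C + C * Y + C) * A := by rw [h2e, add_zero]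
  have cδ : Commute δ δ' := by
    rw [hδ'2]
    exact ((Commute.refl δ).add_right cC).mul_right cA
  have e3 : (δ + δ') ^ (2 ^ (N + 1)) = δ + δ' := by rw [ringQ_frob cδ, e1, e2]
  have key : ∀ w : V, A w = w → (δ + δ') w = C w := by
    intro w hw
    rw [hδ'2, LinearMap.add_apply, Module.End.mul_apply, hw, LinearMap.add_apply δ C, ← add_assoc,
      two_v, zero_add]
  have hCA : ∀ w : V, A w = w → A (C w) = C w := by
    intro w hw
    rw [← Module.End.mul_apply, hAC, Module.End.mul_apply, hw]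
  have pw : ∀ (j : ℕ) (w : V), A w = w → ((δ + δ') ^ j) w = (C ^ j) w := by
    intro j
    induction j with
    | zero => intro w _; simp
    | succ j ih =>
      intro w hw
      rw [pow_succ, pow_succ, Module.End.mul_apply, Module.End.mul_apply, key w hw]
      exact ih _ (hCA w hw)
  have hC2 : C ^ (2 ^ (N + 1)) = 1 := by
    rw [pow_succ', pow_mul, sq, hC, one_pow]
  have := pw (2 ^ (N + 1)) u hu
  rw [e3, hC2, key u hu] at this
  simpa using this

end H88.GG
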