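import Cfsg.Agent.Lib.GG.Ring2

/-! Two ring computations. -/

set_option autoImplicit false

namespace H88.GG
open Module Subgroup Cfsg
open scoped MatrixGroups

universe u v

variable {G : Type*} [Group G] [Finite G] {V : Type*} [AddCommGroup V]
  [Module (ZMod 2) V] [Finite V] {ρ : G →* End (ZMod 2) V}

theorem Ring3.sq {R : Type*} [Ring R] {A B : R} (hA : A * A + A + 1 = 0) (hB : B * B + B + 1 = 0) :
    B * B * (A * A) = B * A + B + A + 1 := by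
  linear_combination (norm := noncomm_ring) hB * (A * A) - (B + 1) * hA

/-- any ring: `c = AB + B²A² = AB + BA + A + B + 1`; `A c = ABA - B - 1 = c A`. -/
theorem ring_c {R : Type*} [Ring R] {A B : R} (hA : A * A + A + 1 = 0) (hB : B * B + B + 1 = 0) :
    A * (A * B + B * B * (A * A)) = (A * B + B * B * (A * A)) * A ∧
      B * (A * B + B * B * (A * A)) = (A * B + B * B * (A * A)) * B := by
  rw [Ring3.sq hA hB]
  constructor
  · linear_combination (norm := noncomm_ring) hA * B - B * hA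
  · linear_combination (norm := noncomm_ring) hB * A - A * hB

omit [Finite G] in
theorem Ring3.ind {y y' : G} (hy : y⁻¹ = y * y) (hy' : y'⁻¹ = y' * y') {P : G → Prop} (h1 : P 1)
    (h2 : ∀ x, P x → P (y * x)) (h3 : ∀ x, P x → P (y' * x)) {x : G} (hx : x ∈ closure ({y, y'} : Set G)) :
    P x := by
  induction hx using closure_induction_left with
  | one => exact h1
  | mul_left a ha x _ ih => rcases ha with rfl | rfl <;> [exact h2 x ih; exact h3 x ih]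
  | inv_mul_cancel a ha x _ ih =>
    rcases ha with rfl | rfl
    · rw [hy, mul_assoc]; exact h2 _ (h2 x ih)
    · rw [hy', mul_assoc]; exact h3 _ (h3 x ih)

/-- `P x : ∃ r₀ r₁ r₂ r₃` commuting with `A, B`, `ρ x = r₀ + r₁A + r₂B + r₃AB` and
`ρ x⁻¹ = r₀ + r₁A² + r₂B² + r₃B²A²`.  Then `ρ x + ρ x⁻¹ = 2 r₀ - r₁ - r₂ + r₃ c`. -/
theorem ringT (h : FP ρ) {y y' : G} (hy : orderOf y = 3) (hy' : orderOf y' = 3) {x g : G}
    (hx : x ∈ closure ({y, y'} : Set G)) (hg : g ∈ closure ({y, y'} : Set G)) :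
    ρ g * (ρ x + ρ x⁻¹) = (ρ x + ρ x⁻¹) * ρ g := by
  have : Fact (Nat.Prime 2) := ⟨Nat.prime_two⟩
  have hA := h.quad (by decide) hy
  have hB := h.quad (by decide) hy'
  have iv : ∀ {y : G}, orderOf y = 3 → y⁻¹ = y * y := fun {y} hy =>
    inv_eq_of_mul_eq_one_right (by rw [← pow_three, ← hy, pow_orderOf_eq_one])
  obtain ⟨cA, cB⟩ := ring_c hA hB
  have e := Ring3.sq hA hB
  let C := Subring.centralizer ({ρ y, ρ y'} : Set (End (ZMod 2) V))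
  have mC : ∀ {r}, r ∈ C ↔ ρ y * r = r * ρ y ∧ ρ y' * r = r * ρ y' := by
    simp [C, Subring.mem_centralizer_iff]
  have hc := mC.2 ⟨cA, cB⟩
  have k : ∃ r₀ ∈ C, ∃ r₁ ∈ C, ∃ r₂ ∈ C, ∃ r₃ ∈ C, ρ x = r₀ + r₁ * ρ y + r₂ * ρ y' + r₃ * (ρ y * ρ y') ∧
      ρ x⁻¹ = r₀ + r₁ * (ρ y * ρ y) + r₂ * (ρ y' * ρ y') + r₃ * (ρ y' * ρ y' * (ρ y * ρ y)) := by
    refine Ring3.ind (iv hy) (iv hy') (P := fun x => ∃ r₀ ∈ C, ∃ r₁ ∈ C, ∃ r₂ ∈ C, ∃ r₃ ∈ C,
      ρ x = r₀ + r₁ * ρ y + r₂ * ρ y' + r₃ * (ρ y * ρ y') ∧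
      ρ x⁻¹ = r₀ + r₁ * (ρ y * ρ y) + r₂ * (ρ y' * ρ y') + r₃ * (ρ y' * ρ y' * (ρ y * ρ y)))
      ⟨1, one_mem _, 0, zero_mem _, 0, zero_mem _, 0, zero_mem _, by simp, by simp⟩ ?_ ?_ hx
    · rintro x ⟨r₀, m0, r₁, m1, r₂, m2, r₃, m3, e1, e2⟩
      refine ⟨-r₁, neg_mem m1, r₀ - r₁, sub_mem m0 m1, -r₃, neg_mem m3, r₂ - r₃, sub_mem m2 m3, ?_, ?_⟩
      · rw [map_mul, e1]
        linear_combination (norm := noncomm_ring) (mC.1 m0).1 + (mC.1 m1).1 * ρ y + (mC.1 m2).1 * ρ y' +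
          (mC.1 m3).1 * (ρ y * ρ y') + r₁ * hA + r₃ * hA * ρ y'
      · rw [mul_inv_rev, iv hy, map_mul, map_mul, e2]
        linear_combination (norm := noncomm_ring) r₁ * hA * (ρ y * ρ y - ρ y + 1) +
          r₃ * (ρ y' * ρ y') * hA * (ρ y * ρ y - ρ y + 1)
    · rintro x ⟨r₀, m0, r₁, m1, r₂, m2, r₃, m3, e1, e2⟩
      refine ⟨_, add_mem (sub_mem (mul_mem m1 (sub_mem hc (one_mem _))) m2) m3, r₃ - r₁, sub_mem m3 m1,
        _, add_mem (sub_mem (sub_mem m0 m1) m2) (mul_mem m3 hc), -r₁, neg_mem m1, ?_, ?_⟩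
      · rw [map_mul, e1]
        linear_combination (norm := noncomm_ring) (mC.1 m0).2 + (mC.1 m1).2 * ρ y + (mC.1 m2).2 * ρ y' +
          (mC.1 m3).2 * (ρ y * ρ y') - r₁ * e + r₂ * hB - r₃ * e * ρ y' - r₃ * (ρ y + 1) * hB
      · rw [mul_inv_rev, iv hy', map_mul, map_mul, e2]
        linear_combination (norm := noncomm_ring) r₁ * (hA * (ρ y' * ρ y') - ρ y * hB + hA) +
          r₂ * hB * (ρ y' * ρ y' - ρ y' + 1) - r₃ * hA - r₃ * ρ y * hB * (ρ y' - 1)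
  obtain ⟨r₀, m0, r₁, m1, r₂, m2, r₃, m3, e1, e2⟩ := k
  have m : ρ x + ρ x⁻¹ ∈ C := by
    convert add_mem (sub_mem (sub_mem (add_mem m0 m0) m1) m2) (mul_mem m3 hc) using 1
    rw [e1, e2]
    linear_combination (norm := noncomm_ring) r₁ * hA + r₂ * hB
  refine Ring3.ind (iv hy) (iv hy') (P := fun g => ρ g * (ρ x + ρ x⁻¹) = (ρ x + ρ x⁻¹) * ρ g) (by simp)
    (fun g e => ?_) (fun g e => ?_) hg
  · rw [map_mul, mul_assoc, e, ← mul_assoc, (mC.1 m).1, mul_assoc]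
  · rw [map_mul, mul_assoc, e, ← mul_assoc, (mC.1 m).2, mul_assoc]

end H88.GG
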