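import Cfsg.Agent.Lib.GG.SLa
import Cfsg.Agent.Lib.SL2Elt.Order

/-! `SL₂(2^a)`. -/

set_option autoImplicit false
set_option linter.unusedSectionVars false

namespace H88.GG
open Module Subgroup Cfsg
open scoped MatrixGroups commutatorElement

universe u v

variable {F : Type*} [Field F] [Fintype F] [CharP F 2]

namespace SLb

theorem sq (a : F) : ∃ r, a = r * r :=
  FiniteField.isSquare_of_char_two (ringChar.eq F 2) a

theorem mk_conj {x y : SL(2, F)} (P : Matrix (Fin 2) (Fin 2) F) (hP : P.det ≠ 0)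
    (h : x.1 * P = P * y.1) : ∃ g, g * x * g⁻¹ = y := by
  obtain ⟨r, hr⟩ := sq P.det
  have r0 : r ≠ 0 := fun e => hP (by rw [hr, e, mul_zero])
  let Q : SL(2, F) := ⟨r⁻¹ • P, by
    rw [Matrix.det_smul, Fintype.card_fin, hr]; field_simp⟩
  refine ⟨Q⁻¹, ?_⟩
  rw [inv_inv, mul_assoc, inv_mul_eq_iff_eq_mul]
  refine Subtype.ext ?_
  show x.1 * (r⁻¹ • P) = (r⁻¹ • P) * y.1
  rw [Matrix.mul_smul, Matrix.smul_mul, h]

omit [Fintype F] [CharP F 2] in
theorem form (x : SL(2, F)) : ∃ a b c d : F, x.1 = !![a, b; c, d] ∧ a * d - b * c = 1 :=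
  ⟨_, _, _, _, Matrix.eta_fin_two x.1, by rw [← Matrix.det_fin_two, x.2]⟩

omit [Fintype F] [CharP F 2] in
theorem ord_conj {G : Type*} [Group G] (g x : G) : orderOf (g * x * g⁻¹) = orderOf x :=
  (MulAut.conj g).orderOf_eq x

end SLb

open SLb

/-- `x² + x + 1 = 0`; in the basis `v, x v` it is `yy F`; divide the base change by a square root of its
determinant (every element is a square). -/
theorem conj_yy {x : SL(2, F)} (hx : orderOf x = 3) : ∃ g, g * x * g⁻¹ = yy F := by
  obtain ⟨a, b, c, d, e, hd⟩ := form x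
  have h2 : (2 : F) = 0 := CharTwo.two_eq_zero
  have h3 : x * x * x = 1 := by rw [← pow_three', ← hx, pow_orderOf_eq_one]
  have h1 : x ≠ 1 := fun h => by rw [h, orderOf_one] at hx; omega
  have m : (x * x).1 = (x⁻¹).1 := by rw [eq_inv_of_mul_eq_one_left h3]
  rw [Matrix.SpecialLinearGroup.coe_mul, Matrix.SpecialLinearGroup.coe_inv, e,
    Matrix.adjugate_fin_two_of, Matrix.mul_fin_two] at m
  have m00 : a * a + b * c = d := by simpa using congrFun (congrFun m 0) 0
  have m01 : a * b + b * d = -b := by simpa using congrFun (congrFun m 0) 1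
  have m10 : c * a + d * c = -c := by simpa using congrFun (congrFun m 1) 0
  have tr : a + d = -1 := by
    by_contra t
    have t' : a + d + 1 ≠ 0 := fun h => t (by linear_combination h)
    have b0 : b = 0 := (mul_eq_zero.1 (show (a + d + 1) * b = 0 by linear_combination m01)).resolve_left t'
    have c0 : c = 0 := (mul_eq_zero.1 (show (a + d + 1) * c = 0 by linear_combination m10)).resolve_left t'
    subst b0 c0
    have a1 : a = 1 := by
      have := (mul_eq_zero.1 (show (a + d + 1) * (a - 1) = 0 by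
        linear_combination hd + m00)).resolve_left t'
      linear_combination this
    refine h1 (Subtype.ext ?_)
    rw [e, show d = 1 by rw [← m00, a1]; ring, a1]
    exact Matrix.one_fin_two.symm
  have key : ∀ p q : F, p * (c * p + d * q) - (a * p + b * q) * q ≠ 0 → ∃ g, g * x * g⁻¹ = yy F :=
    fun p q h => mk_conj !![p, a * p + b * q; q, c * p + d * q] (by rwa [Matrix.det_fin_two_of]) (by
      rw [e, yy_val, Matrix.mul_fin_two, Matrix.mul_fin_two]
      congr 1
      ext i j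
      fin_cases i <;> fin_cases j <;> simp
      · linear_combination (a * p + b * q) * tr - p * hd
      · linear_combination (c * p + d * q) * tr - q * hd)
  by_cases c0 : c = 0
  · by_cases b0 : b = 0
    · refine key 1 1 fun h => one_ne_zero (α := F) ?_
      subst c0 b0
      linear_combination tr - h - a * h2
    · exact key 0 1 (by simpa using b0)
  · exact key 1 0 (by simpa using c0)

theorem conj_uu {a b : F} (ha : a ≠ 0) (hb : b ≠ 0) : ∃ g : SL(2, F), g * uu a * g⁻¹ = uu b := by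
  obtain ⟨r, hr⟩ := SLb.sq (b / a)
  have r0 : r ≠ 0 := fun e => div_ne_zero hb ha (by rw [hr, e, mul_zero])
  exact ⟨hh (Units.mk0 r r0), by rw [hh_uu, Units.val_mk0, pow_two, ← hr, div_mul_cancel₀ _ ha]⟩

theorem conj_iv {s : SL(2, F)} (hs : Iv s) : ∃ g, g * s * g⁻¹ = uu 1 := by
  obtain ⟨a, b, c, d, e, hd⟩ := form s
  have h2 : (2 : F) = 0 := CharTwo.two_eq_zero
  have m : s.1 = (s⁻¹).1 := by rw [← eq_inv_of_mul_eq_one_left hs.sq]
  rw [Matrix.SpecialLinearGroup.coe_inv, e, Matrix.adjugate_fin_two_of] at m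
  have m00 : a = d := by simpa using congrFun (congrFun m 0) 0
  subst m00
  by_cases c0 : c = 0
  · subst c0
    have a1 : a = 1 := by
      have : (a - 1) ^ 2 = 0 := by linear_combination hd + (1 - a) * h2
      linear_combination pow_eq_zero_iff (two_ne_zero) |>.1 this
    subst a1
    have b0 : b ≠ 0 := fun h => hs.ne (Subtype.ext (by rw [e, h]; exact Matrix.one_fin_two.symm))
    exact conj_uu b0 one_ne_zero |>.imp fun g hg => by
      rw [← hg, show s = uu b from Subtype.ext e]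
  · refine mk_conj !![a - 1, 1; c, 0] (by rw [Matrix.det_fin_two_of]; simpa using c0) ?_
    rw [e, uu_val, Matrix.mul_fin_two, Matrix.mul_fin_two]
    congr 1
    ext i j
    fin_cases i <;> fin_cases j <;> simp
    · linear_combination hd + (b * c + 1 - a) * h2
    · linear_combination (a * c - c) * h2

/-- `conj_iv`, then `inv_by_uu`. -/
theorem conj_pair {x s : SL(2, F)} (hx : orderOf x = 3) (hs : Iv s) (h : s * x * s⁻¹ = x⁻¹) :
    ∃ g, g * x * g⁻¹ = yy F ∧ g * s * g⁻¹ = uu 1 := by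
  obtain ⟨g, hg⟩ := conj_iv hs
  obtain ⟨a, ha⟩ := inv_by_uu (x := g * x * g⁻¹) (by rw [ord_conj, hx]) (by
    rw [← hg, show g * s * g⁻¹ * (g * x * g⁻¹) * (g * s * g⁻¹)⁻¹ = g * (s * x * s⁻¹) * g⁻¹ by group, h]
    group)
  refine ⟨(uu a)⁻¹ * g, ?_, ?_⟩
  · rw [show (uu a)⁻¹ * g * x * ((uu a)⁻¹ * g)⁻¹ = (uu a)⁻¹ * (g * x * g⁻¹) * uu a by group, ha]; group
  · rw [show (uu a)⁻¹ * g * s * ((uu a)⁻¹ * g)⁻¹ = (uu a)⁻¹ * (g * s * g⁻¹ * uu a) by group, hg,
      uu_comm, inv_mul_cancel_left]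

theorem sl_simple (h4 : 4 ≤ Fintype.card F) : IsSimpleGroup SL(2, F) := by
  have : IsSimpleGroup PSL(2, F) := Matrix.ProjectiveSpecialLinearGroup.rank_two_simple
    (by rwa [Nat.card_eq_fintype_card])
  exact (H64.SL2.projEquiv CharTwo.two_eq_zero).isSimpleGroup

theorem sl_perfect (h4 : 4 ≤ Fintype.card F) : commutator SL(2, F) = ⊤ := by
  refine ((sl_simple h4).eq_bot_or_eq_top_of_normal _ inferInstance).resolve_left fun h => ?_
  have : ⁅yy F, uu (1 : F)⁆ ∈ commutator SL(2, F) := commutator_mem_commutator (mem_top _) (mem_top _)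
  rw [h, mem_bot, commutatorElement_eq_one_iff_mul_comm] at this
  exact yy_uu_ne one_ne_zero this

theorem O3_top (h4 : 4 ≤ Fintype.card F) : O3 (⊤ : Subgroup SL(2, F)) = ⊤ := by
  have hn : (O3 (⊤ : Subgroup SL(2, F))).Normal := ⟨fun n hn g => by
    induction hn using closure_induction with
    | mem x hx => exact subset_closure ⟨mem_top _, by rw [ord_conj, hx.2]⟩
    | one => rw [mul_one, mul_inv_cancel]; exact one_mem _
    | mul x y _ _ hx hy => rw [← conj_mul]; exact mul_mem hx hy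
    | inv x _ hx => rw [← conj_inv]; exact inv_mem hx⟩
  refine ((sl_simple h4).eq_bot_or_eq_top_of_normal _ hn).resolve_left fun h => ?_
  have : yy F ∈ O3 (⊤ : Subgroup SL(2, F)) := subset_closure ⟨mem_top _, orderOf_yy⟩
  rw [h, mem_bot] at this
  have e := orderOf_yy (F := F)
  rw [this, orderOf_one] at e
  omega

theorem exists_tau (h4 : 4 ≤ Fintype.card F) : ∃ τ : F, τ ≠ 0 ∧ τ ≠ 1 := by
  classical
  by_contra h
  have : (Finset.univ : Finset F) ⊆ {0, 1} := fun x _ => by
    by_contra hx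
    simp only [Finset.mem_insert, Finset.mem_singleton, not_or] at hx
    exact h ⟨x, hx⟩
  have h2 := (Finset.card_le_card this).trans Finset.card_le_two
  rw [Finset.card_univ] at h2
  omega

theorem exists_nu (h8 : 8 ≤ Fintype.card F) : ∃ ν : F, ν ≠ 0 ∧ ν ≠ 1 ∧ ν ^ 2 + ν + 1 ≠ 0 := by
  classical
  by_contra h
  push Not at h
  obtain ⟨τ, t0, t1⟩ := exists_tau (F := F) (by omega)
  have : (Finset.univ : Finset F) ⊆ {0, 1, τ, -1 - τ} := fun x _ => by
    by_contra hx
    simp only [Finset.mem_insert, Finset.mem_singleton, not_or] at hx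
    have := mul_eq_zero.1 (show (x - τ) * (x - (-1 - τ)) = 0 by
      linear_combination h x hx.1 hx.2.1 - h τ t0 t1)
    exact this.elim (fun e => hx.2.2.1 (sub_eq_zero.1 e)) fun e => hx.2.2.2 (sub_eq_zero.1 e)
  have h2 := (Finset.card_le_card this).trans Finset.card_le_four
  rw [Finset.card_univ] at h2
  omega

theorem exists_yy' (h4 : 4 ≤ Fintype.card F) :
    ∃ x : SL(2, F), orderOf x = 3 ∧ x ≠ yy F ∧ x ≠ (yy F)⁻¹ := by
  obtain ⟨τ, t0, t1⟩ := exists_tau h4
  exact ⟨uu τ * yy F * (uu τ)⁻¹, by rw [ord_conj, orderOf_yy],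
    fun e => (uu_conj_yy (Or.inl e)).elim t0 t1, fun e => (uu_conj_yy (Or.inr e)).elim t0 t1⟩

/-- `|F| = 4`: `hh ω` and `hh ω * uu 1`. -/
theorem exists_omega (h4 : 4 ≤ Fintype.card F) (h8 : ¬ 8 ≤ Fintype.card F) :
    ∃ x x' : SL(2, F), orderOf x = 3 ∧ orderOf x' = 3 ∧ x⁻¹ * x' = uu 1 := by
  obtain ⟨τ, t0, t1⟩ := exists_tau h4
  have c4 : Fintype.card F = 4 := by
    obtain ⟨n, -, hn⟩ := FiniteField.card F 2
    rw [hn] at h4 h8 ⊢
    have h1 : (n : ℕ) < 3 := (Nat.pow_lt_pow_iff_right (a := 2) (by norm_num)).1 (by omega)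
    have h2 : 2 ≤ (n : ℕ) := (Nat.pow_le_pow_iff_right (a := 2) (by norm_num)).1 (by omega)
    rw [show (n : ℕ) = 2 by omega]; rfl
  have e4 := FiniteField.pow_card τ
  rw [c4] at e4
  have e : τ ^ 2 + τ + 1 = 0 :=
    (mul_eq_zero.1 (show (τ * (τ - 1)) * (τ ^ 2 + τ + 1) = 0 by linear_combination e4)).resolve_left
      (mul_ne_zero t0 (sub_ne_zero.2 t1))
  let X : F → SL(2, F) := fun b => ⟨!![τ, b; 0, τ ^ 2], by
    rw [Matrix.det_fin_two_of]; linear_combination (τ - 1) * e⟩
  have key : ∀ b : F, orderOf (X b) = 3 := fun b => by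
    refine orderOf_eq_prime (p := 3) ?_ fun h => t1 ?_
    refine Subtype.ext ?_
    · rw [pow_three, Matrix.SpecialLinearGroup.coe_mul, Matrix.SpecialLinearGroup.coe_mul,
        Matrix.SpecialLinearGroup.coe_one, Matrix.one_fin_two]
      show !![τ, b; 0, τ ^ 2] * (!![τ, b; 0, τ ^ 2] * !![τ, b; 0, τ ^ 2]) = _
      rw [Matrix.mul_fin_two, Matrix.mul_fin_two]
      congr 1
      ext i j
      fin_cases i <;> fin_cases j <;> simp
      · linear_combination (τ - 1) * e
      · linear_combination (b * τ ^ 2) * e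
      · linear_combination ((τ - 1) * (τ ^ 3 + 1)) * e
    · have h' : (X b).1 0 0 = (1 : SL(2, F)).1 0 0 := by rw [h]
      simpa [X] using h'
  refine ⟨_, _, key 0, key τ, ?_⟩
  rw [inv_mul_eq_iff_eq_mul]
  refine Subtype.ext ?_
  rw [Matrix.SpecialLinearGroup.coe_mul, uu_val]
  show !![τ, τ; 0, τ ^ 2] = !![τ, 0; 0, τ ^ 2] * !![1, 1; 0, 1]
  rw [Matrix.mul_fin_two]
  simp

end H88.GG
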