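import Cfsg.Agent.Lib.GG.K2
import Cfsg.Agent.Lib.GG.Odd2
import Cfsg.Agent.Lib.GG.Odd3
import Cfsg.Agent.Lib.GG.SLb
import Cfsg.Agent.Lib.Core.PCore

/-! Subgroups generated by elements of order three. -/

set_option autoImplicit false

namespace H88.GG
open Module Subgroup Cfsg
open scoped MatrixGroups

universe u v

variable {G : Type u} [Group G] [Finite G] {V : Type v} [AddCommGroup V]
  [Module (ZMod 2) V] [Finite V] {ρ : G →* End (ZMod 2) V}

namespace Str

theorem O3_le {H : Type*} [Group H] {Y K : Subgroup H} (h : ∀ x ∈ Y, orderOf x = 3 → x ∈ K) : O3 Y ≤ K :=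
  (closure_le _).2 fun x hx => h x hx.1 hx.2

theorem ord_map {H H' : Type*} [Group H] [Group H'] (f : H →* H') (hk : IsPGroup 2 f.ker) {x : H}
    (hx : orderOf x = 3) : orderOf (f x) = 3 := by
  haveI : Fact (Nat.Prime 3) := ⟨Nat.prime_three⟩
  refine orderOf_eq_prime (by rw [← map_pow, ← hx, pow_orderOf_eq_one, map_one]) fun h => ?_
  obtain ⟨k, e⟩ := hk ⟨x, h⟩
  have := orderOf_dvd_of_pow_eq_one (show x ^ 2 ^ k = 1 from congrArg Subtype.val e)
  rw [hx] at this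
  exact absurd (Nat.prime_three.dvd_of_dvd_pow this) (by decide)

theorem simple [Nontrivial V] [Nontrivial G] (h : FP ρ) (hO : pCore 2 G = ⊥)
    (hg : O3 (⊤ : Subgroup G) = ⊤) : IsSimpleGroup G := by
  haveI : Fact (Nat.Prime 3) := ⟨Nat.prime_three⟩
  refine ⟨fun N hN => ?_⟩
  by_cases h3 : 3 ∣ Nat.card N
  · obtain ⟨x, hx⟩ := exists_prime_orderOf_dvd_card' 3 h3
    rw [← orderOf_coe] at hx
    refine Or.inr (top_le_iff.1 (hg ▸ O3_le fun z _ hz => ?_))
    obtain ⟨g, e | e⟩ := h.conj3 (by decide) hx hz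
    · exact e ▸ hN.conj_mem _ x.2 g
    · exact inv_mem_iff.1 (e ▸ hN.conj_mem _ x.2 g)
  refine Or.inl (eq_bot_iff.2 (hO ▸ H1.le_pCore ?_))
  by_contra h2
  obtain ⟨r, hr, hd, r2⟩ : ∃ r, r.Prime ∧ r ∣ Nat.card N ∧ r ≠ 2 := by
    by_contra k
    push Not at k
    exact h2 (IsPGroup.iff_card.2 ⟨_, Nat.eq_prime_pow_of_unique_prime_dvd Nat.card_pos.ne' (k _)⟩)
  haveI := Fact.mk hr
  obtain ⟨z, hz⟩ := exists_prime_orderOf_dvd_card' r hd
  rw [← orderOf_coe] at hz
  have hc : (z : G) ∈ center G := mem_center_iff.2 fun g =>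
    mem_centralizer_singleton_iff.1 ((hg ▸ O3_le (K := centralizer {(z : G)}) fun y _ hy =>
      mem_centralizer_singleton_iff.2 (h.cent_normal hO N h3 hy z.2)) (mem_top g))
  obtain ⟨M, hM, ht, k, e⟩ := h.central hr r2 r2 hz hc
  refine ht (top_le_iff.1 (hg ▸ O3_le fun y _ hy => ?_))
  have c : (Nat.Coprime 3 M.index) := by
    rw [e]
    exact ((Nat.coprime_primes Nat.prime_three hr).2 fun q => h3 (q ▸ hd)).pow_right k
  rw [← QuotientGroup.eq_one_iff, ← orderOf_eq_one_iff]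
  refine Nat.eq_one_of_dvd_coprimes c (hy ▸ orderOf_map_dvd (QuotientGroup.mk' M) y) ?_
  exact orderOf_dvd_natCard _

end Str

/-- `G/O₂(G)` has an `FP` representation (`exists_quot`), `O₂ = 1`, and is generated by elements of order 3.
Let `N ≠ 1` be normal in it.  `3 ∣ |N|`: all elements of order 3 are in `N` (`conj3`), `N = ⊤`.  Else `N` is central
(`cent_normal`), has an element of odd prime order `r ≠ 3` (`O₂ = 1`), and `central` gives a proper normal subgroup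
containing all elements of order 3.  So the quotient is simple; if abelian it is generated by the image of `y`,
so `y⁻¹ y'` or `y y'` lies in `O₂`.  Apply `ih`, then `conj_yy`. -/
theorem str [Nontrivial V] {n : ℕ} (ih : IH.{u, v} n) (h : FP ρ) (hn : Nat.card G < n)
    (hg : O3 (⊤ : Subgroup G) ⊔ pCore 2 G = ⊤) {y y' : G} (hy : orderOf y = 3)
    (hy' : orderOf y' = 3) (h1 : ¬ E2 (y⁻¹ * y')) (h2 : ¬ E2 (y * y')) :
    ∃ (F : Type) (_ : Field F) (_ : Fintype F) (_ : CharP F 2), 4 ≤ Fintype.card F ∧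
      ∃ π : G →* SL(2, F), Function.Surjective π ∧ π.ker = pCore 2 G ∧ π y = yy F := by
  obtain ⟨_, σ, hσ⟩ := h.exists_quot
  let f := QuotientGroup.mk' (pCore 2 G)
  have fk : f.ker = pCore 2 G := QuotientGroup.ker_mk' _
  have fs : Function.Surjective f := QuotientGroup.mk'_surjective _
  have f2 : IsPGroup 2 f.ker := by rw [fk]; exact H1.isPGroup_pCore
  have o := Str.ord_map f f2 hy
  have o' := Str.ord_map f f2 hy'
  have hg' : O3 (⊤ : Subgroup (G ⧸ pCore 2 G)) = ⊤ := by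
    refine top_le_iff.1 fun x _ => ?_
    obtain ⟨x, rfl⟩ := fs x
    exact (sup_le (Str.O3_le (K := (O3 ⊤).comap f) fun z _ hz =>
      subset_closure ⟨mem_top _, Str.ord_map f f2 hz⟩) (fk ▸ ker_le_comap f _)) (hg ▸ mem_top x)
  haveI : Nontrivial (G ⧸ pCore 2 G) := ⟨f y, 1, fun e => by
    rw [e, orderOf_one] at o; exact absurd o (by decide)⟩
  obtain ⟨F, _, _, _, h4, ⟨e⟩⟩ := ih (G ⧸ pCore 2 G) _ σ
    ((Nat.card_le_card_of_surjective f fs).trans_lt hn)
    (Str.simple hσ H1.pCore_quotient_pCore hg') (fun c => by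
      obtain ⟨g, k⟩ := hσ.conj3 (by decide) o o'
      rw [mul_comm' g, mul_inv_cancel_right] at k
      rcases k with k | k
      · exact h1 (E2_of_mem f2 (by rw [MonoidHom.mem_ker, map_mul, map_inv, k, inv_mul_cancel]))
      · exact h2 (E2_of_mem f2 (by rw [MonoidHom.mem_ker, map_mul, k, inv_mul_cancel])))
    (o ▸ orderOf_dvd_natCard _) hσ
  obtain ⟨g, k⟩ := conj_yy ((e.orderOf_eq (f y)).trans o)
  refine ⟨F, _, _, ‹_›, h4, (e.trans (MulAut.conj g)).toMonoidHom.comp f,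
    (e.trans (MulAut.conj g)).surjective.comp fs, ?_, k⟩
  rw [MonoidHom.ker_comp_of_injective _ _ (e.trans (MulAut.conj g)).injective, fk]

/-- `str` for the group `Y`. -/
theorem str' (ih : IH.{u, v} (Nat.card G)) (h : FF ρ) {Y E : Subgroup G} (hY : Y ≠ ⊤)
    (hE : IsPGroup 2 E) (hN : Y ≤ normalizer (E : Set G)) (hEY : E ≤ Y) (hg : Y ≤ O3 Y ⊔ E)
    {y y' : G} (my : y ∈ Y) (my' : y' ∈ Y) (hy : orderOf y = 3) (hy' : orderOf y' = 3)
    (h1 : ¬ E2 (y⁻¹ * y')) (h2 : ¬ E2 (y * y')) :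
    ∃ (F : Type) (_ : Field F) (_ : Fintype F) (_ : CharP F 2), 4 ≤ Fintype.card F ∧
      ∃ π : Y →* SL(2, F), Function.Surjective π ∧ π.ker = pCore 2 Y ∧ π ⟨y, my⟩ = yy F := by
  have := h.nontrivial
  have e2 : ∀ x : Y, E2 x → E2 (x : G) := fun x ⟨k, e⟩ => ⟨k, congrArg Subtype.val e⟩
  refine str ih (h.toFP.comp Y.subtype Y.subtype_injective) ?_ ?_ (y' := ⟨y', my'⟩)
    ((orderOf_coe _).symm.trans hy) ((orderOf_coe _).symm.trans hy') (mt (e2 _) h1) (mt (e2 _) h2)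
  · exact lt_of_not_ge fun k => hY (eq_top_of_le_card Y k)
  · refine top_le_iff.1 fun x _ => ?_
    have : O3 Y ⊔ E ≤ (O3 (⊤ : Subgroup Y) ⊔ pCore 2 Y).map Y.subtype :=
      sup_le (Str.O3_le fun z hz o => ⟨⟨z, hz⟩, mem_sup_left
        (subset_closure ⟨mem_top _, (orderOf_coe _).symm.trans o⟩), rfl⟩) fun z hz =>
        ⟨⟨z, hEY hz⟩, mem_sup_right (H1.le_pCore (hN := (normal_subgroupOf_iff_le_normalizer hEY).2 hN)
          (hE.comap_of_injective _ Y.subtype_injective) hz), rfl⟩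
    obtain ⟨z, hz, e⟩ := this (hg x.2)
    exact Subtype.ext e ▸ hz

end H88.GG
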