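import Cfsg.Agent.Lib.GG.S3c
import Cfsg.Agent.Lib.GG.Str

/-! Case I: elements of order three in `N(K)`. -/

set_option autoImplicit false
set_option maxHeartbeats 400000

namespace H88.GG
open Module Subgroup Cfsg
open scoped MatrixGroups

universe u v

variable {G : Type u} [Group G] [Finite G] {V : Type v} [AddCommGroup V]
  [Module (ZMod 2) V] [Finite V] {ρ : G →* End (ZMod 2) V}

/-- If `y⁻¹ y'` (or `y y'`, use `C1.inv`) is a 2-element: `s2'` with `Q = K`.  Else `str'` for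
`Y = closure {y, y'} ⊔ K`, `E = K`, and `s3core` for `ρ.comp Y.subtype` (there `KK` is `K.subgroupOf Y`). -/
theorem s3 (ih : IH.{u, v} (Nat.card G)) (h : FF ρ) {y t : G} (hc : C1 ρ y t)
    (hN : normalizer (KK ρ t : Set G) ≠ ⊤) {y' : G} (hy' : orderOf y' = 3)
    (hm : y' ∈ normalizer (KK ρ t : Set G)) : y⁻¹ * y' ∈ KK ρ t ∨ y * y' ∈ KK ρ t := by
  have hy := hc.norm h
  by_cases e1 : E2 (y⁻¹ * y')
  · left
    exact s2' h hc (h.pgroup hc.iv) (self_mem_KK ρ t) hy (mul_mem (inv_mem hy) hm) e1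
      (by rw [mul_inv_cancel_left]; exact hy')
  by_cases e2 : E2 (y * y')
  · right
    exact s2' h hc.inv (h.pgroup hc.iv) (self_mem_KK ρ t) (inv_mem hy) (mul_mem hy hm) e2
      (by rw [inv_mul_cancel_left]; exact hy')
  exfalso
  obtain ⟨Y, hY⟩ : ∃ Y : Subgroup G, Y = closure {y, y'} ⊔ KK ρ t := ⟨_, rfl⟩
  have hKY : KK ρ t ≤ Y := by rw [hY]; exact le_sup_right
  have hcY : closure {y, y'} ≤ Y := by rw [hY]; exact le_sup_left
  have my : y ∈ Y := hcY (subset_closure (by simp))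
  have my' : y' ∈ Y := hcY (subset_closure (by simp))
  have hYN : Y ≤ normalizer (KK ρ t : Set G) := by
    rw [hY]
    refine sup_le ((closure_le _).2 ?_) le_normalizer
    rintro x (rfl | rfl)
    · exact hy
    · exact hm
  have hYt : Y ≠ ⊤ := fun e => hN (top_le_iff.1 (by rw [← e]; exact hYN))
  have hg : Y ≤ O3 Y ⊔ KK ρ t := by
    conv_lhs => rw [hY]
    refine sup_le_sup_right ((closure_le _).2 ?_) _
    rintro x (rfl | rfl)
    · exact subset_closure ⟨my, hc.y3⟩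
    · exact subset_closure ⟨my', hy'⟩
  obtain ⟨F, _, _, _, hF, π, hs, hk, hπ⟩ :=
    str' ih h hYt (h.pgroup hc.iv) hYN hKY hg my my' hc.y3 hy' e1 e2
  have mt : t ∈ Y := hKY (self_mem_KK ρ t)
  have hc' : C1 (ρ.comp Y.subtype) ⟨y, my⟩ ⟨t, mt⟩ :=
    ⟨⟨fun e => hc.iv.ne (congrArg Subtype.val e), Subtype.ext hc.iv.sq⟩,
      by rw [← orderOf_coe]; exact hc.y3, Subtype.ext hc.yt⟩
  haveI : (KK (ρ.comp Y.subtype) (⟨t, mt⟩ : Y)).Normal := ⟨fun n hn g => by
    have h1 : (n : G) ∈ KK ρ t := hn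
    have h2 : (g : G) * n * (g : G)⁻¹ ∈ KK ρ t := (mem_normalizer_iff.1 (hYN g.2) n).1 h1
    exact h2⟩
  exact s3core (h.comp Y.subtype Subtype.val_injective) hc' hF π hs hk hπ

end H88.GG
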