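import Cfsg.Agent.Lib.GG.Ring1b
import Cfsg.Agent.Lib.GG.Lift
import Cfsg.Agent.Lib.GG.SLb
import Cfsg.Agent.Lib.Core.PCore

/-! Case I: `K` normal and `G/O₂(G) = SL₂(F)` is impossible. -/

set_option autoImplicit false

namespace H88.GG
open Module Subgroup Cfsg
open scoped MatrixGroups

universe u v

namespace S3a

theorem fix_ne {G : Type*} [Group G] [Finite G] {p : ℕ} [Fact p.Prime] {Q N : Subgroup G}
    (hQ : IsPGroup p Q) (n : Q ≤ normalizer (N : Set G)) (d : p ∣ Nat.card N) :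
    ∃ x ∈ N, x ≠ 1 ∧ ∀ q ∈ Q, q * x = x * q := by
  let _ : MulAction Q N := MulAction.compHom N ((normalizerMonoidHom N).comp (inclusion n))
  have e : ∀ (q : Q) (x : N), ((q • x : N) : G) = q * x * (q : G)⁻¹ := fun _ _ => rfl
  obtain ⟨b, hb, b1⟩ := hQ.exists_fixed_point_of_prime_dvd_card_of_fixed_point N d (a := 1)
    (fun q => Subtype.ext (by rw [e]; simp))
  refine ⟨b, b.2, fun e' => b1 (Subtype.ext e'.symm), fun q hq => ?_⟩
  have := congrArg Subtype.val (hb ⟨q, hq⟩)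
  rw [e] at this
  exact mul_inv_eq_iff_eq_mul.1 this

theorem cube {G : Type*} [Group G] {y : G} (hy : y ^ 3 = 1) (b : G) :
    (y * b) ^ 3 = (y * b * y⁻¹) * (y * y * b * (y * y)⁻¹) * b := by
  have : (y * b * y⁻¹) * (y * y * b * (y * y)⁻¹) * b = y * b * y * b * (y ^ 3)⁻¹ * y * b := by group
  rw [this, hy]
  simp only [pow_succ, pow_zero, one_mul, inv_one, mul_one, mul_assoc]

/-- the elements `b` of an abelian normal subgroup with `(y b)³ = 1` form a subgroup -/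
theorem exists_B {G : Type*} [Group G] {y : G} (hy : y ^ 3 = 1) (K : Subgroup G) [hK : K.Normal]
    (hc : ∀ a ∈ K, ∀ b ∈ K, a * b = b * a) :
    ∃ B : Subgroup G, ∀ b, b ∈ B ↔ b ∈ K ∧ (y * b) ^ 3 = 1 := by
  haveI : IsMulCommutative K := ⟨⟨fun a b => Subtype.ext (hc a a.2 b b.2)⟩⟩
  letI : CommGroup K := IsMulCommutative.instCommGroup
  let c : G → K →* K := fun g => (MulAut.conjNormal g : MulAut K).toMonoidHom
  let φ : K →* K := c y * c (y * y) * MonoidHom.id K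
  have hφ : ∀ b : K, ((φ b : K) : G) = (y * b) ^ 3 := by
    intro b
    rw [cube hy]
    rfl
  refine ⟨φ.ker.map K.subtype, fun b => ⟨?_, ?_⟩⟩
  · rintro ⟨x, hx, rfl⟩
    refine ⟨x.2, ?_⟩
    have : φ x = 1 := hx
    change (y * (x : G)) ^ 3 = 1
    rw [← hφ, this]; rfl
  · rintro ⟨hb, h3⟩
    refine ⟨⟨b, hb⟩, ?_, rfl⟩
    change φ ⟨b, hb⟩ = 1
    apply Subtype.ext
    rw [hφ]; exact h3

end S3a

variable {G : Type*} [Group G] [Finite G] {V : Type*} [AddCommGroup V]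
  [Module (ZMod 2) V] [Finite V] {ρ : G →* End (ZMod 2) V}
variable {F : Type*} [Field F] [Fintype F] [CharP F 2]

/-- `K = KK t`, `Q = ker π ≥ K`, `s` from `exists_lift_s`.  For `q ∈ Q`, `y⁻¹ q y q⁻¹ ∈ K` by `s2'`.  So
`B = {b ∈ K | (y b)³ = 1}` (a subgroup: `b · y b y⁻¹ · y² b y⁻² = 1`, `K` abelian; `t ∈ B`) is normalised by the
2-group `π⁻¹ ⟨uu 1⟩ = Q ∪ Q s`, which therefore centralises some `b ∈ B`, `b ≠ 1`. -/
theorem s3_b (h : FF ρ) {y t : G} (hc : C1 ρ y t) [(KK ρ t).Normal] (π : G →* SL(2, F))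
    (hk : π.ker = pCore 2 G) (hy : π y = yy F) {s : G} (hs : π s = uu 1)
    (hsy : s * y * s⁻¹ = y⁻¹) :
    ∃ b ∈ KK ρ t, C1 ρ y b ∧ s * b = b * s ∧ ∀ q, π q = 1 → q * b = b * q := by
  classical
  have hKn : (KK ρ t).Normal := inferInstance
  have y3 : y ^ 3 = 1 := hc.y3 ▸ pow_orderOf_eq_one y
  have hQ : IsPGroup 2 π.ker := hk ▸ H1.isPGroup_pCore
  have hKQ : KK ρ t ≤ π.ker := hk ▸ H1.le_pCore (h.pgroup hc.iv)
  have nQ : ∀ g : G, g ∈ normalizer (π.ker : Set G) := fun g => by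
    rw [normalizer_eq_top]; trivial
  obtain ⟨B, hB⟩ := S3a.exists_B y3 (KK ρ t) fun a ha b hb => h.comm hc.iv ha hb
  -- conjugation by `Q`
  have cq : ∀ q ∈ π.ker, ∀ b ∈ B, q * b * q⁻¹ ∈ B := by
    intro q hq b hb
    have o3 : orderOf (y * (y⁻¹ * q⁻¹ * y * q)) = 3 := by
      have : y * (y⁻¹ * q⁻¹ * y * q) = MulAut.conj q⁻¹ y := by
        simp only [MulAut.conj_apply]; group
      rw [this, MulEquiv.orderOf_eq, hc.y3]
    have m : y⁻¹ * q⁻¹ * y * q ∈ π.ker := by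
      have := π.normal_ker.conj_mem _ (inv_mem hq) y⁻¹
      rw [inv_inv] at this
      exact mul_mem this hq
    have k1 : y⁻¹ * q⁻¹ * y * q ∈ KK ρ t :=
      s2' h hc hQ (hKQ (self_mem_KK ρ t)) (nQ _) (nQ _) (E2_of_mem hQ m) o3
    have k2 : y⁻¹ * q⁻¹ * y * q ∈ B := (hB _).2 ⟨k1, o3 ▸ pow_orderOf_eq_one _⟩
    have k3 := ((hB _).1 (mul_mem k2 hb)).2
    refine (hB _).2 ⟨hKn.conj_mem _ ((hB _).1 hb).1 q, ?_⟩
    have : y * (q * b * q⁻¹) = q * (y * (y⁻¹ * q⁻¹ * y * q * b)) * q⁻¹ := by group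
    rw [this, conj_pow, k3]; group
  -- conjugation by `s`
  have cs : ∀ b ∈ B, s * b * s⁻¹ ∈ B := by
    intro b hb
    obtain ⟨b1, b2⟩ := (hB _).1 hb
    refine (hB _).2 ⟨hKn.conj_mem _ b1 s, ?_⟩
    have bb : b⁻¹ = b := inv_eq_of_mul_eq_one_right (h.sq hc.iv b1)
    have e1 : y = s * y⁻¹ * s⁻¹ := by
      have : s * y⁻¹ * s⁻¹ = (s * y * s⁻¹)⁻¹ := by group
      rw [this, hsy, inv_inv]
    have : y * (s * b * s⁻¹) = (s * y⁻¹) * (y * b)⁻¹ * (s * y⁻¹)⁻¹ := by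
      conv_lhs => rw [e1, ← bb]
      group
    rw [this, conj_pow, inv_pow, b2]; group
  let R : Subgroup G := (zpowers (uu (1 : F))).comap π
  have hR : IsPGroup 2 R :=
    IsPGroup.comap_of_ker_isPGroup
      (pgroup_UU.to_le (zpowers_le.2 (mem_UU.2 ⟨1, rfl⟩))) π hQ
  have hRB : ∀ r ∈ R, ∀ b ∈ B, r * b * r⁻¹ ∈ B := by
    intro r hr b hb
    have o2 : orderOf (uu (1 : F)) = 2 := (iv_uu one_ne_zero).orderOf
    have hr' : π r ∈ zpowers (uu (1 : F)) := hr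
    rw [mem_zpowers_iff_mem_range_orderOf, o2] at hr'
    obtain ⟨i, hi, e⟩ := Finset.mem_image.1 hr'
    have hi' := Finset.mem_range.1 hi
    interval_cases i
    · exact cq r (by rw [MonoidHom.mem_ker, ← e, pow_zero]) b hb
    · have m : r * s⁻¹ ∈ π.ker := by
        rw [MonoidHom.mem_ker, map_mul, map_inv, ← e, hs, pow_one, mul_inv_cancel]
      have := cq _ m _ (cs b hb)
      have e2 : r * s⁻¹ * (s * b * s⁻¹) * (r * s⁻¹)⁻¹ = r * b * r⁻¹ := by group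
      rwa [e2] at this
  have hN : R ≤ normalizer (B : Set G) := by
    intro r hr
    rw [mem_normalizer_iff]
    intro b
    refine ⟨hRB r hr b, fun hb => ?_⟩
    have := hRB r⁻¹ (inv_mem hr) _ hb
    have e2 : r⁻¹ * (r * b * r⁻¹) * r⁻¹⁻¹ = b := by group
    rwa [e2] at this
  have tB : t ∈ B := (hB _).2 ⟨self_mem_KK ρ t, hc.yt⟩
  have d2 : 2 ∣ Nat.card B := hc.iv.orderOf ▸ B.orderOf_dvd_natCard tB
  obtain ⟨b, hb, b1, hbc⟩ := S3a.fix_ne hR hN d2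
  obtain ⟨bK, b3⟩ := (hB _).1 hb
  refine ⟨b, bK, ⟨h.iv_of_mem hc.iv bK b1, hc.y3, b3⟩, hbc s ?_, fun q hq => hbc q ?_⟩
  · change π s ∈ zpowers (uu (1 : F))
    rw [hs]; exact mem_zpowers _
  · change π q ∈ zpowers (uu (1 : F))
    rw [hq]; exact one_mem _

/-- `n = ρ b + 1`, `ker n = U`, `S = π⁻¹ (UU F)` a 2-group, `v ∉ U` fixed by `S` mod `U` (`exists_fix_mod`),
`u = n v` is fixed by `Q` and `s`; `nat` (`W1 = fix Q`, `U0 = ⊥`) shows `S` fixes `u`; so `c b c⁻¹` and `b` agree on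
`v` (`eq_one_of_fix`). -/
theorem s3_S (h : FF ρ) {y b : G} (hc : C1 ρ y b) [(KK ρ b).Normal] (π : G →* SL(2, F))
    (hk : π.ker = pCore 2 G) (hy : π y = yy F) {s : G} (hs : π s = uu 1) (hb : s * b = b * s)
    (hq : ∀ q, π q = 1 → q * b = b * q) {c : G} (hc' : π c ∈ UU F) : c * b = b * c := by
  classical
  have hKn : (KK ρ b).Normal := inferInstance
  have hQ : IsPGroup 2 π.ker := hk ▸ H1.isPGroup_pCore
  have nQ : ∀ g : G, g ∈ normalizer (π.ker : Set G) := fun g => by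
    rw [normalizer_eq_top]; trivial
  have nK : ∀ g : G, g ∈ normalizer (KK ρ b : Set G) := fun g => by
    rw [normalizer_eq_top]; trivial
  let S : Subgroup G := (UU F).comap π
  have hS : IsPGroup 2 S := IsPGroup.comap_of_ker_isPGroup pgroup_UU π hQ
  obtain ⟨v, -, hv, hfix⟩ := exists_fix_mod ρ hS (U0 := U ρ b) (W1 := ⊤)
    (lt_top_iff_ne_top.2 (h.U_ne_top hc.iv))
    (fun r _ => (h.mem_norm_iff' hc.iv).1 (nK r)) (fun _ _ _ _ => trivial)
  -- `n (ρ r v) = n v`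
  have hn : ∀ r ∈ S, ρ b (ρ r v) + ρ r v = ρ b v + v := by
    intro r hr
    have e : ρ b (ρ r v - v) = ρ r v - v := hfix r hr
    rw [map_sub] at e
    have e2 : ρ b (ρ r v) = ρ r v - v + ρ b v := by rw [← e]; abel
    have e3 := two_v (ρ r v - v)
    rw [e2]
    have : ρ r v - v + ρ b v + ρ r v = (ρ r v - v + (ρ r v - v)) + (ρ b v + v) := by abel
    rw [this, e3, zero_add]
  have hu : ∀ r ∈ S, r * b = b * r → ρ r (ρ b v + v) = ρ b v + v := by
    intro r hr e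
    rw [map_add, ← ap_mul, e, ap_mul, hn r hr]
  have sS : s ∈ S := by
    change π s ∈ UU F
    rw [hs]; exact ⟨1, rfl⟩
  have uQ : ρ b v + v ∈ fix ρ π.ker := by
    intro q hq'
    refine hu q ?_ (hq q hq')
    change π q ∈ UU F
    rw [MonoidHom.mem_ker.1 hq']; exact one_mem _
  obtain ⟨τ, hτ⟩ := mem_UU.1 hc'
  have hcu := nat ρ π (U0 := ⊥) (W1 := fix ρ π.ker) bot_le
    (fun g w hw => by rw [(Submodule.mem_bot _).1 hw, map_zero]; exact zero_mem _)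
    (fun g w hw => fix_inv ρ (nQ g) hw)
    (fun q hq' w hw => by rw [hw q hq', sub_self]; exact zero_mem _) hy
    (h.toFP.quad (by norm_num) hc.y3) hs hτ.symm uQ
    (by rw [hu s sS hb, sub_self]; exact zero_mem _)
  rw [Submodule.mem_bot, sub_eq_zero] at hcu
  have h1 := hn c⁻¹ (inv_mem hc')
  have h2 : ρ (c * b * c⁻¹) v = ρ b v := by
    have := congrArg (ρ c) h1
    rw [hcu, map_add, ap_inv', ← ap_mul, ← ap_mul] at this
    exact add_right_cancel this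
  have h3 : b⁻¹ * (c * b * c⁻¹) = 1 := by
    refine h.eq_one_of_fix hc.iv
      (mul_mem (inv_mem (self_mem_KK ρ b)) (hKn.conj_mem _ (self_mem_KK ρ b) c)) hv ?_
    rw [ap_mul, h2, ap_inv]
  exact mul_inv_eq_iff_eq_mul.1 (inv_mul_eq_one.1 h3).symm

end H88.GG
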