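import Cfsg.Agent.Lib.GG.S3a
import Cfsg.Agent.Lib.Core.PCore

/-! Case I: `K` normal and `G/O₂(G) = SL₂(F)` is impossible. -/

set_option autoImplicit false

namespace H88.GG
open Module Subgroup Cfsg
open scoped MatrixGroups

universe u v

variable {G : Type*} [Group G] [Finite G] {V : Type*} [AddCommGroup V]
  [Module (ZMod 2) V] [Finite V] {ρ : G →* End (ZMod 2) V}
variable {F : Type*} [Field F] [Fintype F] [CharP F 2]

/-- `n = ρ b + 1`, `n' = ρ s * n` commutes with `ρ y` (`C1.swap`).  `V1 = {v | ρ q v - v ∈ U, q ∈ Q}` is invariant,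
`Q` fixes `n V1 ≤ fix Q`, so on `V1` `n'` commutes with `S`, hence with `G = ⟨S, y⟩` (`UU_sup_yy`), and `W = n V1 = n' V1`
is invariant, `≠ 0`.  `a` over `hh μ`, `μ² ≠ 1`; `v ∉ U` fixed mod `U` by `S`; so is `ρ a v`.  `n' a v = a n' v` gives
`n a v = a n v`, so `a` centralises `b`; then `s a` and `a s` agree on `W`.  The kernel on `W` is normal, so in
`O₂ = Q` (`le_pCore`), but `π (a⁻¹ s⁻¹ a s) ≠ 1`. -/
theorem s3core (h : FF ρ) {y t : G} (hc : C1 ρ y t) [(KK ρ t).Normal] (hF : 4 ≤ Fintype.card F)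
    (π : G →* SL(2, F)) (hs : Function.Surjective π) (hk : π.ker = pCore 2 G) (hy : π y = yy F) :
    False := by
  have : Fact (Nat.Prime 2) := ⟨Nat.prime_two⟩
  have hQ : IsPGroup 2 π.ker := hk ▸ H1.isPGroup_pCore
  obtain ⟨s, ps, sy⟩ := exists_lift_s π hs hQ hc.y3 hy
  obtain ⟨b, hb, cb, sb, qb⟩ := s3_b h hc π hk hy ps sy
  have nK : (KK ρ b).Normal := by rwa [h.KK_eq hc.iv hb cb.iv.ne]
  have iU : ∀ g, ∀ v ∈ U ρ b, ρ g v ∈ U ρ b := fun g =>
    (h.mem_norm_iff' cb.iv).1 (by rw [normalizer_eq_top]; trivial)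
  let n : End (ZMod 2) V := ρ b + 1
  have nU : ∀ {v w}, v - w ∈ U ρ b → n v = n w := fun {v w} e => by
    rw [← sub_eq_zero, ← map_sub]
    exact (congrArg (· + (v - w)) e).trans (two_v _)
  have nc : ∀ {g}, g * b = b * g → ∀ v, n (ρ g v) = ρ g (n v) := fun {g} e v => by
    simp only [n, LinearMap.add_apply, End.one_apply, map_add, ← ap_mul, e]
  let V1 : V → Prop := fun v => ∀ q, π q = 1 → ρ q v - v ∈ U ρ b
  have cj : ∀ g c v, ρ (g⁻¹ * c * g) v - v ∈ U ρ b → ρ c (ρ g v) - ρ g v ∈ U ρ b := fun g c v e => by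
    simpa only [map_sub, ← ap_mul, ← mul_assoc, mul_inv_cancel, one_mul] using iU g _ e
  have i1 : ∀ g {v}, V1 v → V1 (ρ g v) := fun g v hv q hq => cj _ _ _ (hv _ (by simp [hq]))
  have fQ : ∀ {x z v}, π x = π z → V1 v → ρ x (n v) = ρ z (n v) := fun {x z v} e hv => by
    have k : π (z⁻¹ * x) = 1 := by simp [e]
    rw [← mul_inv_cancel_left z x, ap_mul, ← nc (qb _ k), nU (hv _ k)]
  let C : Subgroup G :=
    { carrier := {g | ∀ v, V1 v → ρ s (n (ρ g v)) = ρ g (ρ s (n v))}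
      one_mem' := fun v _ => by simp
      mul_mem' := fun {x z} hx hz v hv => by rw [ap_mul, ap_mul, hx _ (i1 _ hv), hz _ hv]
      inv_mem' := fun {x} hx v hv => by
        have := hx _ (i1 x⁻¹ hv)
        rw [ap_inv'] at this
        rw [this, ap_inv] }
  have SC : ∀ c, π c ∈ UU F → c ∈ C := fun c hc' v hv => by
    obtain ⟨τ, e⟩ := hc'
    rw [nc (s3_S h cb π hk hy ps sb qb ⟨τ, e⟩), ← ap_mul, ← ap_mul]
    exact fQ (by rw [map_mul, map_mul, ps, ← e, uu_comm]) hv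
  have yC : y ∈ C := fun v _ => by
    have e : s * y * y = y * s := by
      calc _ = (s * y * s⁻¹) * (s * y * s⁻¹) * s := by group
        _ = (y ^ 3)⁻¹ * (y * s) := by rw [sy]; group
        _ = _ := by rw [← hc.y3, pow_orderOf_eq_one, inv_one, one_mul]
    rw [show n (ρ y v) = ρ y (ρ y (n v)) from LinearMap.congr_fun (cb.swap h) v, ← ap_mul, ← ap_mul, e, ap_mul]
  have aC : ∀ g, g ∈ C := fun g => by
    rw [← comap_map_eq_self (f := π) (H := C) fun q hq => SC q (by rw [hq]; exact one_mem _), mem_comap]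
    refine (sup_le (c := C.map π) (fun x hx => ?_) ?_) (UU_sup_yy (F := F) ▸ mem_top _)
    · obtain ⟨c, rfl⟩ := hs x
      exact ⟨c, SC c hx, rfl⟩
    · exact zpowers_le.2 ⟨y, yC, hy⟩
  obtain ⟨v, -, hv, fv⟩ := exists_fix_mod ρ (pgroup_UU.comap_of_ker_isPGroup π hQ)
    (lt_top_iff_ne_top.2 (h.U_ne_top cb.iv)) (fun r _ => iU r) fun _ _ _ _ => trivial
  have v1 : V1 v := fun q hq => fv q (by rw [mem_comap, hq]; exact one_mem _)
  obtain ⟨τ, τ0, τ1⟩ := exists_tau hF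
  obtain ⟨a, pa⟩ := hs (hh (Units.mk0 τ τ0)⁻¹)
  have pi : (π a)⁻¹ * uu 1 * π a = uu (τ ^ 2 * 1) := by
    have := hh_uu (Units.mk0 τ τ0) 1
    rwa [eq_inv_of_mul_eq_one_left (show hh (Units.mk0 τ τ0) * π a = 1 by
      rw [pa, ← hh_mul, mul_inv_cancel, hh_one]), inv_inv] at this
  have ab : a * b = b * a := by
    have e := aC a v v1
    rw [← nc sb, ← nc sb, nU (fv s ⟨1, ps.symm⟩),
      nU (cj a s v (fv _ ⟨_, by rw [map_mul, map_mul, map_inv, ps, pi]⟩))] at e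
    simp only [n, LinearMap.add_apply, End.one_apply, map_add, add_left_inj] at e
    have k := h.eq_one_of_fix cb.iv (g := b⁻¹ * (a⁻¹ * b * a⁻¹⁻¹))
      (mul_mem (inv_mem (self_mem_KK ρ b)) (nK.conj_mem _ (self_mem_KK ρ b) _)) hv
      (by rw [inv_inv, ap_mul, ap_mul, ap_mul, e, ap_inv, ap_inv])
    calc _ = a * b * (b⁻¹ * (a⁻¹ * b * a⁻¹⁻¹)) := by rw [k, mul_one]
      _ = _ := by group
  let N : Subgroup G :=
    { carrier := {g | ∀ w, V1 w → ρ g (n w) = n w}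
      one_mem' := fun w _ => by simp
      mul_mem' := fun {x z} hx hz w hw => by rw [ap_mul, hz _ hw, hx _ hw]
      inv_mem' := fun {x} hx w hw => (stab ρ _).inv_mem (hx w hw) }
  have nN : N.Normal := ⟨fun x hx g w hw => by
    have e := aC g⁻¹ _ (i1 s⁻¹ hw)
    rw [← nc sb, ← nc sb, ap_inv'] at e
    rw [ap_mul, ap_mul, ← e, hx _ (i1 _ (i1 _ (i1 _ hw))), e, ap_inv']⟩
  have m : (s * a)⁻¹ * (a * s) ∈ π.ker := hk ▸ h.toFP.le_pCore (N := N) (v := n v)
    (fun e => hv (add_right_cancel (e.trans (two_v v).symm))) (fun g hg => hg v v1)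
    fun w hw => by rw [ap_mul, ap_mul, ← aC a w hw, nc ab, ← ap_mul ρ s a, ap_inv]
  rw [MonoidHom.mem_ker, map_mul, map_inv, inv_mul_eq_one, map_mul, map_mul, ps] at m
  rw [mul_assoc, m, inv_mul_cancel_left] at pi
  have e := uu_inj pi
  refine τ1 (sub_eq_zero.1 (pow_eq_zero_iff two_ne_zero |>.1 ?_))
  have := CharP.cast_eq_zero F 2
  push_cast at this
  linear_combination -e - (τ - 1) * this

end H88.GG
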