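import Cfsg.Agent.Lib.Core.PCore
import Cfsg.Agent.Lib.GG.Ring1b
import Cfsg.Agent.Lib.GG.Lift
import Cfsg.Agent.Lib.GG.SLb

/-! Case I: two commuting conjugates of `K`. -/

set_option autoImplicit false

namespace H88.GG
open Module Subgroup Cfsg
open scoped MatrixGroups

universe u v

variable {G : Type*} [Group G] [Finite G] {V : Type*} [AddCommGroup V]
  [Module (ZMod 2) V] [Finite V] {ρ : G →* End (ZMod 2) V}
variable {F : Type*} [Field F] [Fintype F] [CharP F 2]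

/-- `K, K'`, `E = K K' ≤ Q = ker π`, `s` from `exists_lift_s`.  (A) `x ∈ Q`, `(y x)³ = 1` ⇒ `x ∈ K` (`s2'`).  For `q ∈ Q`:
`q y q⁻¹ = y k` with `k ∈ K`, and `k · q t q⁻¹ ∈ K` by (A); `s t s⁻¹ ∈ K` by (A).  So the 2-group `R = π⁻¹ ⟨uu 1⟩`
normalises `K` and `U = U t`.  `U0 = fix E = U ⊓ U t' < U` is invariant; `u ∈ U \ U0` fixed mod `U0` by `R`;
`W1 = {w | ρ q w - w ∈ U0, q ∈ Q}`.  `nat`: `ρ σ u ∈ U` for `π σ = uu τ`, `τ ≠ 0, 1`.  So `σ⁻¹ t σ = k k' ∈ E` fixes `u`,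
`k' = 1`, `σ ∈ N(K)`; `h3` for `σ y σ⁻¹` contradicts `uu_conj_yy`. -/
theorem s4core (h : FF ρ) {y t t' : G} (hc : C1 ρ y t) (ht' : Iv t') (hne : t' ∉ KK ρ t)
    [(KK ρ t ⊔ KK ρ t').Normal] (hcm : ∀ a ∈ KK ρ t, ∀ b ∈ KK ρ t', a * b = b * a)
    (hF : 4 ≤ Fintype.card F) (π : G →* SL(2, F)) (hs : Function.Surjective π)
    (hk : π.ker = pCore 2 G) (hy : π y = yy F)
    (h3 : ∀ x, orderOf x = 3 → x ∈ normalizer (KK ρ t : Set G) →
      y⁻¹ * x ∈ KK ρ t ∨ y * x ∈ KK ρ t) : False := by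
  have hKK : KK ρ t ≤ normalizer (KK ρ t' : Set G) := fun a ha =>
    (h.mem_norm_iff ht').2 (by
      rw [hcm a ha t' (self_mem_KK ρ t'), mul_inv_cancel_right]; exact self_mem_KK ρ t')
  have hE : ∀ e ∈ KK ρ t ⊔ KK ρ t', ∃ k ∈ KK ρ t, ∃ k' ∈ KK ρ t', k * k' = e := fun e he => by
    have h1 : e ∈ ((KK ρ t ⊔ KK ρ t' : Subgroup G) : Set G) := he
    rw [coe_mul_of_left_le_normalizer_right _ _ hKK] at h1
    exact h1
  have hE2 : IsPGroup 2 (KK ρ t ⊔ KK ρ t' : Subgroup G) := fun e => ⟨1, Subtype.ext (by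
    obtain ⟨k, hk, k', hk', e'⟩ := hE e.1 e.2
    change e.1 ^ 2 ^ 1 = 1
    rw [← e', pow_one, (show Commute k k' from hcm k hk k' hk').mul_pow, pow_two, pow_two,
      h.sq hc.iv hk, h.sq ht' hk', one_mul])⟩
  have hQ : IsPGroup 2 π.ker := hk ▸ H1.isPGroup_pCore
  have hEQ : KK ρ t ⊔ KK ρ t' ≤ π.ker := hk ▸ H1.le_pCore hE2
  have hKQ : KK ρ t ≤ π.ker := le_sup_left.trans hEQ
  have htQ : t ∈ π.ker := hKQ (self_mem_KK ρ t)
  have nQ : ∀ g : G, g ∈ normalizer (π.ker : Set G) := fun g => by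
    rw [normalizer_eq_top]; trivial
  have cj : ∀ g x : G, orderOf (g * x * g⁻¹) = orderOf x := fun g x =>
    (MulAut.conj g).orderOf_eq x
  have A : ∀ {y : G}, C1 ρ y t → ∀ x ∈ π.ker, orderOf (y * x) = 3 → x ∈ KK ρ t :=
    fun hc x hx h3 => s2' h hc hQ htQ (nQ _) (nQ _) (E2_of_mem hQ hx) h3
  have cQ : ∀ g : G, g * t * g⁻¹ ∈ π.ker := fun g => (MonoidHom.normal_ker π).conj_mem t htQ g
  have hQN : π.ker ≤ normalizer (KK ρ t : Set G) := fun q hq => by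
    have m1 : y⁻¹ * q * y * q⁻¹ ∈ π.ker :=
      mul_mem ((MonoidHom.normal_ker π).conj_mem' q hq y) (inv_mem hq)
    have k1 := A hc _ m1 (by
      rw [show y * (y⁻¹ * q * y * q⁻¹) = q * y * q⁻¹ by group, cj, hc.y3])
    have k2 := A hc _ (mul_mem m1 (cQ q)) (by
      rw [show y * (y⁻¹ * q * y * q⁻¹ * (q * t * q⁻¹)) = q * (y * t) * q⁻¹ by group, cj, hc.yt3])
    exact (h.mem_norm_iff hc.iv).2 ((mul_mem_cancel_left k1).1 k2)
  obtain ⟨s, hs1, hsy⟩ := exists_lift_s π hs hQ hc.y3 hy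
  have hsN : s ∈ normalizer (KK ρ t : Set G) := (h.mem_norm_iff hc.iv).2 (A hc.inv _ (cQ s) (by
    rw [← hsy, conj_mul, cj, hc.yt3]))
  have hs2 : IsPGroup 2 (zpowers s) := by
    obtain ⟨n, hn⟩ := E2_of_mem hQ (x := s * s) (by rw [MonoidHom.mem_ker, map_mul, hs1, uu_sq])
    obtain ⟨m, -, hm⟩ := (Nat.dvd_prime_pow Nat.prime_two).1
      (orderOf_dvd_of_pow_eq_one (x := s) (n := 2 ^ (n + 1)) (by rw [pow_succ', pow_mul, pow_two, hn]))
    exact IsPGroup.of_card (by rw [Nat.card_zpowers, hm])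
  have hR : IsPGroup 2 (π.ker ⊔ zpowers s : Subgroup G) := hQ.to_sup_of_normal_left hs2
  have hRN : π.ker ⊔ zpowers s ≤ normalizer (KK ρ t : Set G) := sup_le hQN (zpowers_le.2 hsN)
  have h0 : ∀ g, ∀ v ∈ fix ρ (KK ρ t ⊔ KK ρ t'), ρ g v ∈ fix ρ (KK ρ t ⊔ KK ρ t') := fun g v hv =>
    fix_inv ρ (by rw [normalizer_eq_top]; trivial) hv
  have hle : fix ρ (KK ρ t ⊔ KK ρ t') ≤ U ρ t := fun v hv => hv t (mem_sup_left (self_mem_KK ρ t))
  have hlt : fix ρ (KK ρ t ⊔ KK ρ t') < U ρ t := lt_of_le_of_ne hle fun e => hne fun v hv => by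
    have h1 : v ∈ fix ρ (KK ρ t ⊔ KK ρ t') := by rw [e]; exact hv
    exact h1 t' (mem_sup_right (self_mem_KK ρ t'))
  obtain ⟨w, hw, hw0, hwR⟩ := exists_fix_mod ρ hR hlt (fun r _ => h0 r)
    fun r hr => (h.mem_norm_iff' hc.iv).1 (hRN hr)
  let W1 : Submodule (ZMod 2) V :=
    { carrier := {v | ∀ q, π q = 1 → ρ q v - v ∈ fix ρ (KK ρ t ⊔ KK ρ t')}
      zero_mem' := fun q _ => by simp
      add_mem' := fun ha hb q hq => by
        rw [map_add, add_sub_add_comm]; exact add_mem (ha q hq) (hb q hq)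
      smul_mem' := fun c _ ha q hq => by
        rw [map_smul, ← smul_sub]; exact Submodule.smul_mem _ c (ha q hq) }
  obtain ⟨τ, τ0, τ1⟩ := exists_tau hF
  obtain ⟨σ, hσ⟩ := hs (uu τ)
  have hn := nat ρ π (U0 := fix ρ (KK ρ t ⊔ KK ρ t')) (W1 := W1)
    (fun v hv q _ => sub_mem (h0 q v hv) hv) h0
    (fun g v hv q hq => by
      have := h0 g _ (hv (g⁻¹ * q * g) (by rw [map_mul, map_mul, hq, mul_one, ← map_mul,
        inv_mul_cancel, map_one]))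
      rwa [map_sub, ← ap_mul, show g * (g⁻¹ * q * g) = q * g by group, ap_mul] at this)
    (fun q hq w hw => hw q hq) hy (h.toFP.quad (by norm_num) hc.y3) hs1 hσ (w := w)
    (fun q hq => hwR q (mem_sup_left hq)) (hwR s (mem_sup_right (mem_zpowers s)))
  have hσw : ρ σ w ∈ U ρ t := by
    have := add_mem (hle hn) hw
    rwa [sub_add_cancel] at this
  obtain ⟨k, hk1, k', hk', e⟩ := hE (σ⁻¹ * t * σ)
    (Normal.conj_mem' inferInstance t (mem_sup_left (self_mem_KK ρ t)) σ)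
  have e1 : ρ (k' * k) w = w := by
    rw [← hcm k hk1 k' hk', e, ap_mul, ap_mul, mem_U.1 hσw, ap_inv]
  rw [ap_mul, hk1 w hw] at e1
  have k1 : k' = 1 := h.eq_one_of_fix ht' hk' (fun hw' => hw0 fun g hg => by
    obtain ⟨a, ha, b, hb, rfl⟩ := hE g hg
    rw [ap_mul, hb w hw', ha w hw]) e1
  have hσN : σ ∈ normalizer (KK ρ t : Set G) := inv_mem_iff.1 ((h.mem_norm_iff hc.iv).2 (by
    rw [inv_inv, ← e, k1, mul_one]; exact hk1))
  have e3 : π (σ * y * σ⁻¹) = uu τ * yy F * (uu τ)⁻¹ := by rw [map_mul, map_mul, map_inv, hσ, hy]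
  refine (uu_conj_yy (t := τ) ?_).elim τ0 τ1
  rcases h3 (σ * y * σ⁻¹) (by rw [cj, hc.y3])
    (mul_mem (mul_mem hσN (hc.norm h)) (inv_mem hσN)) with e2 | e2
  · have := hKQ e2
    rw [MonoidHom.mem_ker, map_mul, map_inv, e3, hy, inv_mul_eq_one] at this
    exact Or.inl this.symm
  · have := hKQ e2
    rw [MonoidHom.mem_ker, map_mul, e3, hy] at this
    exact Or.inr (eq_inv_of_mul_eq_one_right this)

end H88.GG
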