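import Cfsg.Agent.Lib.GG.S3
import Cfsg.Agent.Lib.GG.S4a

/-! Case I gives weak closure. -/

set_option autoImplicit false

namespace H88.GG
open Module Subgroup Cfsg
open scoped MatrixGroups

universe u v

variable {G : Type u} [Group G] [Finite G] {V : Type v} [AddCommGroup V]
  [Module (ZMod 2) V] [Finite V] {ρ : G →* End (ZMod 2) V}

namespace S4

variable (ih : IH.{u, v} (Nat.card G)) (h : FF ρ) {y y' t t' : G} (hc : C1 ρ y t)
  (hN : normalizer (KK ρ t : Set G) ≠ ⊤) (hcm : ∀ a ∈ KK ρ t, ∀ b ∈ KK ρ t', a * b = b * a)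
include h hc hcm

theorem le : KK ρ t' ≤ normalizer (KK ρ t : Set G) := fun k hk => (h.mem_norm_iff hc.iv).2 (by
  rw [← hcm t (self_mem_KK ρ t) k hk, mul_inv_cancel_right]; exact self_mem_KK ρ t)

include ih hN

theorem cm {k : G} (hk : k ∈ KK ρ t') : y⁻¹ * (k * y * k⁻¹) ∈ KK ρ t := by
  have n := le h hc hcm hk
  refine (s3 ih h hc hN (hc.conj k).y3 (mul_mem (mul_mem n (hc.norm h)) (inv_mem n))).resolve_right fun m => hc.not_comm ?_
  have e1 := h.comm hc.iv m (self_mem_KK ρ t)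
  have e2 := hcm _ ((h.mem_norm_iff hc.iv).1 (hc.norm h)) k hk
  have e3 := hcm t (self_mem_KK ρ t) k hk
  have e4 : Commute (y * y) t := by
    calc y * y * t = y * (k * (y * t * y⁻¹) * k⁻¹) * y := by rw [← e2]; group
      _ = y * (k * y * k⁻¹) * (k * t * k⁻¹) * (y * (k * y * k⁻¹))⁻¹ * (y * y) := by group
      _ = _ := by rw [← e3, mul_inv_cancel_right, e1, mul_inv_cancel_right]
  have e5 := (e4.mul_left e4).eq
  rwa [show y * y * (y * y) = y ^ 3 * y by rw [pow_three', mul_assoc _ y y], ← hc.y3, pow_orderOf_eq_one, one_mul] at e5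

theorem nm : y ∈ normalizer ((KK ρ t ⊔ KK ρ t' : Subgroup G) : Set G) := by
  refine inv_mem_iff.1 (mem_normalizer_fintype fun x hx =>
    (sup_le (c := (KK ρ t ⊔ KK ρ t').comap (MulAut.conj y⁻¹).toMonoidHom) (fun k hk => ?_) fun k hk => ?_) hx)
  · exact mem_sup_left ((mem_normalizer_iff.1 (inv_mem (hc.norm h)) k).1 hk)
  · simpa [mul_assoc] using mul_mem (mem_sup_left (cm ih h hc hN hcm hk)) (mem_sup_right (S := KK ρ t) hk)

theorem ne2 (hc' : C1 ρ y' t') (hN' : normalizer (KK ρ t' : Set G) ≠ ⊤) (hne : t' ∉ KK ρ t) :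
    ¬ E2 (y⁻¹ * y') := fun e => by
  have ti : ∀ k ∈ KK ρ t, k ∈ KK ρ t' → k = 1 := fun k a b => by
    by_contra n
    exact hne (h.ti hc.iv hc'.iv a b n ▸ self_mem_KK ρ t')
  have hE := (h.pgroup hc.iv).to_sup_of_normal_left' (h.pgroup hc'.iv) (le h hc hcm)
  have n := nm ih h hc hN hcm
  have n' := nm ih h hc' hN' fun a ha b hb => (hcm b hb a ha).symm
  rw [sup_comm] at n'
  have m := mul_mem (inv_mem n) n'
  obtain rfl := inv_mul_eq_one.1 (ti _
    (s2' h hc hE (mem_sup_left (self_mem_KK ρ t)) n m e (by simpa using hc'.y3))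
    (inv_mem_iff.1 (s2' h hc' hE (mem_sup_right (self_mem_KK ρ t')) n' (inv_mem m) e.inv (by simpa using hc.y3))))
  have k := ti _ (cm ih h hc hN hcm (self_mem_KK ρ t')) (by
    simpa [mul_assoc] using mul_mem ((mem_normalizer_iff.1 (inv_mem (hc'.norm h)) t').1 (self_mem_KK ρ t'))
      (inv_mem (self_mem_KK ρ t')))
  exact hc'.not_comm (by rw [inv_mul_eq_one, eq_mul_inv_iff_mul_eq] at k; exact k)

end S4

/-- `t' = g t g⁻¹ ∉ K`, `y' = g y g⁻¹`, `K ⊓ K' = 1` (`ti`).  For `k' ∈ K' ≤ N(K)`: `s3` for `k' y k'⁻¹`; the second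
alternative would make `y²` centralise `t`.  So `y⁻¹ k' y ∈ K k'` and `y` normalises `E = K K'`; so does `y'`.
`N(E) ≠ ⊤` (simple).  If `x = y⁻¹ y'` is a 2-element, `s2'` (`Q = E`) gives `x ∈ K`, `x⁻¹ ∈ K'`, so `y = y'` normalises
`K'` and `⁅y, t'⁆ ∈ K ⊓ K' = 1`, against `C1.not_comm`; same for `y y'` (replace `y` by `y⁻¹`).  Else `str'` for
`Y = closure {y, y'} ⊔ E` and `s4core` in `Y`. -/
theorem s4 [IsSimpleGroup G] (ih : IH.{u, v} (Nat.card G)) (h : FF ρ) {y t : G} (hc : C1 ρ y t) :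
    WC ρ t := by
  intro g hcm
  by_contra hne
  have hc' := hc.conj g
  generalize g * y * g⁻¹ = y', g * t * g⁻¹ = t' at hcm hne hc'
  have na : ¬ IsMulCommutative G := fun c => hc.not_comm (c.is_comm.comm _ _)
  have hN := h.norm_ne_top na hc.iv
  have hN' := h.norm_ne_top na hc'.iv
  have hE := (h.pgroup hc.iv).to_sup_of_normal_left' (h.pgroup hc'.iv) (S4.le h hc hcm)
  have n := S4.nm ih h hc hN hcm
  have n' := S4.nm ih h hc' hN' fun a ha b hb => (hcm b hb a ha).symm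
  rw [sup_comm] at n'
  let Y := closure {y, y'} ⊔ (KK ρ t ⊔ KK ρ t')
  have YN : Y ≤ normalizer ((KK ρ t ⊔ KK ρ t' : Subgroup G) : Set G) :=
    sup_le ((closure_le _).2 (Set.pair_subset n n')) le_normalizer
  have my : y ∈ Y := mem_sup_left (subset_closure (by simp))
  have my' : y' ∈ Y := mem_sup_left (subset_closure (by simp))
  have l : KK ρ t ≤ Y := le_sup_left.trans le_sup_right
  have l' : KK ρ t' ≤ Y := le_sup_right.trans le_sup_right
  have o3 : ∀ {x}, x ∈ Y → orderOf x = 3 → x ∈ O3 Y := fun a b => Subgroup.subset_closure ⟨a, b⟩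
  obtain ⟨F, _, _, _, hF, π, hs, hk, hy⟩ := str' ih h (Y := Y) (fun e => by
      rcases (normalizer_eq_top_iff.1 (top_le_iff.1 (e ▸ YN))).eq_bot_or_eq_top with b | b
      · exact hc.iv.ne (mem_bot.1 (b ▸ mem_sup_left (self_mem_KK ρ t)))
      · obtain ⟨k, hk⟩ := E2_of_mem hE (x := y) (b ▸ mem_top y)
        have := orderOf_dvd_of_pow_eq_one hk
        rw [hc.y3] at this
        exact absurd (Nat.prime_three.dvd_of_dvd_pow this) (by decide))
    hE YN le_sup_right (sup_le_sup_right ((closure_le _).2 (Set.pair_subset (o3 my hc.y3) (o3 my' hc'.y3))) _) my my' hc.y3 hc'.y3 (S4.ne2 ih h hc hN hcm hc' hN' hne)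
    (by simpa using S4.ne2 ih h hc.inv hN hcm hc' hN' hne)
  have H := h.comp Y.subtype Subtype.val_injective
  have iv : ∀ {x} (m : x ∈ Y), Iv x → Iv (⟨x, m⟩ : Y) := fun m i =>
    ⟨fun e => i.ne (congrArg Subtype.val e), Subtype.ext i.sq⟩
  have nE : (KK (ρ.comp Y.subtype) ⟨t, l (self_mem_KK ρ t)⟩ ⊔
      KK (ρ.comp Y.subtype) ⟨t', l' (self_mem_KK ρ t')⟩).Normal := by
    have := (normal_subgroupOf_iff_le_normalizer le_sup_right).2 YN
    rwa [subgroupOf_sup l l'] at this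
  refine s4core H (y := ⟨y, my⟩) (t := ⟨t, l (self_mem_KK ρ t)⟩) (t' := ⟨t', l' (self_mem_KK ρ t')⟩)
    ⟨iv _ hc.iv, (orderOf_coe _).symm.trans hc.y3, Subtype.ext hc.yt⟩ (iv _ hc'.iv) hne
    (fun a ha b hb => Subtype.ext (hcm _ ha _ hb)) hF π hs hk hy fun x hx hn => ?_
  exact s3 ih h hc hN ((orderOf_coe x).trans hx) ((h.mem_norm_iff hc.iv).2 ((H.mem_norm_iff (iv _ hc.iv)).1 hn))

end H88.GG
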