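import Cfsg.Agent.Lib.GG.K2

/-! Weak closure gives the hypotheses of Holt's theorem. -/

set_option autoImplicit false

namespace H88.GG
open Module Subgroup Cfsg
open scoped MatrixGroups

universe u v

variable {G : Type*} [Group G] [Finite G] {V : Type*} [AddCommGroup V]
  [Module (ZMod 2) V] [Finite V] {ρ : G →* End (ZMod 2) V}

namespace S5b

theorem comm_of_norm (h : FF ρ) {t t' : G} (ht : Iv t) (ht' : Iv t')
    (h1 : KK ρ t ≤ normalizer (KK ρ t' : Set G)) (h2 : KK ρ t' ≤ normalizer (KK ρ t : Set G)) :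
    ∀ a ∈ KK ρ t, ∀ b ∈ KK ρ t', a * b = b * a := by
  intro a ha b hb
  by_contra hn
  have c1 : a * b * a⁻¹ * b⁻¹ ∈ KK ρ t' := mul_mem ((mem_normalizer_iff.1 (h1 ha) b).1 hb) (inv_mem hb)
  have c2 : a * b * a⁻¹ * b⁻¹ ∈ KK ρ t := by
    have := mul_mem ha ((mem_normalizer_iff.1 (h2 hb) a⁻¹).1 (inv_mem ha))
    simpa only [mul_assoc] using this
  have c3 : a * b * a⁻¹ * b⁻¹ ≠ 1 := fun e => hn (by
    rw [mul_inv_eq_one, mul_inv_eq_iff_eq_mul] at e
    exact e)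
  exact hn (h.comm ht ha (h.ti ht ht' c2 c1 c3 ▸ hb))

omit [Finite G] [Finite V] in
theorem wc_conj {t : G} (hw : WC ρ t) (g : G) : WC ρ (g * t * g⁻¹) := by
  intro g' hc
  rw [mem_KK_conj]
  have e : g⁻¹ * (g' * (g * t * g⁻¹) * g'⁻¹) * g = (g⁻¹ * g' * g) * t * (g⁻¹ * g' * g)⁻¹ := by group
  rw [e]
  refine hw _ fun a ha b hb => ?_
  have := hc (g * a * g⁻¹) (by rw [mem_KK_conj]; simpa [mul_assoc] using ha) (g * b * g⁻¹) (by
    rw [mem_KK_conj] at hb
    rw [mem_KK_conj, mem_KK_conj]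
    simpa [mul_assoc] using hb)
  rw [conj_mul, conj_mul] at this
  simpa using this

theorem exists_center {P : Type*} [Group P] [Finite P] (hP : IsPGroup 2 P) (N : Subgroup P) [N.Normal]
    (hN : N ≠ ⊥) : ∃ r ∈ N, r ≠ 1 ∧ ∀ x : P, x * r = r * x := by
  have hd : 2 ∣ Nat.card N := by
    haveI := (nontrivial_iff_ne_bot N).2 hN
    obtain ⟨n, hn0, hn⟩ := (hP.to_subgroup N).nontrivial_iff_card.1 inferInstance
    exact hn.symm ▸ dvd_pow_self _ (ne_of_gt hn0)
  obtain ⟨b, hb, hb1⟩ := (hP.of_equiv ConjAct.toConjAct).exists_fixed_point_of_prime_dvd_card_of_fixed_point N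
    hd (a := 1) (fun g => smul_one g)
  refine ⟨b, b.2, fun e => hb1 (Subtype.ext e.symm), fun x => ?_⟩
  have := congrArg Subtype.val (hb (ConjAct.toConjAct x))
  rw [← mul_inv_eq_iff_eq_mul]
  exact this

end S5b

open S5b

/-- If `P ≰ N(K)`, take `x ∈ N_P(N_P(K)) \ N_P(K)` (normaliser condition); `K` and `x K x⁻¹ = KK (x t x⁻¹)` normalise each
other and meet trivially (`ti`), so commute; `WC`. -/
theorem le_norm_of_wc (h : FF ρ) {t : G} (ht : Iv t) (hw : WC ρ t) {P : Subgroup G}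
    (hP : IsPGroup 2 P) (hK : KK ρ t ≤ P) : P ≤ normalizer (KK ρ t : Set G) := by
  by_contra hn
  haveI := hP.isNilpotent
  have hlt : (normalizer (KK ρ t : Set G)).subgroupOf P < ⊤ :=
    lt_top_iff_ne_top.2 fun e => hn (subgroupOf_eq_top.1 e)
  obtain ⟨x, hx, hx'⟩ := SetLike.exists_of_lt (Group.normalizerCondition_of_isNilpotent _ hlt)
  rw [mem_subgroupOf] at hx'
  have key : ∀ a ∈ P, a ∈ normalizer (KK ρ t : Set G) ↔ x * a * x⁻¹ ∈ normalizer (KK ρ t : Set G) :=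
    fun a ha => mem_normalizer_iff.1 hx ⟨a, ha⟩
  refine hx' ((h.mem_norm_iff ht).2 (hw x (comm_of_norm h ht (ht.conj x) (fun a ha => ?_) fun a ha => ?_)))
  · rw [h.mem_norm_iff (ht.conj x), mem_KK_conj]
    have h1 : (x : G)⁻¹ * a * x ∈ normalizer (KK ρ t : Set G) := by
      rw [key _ (mul_mem (mul_mem (inv_mem x.2) (hK ha)) x.2)]
      simpa [mul_assoc] using le_normalizer ha
    simpa [mul_assoc] using (h.mem_norm_iff ht).1 h1
  · rw [mem_KK_conj] at ha
    simpa [mul_assoc] using (key _ (hK ha)).1 (le_normalizer ha)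

/-- `M = N(K)`, `P ≥ K` Sylow, `1 ≠ r ∈ K ⊓ Z(P)`.  If `r' = g r g⁻¹ ∈ M`, it fixes some `0 ≠ u ∈ U t`
(`exists_fix`), so `K, K' = KK r' ≤ stab u`, a 2-group; both are normal in it (`WC` is invariant under conjugation and
`KK r = K`), so equal or commuting; `WC` gives `K' = K`, `g ∈ M`. -/
theorem s5b [IsSimpleGroup G] (hna : ¬ IsMulCommutative G) (h : FF ρ) {t : G} (ht : Iv t)
    (hw : WC ρ t) : Holt G := by
  obtain ⟨P, hP⟩ := (h.pgroup ht).exists_le_sylow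
  have hPN := le_norm_of_wc h ht hw P.isPGroup' hP
  haveI : ((KK ρ t).subgroupOf P).Normal := normal_subgroupOf_of_le_normalizer hPN
  obtain ⟨r, hr, hr1, hrc⟩ := exists_center P.isPGroup' ((KK ρ t).subgroupOf P) (fun e => ht.ne (by
    have : (⟨t, hP (self_mem_KK ρ t)⟩ : (P : Subgroup G)) ∈ (KK ρ t).subgroupOf P := self_mem_KK ρ t
    rw [e, mem_bot] at this
    exact congrArg Subtype.val this))
  rw [mem_subgroupOf] at hr
  have hr1' : (r : G) ≠ 1 := fun e => hr1 (Subtype.ext e)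
  have hri := h.iv_of_mem ht hr hr1'
  refine ⟨normalizer (KK ρ t : Set G), r, h.norm_ne_top hna ht, le_normalizer hr,
    ⟨hri.orderOf, P, r.2, fun x hx => congrArg Subtype.val (hrc ⟨x, hx⟩)⟩, fun g hg => ?_,
    fun g hg => ⟨g, ?_, rfl⟩⟩
  · refine h.mem_norm_of_conj ht hr hr1' ?_
    rw [← mem_centralizer_iff.1 hg r rfl, mul_inv_cancel_right]
    exact hr
  · have hr' : g * r * g⁻¹ ∈ KK ρ (g * t * g⁻¹) := by
      rw [mem_KK_conj]
      simpa [mul_assoc] using hr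
    have hz : IsPGroup 2 (zpowers (g * r * g⁻¹)) :=
      (h.pgroup (ht.conj g)).to_le (zpowers_le.2 hr')
    obtain ⟨u, hu, hu0, hfix⟩ := exists_fix ρ hz (h.U_ne_bot ht) fun a ha v hv =>
      (h.mem_norm_iff' ht).1 (zpowers_le.2 hg ha) v hv
    have hu' : u ∈ U ρ (g * t * g⁻¹) := by
      rw [← h.U_eq (ht.conj g) hr' (hri.conj g).ne]
      exact hfix _ (mem_zpowers _)
    have hS := h.toFP.stab_pgroup hu0
    have k1 : KK ρ t ≤ stab ρ u := fun a ha => ha u hu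
    have k2 : KK ρ (g * t * g⁻¹) ≤ stab ρ u := fun a ha => ha u hu'
    exact (h.mem_norm_iff ht).2 (hw g (comm_of_norm h ht (ht.conj g)
      (k1.trans (le_norm_of_wc h (ht.conj g) (wc_conj hw g) hS k2))
      (k2.trans (le_norm_of_wc h ht hw hS k1))))

end H88.GG
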