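import Cfsg.Agent.Lib.GG.Ring3
import Cfsg.Agent.Lib.GG.Odd1b
import Cfsg.Agent.Lib.GG.K2

/-! The two-generator case. -/

set_option autoImplicit false

namespace H88.GG
open Module Subgroup Cfsg
open scoped MatrixGroups

universe u v

variable {G : Type*} [Group G] [Finite G] {V : Type*} [AddCommGroup V]
  [Module (ZMod 2) V] [Finite V] {ρ : G →* End (ZMod 2) V}

namespace S6

omit [Finite G] [Finite V] in
theorem ker_iff (w : G) (v : V) : (ρ w + ρ w⁻¹) v = 0 ↔ ρ (w * w) v = v := by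
  rw [LinearMap.add_apply, ap_mul]
  constructor
  · intro e
    rw [add_right_cancel (e.trans (two_v (ρ w⁻¹ v)).symm), ap_inv']
  · intro e
    conv_lhs => rw [← e, ap_inv, e]
    exact two_v _

theorem odd [IsSimpleGroup G] (hna : ¬ IsMulCommutative G) (h : FF ρ)
    (T : ∀ x g : G, ρ g * (ρ x + ρ x⁻¹) = (ρ x + ρ x⁻¹) * ρ g) {z c : G} (hz : Iv z)
    (hc : c * z = z * c) (ho : Odd (orderOf c)) : c = 1 := by
  by_contra c1
  have zi : z⁻¹ = z := inv_eq_of_mul_eq_one_right hz.sq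
  have o2 : (orderOf (c * c)).Coprime 2 := by
    rw [← sq]; exact Nat.coprime_two_right.2 (ho.of_dvd_nat (orderOf_pow_dvd 2))
  have c2 : c * c ≠ 1 := fun e => c1 (orderOf_eq_one_iff.1 (Nat.Coprime.eq_one_of_dvd
    (Nat.coprime_two_right.2 ho) (orderOf_dvd_of_pow_eq_one (by rwa [sq]))))
  have e : ρ (c * z) + ρ (c * z)⁻¹ = (ρ c + ρ c⁻¹) * ρ z := by
    rw [add_mul, ← map_mul, ← map_mul]
    congr 2
    rw [hc, mul_inv_rev, zi]
  have cen : z ∈ center G := mem_center_iff.2 fun g => h.inj (LinearMap.ext fun v => by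
    have k := T (c * z) g
    rw [e, ← mul_assoc, T c g, mul_assoc, mul_assoc, ← map_mul, ← map_mul] at k
    have k1 := LinearMap.congr_fun k v
    rw [End.mul_apply, End.mul_apply, ← sub_eq_zero, ← map_sub, ker_iff] at k1
    exact sub_eq_zero.1 (h.fpf _ c2 o2 _ k1))
  rcases (inferInstance : (center G).Normal).eq_bot_or_eq_top with b | b
  · exact hz.ne (mem_bot.1 (b ▸ cen))
  · exact hna ⟨⟨fun a b' => (mem_center_iff.1 (b.ge (mem_top b')) a)⟩⟩

theorem four [IsSimpleGroup G] (hna : ¬ IsMulCommutative G) (h : FF ρ)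
    (T : ∀ x g : G, ρ g * (ρ x + ρ x⁻¹) = (ρ x + ρ x⁻¹) * ρ g) {w : G}
    (hw : w * w * (w * w) = 1) : w * w = 1 := by
  by_contra w1
  have ht : Iv (w * w) := ⟨w1, hw⟩
  refine h.norm_ne_top hna ht (eq_top_iff.2 fun g _ => (h.mem_norm_iff' ht).2 fun v hv => ?_)
  rw [mem_U, ← ker_iff] at hv ⊢
  rw [← End.mul_apply, ← T, End.mul_apply, hv, map_zero]

end S6

/-- By `ringT`, `τ(x) = ρ x + ρ x⁻¹` commutes with `ρ G`.  If `c ≠ 1` has odd order and commutes with the involution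
`z`: `τ(z c) = ρ z τ(c)`, `τ(c)` injective, so `z` is central.  If `w` has order 4: `ker τ(w) = U (w²)` is invariant, against
`norm_ne_top`. -/
theorem s6_sq [IsSimpleGroup G] (hna : ¬ IsMulCommutative G) (h : FF ρ) {y y' : G}
    (hy : orderOf y = 3) (hy' : orderOf y' = 3) (hg : closure ({y, y'} : Set G) = ⊤) {z x : G}
    (hz : Iv z) (hx : x * z = z * x) : x * x = 1 := by
  have T : ∀ x g : G, ρ g * (ρ x + ρ x⁻¹) = (ρ x + ρ x⁻¹) * ρ g := fun x g =>
    ringT h.toFP hy hy' (hg.ge (mem_top x)) (hg.ge (mem_top g))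
  obtain ⟨k, m, hm, e⟩ := Nat.exists_eq_two_pow_mul_odd (orderOf_pos x).ne'
  have e1 : x ^ 2 ^ k = 1 := S6.odd hna h T hz ((show Commute x z from hx).pow_left _)
    (hm.of_dvd_nat (orderOf_dvd_of_pow_eq_one (by rw [← pow_mul, ← e, pow_orderOf_eq_one])))
  have key : ∀ j : ℕ, x ^ 2 ^ (j + 1) = 1 → x * x = 1 := fun j => by
    induction j with
    | zero => intro e; simpa [sq] using e
    | succ j ih =>
      intro e
      refine ih ?_
      rw [pow_succ, pow_mul, sq]
      refine S6.four hna h T ?_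
      rw [← sq, ← sq, ← pow_mul, ← pow_mul, ← e]
      congr 1
      ring
  exact key k (by rw [pow_succ, pow_mul, e1, one_pow])

/-- `|G|` is even (else all Sylow subgroups are cyclic, `IsZGroup`; or S0205).  `P` Sylow, `z ∈ Z(P)`; `C(w) = P` for
all involutions `w ∈ P`; `M = N(P)`; `g z g⁻¹ ∈ M ⇒ g z g⁻¹ ∈ P ⇒ g P g⁻¹ = P`. -/
theorem s6 [IsSimpleGroup G] (hna : ¬ IsMulCommutative G) (h : FF ρ) {y y' : G}
    (hy : orderOf y = 3) (hy' : orderOf y' = 3) (hg : closure ({y, y'} : Set G) = ⊤) : Holt G := by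
  have : Fact (Nat.Prime 2) := ⟨Nat.prime_two⟩
  have := h.nontrivial
  obtain ⟨P⟩ : Nonempty (Sylow 2 G) := inferInstance
  have P1 : (P : Subgroup G) ≠ ⊥ := fun b => hna (by
    have : IsZGroup G := ⟨fun r hr R => by
      have : Fact r.Prime := ⟨hr⟩
      by_cases e : r = 2
      · subst e
        have : Nat.card R = 1 := by rw [R.card_eq_multiplicity, ← P.card_eq_multiplicity, b, card_bot]
        have := (Nat.card_eq_one_iff_unique.1 this).1
        infer_instance
      · exact h.toFP.isCyclic_pgroup e e _ R.isPGroup'⟩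
    exact ⟨⟨IsSimpleGroup.comm_iff_isSolvable.2 inferInstance⟩⟩)
  have := (nontrivial_iff_ne_bot _).2 P1
  have := P.isPGroup'.center_nontrivial
  obtain ⟨z0, hz0⟩ := exists_prime_orderOf_dvd_card' (G := center P) 2
    ((P.isPGroup'.to_subgroup _).card_eq_or_dvd.resolve_left Finite.one_lt_card.ne')
  set z : G := z0.1.1 with hz
  have oz : orderOf z = 2 := by rw [hz, orderOf_coe, orderOf_coe, hz0]
  have iv : Iv z := ⟨fun e => by simp [e] at oz, by rw [← sq, ← oz, pow_orderOf_eq_one]⟩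
  have cP : ∀ w, Iv w → (P : Subgroup G) ≤ centralizer {w} → centralizer {w} = (P : Subgroup G) :=
    fun w hw l => P.is_maximal' (fun x => ⟨1, Subtype.ext (by
      simpa [sq] using s6_sq hna h hy hy' hg hw (mem_centralizer_singleton_iff.1 x.2))⟩) l
  have zP : (P : Subgroup G) ≤ centralizer {z} := fun x hx => mem_centralizer_singleton_iff.2
    (congrArg Subtype.val (mem_center_iff.1 z0.2 ⟨x, hx⟩))
  have sqP : ∀ x ∈ (P : Subgroup G), x * x = 1 := fun x hx =>
    s6_sq hna h hy hy' hg iv (mem_centralizer_singleton_iff.1 (zP hx))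
  have cm : ∀ a ∈ (P : Subgroup G), ∀ b ∈ (P : Subgroup G), a * b = b * a := fun a ha b hb => by
    rw [← inv_eq_of_mul_eq_one_right (sqP _ (mul_mem ha hb)), mul_inv_rev,
      inv_eq_of_mul_eq_one_right (sqP a ha), inv_eq_of_mul_eq_one_right (sqP b hb)]
  refine ⟨normalizer (P : Set G), z, fun t => ?_, le_normalizer z0.1.2, ⟨oz, P, z0.1.2, ?_⟩,
    (cP z iv zP).le.trans le_normalizer, fun g hgz => ⟨g, ?_, rfl⟩⟩
  · rcases (normalizer_eq_top_iff.1 t).eq_bot_or_eq_top with b | b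
    · exact P1 b
    · exact hna ⟨⟨fun a b' => cm a (b.ge (mem_top a)) b' (b.ge (mem_top b'))⟩⟩
  · exact fun x hx => (cm x hx z z0.1.2)
  · have i2 := iv.conj g
    have p2 : IsPGroup 2 (zpowers (g * z * g⁻¹)) :=
      IsPGroup.of_card (n := 1) (by rw [Nat.card_zpowers, i2.orderOf, pow_one])
    have m : g * z * g⁻¹ ∈ (P : Subgroup G) :=
      ((p2.inf_normalizer_sylow P).le ⟨mem_zpowers _, hgz⟩).2
    have e := cP _ i2 fun x hx => mem_centralizer_singleton_iff.2 (cm x hx _ m)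
    refine mem_normalizer_fintype fun x hx => e.le (mem_centralizer_singleton_iff.2 ?_)
    rw [conj_mul, conj_mul, cm x hx z z0.1.2]

end H88.GG
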