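import Cfsg.Agent.Lib.GG.Str
import Cfsg.Agent.Lib.GG.Lift
import Cfsg.Agent.Lib.CGT.Mult
import Cfsg.Agent.Lib.Core.PCore
import Cfsg.Agent.S2117

/-! Case II: proper subgroups generated by elements of order three. -/

set_option autoImplicit false

namespace H88.GG
open Module Subgroup Cfsg
open scoped MatrixGroups

universe u v

variable {G : Type u} [Group G] [Finite G] {V : Type v} [AddCommGroup V]
  [Module (ZMod 2) V] [Finite V] {ρ : G →* End (ZMod 2) V}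

/-- `str'` with `E = ⊥`.  `Q = ker π` centralises every element of order 3 (`C2` for `z`, `q z q⁻¹`), so is central.
`|F| = 4` is excluded by `exists_omega`, `exists_lift3`, `C2`.  `Y` is perfect (`Y/Y'` is a 2-group generated by elements of
order 3); S2117 and `exists_lift_of_mult_one` (Lib/CGT/Mult) split the extension, so `Q = 1`. -/
theorem s7a (ih : IH.{u, v} (Nat.card G)) (h : FF ρ) (h2 : C2 G) {Y : Subgroup G} (hY : Y ≠ ⊤)
    (hg : Y ≤ O3 Y) {y y' : G} (my : y ∈ Y) (my' : y' ∈ Y) (hy : orderOf y = 3)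
    (hy' : orderOf y' = 3) (h1 : y' ≠ y) (h1' : y' ≠ y⁻¹) :
    ∃ (F : Type) (_ : Field F) (_ : Fintype F) (_ : CharP F 2), 8 ≤ Fintype.card F ∧
      ∃ φ : SL(2, F) →* G, Function.Injective φ ∧ φ.range = Y ∧ φ (yy F) = y := by
  have : Fact (Nat.Prime 2) := ⟨Nat.prime_two⟩
  obtain ⟨F, _, _, _, h4, π, hs, hk, hπ⟩ := str' ih h hY (E := ⊥) IsPGroup.of_bot
    (by rw [normalizer_eq_top]; exact le_top) bot_le (hg.trans le_sup_left) my my' hy hy'
    (fun e => h1 (h2 y y' hy hy' e).symm)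
    (fun e => h1' (h2 y⁻¹ y' (by rwa [orderOf_inv]) hy' (by rwa [inv_inv])).symm)
  have pk : IsPGroup 2 π.ker := hk ▸ H1.isPGroup_pCore
  have e2 : ∀ x : Y, E2 x → E2 (x : G) := fun x ⟨k, hk⟩ => ⟨k, congrArg Subtype.val hk⟩
  have c2 : ∀ z z' : Y, orderOf z = 3 → orderOf z' = 3 → E2 (z⁻¹ * z') → z = z' :=
    fun z z' a b c => Subtype.ext (h2 z z' (by rwa [orderOf_coe]) (by rwa [orderOf_coe]) (e2 _ c))
  have cen : π.ker ≤ center Y := fun q hq => mem_center_iff.2 fun g => Subtype.ext (by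
    have : O3 Y ≤ centralizer {(q : G)} := (closure_le _).2 fun z hz => by
      have o : orderOf (⟨z, hz.1⟩ : Y) = 3 := (orderOf_mk _ _).trans hz.2
      have := c2 ⟨z, hz.1⟩ (q * ⟨z, hz.1⟩ * q⁻¹) o (((MulAut.conj q).orderOf_eq _).trans o) (E2_of_mem pk (by
        rw [MonoidHom.mem_ker] at hq ⊢
        simp [hq]))
      exact mem_centralizer_singleton_iff.2
        (congrArg Subtype.val (eq_mul_inv_iff_mul_eq.1 this))
    exact mem_centralizer_singleton_iff.1 (this (hg g.2)))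
  have h8 : 8 ≤ Fintype.card F := by
    by_contra h8
    obtain ⟨x, x', o, o', e⟩ := exists_omega h4 h8
    obtain ⟨z, oz, rfl⟩ := exists_lift3 π hs pk o
    obtain ⟨z', oz', rfl⟩ := exists_lift3 π hs pk o'
    obtain ⟨k, hk⟩ := E2_of_mem pk (x := (z⁻¹ * z') ^ 2) (by
      rw [MonoidHom.mem_ker, map_pow, map_mul, map_inv, e, sq, uu_sq])
    rw [c2 z z' oz oz' ⟨k + 1, by rw [pow_succ', pow_mul, hk]⟩, inv_mul_cancel] at e
    exact (iv_uu one_ne_zero).ne e.symm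
  have h9 : Fintype.card F ≠ 9 := fun e => by
    have := FiniteField.even_card_iff_char_two.1 (ringChar.eq F 2)
    omega
  obtain ⟨s, e⟩ := H54.exists_lift_of_mult_one (Cfsg.Agent.S2117.result (by omega) h9)
    (sl_perfect h4) π hs cen (MonoidHom.id _)
  have e' : ∀ x, π (s x) = x := fun x => DFunLike.congr_fun e x
  have key : ∀ z : Y, orderOf z = 3 → s (π z) = z := fun z oz => by
    have z3 : z ^ 3 = 1 := by rw [← oz, pow_orderOf_eq_one]
    have m : (s (π z))⁻¹ * z ∈ π.ker := by rw [MonoidHom.mem_ker, map_mul, map_inv, e', inv_mul_cancel]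
    have c : Commute (s (π z)) ((s (π z))⁻¹ * z) := mem_center_iff.1 (cen m) _
    have e1 := c.mul_pow 3
    rw [mul_inv_cancel_left, z3, ← map_pow, ← map_pow, z3, map_one, map_one, one_mul] at e1
    obtain ⟨k, hk⟩ := E2_of_mem pk m
    exact inv_mul_eq_one.1 (orderOf_eq_one_iff.1 (Nat.eq_one_of_dvd_coprimes
      (Nat.Coprime.pow_left k (by norm_num : Nat.Coprime 2 3)) (orderOf_dvd_of_pow_eq_one hk)
      (orderOf_dvd_of_pow_eq_one e1.symm)))
  refine ⟨F, _, _, ‹_›, h8, Y.subtype.comp s,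
    Subtype.val_injective.comp (Function.LeftInverse.injective e'), le_antisymm ?_ ?_, ?_⟩
  · rintro _ ⟨x, rfl⟩; exact (s x).2
  · refine hg.trans ((closure_le _).2 fun z hz => ?_)
    exact ⟨π ⟨z, hz.1⟩, congrArg Subtype.val (key ⟨z, hz.1⟩ ((orderOf_mk _ _).trans hz.2))⟩
  · rw [← hπ]
    exact congrArg Subtype.val (key ⟨y, my⟩ ((orderOf_mk _ _).trans hy))

/-- `conj_pair`. -/
theorem s7a' (ih : IH.{u, v} (Nat.card G)) (h : FF ρ) (h2 : C2 G) {Y : Subgroup G} (hY : Y ≠ ⊤)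
    (hg : Y ≤ O3 Y) {y y' : G} (my : y ∈ Y) (my' : y' ∈ Y) (hy : orderOf y = 3)
    (hy' : orderOf y' = 3) (h1 : y' ≠ y) (h1' : y' ≠ y⁻¹) {s : G} (ms : s ∈ Y) (hs : Iv s)
    (hsy : s * y * s⁻¹ = y⁻¹) :
    ∃ (F : Type) (_ : Field F) (_ : Fintype F) (_ : CharP F 2), 8 ≤ Fintype.card F ∧
      ∃ φ : SL(2, F) →* G, Function.Injective φ ∧ φ.range = Y ∧ φ (yy F) = y ∧ φ (uu 1) = s := by
  obtain ⟨F, _, _, _, h8, φ, i, r, e⟩ := s7a ih h h2 hY hg my my' hy hy' h1 h1'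
  obtain ⟨s0, rfl⟩ := r.ge ms
  obtain ⟨g, g1, g2⟩ := conj_pair (x := yy F) (s := s0) orderOf_yy
    ⟨fun k => hs.ne (by rw [k, map_one]), i (by rw [map_mul, hs.sq, map_one])⟩
    (i (by rw [map_mul, map_mul, map_inv, map_inv, e, hsy]))
  refine ⟨F, _, _, ‹_›, h8, φ.comp (MulAut.conj g⁻¹).toMonoidHom, i.comp (MulAut.conj g⁻¹).injective,
    ?_, ?_, ?_⟩
  · rw [MonoidHom.range_comp, MonoidHom.range_eq_top.2 (MulAut.conj g⁻¹).surjective,
      ← MonoidHom.range_eq_map, r]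
  · rw [← e]
    refine congrArg φ ?_
    conv_lhs => rw [← g1]
    simp [mul_assoc]
  · refine congrArg φ ?_
    rw [← g2]
    simp [mul_assoc]

end H88.GG
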