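import Cfsg.Agent.Lib.GG.Nat
import Cfsg.Agent.Lib.GG.SLb
import Cfsg.Agent.Lib.GG.K2

/-! Elements centralising a root group. -/

set_option autoImplicit false
set_option linter.unusedSectionVars false

namespace H88.GG
open Module Subgroup Cfsg
open scoped MatrixGroups

universe u v

variable {G : Type*} [Group G] [Finite G] {V : Type*} [AddCommGroup V]
  [Module (ZMod 2) V] [Finite V] {ρ : G →* End (ZMod 2) V}
variable {F : Type*} [Field F] [Fintype F] [CharP F 2]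

/-- `nat` for `ρ.comp φ`, `π = id`, `U0 = ⊥`, `W1 = ⊤`. -/
theorem s7_mem (h : FF ρ) (φ : SL(2, F) →* G) (hφ : Function.Injective φ) (t : F) :
    φ (uu t) ∈ KK ρ (φ (uu 1)) := by
  intro v hv
  have h' := h.comp φ hφ
  have := nat (ρ.comp φ) (MonoidHom.id _) (U0 := ⊥) (W1 := ⊤) bot_le
    (fun g v hv => by rw [(Submodule.mem_bot _).1 hv, map_zero]; exact Submodule.zero_mem _)
    (fun _ _ _ => Submodule.mem_top)
    (fun q hq w _ => by
      have hq' : q = 1 := hq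
      rw [hq', map_one, End.one_apply, sub_self]; exact Submodule.zero_mem _)
    (y := yy F) (s := uu 1) (c := uu t) rfl (h'.toFP.quad (by decide) orderOf_yy) rfl (t := t) rfl
    (w := v) Submodule.mem_top ((Submodule.mem_bot _).2 (sub_eq_zero.2 hv))
  exact sub_eq_zero.1 ((Submodule.mem_bot _).1 this)

namespace S7b

theorem iv1 (φ : SL(2, F) →* G) (hφ : Function.Injective φ) : Iv (φ (uu (1 : F))) :=
  ⟨fun e => (iv_uu (one_ne_zero (α := F))).ne (hφ (e.trans (map_one φ).symm)),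
    by rw [← map_mul, uu_sq, map_one]⟩

omit [Finite G] [Finite V] [Fintype F] [CharP F 2] in
theorem apm (φ : SL(2, F) →* G) (a b : SL(2, F)) (v : V) : ρ (φ (a * b)) v = ρ (φ a) (ρ (φ b) v) := by
  rw [map_mul, ap_mul]

omit [Finite G] [Finite V] [Fintype F] in
theorem ww2 (φ : SL(2, F) →* G) (v : V) : ρ (φ (ww F)) (ρ (φ (ww F)) v) = v := by
  rw [← apm, ww_sq, map_one, map_one, End.one_apply]

theorem fixU (h : FF ρ) (φ : SL(2, F) →* G) (hφ : Function.Injective φ) (t : F) {u : V}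
    (hu : u ∈ U ρ (φ (uu (1 : F)))) : ρ (φ (uu t)) u = u := s7_mem h φ hφ t u hu

theorem addU (h : FF ρ) (φ : SL(2, F) →* G) (hφ : Function.Injective φ) (t : F) (v : V) :
    ρ (φ (uu t)) v + v ∈ U ρ (φ (uu (1 : F))) := h.add_mem_U (iv1 φ hφ) (s7_mem h φ hφ t) v

theorem inter (h : FF ρ) (φ : SL(2, F) →* G) (hφ : Function.Injective φ) {v : V}
    (h1 : v ∈ U ρ (φ (uu (1 : F)))) (h2 : ρ (φ (ww F)) v ∈ U ρ (φ (uu (1 : F)))) : v = 0 := by
  have hw : ρ (φ (ww F)) v = v := by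
    have e := uu_low (1 : Fˣ)
    rw [hh_one, one_mul] at e
    conv_lhs => rw [← e]
    rw [apm, apm, apm, apm, fixU h φ hφ _ h1, fixU h φ hφ _ h2, ww2, fixU h φ hφ _ h1]
  have hs : (⊤ : Subgroup SL(2, F)) ≤ stab (ρ.comp φ) v := by
    rw [← UU_sup_ww]
    refine sup_le ?_ (zpowers_le.2 hw)
    rintro _ ⟨t, rfl⟩
    exact fixU h φ hφ t h1
  refine (h.comp φ hφ).fpf (yy F) ?_ ?_ v (hs (mem_top _))
  · intro e
    have := orderOf_yy (F := F)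
    rw [e, orderOf_one] at this
    omega
  · rw [orderOf_yy]
    decide

theorem hhU (h : FF ρ) (φ : SL(2, F) →* G) (hφ : Function.Injective φ) (ν : Fˣ) {u : V}
    (hu : u ∈ U ρ (φ (uu (1 : F)))) : ρ (φ (hh ν)) u ∈ U ρ (φ (uu (1 : F))) := by
  have e := hh_uu ν (((ν⁻¹ : Fˣ) : F) ^ 2)
  rw [← mul_pow, Units.mul_inv, one_pow, mul_inv_eq_iff_eq_mul] at e
  rw [mem_U, ← apm, ← e, apm, fixU h φ hφ _ hu]

end S7b

open S7b

/-- `U ⊓ w U` is fixed by `SL₂`, so `0`.  For `u' = w u`: `uu_low` gives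
`h u = u_ν (u' + n' n_ν u') + n_ν u'` with `n' n_ν u' ∈ w U`; so `u' + n' n_ν u' ∈ U ⊓ w U`. -/
theorem s7_h (h : FF ρ) (φ : SL(2, F) →* G) (hφ : Function.Injective φ) (ν : Fˣ) {u : V}
    (hu : u ∈ U ρ (φ (uu 1))) :
    ρ (φ (hh ν)) u = ρ (φ (uu (ν : F))) (ρ (φ (ww F)) u) + ρ (φ (ww F)) u := by
  obtain ⟨a, ha⟩ : ∃ a, a = ρ (φ (uu (ν : F))) (ρ (φ (ww F)) u) + ρ (φ (ww F)) u := ⟨_, rfl⟩
  have haU : a ∈ U ρ (φ (uu (1 : F))) := ha ▸ addU h φ hφ _ _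
  obtain ⟨c, hc⟩ : ∃ c, c = ρ (φ (uu ((ν⁻¹ : Fˣ) : F))) (ρ (φ (ww F)) a) + ρ (φ (ww F)) a := ⟨_, rfl⟩
  have hcU : c ∈ U ρ (φ (uu (1 : F))) := hc ▸ addU h φ hφ _ _
  have e1 : ρ (φ (uu (ν : F))) (ρ (φ (ww F)) u) = a + ρ (φ (ww F)) u := by
    rw [ha, add_assoc, two_v, add_zero]
  have e2 : ρ (φ (uu ((ν⁻¹ : Fˣ) : F))) (ρ (φ (ww F)) a) = c + ρ (φ (ww F)) a := by
    rw [hc, add_assoc, two_v, add_zero]
  have e3 : ρ (φ (hh ν)) u = ρ (φ (uu (ν : F))) (ρ (φ (ww F)) (c + u)) + a := by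
    conv_lhs => rw [← ww2 (ρ := ρ) φ u, ← apm, ← uu_low]
    rw [apm, apm, apm, apm, e1, map_add (ρ (φ (ww F))), ww2, map_add, e2, fixU h φ hφ _ hu,
      add_right_comm, map_add (ρ (φ (ww F))), ww2, map_add, fixU h φ hφ _ haU]
  have e4 : ρ (φ (uu (ν : F))) (ρ (φ (ww F)) (c + u)) ∈ U ρ (φ (uu (1 : F))) := by
    have := (U ρ (φ (uu (1 : F)))).add_mem (hhU h φ hφ ν hu) haU
    rwa [e3, add_assoc, two_v, add_zero] at this
  have e5 : ρ (φ (ww F)) (c + u) ∈ U ρ (φ (uu (1 : F))) := by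
    have := (U ρ (φ (uu (1 : F)))).add_mem e4 (addU h φ hφ (ν : F) (ρ (φ (ww F)) (c + u)))
    rwa [← add_assoc, two_v, zero_add] at this
  rw [e3, inter h φ hφ ((U ρ (φ (uu (1 : F)))).add_mem hcU hu) e5, map_zero, map_zero, zero_add, ha]

namespace S7b

omit [Finite G] [Finite V] [Fintype F] [CharP F 2] in
theorem apc {a b : G} (e : a * b = b * a) (v : V) : ρ a (ρ b v) = ρ b (ρ a v) := by
  rw [← ap_mul, e, ap_mul]

theorem h_one (h : FF ρ) (φ : SL(2, F) →* G) (hφ : Function.Injective φ) {u : V}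
    (hu : u ∈ U ρ (φ (uu (1 : F)))) : ρ (φ (uu (1 : F))) (ρ (φ (ww F)) u) = u + ρ (φ (ww F)) u := by
  have := s7_h h φ hφ 1 hu
  rw [hh_one, map_one, map_one, End.one_apply, Units.val_one] at this
  calc ρ (φ (uu (1 : F))) (ρ (φ (ww F)) u)
      = (ρ (φ (uu (1 : F))) (ρ (φ (ww F)) u) + ρ (φ (ww F)) u) + ρ (φ (ww F)) u := by
        rw [add_assoc, two_v, add_zero]
    _ = u + ρ (φ (ww F)) u := by rw [← this]

omit [Finite G] [Finite V] [Fintype F] [CharP F 2] in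
theorem gU (φ : SL(2, F) →* G) {g : G} (hg : g * φ (uu 1) = φ (uu 1) * g) {u : V}
    (hu : u ∈ U ρ (φ (uu (1 : F)))) : ρ g u ∈ U ρ (φ (uu (1 : F))) := by
  rw [mem_U, ← apc hg, mem_U.1 hu]

end S7b

/-- `n₁ (g w u + w g u) = g u + g u = 0` by `s7_h` for `ν = 1`. -/
theorem s7_beta (h : FF ρ) (φ : SL(2, F) →* G) (hφ : Function.Injective φ) {g : G}
    (hg : g * φ (uu 1) = φ (uu 1) * g) {u : V} (hu : u ∈ U ρ (φ (uu 1))) :
    ρ g (ρ (φ (ww F)) u) + ρ (φ (ww F)) (ρ g u) ∈ U ρ (φ (uu 1)) := by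
  rw [mem_U, map_add, ← apc hg, h_one h φ hφ hu, h_one h φ hφ (gU φ hg hu), map_add, add_add_add_comm, two_v,
    zero_add]

namespace S7b

theorem h_add (h : FF ρ) (φ : SL(2, F) →* G) (hφ : Function.Injective φ) (a b : F) (v : V) :
    ρ (φ (uu (a + b))) v + v = (ρ (φ (uu a)) v + v) + (ρ (φ (uu b)) v + v) := by
  have e := fixU h φ hφ a (addU h φ hφ b v)
  rw [map_add] at e
  rw [uu_add, apm, ← e]
  have t := two_v (ρ (φ (uu a)) v)
  calc _ = ρ (φ (uu a)) (ρ (φ (uu b)) v) + v + (ρ (φ (uu a)) v + ρ (φ (uu a)) v) := by rw [t, add_zero]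
    _ = _ := by abel

end S7b

/-- `β u = g w u + w g u ∈ U`; `β h_ν = h_ν⁻¹ β`; `h_ν` is additive in `ν` on `U` (`s7_h`); so
`h_σ β u = 0` for `σ = (ν+1)⁻¹ + ν⁻¹ + 1 ≠ 0` (`exists_nu`).  `V = U + w U` by `card_U`; `UU_sup_ww`. -/
theorem s7_cent (h : FF ρ) (hF : 8 ≤ Fintype.card F) (φ : SL(2, F) →* G)
    (hφ : Function.Injective φ) {g : G} (hg : ∀ t, g * φ (uu t) = φ (uu t) * g)
    (hh' : ∀ ν, g * φ (hh ν) = φ (hh ν) * g) (x : SL(2, F)) : g * φ x = φ x * g := by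
  obtain ⟨ν, h0, h1, h3⟩ := exists_nu hF
  have h2 : (2 : F) = 0 := CharTwo.two_eq_zero
  have h1' : ν + 1 ≠ 0 := fun e => h1 (by linear_combination e - h2)
  have hσ : (ν + 1)⁻¹ + ν⁻¹ + 1 ≠ 0 := by
    intro e
    apply h3
    field_simp at e
    linear_combination e - ν * h2
  have hb : ∀ (μ : Fˣ) (u : V), ρ g (ρ (φ (ww F)) (ρ (φ (hh μ)) u)) + ρ (φ (ww F)) (ρ g (ρ (φ (hh μ)) u)) =
      ρ (φ (hh μ⁻¹)) (ρ g (ρ (φ (ww F)) u) + ρ (φ (ww F)) (ρ g u)) := by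
    intro μ u
    rw [apc (hh' μ), ← apm φ (ww F), ← apm φ (ww F), ww_hh, apm, apm, apc (hh' μ⁻¹), map_add]
  have key : ∀ u ∈ U ρ (φ (uu (1 : F))), ρ g (ρ (φ (ww F)) u) = ρ (φ (ww F)) (ρ g u) := by
    intro u hu
    obtain ⟨x, hx⟩ : ∃ x, x = ρ g (ρ (φ (ww F)) u) + ρ (φ (ww F)) (ρ g u) := ⟨_, rfl⟩
    have hxU : x ∈ U ρ (φ (uu (1 : F))) := hx ▸ s7_beta h φ hφ (hg 1) hu
    have a1 : ρ (φ (hh (Units.mk0 (ν + 1) h1'))) u = ρ (φ (hh (Units.mk0 ν h0))) u + u := by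
      rw [s7_h h φ hφ _ hu, s7_h h φ hφ _ hu, Units.val_mk0, Units.val_mk0, h_add h φ hφ, h_one h φ hφ hu,
        add_assoc u, two_v, add_zero]
    have a2 : ρ (φ (hh (Units.mk0 (ν + 1) h1')⁻¹)) x = ρ (φ (hh (Units.mk0 ν h0)⁻¹)) x + x := by
      rw [hx, ← hb, ← hb, a1]
      simp only [map_add]
      abel
    have a3 : ρ (φ (hh (Units.mk0 _ hσ))) x = 0 := by
      rw [s7_h h φ hφ _ hxU, s7_h h φ hφ _ hxU, Units.val_inv_eq_inv_val, Units.val_inv_eq_inv_val, Units.val_mk0,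
        Units.val_mk0] at a2
      rw [s7_h h φ hφ _ hxU, Units.val_mk0, h_add h φ hφ, h_add h φ hφ, a2, h_one h φ hφ hxU, add_assoc x, two_v,
        add_zero, add_right_comm _ x, two_v, zero_add, two_v]
    have a4 : x = 0 := (ap_eq_zero ρ _).1 a3
    rw [a4] at hx
    rw [eq_neg_of_add_eq_zero_left hx.symm]
    exact neg_eq_of_add_eq_zero_left (two_v _)
  have hw : g * φ (ww F) = φ (ww F) * g := by
    apply h.inj
    ext v
    rw [ap_mul, ap_mul]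
    have ha := addU h φ hφ 1 v
    obtain ⟨a, ea⟩ : ∃ a, a = ρ (φ (uu (1 : F))) v + v := ⟨_, rfl⟩
    rw [← ea] at ha
    have hb : v + ρ (φ (ww F)) a ∈ U ρ (φ (uu (1 : F))) := by
      rw [mem_U, map_add, h_one h φ hφ ha, ← add_assoc]
      congr 1
      rw [ea, ← add_assoc, two_v, zero_add]
    have ev : v = (v + ρ (φ (ww F)) a) + ρ (φ (ww F)) a := by rw [add_assoc, two_v, add_zero]
    generalize v + ρ (φ (ww F)) a = b at hb ev
    rw [ev, map_add, map_add, key _ hb, ww2, map_add, map_add, key _ ha, ww2]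
  have hs : (⊤ : Subgroup SL(2, F)) ≤ (centralizer ({g} : Set G)).comap φ := by
    rw [← UU_sup_ww]
    refine sup_le ?_ (zpowers_le.2 (mem_centralizer_singleton_iff.2 hw.symm))
    rintro _ ⟨t, rfl⟩
    exact mem_centralizer_singleton_iff.2 (hg t).symm
  exact (mem_centralizer_singleton_iff.1 (hs (mem_top x))).symm

end H88.GG
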