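import Cfsg.Agent.Lib.GG.S7e
import Cfsg.Agent.Lib.GG.Odd1

/-! Case II: `K` is a root group. -/

set_option autoImplicit false

namespace H88.GG
open Module Subgroup Cfsg
open scoped MatrixGroups

universe u v

variable {G : Type*} [Group G] [Finite G] {V : Type*} [AddCommGroup V]
  [Module (ZMod 2) V] [Finite V] {ρ : G →* End (ZMod 2) V}
variable {F : Type*} [Field F] [Fintype F] [CharP F 2]

/-- If `k ≠ 1`, `z ∈ N(K)`; `C2` for `z`, `a z a⁻¹` (`a ∈ K`) shows `z` centralises `K`.  `s7b`: `k' z` centralises `range φ`,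
so does `z = (k' z)⁴`; `mem_zpowers`: `φ yy ∈ ⟨z⟩` commutes with `φ (uu 1)`. -/
theorem s7c (h : FF ρ) (h2 : C2 G) (hF : 8 ≤ Fintype.card F) (φ : SL(2, F) →* G)
    (hφ : Function.Injective φ) {z k : G} (hz : orderOf z = 3) (hk : k ∈ KK ρ (φ (uu 1)))
    (hc : z * k = k * z) : k = 1 := by
  by_contra h1
  have := h.nontrivial
  have it : Iv (φ (uu 1)) := ⟨(map_ne_one_iff φ hφ).2 (iv_uu one_ne_zero).ne, by
    rw [← map_mul, uu_sq, map_one]⟩
  have hn := h.mem_norm_of_conj it hk h1 (g := z) (by rwa [hc, mul_inv_cancel_right])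
  have c : ∀ a ∈ KK ρ (φ (uu 1)), z * a = a * z := fun a ha => by
    have e := h2 z (a * z * a⁻¹) hz (((MulAut.conj a).orderOf_eq z).trans hz)
      (E2_of_mem (h.pgroup it) (by
        rw [show z⁻¹ * (a * z * a⁻¹) = z⁻¹ * a * z * a⁻¹ by group]
        exact mul_mem ((mem_normalizer_iff''.1 hn a).1 ha) (inv_mem ha)))
    exact eq_mul_inv_iff_mul_eq.1 e
  obtain ⟨k', hk', e⟩ := s7b h hF φ hφ fun t => c _ (s7_mem h φ hφ t)
  have e4 : (k' * z) ^ 4 = z := by
    rw [Commute.mul_pow (c k' hk').symm, show 4 = 2 * 2 from rfl, pow_mul, sq k', h.sq it hk', one_pow,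
      one_mul, show 2 * 2 = 3 + 1 from rfl, pow_succ, ← hz, pow_orderOf_eq_one, one_mul]
  have cy : z * φ (yy F) = φ (yy F) * z := by
    rw [← e4]; exact (Commute.pow_left (e (yy F)) 4).eq
  obtain ⟨i, hi⟩ := h.toFP.mem_zpowers Nat.prime_three (by norm_num) hz
    ((orderOf_injective φ hφ _).trans orderOf_yy) cy
  refine yy_uu_ne (one_ne_zero (α := F)) (hφ ?_)
  rw [map_mul, map_mul, ← hi]
  exact (Commute.zpow_left (c _ (self_mem_KK ρ _)) i).eq

/-- `k y k⁻¹` has order 3 and is inverted by `φ (uu 1)`; `inv_by_uu`, `s7c`. -/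
theorem s7c' (h : FF ρ) (h2 : C2 G) (hF : 8 ≤ Fintype.card F) (φ : SL(2, F) →* G)
    (hφ : Function.Injective φ) {k : G} (hk : k ∈ KK ρ (φ (uu 1)))
    (hn : k * φ (yy F) * k⁻¹ ∈ φ.range) : ∃ a, k = φ (uu a) := by
  have it : Iv (φ (uu 1)) := ⟨(map_ne_one_iff φ hφ).2 (iv_uu one_ne_zero).ne, by
    rw [← map_mul, uu_sq, map_one]⟩
  have oy : orderOf (φ (yy F)) = 3 := (orderOf_injective φ hφ _).trans orderOf_yy
  obtain ⟨x, hx⟩ := hn
  have c := h.comm it (self_mem_KK ρ _) hk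
  obtain ⟨a, ha⟩ := inv_by_uu (x := x)
    (by rw [← orderOf_injective φ hφ, hx]; exact ((MulAut.conj k).orderOf_eq _).trans oy) (hφ (by
      rw [map_mul, map_mul, map_inv, map_inv, hx]
      calc _ = φ (uu 1) * k * φ (yy F) * (φ (uu 1) * k)⁻¹ := by group
        _ = k * φ (uu 1 * yy F * (uu 1)⁻¹) * k⁻¹ := by rw [c, map_mul, map_mul, map_inv]; group
        _ = _ := by rw [uu_one_yy, map_inv]; group))
  refine ⟨a, (inv_mul_eq_one.1 (s7c h h2 hF φ hφ oy
    (mul_mem (inv_mem (s7_mem h φ hφ a)) hk) ?_)).symm⟩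
  rw [ha, map_mul, map_mul, map_inv] at hx
  calc _ = (φ (uu a))⁻¹ * (φ (uu a) * φ (yy F) * (φ (uu a))⁻¹) * k := by group
    _ = _ := by rw [hx]; group

end H88.GG
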