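import Cfsg.Agent.Lib.GG.S7a
import Cfsg.Agent.Lib.GG.S7c

/-! Case II gives weak closure. -/

set_option autoImplicit false

namespace H88.GG
open Module Subgroup Cfsg
open scoped MatrixGroups

universe u v

variable {G : Type u} [Group G] [Finite G] {V : Type v} [AddCommGroup V]
  [Module (ZMod 2) V] [Finite V] {ρ : G →* End (ZMod 2) V}

namespace S7d

omit [Finite G] in
theorem le_O3 {F : Type} [Field F] [Fintype F] [CharP F 2] (hF : 8 ≤ Fintype.card F) (φ : SL(2, F) →* G)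
    (hφ : Function.Injective φ) {Y : Subgroup G} (h : ∀ x, φ x ∈ Y) (x : SL(2, F)) : φ x ∈ O3 Y := by
  have : (⊤ : Subgroup SL(2, F)) ≤ (O3 Y).comap φ := by
    rw [← O3_top (by omega), O3, closure_le]
    exact fun z hz => subset_closure ⟨h z, (orderOf_injective φ hφ z).trans hz.2⟩
  exact this (mem_top x)

omit [Finite G] in
theorem iv_map {H : Type*} [Group H] (φ : H →* G) (hφ : Function.Injective φ) {x : H} (hx : Iv x) : Iv (φ x) :=
  ⟨fun e => hx.ne (hφ (e.trans (map_one φ).symm)), by rw [← map_mul, hx.sq, map_one]⟩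

omit [Finite G] in
theorem ord_conj (g x : G) : orderOf (g * x * g⁻¹) = orderOf x :=
  orderOf_injective (MulAut.conj g).toMonoidHom (MulAut.conj g).injective x

end S7d
open S7d

/-- `s = φ (uu 1)`, `y = φ yy`, `k' = g s g⁻¹ ∉ K`, `K ⊓ K' = 1`.  `s7b`: `t = k k'` centralises `range φ`, an involution
commuting with `K, K'`.  `G₁ = O3 (C(t)) ≥ range φ` (`O3_top`) is proper; `s7a'` (`exists_yy'`): `G₁ = range φ₁`, `φ₁ yy = y`,
`φ₁ (uu 1) = s`; `K = φ₁ (UU)` (`s7c'`, as `C(t)` normalises `G₁`).  `φ' = conj g ∘ φ₁`, `K' = φ' (UU)`.  `s7b` for `φ'`: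
`t' = k'' t` centralises `range φ'`.  `k'' = 1`: `range φ' ≤ G₁`, so `k' ∈ G₁` commutes with `s`, `k' ∈ K`
(`mem_UU_of_comm`).  `k'' ≠ 1`: `k = (k' k'') t'`.  `k' k'' = 1`: `k = t'` commutes with `φ' yy`, `k = 1` (`s7c`), `t = k'` commutes
with `y`, against `s7c` for `φ'`.  Else `conj_uu` in `range φ'` conjugates `t = k'' t'` to `k`, so a conjugate of `y`
centralises `k`, `k = 1`, `t = 1`. -/
theorem s7_wc [IsSimpleGroup G] (ih : IH.{u, v} (Nat.card G)) (h : FF ρ) (h2 : C2 G)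
    {F : Type} [Field F] [Fintype F] [CharP F 2] (hF : 8 ≤ Fintype.card F) (φ : SL(2, F) →* G)
    (hφ : Function.Injective φ) : WC ρ (φ (uu 1)) := by
  intro g hc
  by_contra hk'
  obtain ⟨s, hs⟩ : ∃ s, s = φ (uu 1) := ⟨_, rfl⟩
  obtain ⟨y, hy⟩ : ∃ y, y = φ (yy F) := ⟨_, rfl⟩
  have y3 : orderOf y = 3 := by rw [hy, orderOf_injective φ hφ, orderOf_yy]
  have is : Iv s := hs ▸ iv_map φ hφ (iv_uu one_ne_zero)
  rw [← hs] at hc hk'
  obtain ⟨k', e'⟩ : ∃ k', k' = g * s * g⁻¹ := ⟨_, rfl⟩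
  have ik' : Iv k' := e' ▸ is.conj g
  rw [← e'] at hc hk'
  have mk' := self_mem_KK ρ k'
  obtain ⟨k, hk, ht⟩ := s7b h hF φ hφ (g := k') fun a => (hc _ (hs ▸ s7_mem h φ hφ a) _ mk').symm
  rw [← hs] at hk
  have kk : Commute k k' := hc k hk k' mk'
  have t1 : k * k' ≠ 1 := fun e => hk' (eq_inv_of_mul_eq_one_right e ▸ inv_mem hk)
  have Kt : ∀ a ∈ KK ρ s, a ∈ centralizer {k * k'} := fun a ha => mem_centralizer_singleton_iff.2
    (Commute.mul_right (h.comm is ha hk) (hc a ha k' mk'))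
  have φt : ∀ x, φ x ∈ centralizer {k * k'} := fun x => mem_centralizer_singleton_iff.2 (ht x).symm
  have le : O3 (centralizer {k * k'}) ≤ centralizer {k * k'} := (closure_le _).2 fun _ hx => hx.1
  have ne : O3 (centralizer {k * k'}) ≠ ⊤ := fun e => by
    have c : k * k' ∈ center G := mem_center_iff.2 fun a => mem_centralizer_singleton_iff.1 (le (e ▸ mem_top a))
    rcases (inferInstance : (center G).Normal).eq_bot_or_eq_top with e | e
    · exact t1 (mem_bot.1 (e ▸ c))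
    · exact yy_uu_ne one_ne_zero (hφ (by
        rw [map_mul, map_mul]; exact mem_center_iff.1 (e ▸ mem_top (φ (uu 1))) _))
  obtain ⟨x, x3, x1, x2⟩ := exists_yy' (F := F) (by omega)
  obtain ⟨F1, _, _, _, hF1, ψ, hψ, r, ψy, ψs⟩ := s7a' ih h h2 ne
    ((closure_le _).2 fun z hz => subset_closure ⟨subset_closure hz, hz.2⟩) (hy ▸ le_O3 hF φ hφ φt _)
    (le_O3 hF φ hφ φt x) y3 ((orderOf_injective φ hφ x).trans x3) (fun e => x1 (hφ (e.trans hy)))
    (fun e => x2 (hφ (by rw [e, hy, map_inv]))) (hs ▸ le_O3 hF φ hφ φt _) is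
    (by rw [hs, hy, ← map_inv, ← map_inv, ← map_mul, ← map_mul, uu_one_yy])
  have yt : y ∈ centralizer {k * k'} := hy ▸ φt _
  have KU : ∀ a ∈ KK ρ s, ∃ c, a = ψ (uu c) := fun a ha => s7c' h h2 hF1 ψ hψ (ψs ▸ ha) (by
    rw [r, ψy]
    exact subset_closure ⟨mul_mem (mul_mem (Kt a ha) yt) (inv_mem (Kt a ha)), (ord_conj a y).trans y3⟩)
  obtain ⟨χ, hχ, χs, KU'⟩ : ∃ χ : SL(2, F1) →* G, Function.Injective χ ∧ χ (uu 1) = k' ∧
      ∀ a ∈ KK ρ k', ∃ c, a = χ (uu c) := by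
    refine ⟨(MulAut.conj g).toMonoidHom.comp ψ, (MulAut.conj g).injective.comp hψ, by simp [ψs, e'], fun a ha => ?_⟩
    obtain ⟨c, e⟩ := KU _ (mem_KK_conj.1 (e' ▸ ha))
    exact ⟨c, by simp [← e, mul_assoc]⟩
  obtain ⟨l, hl, ht'⟩ := s7b h hF1 χ hχ (g := k * k') fun a => by
    have m : χ (uu a) ∈ KK ρ k' := χs ▸ s7_mem h χ hχ a
    exact Commute.mul_left (hc k hk _ m) (h.comm ik' mk' m)
  rw [χs] at hl
  by_cases l1 : l = 1
  · rw [l1, one_mul] at ht'
    obtain ⟨z, hz⟩ : k' ∈ ψ.range := by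
      have := le_O3 hF1 χ hχ (fun x => mem_centralizer_singleton_iff.2 (ht' x).symm) (uu 1)
      rwa [χs, ← r] at this
    obtain ⟨c, rfl⟩ := mem_UU_of_comm (x := z) (hψ (by
      rw [map_mul, map_mul, hz, ψs]; exact (hc s (self_mem_KK ρ s) k' mk').symm))
    exact hk' (hz ▸ ψs ▸ s7_mem h ψ hψ c)
  have ek : k = k' * l * (l * (k * k')) := by
    rw [mul_assoc, ← mul_assoc l, h.sq ik' hl, one_mul, kk.eq, ← mul_assoc, ik'.sq, one_mul]
  have key : ∀ z, orderOf z = 3 → z * k = k * z → k = 1 := fun z hz e => s7c h h2 hF φ hφ hz (hs ▸ hk) e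
  by_cases l2 : k' * l = 1
  · rw [l2, one_mul] at ek
    have k1 := key _ ((orderOf_injective χ hχ _).trans orderOf_yy) (by rw [ek]; exact (ht' _).symm)
    rw [k1, one_mul] at yt
    exact ik'.ne (s7c h h2 hF1 χ hχ y3 (χs ▸ mk') (mem_centralizer_singleton_iff.1 yt))
  obtain ⟨a, ea⟩ := KU' l hl
  obtain ⟨b, eb⟩ := KU' _ (mul_mem mk' hl)
  obtain ⟨z, hz⟩ := conj_uu (a := a) (b := b) (fun e => l1 (by rw [ea, e, uu_zero, map_one]))
    (fun e => l2 (by rw [eb, e, uu_zero, map_one]))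
  have ez : χ z * (k * k') * (χ z)⁻¹ = k := by
    have e1 : χ z * l * (χ z)⁻¹ = k' * l := by rw [eb, ← hz, ea, map_mul, map_mul, map_inv]
    have e2 : χ z * (l * (k * k')) * (χ z)⁻¹ = l * (k * k') := by rw [← ht' z, mul_inv_cancel_right]
    conv_rhs => rw [ek, ← e1, ← e2, conj_mul, ← mul_assoc l, h.sq ik' hl, one_mul]
  have k1 := key _ ((ord_conj (χ z) y).trans y3) (by
    rw [← ez, conj_mul, conj_mul, mem_centralizer_singleton_iff.1 yt])
  exact t1 (by simpa using ez.trans k1)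

/-- `y` of order 3; `⟨y⟩` is not normal, so there is `y' ≠ y, y⁻¹` of order 3; `s7a` for `closure {y, y'}`. -/
theorem s7 [IsSimpleGroup G] (hna : ¬ IsMulCommutative G) (ih : IH.{u, v} (Nat.card G)) (h : FF ρ)
    (h3 : 3 ∣ Nat.card G) (h2 : C2 G)
    (hg : ∀ y y' : G, orderOf y = 3 → orderOf y' = 3 → closure ({y, y'} : Set G) ≠ ⊤) :
    ∃ t, Iv t ∧ WC ρ t := by
  have := Fact.mk Nat.prime_three
  obtain ⟨y, hy⟩ := exists_prime_orderOf_dvd_card' 3 h3
  obtain ⟨y', hy', h1, h1'⟩ : ∃ y' : G, orderOf y' = 3 ∧ y' ≠ y ∧ y' ≠ y⁻¹ := by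
    by_contra! hc
    have n : (zpowers y).Normal := ⟨by
      rintro _ ⟨n, rfl⟩ g
      rw [← conj_zpow]
      refine zpow_mem ?_ n
      by_cases e : g * y * g⁻¹ = y
      · exact e.symm ▸ mem_zpowers y
      · exact (hc _ ((ord_conj g y).trans hy) e).symm ▸ inv_mem (mem_zpowers y)⟩
    rcases n.eq_bot_or_eq_top with e | e
    · rw [zpowers_eq_bot.1 e, orderOf_one] at hy; omega
    · have := isCyclic_iff_exists_zpowers_eq_top.2 ⟨y, e⟩
      exact hna inferInstance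
  have my : y ∈ closure ({y, y'} : Set G) := subset_closure (by simp)
  have my' : y' ∈ closure ({y, y'} : Set G) := subset_closure (by simp)
  obtain ⟨F, _, _, _, hF, φ, hφ, -⟩ := s7a ih h h2 (hg y y' hy hy') ((closure_le _).2 (by
    rintro _ (rfl | rfl)
    exacts [subset_closure ⟨my, hy⟩, subset_closure ⟨my', hy'⟩])) my my' hy hy' h1 h1'
  exact ⟨_, iv_map φ hφ (iv_uu one_ne_zero), s7_wc ih h h2 hF φ hφ⟩

end H88.GG
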