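import Cfsg.Agent.Lib.GG.S7b

/-! Elements centralising a root group. -/

set_option autoImplicit false

namespace H88.GG
open Module Subgroup Cfsg
open scoped MatrixGroups

universe u v

variable {G : Type*} [Group G] [Finite G] {V : Type*} [AddCommGroup V]
  [Module (ZMod 2) V] [Finite V] {ρ : G →* End (ZMod 2) V}
variable {F : Type*} [Field F] [Fintype F] [CharP F 2]

/-- `η = φ (hh μ)`, `μ` a generator of `Fˣ`.  `g` and `η` commute on `U` (`s7_h`, `s7_beta`), so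
`κ = η g η⁻¹ g⁻¹ ∈ K`.  `θ k = η k η⁻¹ k⁻¹` is injective on `K` (a fixed `k ≠ 1` would centralise `φ (yy F)` by `s7_cent`,
and then `w U = U`), so onto; take `θ k = κ⁻¹`. -/
theorem s7b (h : FF ρ) (hF : 8 ≤ Fintype.card F) (φ : SL(2, F) →* G) (hφ : Function.Injective φ)
    {g : G} (hg : ∀ t, g * φ (uu t) = φ (uu t) * g) :
    ∃ k ∈ KK ρ (φ (uu 1)), ∀ x, k * g * φ x = φ x * (k * g) := by
  have h1 := iv_uu (F := F) one_ne_zero
  have ht : Iv (φ (uu (1 : F))) :=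
    ⟨fun e => h1.ne (hφ (e.trans (map_one φ).symm)), by rw [← map_mul, h1.sq, map_one]⟩
  obtain ⟨μ, hμ⟩ := IsCyclic.exists_monoid_generator (α := Fˣ)
  set η := φ (hh μ) with hη
  have cent : ∀ d : G, (∀ t, d * φ (uu t) = φ (uu t) * d) → d * η = η * d →
      ∀ x, d * φ x = φ x * d := fun d h1 h2 => s7_cent h hF φ hφ h1 fun ν => by
    obtain ⟨n, rfl⟩ := hμ ν
    induction n with
    | zero => simp [hh_one]
    | succ n ih =>
      simp only at ih ⊢
      rw [pow_succ, hh_mul, map_mul, ← mul_assoc, ih, mul_assoc, ← hη, h2, mul_assoc]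
  have hηN : η ∈ normalizer (KK ρ (φ (uu 1)) : Set G) := (h.mem_norm_iff ht).2 (by
    rw [hη, ← map_inv, ← map_mul, ← map_mul, hh_uu]
    exact s7_mem h φ hφ _)
  have hgN : g ∈ normalizer (KK ρ (φ (uu 1)) : Set G) := (h.mem_norm_iff ht).2 (by
    rw [hg, mul_inv_cancel_right]
    exact self_mem_KK ρ _)
  have hκ : η * g * η⁻¹ * g⁻¹ ∈ KK ρ (φ (uu 1)) := fun v hv => by
    have hu := (h.mem_norm_iff' ht).1 (inv_mem hηN) _ ((h.mem_norm_iff' ht).1 (inv_mem hgN) v hv)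
    rw [ap_mul, ap_mul, ap_mul]
    have e : ∀ u ∈ U ρ (φ (uu 1)), ρ η (ρ g u) = ρ g (ρ η u) := fun u hu => by
      have hb := s7_mem h φ hφ (μ : F) _ (s7_beta h φ hφ (hg 1) hu)
      rw [hη, s7_h h φ hφ μ hu, s7_h h φ hφ μ ((h.mem_norm_iff' ht).1 hgN u hu), map_add,
        ← ap_mul ρ g (φ (uu _)), hg, ap_mul]
      rw [map_add] at hb
      generalize ρ (φ (ww F)) (ρ g u) = a at hb ⊢
      generalize ρ g (ρ (φ (ww F)) u) = b at hb ⊢
      have e1 := two_v a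
      have e2 := two_v (ρ (φ (uu (μ : F))) b)
      refine add_left_cancel (a := ρ (φ (uu (μ : F))) b) ?_
      rw [← add_assoc, ← add_assoc, hb, e2, add_assoc, e1, add_zero, zero_add]
    rw [e _ hu, ap_inv', ap_inv']
  let θ : KK ρ (φ (uu 1)) → KK ρ (φ (uu 1)) := fun k =>
    ⟨η * k * η⁻¹ * (k : G)⁻¹, mul_mem ((mem_normalizer_iff.1 hηN k).1 k.2) (inv_mem k.2)⟩
  have hθ : Function.Injective θ := fun k k' e => by
    have e1 : η * k * η⁻¹ * (k : G)⁻¹ = η * k' * η⁻¹ * (k' : G)⁻¹ := congrArg Subtype.val e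
    have hd := mul_mem (inv_mem k'.2) k.2
    by_contra hne
    have h2 := cent _ (fun t => h.comm ht hd (s7_mem h φ hφ t)) (by
      calc (k' : G)⁻¹ * k * η = (η * k' * η⁻¹)⁻¹ * (η * k' * η⁻¹ * (k' : G)⁻¹) * k * η := by group
        _ = η * ((k' : G)⁻¹ * k) := by rw [← e1]; group) (yy F)
    have h3 := (h.mem_norm_iff ht).1 (h.mem_norm_of_conj ht hd
      (fun e => hne (Subtype.ext (inv_mul_eq_one.1 e).symm)) (g := φ (yy F))
      (by rw [← h2, mul_inv_cancel_right]; exact hd))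
    have h4 := h.sq ht (mul_mem h3 (inv_mem (self_mem_KK ρ _)))
    have h5 : yy F * uu 1 * (yy F)⁻¹ * (uu 1)⁻¹ = yy F * yy F := by
      calc _ = yy F * (uu 1 * yy F * (uu 1)⁻¹)⁻¹ := by group
        _ = _ := by rw [uu_one_yy, inv_inv]
    simp only [← map_inv, ← map_mul, h5] at h4
    have h6 : yy F ^ 4 = 1 := hφ (by rw [map_one, ← h4]; congr 1; simp only [pow_succ, pow_zero, one_mul, mul_assoc])
    have := orderOf_dvd_of_pow_eq_one h6
    rw [orderOf_yy] at this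
    omega
  obtain ⟨k, hk⟩ := Finite.surjective_of_injective hθ ⟨_, inv_mem hκ⟩
  have e1 : η * k * η⁻¹ * (k : G)⁻¹ = (η * g * η⁻¹ * g⁻¹)⁻¹ := congrArg Subtype.val hk
  refine ⟨k, k.2, cent _ (fun t => ?_) ?_⟩
  · rw [mul_assoc, hg, ← mul_assoc, h.comm ht k.2 (s7_mem h φ hφ t), mul_assoc]
  · have e2 := h.comm ht k.2 hκ
    symm
    calc η * (k * g) = η * k * η⁻¹ * (k : G)⁻¹ * (k * (η * g * η⁻¹ * g⁻¹)) * g * η := by group
      _ = k * g * η := by rw [e1, e2]; group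

end H88.GG
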