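import Cfsg.Agent.Lib.GG.SLa
import Cfsg.Agent.Lib.GL.Two

/-! Orders and Sylow subgroups of `SL₂(q)`. -/

set_option autoImplicit false

namespace H88.GG
open Module Subgroup Cfsg
open scoped MatrixGroups

universe u v

variable {F : Type*} [Field F] [Fintype F]

open H64.SL2

theorem card_sl : Nat.card SL(2, F) = Fintype.card F * (Fintype.card F ^ 2 - 1) := by
  rw [H10.card_SL_two, Nat.card_eq_fintype_card, mul_assoc, mul_comm (_ - 1), ← Nat.pow_two_sub_pow_two,
    one_pow]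

theorem card_sylow_def {p : ℕ} [Fact p.Prime] (hp : p ∣ Fintype.card F) :
    Nat.card (Sylow p SL(2, F)) = Fintype.card F + 1 := by
  obtain ⟨r, hr⟩ := CharP.exists F
  obtain ⟨n, h1, h2⟩ := FiniteField.card F r
  obtain rfl : p = r := (Nat.prime_dvd_prime_iff_eq Fact.out h1).1
    ((Fact.out : p.Prime).dvd_of_dvd_pow (h2 ▸ hp))
  rw [H10.card_sylow_char_SL_two, Nat.card_eq_fintype_card]

theorem mem_center_sl {x : SL(2, F)} : x ∈ center SL(2, F) ↔ x = 1 ∨ x = -1 := by
  exact mem_center_iff'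

theorem card_center_sl : Nat.card (center SL(2, F)) = Nat.gcd 2 (Fintype.card F - 1) := by
  rw [H10.card_center_SL, Fintype.card_fin, Nat.card_eq_fintype_card]

theorem iv_neg_one (ho : Odd (Fintype.card F)) : Iv (-1 : SL(2, F)) := by
  exact ⟨neg_one_ne_one (two_ne_zero_of_odd ho), by simp⟩

theorem sl_perfect' (h4 : 4 ≤ Fintype.card F) : commutator SL(2, F) = ⊤ := by
  classical
  obtain ⟨a, ha⟩ := Finset.exists_mem_notMem_of_card_lt_card (s := ({0, 1, -1} : Finset F))
    (t := Finset.univ) (Finset.card_le_three.trans_lt h4)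
  simp only [Finset.mem_insert, Finset.mem_singleton, not_or] at ha
  exact Matrix.SL2.commutator_eq_top ha.2.1 fun e => (sq_eq_one_iff.1 e).elim ha.2.2.1 ha.2.2.2

theorem sl_zmod {r : ℕ} (hr : r.Prime) (h : Fintype.card F = r) :
    Nonempty (SL(2, F) ≃* SL(2, ZMod r)) := by
  haveI := Fact.mk hr
  let e : F ≃+* ZMod r := FiniteField.ringEquivOfCardEq (h.trans (ZMod.card r).symm)
  exact ⟨MonoidHom.toMulEquiv (Matrix.SpecialLinearGroup.map e.toRingHom)
    (Matrix.SpecialLinearGroup.map e.symm.toRingHom) (by ext; simp) (by ext; simp)⟩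

theorem exists_q8 : ∃ i j : SL(2, F), i * i = -1 ∧ j * j = -1 ∧ i * j = -(j * i) := by
  have t : tr (ww F) = 0 := by simp [tr, SLa.ent]
  have w := mul_self_eq_neg_one_of_tr t
  by_cases h : (2 : F) = 0
  · exact ⟨_, _, w, w, (neg_eq_self_of_two_eq_zero h _).symm⟩
  have t4 : tr (ww F) ^ 2 ≠ 4 := fun e => h (pow_eq_zero_iff two_ne_zero |>.1 (by
    rw [t] at e; linear_combination -e))
  obtain ⟨v, hv⟩ := exists_inverts t4
  refine ⟨v, _, mul_self_eq_neg_one_of_tr (tr_eq_zero_of_inverts t4 hv), w, ?_⟩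
  rw [mul_inv_eq_iff_eq_mul.1 hv, ← neg_mul, inv_eq_of_mul_eq_one_right (show ww F * -ww F = 1 by
    rw [mul_neg, w, neg_neg])]

end H88.GG
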