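import Cfsg.Agent.Lib.GG.Gen
import Cfsg.Agent.Lib.Core.PCore

/-! Vector stabilisers are Sylow subgroups. -/

set_option autoImplicit false

namespace H88.GG
open Module Subgroup Cfsg
open scoped MatrixGroups

universe u v

variable {p : ℕ} [Fact p.Prime] {G : Type*} [Group G] [Finite G] {V : Type*} [AddCommGroup V]
  [Module (ZMod p) V] [Finite V] {ρ : G →* End (ZMod p) V}

namespace Spread

theorem dvd_card_of_stab {H X : Type*} [Group H] [Finite X] [MulAction H X] {n : ℕ}
    (h : ∀ x : X, (MulAction.stabilizer H x).index = n) : n ∣ Nat.card X := by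
  classical
  rw [Nat.card_congr (MulAction.selfEquivSigmaOrbits H X)]
  letI := Fintype.ofFinite (MulAction.orbitRel.Quotient H X)
  rw [Nat.card_sigma]
  refine Finset.dvd_sum fun ω _ => ?_
  rw [Nat.card_coe_set_eq, ← MulAction.index_stabilizer, h]

omit [Finite G] in
theorem dvd_gen (ρ : G →* End (ZMod p) V) (H : Subgroup G) (W : Submodule (ZMod p) V)
    (hW : ∀ g ∈ H, ∀ v ∈ W, ρ g v ∈ W) {n : ℕ}
    (hn : ∀ v ∈ W, v ≠ 0 → (stab ρ v).relIndex H = n) : n ∣ Nat.card W - 1 := by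
  classical
  letI : MulAction H {v : W // v ≠ 0} :=
    { smul := fun g v => ⟨⟨ρ g v.1, hW g g.2 _ v.1.2⟩, fun e =>
        v.2 (Subtype.ext ((ap_eq_zero ρ (g : G)).1 (congrArg Subtype.val e)))⟩
      one_smul := fun v => by
        apply Subtype.ext; apply Subtype.ext
        show ρ ((1 : H) : G) v.1 = v.1
        simp
      mul_smul := fun a b v => by
        apply Subtype.ext; apply Subtype.ext
        show ρ ((a * b : H) : G) v.1 = ρ a (ρ b v.1)
        rw [Subgroup.coe_mul, ap_mul] }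
  have hc : Nat.card {v : W // v ≠ 0} = Nat.card W - 1 := by
    letI := Fintype.ofFinite W
    rw [Nat.card_eq_fintype_card, Nat.card_eq_fintype_card, Fintype.card_subtype_compl,
      Fintype.card_subtype_eq]
  rw [← hc]
  refine dvd_card_of_stab (H := H) fun x => ?_
  rw [← hn x.1.1 x.1.2 (fun e => x.2 (Subtype.ext e)), Subgroup.relIndex]
  congr 1
  ext g
  rw [MulAction.mem_stabilizer_iff, Subgroup.mem_subgroupOf, mem_stab]
  constructor
  · intro e
    exact congrArg (fun y : {v : W // v ≠ 0} => (y.1 : V)) e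
  · intro e
    apply Subtype.ext; apply Subtype.ext
    exact e

theorem sylow_index_eq (P Q : Sylow p G) : (P : Subgroup G).index = (Q : Subgroup G).index := by
  have h1 := (P : Subgroup G).index_mul_card
  have h2 := (Q : Subgroup G).index_mul_card
  have h3 : Nat.card (P : Subgroup G) = Nat.card (Q : Subgroup G) := by
    rw [P.card_eq_multiplicity, Q.card_eq_multiplicity]
  rw [h3, ← h2] at h1
  exact Nat.eq_of_mul_eq_mul_right Nat.card_pos h1

theorem sylow_comap (P : Sylow p G) (N : Subgroup G) [hN : N.Normal] :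
    ∃ Q : Sylow p N, (Q : Subgroup N) = (P : Subgroup G).comap N.subtype := by
  obtain ⟨Q0⟩ : Nonempty (Sylow p N) := inferInstance
  obtain ⟨P0, hP0⟩ := Q0.exists_comap_subtype_eq
  obtain ⟨g, rfl⟩ := MulAction.exists_smul_eq G P0 P
  refine ⟨(MulAut.conjNormal g : MulAut N) • Q0, ?_⟩
  ext x
  rw [Sylow.pointwise_smul_def, Subgroup.mem_pointwise_smul_iff_inv_smul_mem, ← hP0,
    Subgroup.mem_comap, Subgroup.mem_comap, Sylow.coe_subgroup_smul,
    Subgroup.mem_pointwise_smul_iff_inv_smul_mem]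
  simp [← map_inv]

end Spread

omit [Finite V] in
theorem St.fp (h : St ρ) : FP ρ := by
  refine ⟨h.inj, fun g hg ho v hv => ?_⟩
  by_contra hv0
  obtain ⟨P, hP⟩ := h.syl v hv0
  have hgP : g ∈ (P : Subgroup G) := hP ▸ (mem_stab.2 hv)
  obtain ⟨k, hk⟩ := P.isPGroup' ⟨g, hgP⟩
  have hk' : g ^ p ^ k = 1 := congrArg Subtype.val hk
  have hd := orderOf_dvd_of_pow_eq_one hk'
  have h1 : orderOf g = 1 := (Nat.Coprime.pow_right k ho).eq_one_of_dvd hd
  exact hg (orderOf_eq_one_iff.1 h1)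

omit [Finite V] in
/-- `O_p` lies in every Sylow subgroup, so fixes every vector. -/
theorem St.pCore_eq_bot (h : St ρ) : pCore p G = ⊥ := by
  rw [eq_bot_iff]
  intro g hg
  rw [Subgroup.mem_bot]
  apply h.inj
  rw [map_one]
  ext v
  by_cases hv : v = 0
  · simp [hv]
  · obtain ⟨P, hP⟩ := h.syl v hv
    have hgP : g ∈ (P : Subgroup G) := H1.pCore_le_sylow P hg
    rw [hP] at hgP
    exact hgP

omit [Finite V] in
theorem St.normal (h : St ρ) (N : Subgroup G) [N.Normal] : St (ρ.comp N.subtype) := by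
  refine ⟨h.inj.comp Subtype.coe_injective, fun v hv => ?_⟩
  obtain ⟨P, hP⟩ := h.syl v hv
  obtain ⟨Q, hQ⟩ := Spread.sylow_comap P N
  refine ⟨Q, ?_⟩
  rw [hQ, hP]
  rfl

omit [Finite V] in
theorem St.equiv (h : St ρ) {H : Type*} [Group H] (e : H ≃* G) : St (ρ.comp e.toMonoidHom) := by
  refine ⟨h.inj.comp e.injective, fun v hv => ?_⟩
  obtain ⟨P, hP⟩ := h.syl v hv
  refine ⟨P.comapOfInjective e.toMonoidHom e.injective
    (fun x _ => ⟨e.symm x, e.apply_symm_apply x⟩), ?_⟩
  show (P : Subgroup G).comap e.toMonoidHom = _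
  rw [hP]
  rfl

theorem St.fix_ne_bot [Nontrivial V] (h : St ρ) (P : Sylow p G) : fix ρ P ≠ ⊥ := by
  obtain ⟨w, -, hw, hf⟩ := exists_fix ρ P.isPGroup' (W := ⊤) top_ne_bot (fun _ _ _ _ => trivial)
  intro e
  have : w ∈ fix ρ P := hf
  rw [e] at this
  exact hw this

/-- all orbits on `W \\ {0}` have `P.index` elements. -/
theorem St.index_dvd (h : St ρ) (P : Sylow p G) (W : Submodule (ZMod p) V)
    (hW : ∀ g, ∀ v ∈ W, ρ g v ∈ W) : (P : Subgroup G).index ∣ Nat.card W - 1 := by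
  refine Spread.dvd_gen ρ ⊤ W (fun g _ => hW g) fun v _ hv => ?_
  obtain ⟨Q, hQ⟩ := h.syl v hv
  rw [Subgroup.relIndex_top_right, ← hQ]
  exact Spread.sylow_index_eq Q P

theorem St.index_eq [Nontrivial V] (h : St ρ) (ht : Tr ρ) (P : Sylow p G) :
    (P : Subgroup G).index = Nat.card V - 1 := by
  classical
  obtain ⟨v, hv⟩ := exists_ne (0 : V)
  obtain ⟨Q, hQ⟩ := h.syl v hv
  rw [Spread.sylow_index_eq P Q, hQ]
  letI : MulAction G V := MulAction.compHom V ρ
  have h1 : stab ρ v = MulAction.stabilizer G v := by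
    ext g
    exact Iff.rfl
  have h2 : MulAction.orbit G v = Set.univ \ {0} := by
    ext w
    constructor
    · rintro ⟨g, rfl⟩
      exact ⟨trivial, fun e => hv ((ap_eq_zero ρ g).1 e)⟩
    · rintro ⟨-, hw⟩
      exact ht v w hv hw
  rw [h1, MulAction.index_stabilizer, h2, Set.ncard_sdiff_singleton_of_mem (Set.mem_univ _),
    Set.ncard_univ]

/-- `N(P)` acts on `fix P \\ {0}` with all stabilisers equal to `P`. -/
theorem St.norm_dvd (h : St ρ) (P : Sylow p G) :
    (P : Subgroup G).relIndex (normalizer ((P : Subgroup G) : Set G)) ∣ Nat.card (fix ρ P) - 1 := by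
  refine Spread.dvd_gen ρ _ _ (fun g hg v hv => fix_inv ρ hg hv) fun v hv hv0 => ?_
  obtain ⟨Q, hQ⟩ := h.syl v hv0
  have hle : (P : Subgroup G) ≤ Q := by
    rw [hQ]
    exact fun g hg => hv g hg
  rw [← hQ, P.is_maximal' Q.isPGroup' hle]

end H88.GG
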