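import Cfsg.Agent.Lib.GG.Odd2
import Cfsg.Agent.Lib.LocEven.CharP
import Cfsg.Agent.Lib.Core.GrpBasic

/-! Characteristic two: a simple normal subgroup. -/

set_option autoImplicit false

namespace H88.GG
open Module Subgroup Cfsg
open scoped MatrixGroups

universe u v

namespace Two1

/-- a finite group that is no 2-group has an element of odd prime order -/
theorem exists_odd {X : Type*} [Group X] [Finite X] (h : ¬ IsPGroup 2 X) :
    ∃ (r : ℕ) (a : X), r.Prime ∧ r ≠ 2 ∧ orderOf a = r := by
  by_contra hc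
  apply h
  rw [IsPGroup.iff_card]
  refine ⟨_, Nat.eq_prime_pow_of_unique_prime_dvd (Nat.card_pos (α := X)).ne' ?_⟩
  intro r hr hd
  by_contra h2
  have : Fact r.Prime := ⟨hr⟩
  obtain ⟨a, ha⟩ := exists_prime_orderOf_dvd_card' (G := X) r hd
  exact hc ⟨r, a, hr, h2, ha⟩

end Two1

variable {G : Type*} [Group G] [Finite G] {V : Type*} [AddCommGroup V]
  [Module (ZMod 2) V] [Finite V] {ρ : G →* End (ZMod 2) V}
variable [Nontrivial V]

/-- `D` from `exists_perfect`, `N ≤ D` minimal normal in `G`.  A solvable `N` is an elementary abelian `r`-group, `r` odd as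
`O₂ = 1`, against `no_ab`.  `L` minimal normal in `N`; it is no 2-group, so has an element `a` of odd prime order; for
`g ∈ G`, `L ⊓ g L g⁻¹ = 1` would give commuting `a`, `g a g⁻¹` against `mem_zpowers`.  So `L` is normal in `G`, `L = N`. -/
theorem two_simple (h : FP ρ) (hO : pCore 2 G = ⊥) (hns : ¬ Group.IsSolvable G) :
    ∃ L : Subgroup G, L.Normal ∧ IsSimpleGroup L ∧ ¬ IsMulCommutative L := by
  obtain ⟨D, hDn, hD1, hD⟩ := exists_perfect hns
  obtain ⟨N, hNn, hN1, hND, hmin⟩ := H1.exists_minimal_normal_le D hD1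
  have hnt : Nontrivial N := (nontrivial_iff_ne_bot _).2 hN1
  -- normal 2-subgroups of `N` are trivial
  have h2 : ∀ K : Subgroup N, K.Normal → IsPGroup 2 K → K = ⊥ := by
    intro K hK hp
    have h1 : (pCore 2 N).map N.subtype ≤ pCore 2 G :=
      H70.le_pCore inferInstance ((H70.isPGroup_pCore 2 N).map _)
    rw [hO, le_bot_iff, map_eq_bot_iff_of_injective _ N.subtype_injective] at h1
    exact le_bot_iff.1 (h1 ▸ H70.le_pCore hK hp)
  refine ⟨N, hNn, ?_, fun hc => hN1 ?_⟩
  · obtain ⟨L, hLn, hL1, -, hLmin⟩ := H1.exists_minimal_normal_le (⊤ : Subgroup N) top_ne_bot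
    obtain ⟨r, a, hr, hr2, ha⟩ := Two1.exists_odd (X := L) (fun hp => hL1 (h2 L hLn hp))
    have ha' : orderOf ((a : N) : G) = r := by rw [Subgroup.orderOf_coe, Subgroup.orderOf_coe, ha]
    have key : ∀ g : G, L ≤ L.map (MulAut.conjNormal g : MulAut N).toMonoidHom := by
      intro g
      have hn : (L.map (MulAut.conjNormal g : MulAut N).toMonoidHom).Normal :=
        hLn.map _ (MulAut.conjNormal g : MulAut N).surjective
      rcases hLmin (L ⊓ L.map (MulAut.conjNormal g : MulAut N).toMonoidHom) inferInstance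
        inf_le_left with e | e
      · exfalso
        have hb : (MulAut.conjNormal g : MulAut N) a ∈
            L.map (MulAut.conjNormal g : MulAut N).toMonoidHom := ⟨a, a.2, rfl⟩
        have hc := (commute_of_normal_of_disjoint _ _ hLn hn (disjoint_iff.2 e) a _ a.2 hb).eq
        have hb' : orderOf (((MulAut.conjNormal g : MulAut N) a : N) : G) = r := by
          rw [Subgroup.orderOf_coe, MulEquiv.orderOf_eq, Subgroup.orderOf_coe, ha]
        obtain ⟨k, hk⟩ := h.mem_zpowers hr hr2 ha' hb' (congrArg Subtype.val hc)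
        have hL : (MulAut.conjNormal g : MulAut N) a ∈ L := by
          have : (MulAut.conjNormal g : MulAut N) a = (a : N) ^ k := Subtype.ext hk.symm
          rw [this]
          exact L.zpow_mem a.2 k
        have h1 : (MulAut.conjNormal g : MulAut N) a = 1 := mem_bot.1 (e ▸ mem_inf.2 ⟨hL, hb⟩)
        rw [h1, OneMemClass.coe_one, orderOf_one] at hb'
        exact hr.one_lt.ne hb'
      · exact inf_eq_left.1 e
    have hLG : (L.map N.subtype).Normal := by
      refine ⟨?_⟩
      rintro _ ⟨x, hx, rfl⟩ g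
      obtain ⟨y, hy, e⟩ := key g⁻¹ hx
      refine ⟨y, hy, ?_⟩
      have e' : g⁻¹ * (y : G) * g⁻¹⁻¹ = x := congrArg Subtype.val e
      change (y : G) = g * (x : G) * g⁻¹
      rw [← e']; group
    have hLt : L = ⊤ := by
      rcases hmin _ hLG (map_subtype_le L) with e | e
      · exact absurd ((map_eq_bot_iff_of_injective _ N.subtype_injective).1 e) hL1
      · refine map_injective N.subtype_injective ?_
        rw [e, ← MonoidHom.range_eq_map, range_subtype]
    refine ⟨fun K hK => ?_⟩
    have := hLmin K hK (hLt ▸ le_top)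
    rwa [hLt] at this
  · refine h.no_ab hO hD hND ?_
    obtain ⟨P⟩ : Nonempty (Sylow 2 N) := inferInstance
    have hP : (P : Subgroup N) = ⊥ := h2 _ inferInstance P.2
    have := P.not_dvd_index
    rw [hP, index_bot] at this
    exact Nat.odd_iff.2 (by omega)

end H88.GG
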