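import Cfsg.Agent.Lib.GG.Odd1
import Cfsg.Agent.Lib.GG.Ring3
import Cfsg.Agent.Lib.GG.SLc

/-! Cross characteristic, `p ≠ 3`. -/

set_option autoImplicit false

namespace H88.GG
open Module Subgroup Cfsg
open scoped MatrixGroups

universe u v

variable {p : ℕ} [Fact p.Prime] {G : Type*} [Group G] [Finite G] {V : Type*} [AddCommGroup V]
  [Module (ZMod p) V] [Finite V] {ρ : G →* End (ZMod p) V}
variable [Nontrivial V]

namespace X3
variable {F : Type*} [Field F]

/-- a second element of order three -/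
def bb (F : Type*) [Field F] : SL(2, F) := ⟨!![1, -3; 1, -2], by simp [Matrix.det_fin_two]; ring⟩

theorem eqns : True := by
  have := @bb.eq_1.{0}
  trivial

theorem bb_val : (bb F).1 = !![1, -3; 1, -2] := rfl

theorem ab : yy F * bb F = -uu (-2) := by
  refine Subtype.ext ?_
  simp only [Matrix.SpecialLinearGroup.coe_mul, Matrix.SpecialLinearGroup.coe_neg, yy_val, bb_val,
    uu_val]
  ext i j
  fin_cases i <;> fin_cases j <;> simp [Matrix.mul_apply, Fin.sum_univ_two]
  all_goals ring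

theorem ba : bb F * bb F * (yy F * yy F) = -uu 2 := by
  refine Subtype.ext ?_
  simp only [Matrix.SpecialLinearGroup.coe_mul, Matrix.SpecialLinearGroup.coe_neg, yy_val, bb_val,
    uu_val]
  ext i j
  fin_cases i <;> fin_cases j <;> simp [Matrix.mul_apply, Fin.sum_univ_two]
  all_goals ring

theorem ord_bb : orderOf (bb F) = 3 := by
  refine orderOf_eq_prime ?_ fun h => ?_
  · refine Subtype.ext ?_
    simp only [pow_three, Matrix.SpecialLinearGroup.coe_mul, bb_val,
      Matrix.SpecialLinearGroup.coe_one]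
    ext i j
    fin_cases i <;> fin_cases j <;> simp [Matrix.mul_apply, Fin.sum_univ_two]
    all_goals ring
  · simpa [bb] using congrArg (fun x : SL(2, F) => x.1 1 0) h

theorem uu_pow (t : F) (n : ℕ) : uu t ^ n = uu (n * t) := by
  induction n with
  | zero => simp [uu_zero]
  | succ n ih => rw [pow_succ, ih, ← uu_add, Nat.cast_succ, add_mul, one_mul]

theorem ord_uu {r : ℕ} [Fact r.Prime] [CharP F r] {t : F} (ht : t ≠ 0) : orderOf (uu t) = r :=
  orderOf_eq_prime (by rw [uu_pow, CharP.cast_eq_zero, zero_mul, uu_zero])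
    fun h => ht (uu_inj (h.trans uu_zero.symm))

end X3

open X3 in
omit [Finite G] in
/-- `r = char F`, odd, `≠ p`.  `mem_zpowers` for `uu 1`, `uu t`: `F` is the prime field, `|F| = r ≥ 5`.  `a = yy`,
`b = -(a⁻¹ uu (-2))` has trace `-1`, so order 3; `ρ (-1) = -1`; `ring_c`: `c = -(u + u⁻¹)`, `u = ρ (uu (-2))`, commutes with
`a, b`, so with `uu (-2)`, `UU F`, `SL₂` (`UU_sup_yy`).  Conjugating by `hh 2`: `u + u⁻¹ = u⁴ + u⁻⁴`, that is
`(u⁵ - 1)(u³ - 1) = 0`; both factors are injective unless `r = 5`. -/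
theorem x3 (hp2 : p ≠ 2) (hp3 : p ≠ 3) {F : Type*} [Field F] [Fintype F]
    (ho : Odd (Fintype.card F)) (h3 : 3 < Fintype.card F) (hp : ¬ p ∣ Fintype.card F)
    {σ : SL(2, F) →* End (ZMod p) V} (h : FP σ) : Fintype.card F = 5 := by
  classical
  obtain ⟨r, hr⟩ := CharP.exists F
  obtain ⟨n, r1, hn⟩ := FiniteField.card F r
  haveI := Fact.mk r1
  have r2 : r ∣ Fintype.card F := hn ▸ dvd_pow_self r n.ne_zero
  have rp : r ≠ p := fun e => hp (e ▸ r2)
  have r3 : Fintype.card F = r := by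
    refine le_antisymm ?_ (Nat.le_of_dvd Fintype.card_pos r2)
    rw [← ZMod.card r]
    refine Fintype.card_le_of_surjective (ZMod.castHom (dvd_refl r) F) fun t => ?_
    by_cases ht : t = 0
    · exact ⟨0, by rw [map_zero, ht]⟩
    obtain ⟨k, hk⟩ := mem_powers_iff_mem_zpowers.mpr
      (h.mem_zpowers r1 rp (ord_uu one_ne_zero) (ord_uu ht) (uu_comm _ _))
    exact ⟨k, by rw [map_natCast, ← uu_inj ((uu_pow 1 k).symm.trans hk), mul_one]⟩
  by_contra h5
  have nz : ∀ q : ℕ, q.Prime → q ≤ 5 → (q : F) ≠ 0 := fun q q1 q2 e => by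
    obtain rfl := (Nat.prime_dvd_prime_iff_eq r1 q1).mp ((CharP.cast_eq_zero_iff F r q).mp e)
    obtain rfl : r = 4 := by omega
    norm_num at q1
  have n2 : (2 : F) ≠ 0 := by exact_mod_cast nz 2 (by norm_num) (by norm_num)
  have fp : ∀ q : ℕ, q.Prime → q ≤ 5 → ∀ v, (σ (uu 2) ^ q - 1) v = 0 → v = 0 := fun q q1 q2 v hv => by
    have k := mul_ne_zero (nz q q1 q2) n2
    refine h.fpf (uu (q * 2)) (fun e => k (uu_inj (e.trans uu_zero.symm)))
      (by rw [ord_uu k]; exact (Nat.coprime_primes r1 Fact.out).mpr rp) v ?_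
    rwa [← map_pow, uu_pow, LinearMap.sub_apply, sub_eq_zero] at hv
  have ng : ∀ x, σ (-x) = -σ x := fun x => by
    rw [← neg_one_mul x, map_mul, h.neg hp2 (iv_neg_one ho), neg_one_mul]
  have k1 := (ring_c (h.quad hp3 orderOf_yy) (h.quad hp3 ord_bb)).1
  simp only [← map_mul, ab, ba, ng, ← neg_add, mul_neg, neg_mul, neg_inj] at k1
  set c := σ (uu (-2)) + σ (uu 2) with hc
  let C : Subgroup SL(2, F) :=
    { carrier := {g | σ g * c = c * σ g}
      one_mem' := by simp
      mul_mem' := fun {a b} ha hb => by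
        simp only [Set.mem_ofPred_eq] at *
        rw [map_mul, mul_assoc, hb, ← mul_assoc, ha, mul_assoc]
      inv_mem' := fun {a} ha => by
        simp only [Set.mem_ofPred_eq] at *
        calc σ a⁻¹ * c = σ a⁻¹ * (c * σ a) * σ a⁻¹ := by
              rw [mul_assoc, mul_assoc, ← map_mul, mul_inv_cancel, map_one, mul_one]
          _ = c * σ a⁻¹ := by
              rw [← ha, ← mul_assoc, ← map_mul, inv_mul_cancel, map_one, one_mul] }
  have k2 : (⊤ : Subgroup SL(2, F)) ≤ C := by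
    rw [← UU_sup_yy]
    refine sup_le ?_ (zpowers_le.mpr k1)
    rintro _ ⟨t, rfl⟩
    change σ _ * c = c * σ _
    rw [hc, mul_add, add_mul, ← map_mul, ← map_mul, ← map_mul, ← map_mul, uu_comm t, uu_comm t]
  have k3 : σ (hh (Units.mk0 2 n2)) * c * σ (hh (Units.mk0 2 n2))⁻¹ = c := by
    rw [show σ (hh (Units.mk0 2 n2)) * c = c * σ _ from k2 (mem_top _), mul_assoc, ← map_mul,
      mul_inv_cancel, map_one, mul_one]
  rw [hc, mul_add, add_mul, ← map_mul, ← map_mul, ← map_mul, ← map_mul, hh_uu, hh_uu] at k3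
  have k4 : (σ (uu 2) ^ 5 - 1) * (σ (uu 2) ^ 3 - 1) = 0 := by
    have k := congrArg (σ (uu 2) ^ 4 * ·) k3
    simp only [mul_add, ← map_pow, ← map_mul, uu_pow, ← uu_add, Units.val_mk0] at k
    rw [sub_mul, mul_sub, one_mul, mul_one, ← pow_add]
    simp only [← map_pow, uu_pow]
    rw [show ((4 : ℕ) : F) * 2 + 2 ^ 2 * -2 = 0 by push_cast; ring, uu_zero, map_one,
      show ((4 : ℕ) : F) * 2 + 2 ^ 2 * 2 = (5 + 3 : ℕ) * 2 by push_cast; ring,
      show ((4 : ℕ) : F) * 2 + -2 = (3 : ℕ) * 2 by push_cast; ring,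
      show ((4 : ℕ) : F) * 2 + 2 = (5 : ℕ) * 2 by push_cast; ring] at k
    rw [sub_sub, sub_eq_zero, eq_comm, ← add_sub_assoc, sub_eq_iff_eq_add, add_comm, ← k, add_comm]
  obtain ⟨v, hv⟩ := exists_ne (0 : V)
  exact hv (fp 3 (by norm_num) (by norm_num) v (fp 5 (by norm_num) le_rfl _ (by
    rw [← End.mul_apply, k4, LinearMap.zero_apply])))

end H88.GG
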